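import Cfsg.Agent.Lib.Char.H12Deg
import Cfsg.Agent.Lib.Char.CharBurn
import Cfsg.Agent.Lib.Loc.EqO1
import Cfsg.Agent.Lib.Solv.SS1

/-! Fully ramified characters: subgroups of prime power index in quotients. -/

set_option autoImplicit false
set_option linter.unusedSectionVars false

namespace CA.FRam
open Cfsg CA.PF CA.H12Gl2 CA.H12Gl4 Subgroup
open CA.BG hiding cj cj_one cj_mul cj_inv_cj cj_cj_inv mem_cent1
open scoped ComplexConjugate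

variable {Γ : Type*} [Group Γ] [Fintype Γ] {Z K L P P₀ Q : Subgroup Γ} {χ θ φ ψ α β : Γ → ℂ} {p e m : ℕ}

theorem dot_le (h : K ≤ L) (φ ψ : Γ → ℂ) : dot K φ ψ = (K.relIndex L : ℂ) * dot L φ ψ := by
  rw [← card_div_card h, mul_assoc, ← dot_change K L, ← mul_assoc, inv_mul_cancel₀ (cardC_ne K), one_mul]

structure FR (Z : Subgroup Γ) (θ : Γ → ℂ) (e : ℕ) (χ : Γ → ℂ) : Prop where
  nrm : Z.Normal
  th : θ ∈ irr Z
  ch : χ ∈ irr (⊤ : Subgroup Γ)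
  eq : χ = (e : ℂ) • θ

namespace FR
variable (h : FR Z θ e χ)
include h

theorem e_ne : (e : ℂ) ≠ 0 := fun e0 => irr_ne_zero h.ch (by rw [h.eq, e0, zero_smul])

theorem on (hL : Z ≤ L) : χ ∈ cfOn (L : Set Γ) := cfOn_mono hL (h.eq ▸ Submodule.smul_mem _ _ (irr_on h.th))

theorem char (hL : Z ≤ L) : IsChar L χ := Res_eq_self (h.on hL) ▸ (irr_char h.ch).Res le_top

theorem dot_self (L : Subgroup Γ) : dot L χ χ = L.index := by
  rw [dot_le le_top, dot_irr_self h.ch, mul_one, relIndex_top_right]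

theorem sq : e ^ 2 = Z.index := by
  have := h.dot_self Z
  rw [h.eq, dot_smul_left, dot_smul_right, dot_irr_self h.th, map_natCast, mul_one] at this
  exact_mod_cast pow_two (e : ℂ) ▸ this

theorem dot_eq (hL : Z ≤ L) (ψ : Γ → ℂ) : (Z.relIndex L : ℂ) * dot L χ ψ = e * dot Z θ ψ := by
  rw [← dot_le hL, h.eq, dot_smul_left]

theorem dot_ne (hL : Z ≤ L) : dot L χ ψ ≠ 0 ↔ dot Z ψ θ ≠ 0 := by
  have := h.dot_eq hL ψ
  rw [Ne, Ne, dot_eq_zero_comm (φ := ψ), ← mul_eq_zero_iff_left (relIndexC_ne Z L), this,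
    mul_eq_zero_iff_left h.e_ne]

theorem syl (hP : Z ≤ P) (hc : P.index.Coprime (Z.relIndex P)) :
    ∃ φ ∈ irr P, ∃ m : ℕ, m ^ 2 = P.index ∧ χ = (m : ℂ) • φ := by
  obtain ⟨φ, hφ, h1⟩ := (h.char hP).exists_irr (irr_ne_zero h.ch)
  obtain ⟨m, hm⟩ := dot_char_char (h.char hP) (irr_char hφ)
  obtain ⟨f, hf⟩ := dot_char_over_nat hP (irr_char hφ) (irr_char h.th)
  have h2 := h.dot_eq hP φ
  rw [hm, dot_comm_nat hf] at h2
  have h3 : Z.relIndex P * m = e * f := by exact_mod_cast h2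
  have h4 := relIndex_mul_index hP
  have h5 : Z.relIndex P * m ^ 2 = P.index * f ^ 2 :=
    Nat.eq_of_mul_eq_mul_left (Nat.pos_of_ne_zero (relIndex_ne_zero' Z P)) (by
      rw [← mul_assoc, ← mul_assoc, h4, ← h.sq, ← mul_pow, ← h3]; ring)
  have m0 : m ≠ 0 := fun e0 => h1 (by rw [hm, e0, Nat.cast_zero])
  have h6 : P.index ≤ m ^ 2 := Nat.le_of_dvd (by positivity) (hc.dvd_of_dvd_mul_left (h5 ▸ dvd_mul_right _ _))
  have h7 : PF.nrm P (χ - (m : ℝ) • φ) = P.index - m ^ 2 := by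
    rw [nrm_sub, nrm_rsmul, rdot_rsmul_right, rdot_of_dot_nat hm, nrm_irr hφ, nrm_of_dot_nat (h.dot_self P)]
    ring
  have h8 := nrm_nonneg P (χ - (m : ℝ) • φ)
  have h9 : (P.index : ℝ) ≤ m ^ 2 := by exact_mod_cast h6
  refine ⟨φ, hφ, m, le_antisymm (by
    have : (m : ℝ) ^ 2 ≤ P.index := by linarith
    exact_mod_cast this) h6, ?_⟩
  have := sub_eq_zero.1 (eq_zero_of_nrm_le (K := P) (φ := χ - (m : ℝ) • φ) (by linarith))
  rw [this]; ext x; simp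

end FR

/-- The configuration at one prime. -/
structure Cf (Z K P₀ : Subgroup Γ) (p : ℕ) (θ : Γ → ℂ) (e : ℕ) (χ φ : Γ → ℂ) (m : ℕ) (α : Γ → ℂ) : Prop where
  fr : FR Z θ e χ
  nrm : K.Normal
  le : Z ≤ K
  pp : p.Prime
  syl : Syl p P₀ ⊤
  ph : φ ∈ irr (P₀ ⊔ Z)
  sq : m ^ 2 = (P₀ ⊔ Z).index
  eq : χ = (m : ℂ) • φ
  al : α ∈ irr ((P₀ ⊔ Z) ⊓ K)
  ne : dot ((P₀ ⊔ Z) ⊓ K) χ α ≠ 0

theorem idx (h : Z.Normal) (hP : Syl p P₀ ⊤) : PiNat {p} (Z.relIndex (P₀ ⊔ Z)) ∧ PiNat {p}ᶜ (P₀ ⊔ Z).index :=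
  ⟨relIndex_sup_norm (EqO.top_norm Z P₀) ▸ hP.pi.relIndex Z, relIndex_top_right (P₀ ⊔ Z) ▸ hP.le_of_idx le_sup_left⟩

theorem FR.cf (h : FR Z θ e χ) [hK : K.Normal] (hle : Z ≤ K) (hp : p.Prime) (hP : Syl p P₀ ⊤) :
    ∃ φ m α, Cf Z K P₀ p θ e χ φ m α := by
  have h1 := idx h.nrm hP
  obtain ⟨φ, hφ, m, h2, h3⟩ := h.syl (P := P₀ ⊔ Z) le_sup_right (h1.2.coprime' h1.1)
  obtain ⟨α, h4, h5⟩ := (h.char (le_inf (le_sup_right : Z ≤ P₀ ⊔ Z) hle)).exists_irr (irr_ne_zero h.ch)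
  exact ⟨φ, m, α, h, hK, hle, hp, hP, hφ, h2, h3, h4, h5⟩

namespace Cf
variable (h : Cf Z K P₀ p θ e χ φ m α)
include h

local notation "𝐏" => P₀ ⊔ Z
local notation "𝐐" => (P₀ ⊔ Z) ⊓ K

theorem m_ne : (m : ℂ) ≠ 0 := fun e0 => irr_ne_zero h.fr.ch (by rw [h.eq, e0, zero_smul])

theorem zq : Z ≤ 𝐐 := le_inf le_sup_right h.le

theorem nq : Nrm 𝐐 𝐏 :=
  haveI := h.nrm
  nrm_of_le_normalizer inf_le_left (norm_inf (le_norm_self _) (EqO.top_norm K _))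

theorem dot_ne {L : Subgroup Γ} : dot L φ β ≠ 0 ↔ dot L χ β ≠ 0 := by
  rw [h.eq, dot_smul_left, Ne, Ne, mul_eq_zero_iff_left h.m_ne]

theorem mem (hβ : β ∈ irr 𝐐) (hd : dot 𝐐 χ β ≠ 0) : β ∈ cfclass 𝐏 α :=
  mem_cfclass_of_common h.nq h.ph h.al (h.dot_ne.2 h.ne) hβ (h.dot_ne.2 hd)

theorem rel {f : ℕ} (hf : dot 𝐐 φ α = f) : f ^ 2 * (stab α).relIndex 𝐏 = K.relIndex 𝐏 := by
  have h1 := clifford h.nq h.ph h.al (h.dot_ne.2 h.ne)
  have h2 : φ ∈ cfOn ((𝐐 : Subgroup Γ) : Set Γ) := by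
    have := Submodule.smul_mem _ (m : ℂ)⁻¹ (h.fr.on h.zq)
    rwa [h.eq, smul_smul, inv_mul_cancel₀ h.m_ne, one_smul] at this
  have h3 := dot_le h.nq.le φ φ
  rw [Res_eq_self h2, hf] at h1
  rw [dot_irr_self h.ph, mul_one, inf_relIndex_left, h1, dot_smul_left, dot_smul_right,
    ((irr_ON _).mono fun _ => cfclass_irr h.nq h.al).dot_sum_self, card_cfclass, map_natCast, ← mul_assoc,
    ← pow_two] at h3
  exact_mod_cast h3

theorem pi : PiNat {p} (K.relIndex 𝐏) := (idx h.fr.nrm h.syl).1.of_dvd (relIndex_dvd_of_le_left _ h.le)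

theorem exists_sub : ∃ U : Subgroup Γ, K ≤ U ∧ U.index = (stab α).relIndex 𝐏 := by
  haveI := h.nrm
  haveI := h.fr.nrm
  have h0 : Syl p (P₀ ⊓ K) K := h.syl.inf_normal le_top (EqO.top_norm K _)
  have e0 : 𝐐 = (P₀ ⊓ K) ⊔ Z := sup_inf_of_le_right (EqO.top_norm Z _) h.le
  set N := 𝓝(𝐐) with hN
  have h1 : K ⊔ N = ⊤ := by
    rw [eq_top_iff, ← h0.syl_frattini_sup h.pp le_top (EqO.top_norm K ⊤), hN, e0]
    exact sup_le_sup_left (inf_le_right.trans (norm_sup le_rfl (EqO.top_norm Z _))) K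
  have h2 : cfclass N α = cfclass 𝐏 α := by
    ext β
    constructor
    · intro hβ
      obtain ⟨g, hg, rfl⟩ := mem_cfclass.1 hβ
      exact h.mem (irr_cj (conj_iff_of_norm hg) h.al)
        (by rw [dot_cj_of_CInv (irr_CInv h.fr.ch) (mem_top g)]; exact h.ne)
    · intro hβ
      obtain ⟨g, hg, rfl⟩ := mem_cfclass.1 hβ
      exact cj_mem_cfclass (h.nq.le_normalizer hg) α
  have h3 : (stab α).relIndex N = (stab α).relIndex 𝐏 := by rw [← card_cfclass, h2, card_cfclass]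
  obtain ⟨f, hf⟩ := dot_char_over_nat h.nq.le (irr_char h.ph) (irr_char h.al)
  have h4 : PiNat {p} ((stab α).relIndex N) := h3 ▸ h.pi.of_dvd (h.rel hf ▸ dvd_mul_left _ _)
  have a1 := card_sup_mul_inf (A := N ⊓ stab α) (N := N ⊓ K) (inf_le_left.trans (norm_inf (le_norm_self N)
    (EqO.top_norm K N)))
  have a2 : N ⊓ stab α ⊓ (N ⊓ K) = stab α ⊓ (N ⊓ K) := by
    rw [inf_comm N (stab α), inf_assoc, ← inf_assoc N N, inf_idem]
  have a3 := card_inf_mul_relIndex (stab α) (N ⊓ K)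
  have a4 := card_mul_relIndex (le_sup_left : N ⊓ stab α ≤ N ⊓ stab α ⊔ N ⊓ K)
  have a5 : (stab α).relIndex (N ⊓ K) = (N ⊓ stab α).relIndex (N ⊓ stab α ⊔ N ⊓ K) := by
    apply Nat.eq_of_mul_eq_mul_left (Nat.mul_pos (card_pos' (N ⊓ stab α)) (card_pos' (stab α ⊓ (N ⊓ K))))
    rw [mul_assoc, a3, ← a1, a2, ← a4]; ring
  have a6 := relIndex_mul_relIndex (N ⊓ stab α) (N ⊓ stab α ⊔ N ⊓ K) N le_sup_left (sup_le inf_le_left inf_le_left)
  rw [inf_relIndex_left, ← a5] at a6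
  have h5 : N ⊓ K ≤ stab α := relIndex_eq_one.1 ((h4.of_dvd (a6 ▸ dvd_mul_right _ _)).eq_one
    ((h0.of_le (le_inf ((inf_le_inf_right K le_sup_left).trans (le_norm_self _)) inf_le_right)
      inf_le_right).le_of_idx ((inf_le_inf_right K le_sup_left).trans (le_stab (irr_CInv h.al)))))
  refine ⟨N ⊓ stab α ⊔ K, le_sup_right, ?_⟩
  have b1 := card_sup_mul_inf (EqO.top_norm K (N ⊓ stab α))
  have b2 := card_sup_mul_inf (EqO.top_norm K N)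
  have b3 : N ⊓ stab α ⊓ K = N ⊓ K := le_antisymm (inf_le_inf_right K inf_le_left)
    (le_inf (le_inf inf_le_left h5) inf_le_right)
  have b4 := card_inf_mul_relIndex (stab α) N
  have b5 := (N ⊓ stab α ⊔ K).card_mul_index
  rw [sup_comm, h1, card_top] at b2
  rw [b3] at b1
  rw [inf_comm] at b4
  apply Nat.eq_of_mul_eq_mul_left (Nat.mul_pos (card_pos' (N ⊓ stab α ⊔ K)) (card_pos' (N ⊓ K)))
  rw [← h3, mul_right_comm, b5, b2, b1, ← b4]; ring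

theorem one_of_cyc (hc : CycMod P₀ K) : dot 𝐐 φ α = 1 := by
  haveI := h.nrm
  have h1 : CycMod 𝐏 K := by
    obtain ⟨x, hx, h1⟩ := hc
    exact ⟨x, mem_sup_left hx, sup_le h1 (le_sup_of_le_right h.le)⟩
  have h2 : 𝐐 ≤ 𝐏 ⊓ stab α := le_inf inf_le_left (le_stab (irr_CInv h.al))
  obtain ⟨s, hs, h3⟩ := BG.cycMod_of_le h1 (EqO.top_norm K _) (inf_le_left : 𝐏 ⊓ stab α ≤ _)
  obtain ⟨η, h4, h5⟩ := ext_cyc (s := s) (h.nq.mono h2 inf_le_left) (le_antisymm (sup_le h2 (zpowers_le.2 hs)) (by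
    have := sup_inf_of_le_left (C := 𝐏) (EqO.top_norm K (zpowers s)) (zpowers_le.2 hs.1)
    rw [sup_comm _ (zpowers s), inf_comm 𝐏 K, ← this]
    exact le_inf h3 inf_le_left)) h.al inf_le_right
  have h6 : dot 𝐐 η α = 1 := by rw [← dot_Res_left (irr_on h.al), h5, dot_irr_self h.al]
  have h7 : dot 𝐐 η α ≠ 0 := h6 ▸ one_ne_zero
  rw [(corr_irr h.nq h.al h4 h7 h.ph (h.dot_ne.2 ((h.fr.dot_ne (h.zq.trans h2)).2
    (dot_ne_trans h.zq h2 (irr_char h4) h.al (irr_char h.fr.th) h7 ((h.fr.dot_ne h.zq).1 h.ne))))).2, h6]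

theorem one_of_ind (hψ : IsChar K ψ) (hi : Ind ⊤ K ψ = χ) : dot 𝐐 φ α = 1 := by
  haveI := h.nrm
  have h1 : ψ ∈ irr K := irr_of_Ind_irr le_top hψ (hi ▸ h.fr.ch)
  have h2 : dot K χ ψ ≠ 0 := by
    rw [← dot_Ind_right K (irr_CInv h.fr.ch), hi, dot_irr_self h.fr.ch]; exact one_ne_zero
  obtain ⟨c, h3, h4⟩ := (hψ.Res (inf_le_right : 𝐐 ≤ K)).expand
  have h5 : ψ 1 = (∑ β ∈ irr 𝐐, c β : ℕ) * α 1 := by
    rw [← Res_one 𝐐 ψ, h4, Finset.sum_apply, Nat.cast_sum, Finset.sum_mul]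
    refine Finset.sum_congr rfl fun β hβ => ?_
    by_cases h0 : c β = 0
    · simp [h0]
    · rw [Pi.smul_apply, nsmul_eq_mul, cfclass_one (h.mem hβ (dot_ne_trans inf_le_right le_rfl (h.fr.char h.le) h1
        (irr_char hβ) h2 (by rw [← dot_Res_left (irr_on hβ), h3 β hβ]; exact_mod_cast h0)))]
  obtain ⟨f, hf⟩ := dot_char_over_nat h.nq.le (irr_char h.ph) (irr_char h.al)
  have h6 := clifford_one h.nq h.ph h.al (h.dot_ne.2 h.ne)
  have h7 := congrFun h.eq 1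
  obtain ⟨u, hu⟩ := relIndex_dvd_index_of_normal K 𝐏
  have f0 : f ≠ 0 := fun e0 => h.dot_ne.2 h.ne (by rw [hf, e0, Nat.cast_zero])
  rw [← hi, Ind_one le_top, relIndex_top_right, Pi.smul_apply, h6, h5, hf, hu, ← h.rel hf, smul_eq_mul,
    ← mul_assoc, ← mul_assoc] at h7
  have h8 : f ^ 2 * (stab α).relIndex 𝐏 * u * ∑ β ∈ irr 𝐐, c β = m * (f * (stab α).relIndex 𝐏) := by
    exact_mod_cast mul_right_cancel₀ (irr_one_ne h.al) h7
  have h9 : f ∣ m := ⟨u * ∑ β ∈ irr 𝐐, c β, Nat.eq_of_mul_eq_mul_right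
    (Nat.mul_pos (Nat.pos_of_ne_zero f0) (Nat.pos_of_ne_zero (relIndex_ne_zero' (stab α) 𝐏))) (by rw [← h8]; ring)⟩
  have h10 : f ∣ K.relIndex 𝐏 := h.rel hf ▸ (dvd_pow_self f two_ne_zero).mul_right _
  have h11 : f ∣ (𝐏 : Subgroup Γ).index := h.sq ▸ h9.trans (dvd_pow_self m two_ne_zero)
  rw [hf, (h.pi.of_dvd h10).eq_one ((idx h.fr.nrm h.syl).2.of_dvd h11), Nat.cast_one]

theorem compl (h1 : dot 𝐐 φ α = 1) :
    haveI := h.nrm
    ∃ M : Subgroup (Γ ⧸ K), M.index = ♯(P₀.map (QuotientGroup.mk' K)) := by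
  haveI := h.nrm
  haveI := h.fr.nrm
  obtain ⟨U, h2, h3⟩ := h.exists_sub
  have h4 := h.rel (f := 1) (by rw [h1, Nat.cast_one])
  refine ⟨U.map (QuotientGroup.mk' K), ?_⟩
  rw [index_map_eq _ (QuotientGroup.mk'_surjective K) (by rwa [QuotientGroup.ker_mk']), h3]
  have h5 := EqO.card_map_mul (QuotientGroup.mk' K) P₀
  rw [QuotientGroup.ker_mk', ← card_inf_mul_relIndex K P₀, inf_comm, mul_comm] at h5
  rw [Nat.eq_of_mul_eq_mul_left (card_pos' _) h5, ← relIndex_sup_norm (EqO.top_norm K P₀)]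
  rw [one_pow, one_mul, ← relIndex_sup_norm (EqO.top_norm K 𝐏), sup_assoc, sup_eq_right.2 h.le] at h4
  exact h4

end Cf

theorem fr_of (Z : Subgroup Γ) [hZ : Z.Normal] (χ : IrrCharacter Γ) (θ : IrrCharacter Z) (e : ℕ)
    (he : e ^ 2 = Z.index) (h : ∀ z : Z, χ.1 z = (e : ℂ) * θ.1 z) : FR Z (extendByZero Z θ.1) e χ.1 := by
  haveI := Fintype.ofFinite Z
  have he0 : (e : ℂ) ≠ 0 := Nat.cast_ne_zero.2 fun h => Z.index_ne_zero_of_finite (by simp [← he, h])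
  have hind := Ind2.ind_eq_smul_of_ramified χ.2 θ.2 (funext h) he
  refine ⟨hZ, ext_mem_irr.2 θ.2, mem_irr_top.2 χ.2, funext fun g => ?_⟩
  rw [Pi.smul_apply, smul_eq_mul]
  by_cases hg : g ∈ Z
  · rw [Ind.ext_of_mem Z _ hg]; exact h ⟨g, hg⟩
  · have := congrFun hind g
    rw [Ind.indFun_normal_of_not_mem Z _ hg] at this
    rw [Ind.ext_of_not_mem Z _ hg, mul_zero]
    exact (mul_eq_zero.1 this.symm).resolve_left he0

end CA.FRam
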