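import Cfsg.Agent.Lib.Loc.AmbCore

/-! Small permutation facts: centre of a Sylow 2-subgroup of `A₈`, involutions of `A₅`. -/

set_option autoImplicit false

namespace CA.H13A8

open Subgroup Equiv

/-- automorphisms of the binary tree on eight leaves -/
def D : Subgroup (Perm (Fin 8)) where
  carrier := {σ | ∀ x y : Fin 8, ((σ x).1 / 2 = (σ y).1 / 2 ↔ x.1 / 2 = y.1 / 2) ∧
    ((σ x).1 / 4 = (σ y).1 / 4 ↔ x.1 / 4 = y.1 / 4)}
  one_mem' := fun _ _ => ⟨Iff.rfl, Iff.rfl⟩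
  mul_mem' := fun {a b} ha hb x y =>
    ⟨(ha (b x) (b y)).1.trans (hb x y).1, (ha (b x) (b y)).2.trans (hb x y).2⟩
  inv_mem' := fun {a} ha x y => by
    have h := ha (a⁻¹ x) (a⁻¹ y)
    simp only [Perm.coe_inv, apply_symm_apply] at h
    exact ⟨h.1.symm, h.2.symm⟩

theorem D_pow {σ : Perm (Fin 8)} (h : σ ∈ D) : σ ^ 2 ^ 3 = 1 := by
  have h2 := D.mul_mem h h
  have h4 := D.mul_mem h2 h2
  have a1 : ∀ x, ((σ * σ) x).1 / 4 = x.1 / 4 := fun x => by
    have := (h (σ x) x).2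
    have := (σ x).2; have := (σ (σ x)).2; have := x.2
    rw [Perm.mul_apply]; omega
  have a2 : ∀ x, ((σ * σ * (σ * σ)) x).1 / 2 = x.1 / 2 := fun x => by
    have := (h2 ((σ * σ) x) x).1
    have := a1 x; have := a1 ((σ * σ) x)
    rw [Perm.mul_apply]; omega
  have a3 : ∀ x, (σ * σ * (σ * σ) * (σ * σ * (σ * σ))) x = x := fun x => by
    set τ := σ * σ * (σ * σ)
    have e : (τ (τ x)).1 = (τ x).1 ↔ (τ x).1 = x.1 := by
      rw [Fin.val_inj, Fin.val_inj, τ.injective.eq_iff]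
    have := a2 x; have := a2 (τ x)
    rw [Perm.mul_apply, ← Fin.val_inj]; omega
  ext x
  rw [show σ ^ 2 ^ 3 = σ * σ * (σ * σ) * (σ * σ * (σ * σ)) by
    simp only [show 2 ^ 3 = 8 from rfl, pow_succ, pow_zero, one_mul, mul_assoc], a3]
  rfl

instance : DecidablePred (· ∈ D) := fun σ => inferInstanceAs (Decidable (∀ x y : Fin 8,
  ((σ x).1 / 2 = (σ y).1 / 2 ↔ x.1 / 2 = y.1 / 2) ∧ ((σ x).1 / 4 = (σ y).1 / 4 ↔ x.1 / 4 = y.1 / 4)))

/-- translations -/
def tr (i : Fin 8) : Perm (Fin 8) :=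
  (if i.1 % 2 = 1 then swap 0 1 * swap 2 3 * swap 4 5 * swap 6 7 else 1) *
  (if i.1 / 2 % 2 = 1 then swap 0 2 * swap 1 3 * swap 4 6 * swap 5 7 else 1) *
  (if i.1 / 4 = 1 then swap 0 4 * swap 1 5 * swap 2 6 * swap 3 7 else 1)

theorem tr_spec : ∀ i, tr i ∈ D ∧ Perm.sign (tr i) = 1 ∧ tr i 0 = i := by decide +kernel

/-- stabiliser elements -/
def st (i : Fin 3) : Perm (Fin 8) :=
  ![swap 2 3 * swap 4 5, swap 2 3 * swap 6 7, swap 4 6 * swap 5 7] i

theorem st_spec : ∀ i, st i ∈ D ∧ Perm.sign (st i) = 1 ∧ st i 0 = 0 := by decide +kernel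

theorem st_fix : ∀ x : Fin 8, (∀ i, st i x = x) → x = 0 ∨ x = 1 := by decide +kernel

theorem cent_D {z : Perm (Fin 8)} (hz : ∀ σ ∈ D, Perm.sign σ = 1 → σ * z = z * σ) (h1 : z ≠ 1)
    (i : Fin 8) : z i = tr i 1 := by
  have e : ∀ i, z i = tr i (z 0) := fun i => by
    obtain ⟨a, b, c⟩ := tr_spec i
    have := congrArg (· 0) (hz _ a b)
    simp only [Perm.mul_apply, c] at this
    exact this.symm
  rcases st_fix (z 0) (fun i => by
    obtain ⟨a, b, c⟩ := st_spec i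
    have := congrArg (· 0) (hz _ a b)
    simpa only [Perm.mul_apply, c] using this) with h | h
  · exact absurd (Equiv.ext fun i => by rw [e, h, (tr_spec i).2.2]; rfl) h1
  · rw [e, h]

theorem card_syl (P : Sylow 2 (alternatingGroup (Fin 8))) :
    Nat.card (P : Subgroup (alternatingGroup (Fin 8))) = 64 := by
  have h : Nat.card (alternatingGroup (Fin 8)) = 2 ^ 6 * 315 := by
    have := two_mul_nat_card_alternatingGroup (α := Fin 8)
    rw [Nat.card_perm, Nat.card_fin] at this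
    simp only [Nat.factorial] at this
    omega
  rw [P.card_eq_multiplicity, h, Nat.factorization_mul (by norm_num) (by norm_num),
    Finsupp.add_apply, Nat.Prime.factorization_pow Nat.prime_two, Finsupp.single_eq_same,
    Nat.factorization_eq_zero_of_not_dvd (by norm_num)]
  rfl

theorem center_syl (P : Sylow 2 (alternatingGroup (Fin 8)))
    {x y : (P : Subgroup (alternatingGroup (Fin 8)))} (hx : x ∈ center _) (hy : y ∈ center _)
    (x1 : x ≠ 1) (y1 : y ≠ 1) : x = y := by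
  have hQ : IsPGroup 2 (D.comap (alternatingGroup (Fin 8)).subtype) := fun g =>
    ⟨3, Subtype.ext (Subtype.ext (D_pow g.2))⟩
  obtain ⟨P', hP'⟩ := hQ.exists_le_sylow
  let e := Sylow.equiv P P'
  have key : ∀ u : (P : Subgroup (alternatingGroup (Fin 8))), u ∈ center _ → u ≠ 1 →
      ∀ i, (e u).1.1 i = tr i 1 := fun u hu u1 => by
    refine cent_D (fun σ h1 h2 => ?_) fun h => u1 (e.injective (by
      rw [map_one]; exact Subtype.ext (Subtype.ext h)))
    obtain ⟨w, hw⟩ := e.surjective ⟨⟨σ, h2⟩, hP' h1⟩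
    have := congrArg e (mem_center_iff.1 hu w)
    rw [map_mul, map_mul, hw] at this
    exact congrArg (·.1.1) this
  exact e.injective (Subtype.ext (Subtype.ext (Equiv.ext fun i =>
    (key x hx x1 i).trans (key y hy y1 i).symm)))

/-- a fixed involution of `A₅` -/
def s0 : alternatingGroup (Fin 5) := ⟨swap 0 1 * swap 2 3, Perm.mem_alternatingGroup.2 (by decide)⟩

theorem a5_conj0 : ∀ s : alternatingGroup (Fin 5), s ≠ 1 → s * s = 1 → ∃ g, g * s * g⁻¹ = s0 := by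
  decide +kernel

theorem a5_five0 : ∃ g : alternatingGroup (Fin 5),
    s0 * (g * s0 * g⁻¹) ≠ 1 ∧ (s0 * (g * s0 * g⁻¹)) ^ 5 = 1 := by
  decide +kernel

theorem a5_conj {s t : alternatingGroup (Fin 5)} (s1 : s ≠ 1) (s2 : s * s = 1) (t1 : t ≠ 1)
    (t2 : t * t = 1) : ∃ g, g * s * g⁻¹ = t := by
  obtain ⟨g, hg⟩ := a5_conj0 s s1 s2
  obtain ⟨h, hh⟩ := a5_conj0 t t1 t2
  refine ⟨h⁻¹ * g, ?_⟩
  rw [show h⁻¹ * g * s * (h⁻¹ * g)⁻¹ = h⁻¹ * (g * s * g⁻¹) * h by group, hg, ← hh]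
  group

theorem a5_five {s : alternatingGroup (Fin 5)} (s1 : s ≠ 1) (s2 : s * s = 1) :
    ∃ g, orderOf (s * (g * s * g⁻¹)) = 5 := by
  haveI : Fact (Nat.Prime 5) := ⟨by norm_num⟩
  obtain ⟨g, hg⟩ := a5_conj0 s s1 s2
  obtain ⟨h, h1, h2⟩ := a5_five0
  refine ⟨g⁻¹ * h * g, ?_⟩
  have e : s * (g⁻¹ * h * g * s * (g⁻¹ * h * g)⁻¹) = g⁻¹ * (s0 * (h * s0 * h⁻¹)) * g⁻¹⁻¹ := by
    rw [← hg]; group
  rw [e, ← MulAut.conj_apply, MulEquiv.orderOf_eq]
  exact orderOf_eq_prime h2 h1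

theorem card_a5 : Nat.card (alternatingGroup (Fin 5)) = 60 := by
  have := two_mul_nat_card_alternatingGroup (α := Fin 5)
  rw [Nat.card_perm, Nat.card_fin] at this
  simp only [Nat.factorial] at this
  omega

end CA.H13A8
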