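import Cfsg.Agent.Lib.Loc.AmbCore
import Cfsg.Agent.Lib.Loc.AmbRes

/-! The group `2^6 : D₈` (Sylow 2-subgroup of `M₂₄` modulo its centre): coordinates. -/

set_option autoImplicit false
set_option synthInstance.maxSize 4000
set_option synthInstance.maxHeartbeats 200000

namespace CA.H13Mz

open Subgroup Cfsg CA.Amb CA.AmbSyl CA.AmbCore

/-- the field -/
abbrev Z := ZMod 2
/-- the module -/
abbrev V := Z × Z × Z × Z × Z × Z
/-- the dihedral group of unitriangular matrices -/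
abbrev I := Z × Z × Z

/-- the action -/
def M (i : I) (v : V) : V :=
  (v.1, v.2.1 + i.1 * v.1, v.2.2.1 + i.2.1 * v.2.1 + (i.2.2 + i.1 * i.2.1) * v.1,
   v.2.2.2.1 + i.1 * v.2.2.2.2.1 + i.2.2 * v.2.2.2.2.2, v.2.2.2.2.1 + i.2.1 * v.2.2.2.2.2,
   v.2.2.2.2.2)

/-- the product -/
def mu (i j : I) : I := (i.1 + j.1, i.2.1 + j.2.1, i.2.2 + j.2.2 + i.1 * j.2.1)
/-- the inverse -/
def nu (i : I) : I := (i.1, i.2.1, i.2.2 + i.1 * i.2.1)

theorem M_add (i : I) (u v : V) : M i (u + v) = M i u + M i v := by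
  simp only [M, Prod.fst_add, Prod.snd_add, Prod.mk_add_mk, Prod.mk.injEq]
  refine ⟨trivial, ?_, ?_, ?_, ?_, trivial⟩ <;> ring

theorem M_mu : ∀ (i j : I) (v : V), M i (M j v) = M (mu i j) v := by decide +kernel
theorem M_inj : ∀ i j : I, (∀ v, M i v = M j v) → i = j := by decide +kernel
theorem M_zero : ∀ v : V, M 0 v = v := by decide +kernel
theorem mu_nu : ∀ i : I, mu i (nu i) = 0 := by decide +kernel
theorem add_self : ∀ v : V, v + v = 0 := by decide +kernel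
theorem d1 : ∀ i : I, i ≠ 0 → mu i i = 0 → (Finset.univ.filter fun v => M i v = v).card = 16 := by
  decide +kernel
theorem d3 : ∀ i j : I, mu i i = 0 → mu j j = 0 → mu i j = mu j i →
    ∀ v, M j (v + M i v) = v + M i v := by decide +kernel
theorem d4 : ∀ i j : I, i ≠ 0 → j ≠ 0 → mu i j ≠ 0 → mu i i = 0 → mu j j = 0 → mu i j = mu j i →
    (Finset.univ.filter fun v => M i v = v ∧ M j v = v).card ≤ 8 := by decide +kernel
theorem d5 : ∀ i : I, i ≠ 0 → i = (0, 0, 1) ∨ ∃ j, mu (mu (mu j i) (nu j)) (nu i) = (0, 0, 1) := by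
  decide +kernel

/-- the dihedral group as a group -/
def DI : Type := I

instance : Fintype DI := inferInstanceAs (Fintype I)
instance : Mul DI := ⟨mu⟩
instance : One DI := ⟨(0 : I)⟩
instance : Inv DI := ⟨nu⟩
instance : Group DI := Group.ofLeftAxioms
  (by decide +kernel : ∀ i j k : I, mu (mu i j) k = mu i (mu j k))
  (by decide +kernel : ∀ i : I, mu 0 i = i) (by decide +kernel : ∀ i : I, mu (nu i) i = 0)

theorem card_DI : Nat.card DI = 8 := by
  rw [Nat.card_eq_fintype_card]; rfl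

variable {G : Type*} [Group G]

/-- `g` acts as the matrix `i` -/
def Ac (ψ : V → G) (g : G) (i : I) : Prop := ∀ v, g * ψ v * g⁻¹ = ψ (M i v)

theorem Ac.mul {ψ : V → G} {g h : G} {i j : I} (a : Ac ψ g i) (b : Ac ψ h j) :
    Ac ψ (g * h) (mu i j) := fun v => by
  rw [← M_mu, ← a, ← b]; group

theorem Ac.inv {ψ : V → G} {g : G} {i : I} (a : Ac ψ g i) : Ac ψ g⁻¹ (nu i) := fun v => by
  have := a (M (nu i) v)
  rw [M_mu, mu_nu, M_zero] at this
  rw [← this]; group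

theorem ac_one (ψ : V → G) : Ac ψ 1 0 := fun v => by rw [M_zero]; group

/-- coordinates -/
structure Co (S A : Subgroup G) (ψ : V → G) : Prop where
  add : ∀ u v, ψ (u + v) = ψ u * ψ v
  inj : Function.Injective ψ
  mem : ∀ a, a ∈ A ↔ ∃ v, ψ v = a
  le : A ≤ S
  all : ∀ g ∈ S, ∃ i, Ac ψ g i ∧ (i = 0 → g ∈ A)
  ex : ∀ i, ∃ g ∈ S, Ac ψ g i
  exz : ∃ z ∈ S, z * z = 1 ∧ Ac ψ z (0, 0, 1)

variable {S A : Subgroup G} {ψ : V → G}

theorem Co.uq (h : Co S A ψ) {g : G} {i j : I} (a : Ac ψ g i) (b : Ac ψ g j) : i = j :=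
  M_inj i j fun v => h.inj ((a v).symm.trans (b v))

theorem Co.mm (h : Co S A ψ) (v : V) : ψ v ∈ A := (h.mem _).2 ⟨v, rfl⟩

theorem Co.zero (h : Co S A ψ) : ψ 0 = 1 := by
  have := h.add 0 0
  rw [add_zero] at this
  exact mul_left_cancel (this.symm.trans (mul_one _).symm)

theorem Co.cm (h : Co S A ψ) : ∀ x ∈ A, ∀ y ∈ A, x * y = y * x := fun x hx y hy => by
  obtain ⟨u, rfl⟩ := (h.mem x).1 hx
  obtain ⟨v, rfl⟩ := (h.mem y).1 hy
  rw [← h.add, ← h.add, add_comm]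

theorem Co.sq (h : Co S A ψ) : ∀ x ∈ A, x * x = 1 := fun x hx => by
  obtain ⟨u, rfl⟩ := (h.mem x).1 hx
  rw [← h.add, add_self, h.zero]

theorem Co.inv (h : Co S A ψ) (v : V) : (ψ v)⁻¹ = ψ v := inv_eq_of_mul_eq_one_right (h.sq _ (h.mm v))

theorem Co.ac0 (h : Co S A ψ) {g : G} (hg : g ∈ A) : Ac ψ g 0 := fun v => by
  rw [M_zero, h.cm g hg _ (h.mm v), mul_inv_cancel_right]

theorem Co.mem0 (h : Co S A ψ) {g : G} (hg : g ∈ S) (a : Ac ψ g 0) : g ∈ A := by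
  obtain ⟨i, b, c⟩ := h.all g hg
  exact c (h.uq b a)

theorem Co.norm (h : Co S A ψ) [Finite G] : S ≤ 𝐍 A := fun g hg => by
  obtain ⟨i, a, -⟩ := h.all g hg
  refine mem_normalizer_of_cj_le (cj_le_iff'.2 fun x hx => ?_)
  obtain ⟨v, rfl⟩ := (h.mem x).1 hx
  exact a v ▸ h.mm _

theorem Co.card_eq (h : Co S A ψ) {H : Subgroup G} (hH : H ≤ A) (p : V → Prop) [DecidablePred p]
    (hp : ∀ v, ψ v ∈ H ↔ p v) : Nat.card H = (Finset.univ.filter p).card := by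
  rw [← Fintype.card_subtype, ← Nat.card_eq_fintype_card]
  refine (Nat.card_eq_of_bijective (fun v : {v // p v} => (⟨ψ v.1, (hp _).2 v.2⟩ : H))
    ⟨fun u v e => Subtype.ext (h.inj (congrArg Subtype.val e)), fun x => ?_⟩).symm
  obtain ⟨v, hv⟩ := (h.mem x).1 (hH x.2)
  exact ⟨⟨v, (hp v).1 (hv ▸ x.2)⟩, Subtype.ext hv⟩

theorem Co.card (h : Co S A ψ) : Nat.card A = 64 := by
  rw [h.card_eq le_rfl (fun _ => True) fun v => iff_of_true (h.mm v) trivial]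
  rfl

theorem Co.cent (h : Co S A ψ) {g : G} {i : I} (a : Ac ψ g i) (v : V) :
    ψ v ∈ centralizer ({g} : Set G) ↔ M i v = v := by
  rw [mem_centralizer_singleton_iff, ← h.inj.eq_iff, ← a v, mul_inv_eq_iff_eq_mul, eq_comm]

theorem Co.sq0 (h : Co S A ψ) {g : G} {i : I} (a : Ac ψ g i) (e : g * g = 1) : mu i i = 0 :=
  h.uq (a.mul a) (e ▸ ac_one ψ)

theorem Co.f1 (h : Co S A ψ) {y : G} (hy : y ∈ S) (y1 : y ∉ A) (y2 : y * y = 1) :
    Nat.card ↥(A ⊓ centralizer ({y} : Set G)) = 16 := by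
  obtain ⟨i, a, c⟩ := h.all y hy
  rw [h.card_eq inf_le_left (fun v => M i v = v) fun v => by
    rw [mem_inf, h.cent a]; exact and_iff_right (h.mm v)]
  exact d1 i (fun e => y1 (c e)) (h.sq0 a y2)

theorem Co.f2 (h : Co S A ψ) {B : Subgroup G} (hB : B ≤ S) (hsq : ∀ b ∈ B, b * b = 1) :
    A.relIndex B ≤ 4 := by
  choose f hf using fun g : S => h.all g g.2
  let ι : S →* DI := MonoidHom.mk' f fun a b => h.uq (hf (a * b)).1 ((hf a).1.mul (hf b).1)
  have e : ι.ker = A.subgroupOf S := by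
    ext g
    exact ⟨fun e => (hf g).2 e, fun e => h.uq (hf g).1 (h.ac0 e)⟩
  rw [← relIndex_subgroupOf hB, ← e, relIndex_ker]
  have h1 := ((B.subgroupOf S).map ι).card_subgroup_dvd_card
  have h2 : Nat.card ((B.subgroupOf S).map ι) ≠ Nat.card DI := fun e => by
    obtain ⟨g, hg, e1⟩ : (show DI from ((1, 1, 0) : I)) ∈ (B.subgroupOf S).map ι :=
      eq_top_of_card_eq _ e ▸ mem_top _
    have := h.sq0 (hf g).1 (hsq g hg)
    rw [show f g = (1, 1, 0) from e1] at this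
    exact absurd this (by decide)
  rw [card_DI] at h1 h2
  have := Nat.le_of_dvd (by norm_num) h1
  generalize Nat.card ((B.subgroupOf S).map ι) = d at *
  interval_cases d <;> omega

theorem Co.f3 (h : Co S A ψ) {b c : G} (hb : b ∈ S) (hc : c ∈ S) (b2 : b * b = 1) (c2 : c * c = 1)
    (e : b * c = c * b) {a : G} (ha : a ∈ A) : a * b * a⁻¹ * b⁻¹ ∈ centralizer ({c} : Set G) := by
  obtain ⟨i, ai, -⟩ := h.all b hb
  obtain ⟨j, aj, -⟩ := h.all c hc
  obtain ⟨v, rfl⟩ := (h.mem a).1 ha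
  rw [h.inv, show ψ v * b * ψ v * b⁻¹ = ψ v * (b * ψ v * b⁻¹) by group, ai, ← h.add, h.cent aj]
  exact d3 i j (h.sq0 ai b2) (h.sq0 aj c2) (h.uq (ai.mul aj) (e ▸ aj.mul ai)) v

theorem Co.f4 (h : Co S A ψ) {b c : G} (hb : b ∈ S) (hc : c ∈ S) (b2 : b * b = 1) (c2 : c * c = 1)
    (e : b * c = c * b) (b1 : b ∉ A) (c1 : c ∉ A) (bc : b * c ∉ A) :
    Nat.card ↥(A ⊓ (centralizer ({b} : Set G) ⊓ centralizer ({c} : Set G))) ≤ 8 := by
  obtain ⟨i, ai, i0⟩ := h.all b hb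
  obtain ⟨j, aj, j0⟩ := h.all c hc
  rw [h.card_eq inf_le_left (fun v => M i v = v ∧ M j v = v) fun v => by
    rw [mem_inf, mem_inf, h.cent ai, h.cent aj]; exact and_iff_right (h.mm v)]
  exact d4 i j (fun e => b1 (i0 e)) (fun e => c1 (j0 e))
    (fun e => bc (h.mem0 (mul_mem hb hc) (e ▸ ai.mul aj))) (h.sq0 ai b2) (h.sq0 aj c2)
    (h.uq (ai.mul aj) (e ▸ aj.mul ai))

end CA.H13Mz
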