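import Cfsg.Agent.Lib.Loc.H13Mz1

/-! The group `2^6 : D₈`: the abelian subgroup of order `64` is strongly closed. -/

set_option autoImplicit false

namespace CA.H13Mz

open Subgroup Cfsg CA.Amb CA.AmbSyl CA.AmbCore

variable {G : Type*} [Group G] [Finite G]

/-- the local properties -/
structure Pr (A : Subgroup G) : Prop where
  cm : ∀ x ∈ A, ∀ y ∈ A, x * y = y * x
  sq : ∀ x ∈ A, x * x = 1
  card : Nat.card A = 64
  f1 : ∀ y ∈ 𝐍 A, y ∉ A → y * y = 1 → Nat.card ↥(A ⊓ centralizer ({y} : Set G)) = 16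
  f2 : ∀ B ≤ 𝐍 A, (∀ b ∈ B, b * b = 1) → A.relIndex B ≤ 4
  f3 : ∀ b ∈ 𝐍 A, ∀ c ∈ 𝐍 A, b * b = 1 → c * c = 1 → b * c = c * b →
    ∀ a ∈ A, a * b * a⁻¹ * b⁻¹ ∈ centralizer ({c} : Set G)
  f4 : ∀ b ∈ 𝐍 A, ∀ c ∈ 𝐍 A, b * b = 1 → c * c = 1 → b * c = c * b → b ∉ A → c ∉ A → b * c ∉ A →
    Nat.card ↥(A ⊓ (centralizer ({b} : Set G) ⊓ centralizer ({c} : Set G))) ≤ 8

omit [Finite G] in
theorem pg_of_sq {B : Subgroup G} (h : ∀ b ∈ B, b * b = 1) : IsPGroup 2 B :=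
  isPGroup_iff_mem.2 fun x hx => ⟨1, by rw [pow_one, pow_two, h x hx]⟩

omit [Finite G] in
theorem cj_sq {k b : G} (h : b * b = 1) : k * b * k⁻¹ * (k * b * k⁻¹) = 1 := by
  rw [conj_mul, h]; group

variable {S A : Subgroup G} {ψ : V → G}

theorem Co.tr (h : Co S A ψ) (hS : SylIn 2 S ⊤) (g : G) {B : Subgroup G} (hB : IsPGroup 2 B)
    (hn : B ≤ 𝐍 (cj g A)) : ∃ k, cj k (cj g A) = A ∧ cj k B ≤ S := by
  obtain ⟨n, h1, h2⟩ := (hS.mono h.norm le_top).exists_conj_le (isPGroup_cj hB g⁻¹)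
    (cj_le_iff.2 (by rwa [inv_inv, cj_normalizer]))
  exact ⟨n * g⁻¹, by rw [← cj_cj, cj_inv_cj, cj_eq_self h1], by rwa [← cj_cj]⟩

theorem Co.tr2 (h : Co S A ψ) (hS : SylIn 2 S ⊤) (g : G) {b c : G} (hb : b ∈ 𝐍 (cj g A))
    (hc : c ∈ 𝐍 (cj g A)) (b2 : b * b = 1) (c2 : c * c = 1) (e : b * c = c * b) :
    ∃ k, cj k (cj g A) = A ∧ k * b * k⁻¹ ∈ S ∧ k * c * k⁻¹ ∈ S := by
  obtain ⟨k, h1, h2⟩ := h.tr hS g (B := zpowers b ⊔ zpowers c) (isPGroup_sup_of_norm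
    (isPGroup_zpowers (k := 1) (by rw [pow_one, pow_two, b2]))
    (isPGroup_zpowers (k := 1) (by rw [pow_one, pow_two, c2])) (norm_of_centralizer (by
      rw [centralizer_zpowers]
      exact zpowers_le.2 (mem_centralizer_singleton_iff.2 e))))
    (sup_le (zpowers_le.2 hb) (zpowers_le.2 hc))
  exact ⟨k, h1, h2 (conj_mem_cj.2 (mem_sup_left (mem_zpowers b))),
    h2 (conj_mem_cj.2 (mem_sup_right (mem_zpowers c)))⟩

theorem Co.pr (h : Co S A ψ) (hS : SylIn 2 S ⊤) (g : G) : Pr (cj g A) where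
  cm := fun x hx y hy => by
    obtain ⟨u, hu, rfl⟩ := mem_cj'.1 hx
    obtain ⟨v, hv, rfl⟩ := mem_cj'.1 hy
    rw [conj_mul, conj_mul, h.cm u hu v hv]
  sq := fun x hx => by
    obtain ⟨u, hu, rfl⟩ := mem_cj'.1 hx
    exact cj_sq (h.sq u hu)
  card := by rw [card_cj, h.card]
  f1 := fun y hy y1 y2 => by
    obtain ⟨k, h1, h2, -⟩ := h.tr2 hS g hy hy y2 y2 rfl
    rw [← card_cj k, cj_inf, h1, cj_centralizer_singleton]
    exact h.f1 h2 (fun e => y1 (conj_mem_cj.1 (h1.symm ▸ e))) (cj_sq y2)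
  f2 := fun B hB hsq => by
    obtain ⟨k, h1, h2⟩ := h.tr hS g (pg_of_sq hsq) hB
    rw [← relIndex_cj k, h1]
    refine h.f2 h2 fun x hx => ?_
    obtain ⟨u, hu, rfl⟩ := mem_cj'.1 hx
    exact cj_sq (hsq u hu)
  f3 := fun b hb c hc b2 c2 e a ha => by
    obtain ⟨k, h1, h2, h3⟩ := h.tr2 hS g hb hc b2 c2 e
    have := h.f3 h2 h3 (cj_sq b2) (cj_sq c2) (by rw [conj_mul, conj_mul, e])
      (h1 ▸ conj_mem_cj.2 ha : k * a * k⁻¹ ∈ A)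
    rw [← cj_centralizer_singleton] at this
    refine (conj_mem_cj (g := k)).1 ?_
    convert this using 1
    group
  f4 := fun b hb c hc b2 c2 e b1 c1 bc => by
    obtain ⟨k, h1, h2, h3⟩ := h.tr2 hS g hb hc b2 c2 e
    rw [← card_cj k, cj_inf, cj_inf, h1, cj_centralizer_singleton, cj_centralizer_singleton]
    exact h.f4 h2 h3 (cj_sq b2) (cj_sq c2) (by rw [conj_mul, conj_mul, e])
      (fun e => b1 (conj_mem_cj.1 (h1.symm ▸ e))) (fun e => c1 (conj_mem_cj.1 (h1.symm ▸ e)))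
      (fun e => bc ((conj_mem_cj (g := k)).1 (by rwa [h1, ← conj_mul])))

theorem Pr.big (h : Pr A) {y : G} (hy : y ∈ 𝐍 A) {Z D B : Subgroup G}
    (hD : ∀ a ∈ A, a * y * a⁻¹ * y⁻¹ ∈ D) (hZ : Z ≤ D) (hc : Nat.card D ≤ 2 * Nat.card Z)
    (hB : ∀ a ∈ A, a * y * a⁻¹ * y⁻¹ ∈ Z → a ∈ B) : 32 ≤ Nat.card B := by
  let f : A →* G := MonoidHom.mk' (fun a => (a : G) * y * (a : G)⁻¹ * y⁻¹) fun a b => by
    have := h.cm _ (mul_mem b.2 (conj_mem_of_mem_normalizer hy (inv_mem b.2))) _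
      (conj_mem_of_mem_normalizer hy (inv_mem a.2))
    simp only [coe_mul]
    calc (a : G) * b * y * ((a : G) * b)⁻¹ * y⁻¹
        = a * (b * (y * (b : G)⁻¹ * y⁻¹) * (y * (a : G)⁻¹ * y⁻¹)) := by group
      _ = _ := by rw [this]; group
  have h1 : f.range ≤ D := by
    rintro _ ⟨a, rfl⟩
    exact hD a a.2
  have h2 := relIndex_le_of_le_right (H := Z) h1 (relIndex_ne_zero Z D)
  have h3 := card_mul_relIndex hZ
  have h4 := (Z.comap f).card_mul_index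
  rw [index_comap, h.card] at h4
  have h5 : Nat.card (Z.comap f) ≤ Nat.card B := by
    rw [← card_map_of_injective A.subtype_injective]
    refine card_le_of_le ?_
    rintro _ ⟨a, ha, rfl⟩
    exact hB a a.2 ha
  have h6 : 0 < Nat.card Z := Nat.card_pos
  have h7 : Z.relIndex D ≤ 2 := by nlinarith
  nlinarith

omit [Finite G] in
theorem mem_norm_of {Z : Subgroup G} {a y : G} [Finite G] (ha : a ∈ 𝐂 Z)
    (h : a * y * a⁻¹ * y⁻¹ ∈ Z) : a ∈ 𝐍 (Z ⊔ zpowers y) := by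
  refine mem_normalizer_of_cj_le ?_
  rw [cj_sup, cj_eq_self (centralizer_le_normalizer _ ha), cj_zpowers]
  refine sup_le le_sup_left (zpowers_le.2 ?_)
  simpa using mul_mem (mem_sup_left h : _ ∈ Z ⊔ zpowers y) (mem_sup_right (mem_zpowers y))

omit [Finite G] in
theorem two_indep {A B : Subgroup G} (h : 2 < A.relIndex B) :
    ∃ b ∈ B, ∃ c ∈ B, b ∉ A ∧ c ∉ A ∧ b * c ∉ A := by
  by_contra! hc
  by_cases e : B ≤ A
  · rw [relIndex_eq_one.2 e] at h; omega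
  obtain ⟨b, hb, b1⟩ := SetLike.not_le_iff_exists.1 e
  have : (A.subgroupOf B).index = 2 := index_eq_two_iff.2 ⟨⟨b, hb⟩, fun x => by
    by_cases hx : (x : G) ∈ A
    · exact Or.inr ⟨hx, fun h1 => b1 ((A.mul_mem_cancel_left hx).1 h1)⟩
    · exact Or.inl ⟨hc x x.2 b hb hx b1, hx⟩⟩
  rw [relIndex, this] at h
  omega

/-- a conjugacy class of weakly closed subgroups -/
structure Fam (F : Subgroup G → Prop) : Prop where
  cj : ∀ A g, F A → F (cj g A)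
  pr : ∀ A, F A → Pr A
  wc : ∀ A B T : Subgroup G, F A → F B → IsPGroup 2 T → A ≤ T → B ≤ T → A = B

variable {F : Subgroup G → Prop}

theorem Fam.ext (h : Fam F) {A U B : Subgroup G} (hA : F A) (hU : U ≤ A) (hB : IsPGroup 2 B)
    (hn : B ≤ 𝐍 U) : ∃ A', F A' ∧ U ≤ A' ∧ B ≤ 𝐍 A' := by
  obtain ⟨T, hT, h1⟩ := exists_sylIn_ge hB hn
  obtain ⟨g, hg, h2⟩ := hT.exists_conj_le (pg_of_sq (h.pr A hA).sq)
    (norm_of_centralizer fun x hx u hu => (h.pr A hA).cm u (hU hu) x hx)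
  refine ⟨_, h.cj A g hA, cj_eq_self hg ▸ cj_mono g hU, h1.trans fun t ht => cj_eq_self_iff.1 ?_⟩
  exact h.wc _ _ T (h.cj _ t (h.cj A g hA)) (h.cj A g hA) hT.pg (cj_le_of_mem h2 ht) h2

theorem Fam.le (h : Fam F) {A₁ A₂ U : Subgroup G} (h1 : F A₁) (h2 : F A₂) (hU : U ≤ A₂)
    (hn : A₁ ≤ 𝐍 U) : U ≤ A₁ := by
  obtain ⟨A', a, b, c⟩ := h.ext h2 hU (pg_of_sq (h.pr _ h1).sq) hn
  rwa [h.wc A₁ A' _ h1 a (isPGroup_sup_of_norm (pg_of_sq (h.pr _ h1).sq)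
    (pg_of_sq (h.pr _ a).sq) c) le_sup_left le_sup_right]

theorem Fam.closed (h : Fam F) {A₁ A₂ : Subgroup G} (h1 : F A₁) (h2 : F A₂) {y : G} (y2 : y ∈ A₂)
    (yn : y ∈ 𝐍 A₁) : y ∈ A₁ := by
  by_contra y1
  obtain ⟨⟨A₁, A₂⟩, ⟨h1, h2, y, y2, yn, y1⟩, hm⟩ := Set.exists_max_image
    {p : Subgroup G × Subgroup G | F p.1 ∧ F p.2 ∧ ∃ y ∈ p.2, y ∈ 𝐍 p.1 ∧ y ∉ p.1}
    (fun p => Nat.card ↥(p.1 ⊓ p.2)) (Set.toFinite _) ⟨(A₁, A₂), h1, h2, y, y2, yn, y1⟩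
  dsimp only at h1 h2 y2 yn y1 hm
  set m := Nat.card ↥(A₁ ⊓ A₂) with hm0
  have key : ∀ A₁ A₂, F A₁ → F A₂ → ∀ y ∈ A₂, y ∈ 𝐍 A₁ → y ∉ A₁ → Nat.card ↥(A₁ ⊓ A₂) = m →
      ∃ A' B, F A' ∧ A₁ ⊓ A' = A₁ ⊓ A₂ ∧ B ≤ A₁ ∧ B ≤ 𝐍 A' ∧
        (∀ a ∈ A₁, a * y * a⁻¹ * y⁻¹ ∈ A₁ ⊓ A₂ → a ∈ B) ∧ B ≠ A₁ ∧
        m * A'.relIndex B = Nat.card B ∧ A'.relIndex B ≤ 4 := fun A₁ A₂ h1 h2 y y2 yn y1 e => by
    have hU : A₁ ⊓ A₂ ⊔ zpowers y ≤ A₂ := sup_le inf_le_right (zpowers_le.2 y2)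
    obtain ⟨A', a, b, c⟩ := h.ext h2 hU (B := A₁ ⊓ 𝐍 (A₁ ⊓ A₂ ⊔ zpowers y))
      ((pg_of_sq (h.pr _ h1).sq).to_le inf_le_left) inf_le_right
    have e1 : A₁ ⊓ A₂ = A₁ ⊓ A' := eq_of_le_of_card_ge (le_inf inf_le_left (le_sup_left.trans b))
      (e ▸ hm (A₁, A') ⟨h1, a, y, b (mem_sup_right (mem_zpowers y)), yn, y1⟩)
    refine ⟨A', _, a, e1.symm, inf_le_left, c, fun x hx hc => ⟨hx, mem_norm_of
      (fun z hz => (h.pr _ h1).cm z hz.1 x hx) hc⟩, fun e2 => y1 (h.le h1 h2 hU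
        (inf_eq_left.1 e2) (mem_sup_right (mem_zpowers y))), ?_,
      (h.pr _ a).f2 _ c fun x hx => (h.pr _ h1).sq x hx.1⟩
    rw [← card_inf_mul_relIndex A', ← inf_assoc, inf_comm A', ← e1,
      inf_of_le_left (norm_of_le le_sup_left), e]
  obtain ⟨A', B, a, e1, hB, hn, hc, ne, hm1, hm2⟩ := key A₁ A₂ h1 h2 y y2 yn y1 rfl
  have p1 := h.pr _ h1
  have p2 := h.pr _ h2
  have p3 := h.pr _ a
  have hZ : A₁ ⊓ A₂ ≤ A₁ ⊓ centralizer ({y} : Set G) := fun x hx =>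
    ⟨hx.1, mem_centralizer_singleton_iff.2 (p2.cm x hx.2 y y2)⟩
  have hD : ∀ x ∈ A₁, x * y * x⁻¹ * y⁻¹ ∈ A₁ ⊓ centralizer ({y} : Set G) := fun x hx =>
    ⟨by rw [mul_assoc, mul_assoc, ← mul_assoc y]
        exact mul_mem hx (conj_mem_of_mem_normalizer yn (inv_mem hx)),
      p1.f3 y yn y yn (p2.sq y y2) (p2.sq y y2) rfl x hx⟩
  have c16 := p1.f1 y yn y1 (p2.sq y y2)
  have hCB : A₁ ⊓ centralizer ({y} : Set G) ≤ B := fun x hx => hc x hx.1 (by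
    rw [mem_centralizer_singleton_iff.1 hx.2, mul_inv_cancel_right, mul_inv_cancel]; exact one_mem _)
  have b16 := card_le_of_le hCB
  have md := card_dvd_of_le hZ
  have m16 : m ≠ 16 := fun e => ne (le_antisymm hB fun x hx => hc x hx
    (eq_of_le_of_card_ge hZ (by rw [c16, ← e]) ▸ hD x hx))
  rw [c16] at b16 md
  rw [← hm0] at md
  have m48 : m = 4 ∨ m = 8 := by
    have := Nat.le_of_dvd (by norm_num) md
    have : 4 ≤ m := by nlinarith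
    interval_cases m <;> omega
  have r4 : 2 < A'.relIndex B := by
    rcases m48 with e | e
    · rw [e] at hm1; omega
    · have := p1.big yn hD hZ (by rw [c16, ← hm0, e]) hc
      rw [e] at hm1; omega
  obtain ⟨b, hb, c, hc', b1, c1, bc⟩ := two_indep r4
  have b2 := p1.sq b (hB hb)
  have c2 := p1.sq c (hB hc')
  have ebc := p1.cm b (hB hb) c (hB hc')
  have d8 := p3.f4 b (hn hb) c (hn hc') b2 c2 ebc b1 c1 bc
  have hZ' : A' ⊓ A₁ ≤ A' ⊓ (centralizer ({b} : Set G) ⊓ centralizer ({c} : Set G)) := fun x hx =>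
    ⟨hx.1, mem_centralizer_singleton_iff.2 (p1.cm x hx.2 b (hB hb)),
      mem_centralizer_singleton_iff.2 (p1.cm x hx.2 c (hB hc'))⟩
  have hD' : ∀ x ∈ A', x * b * x⁻¹ * b⁻¹ ∈
      A' ⊓ (centralizer ({b} : Set G) ⊓ centralizer ({c} : Set G)) := fun x hx =>
    ⟨by rw [mul_assoc, mul_assoc, ← mul_assoc b]
        exact mul_mem hx (conj_mem_of_mem_normalizer (hn hb) (inv_mem hx)),
      p3.f3 b (hn hb) b (hn hb) b2 b2 rfl x hx, p3.f3 b (hn hb) c (hn hc') b2 c2 ebc x hx⟩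
  have em : Nat.card ↥(A' ⊓ A₁) = m := by rw [inf_comm, e1]
  obtain ⟨A'', B', -, -, hB', -, k1, k2, k3, k4⟩ := key A' A₁ a h1 b (hB hb) (hn hb) b1 em
  rcases m48 with e | e
  · have := p3.big (hn hb) hD' hZ' (by rw [em, e]; exact d8) k1
    rw [e] at k3; omega
  · exact k2 (le_antisymm hB' fun x hx => k1 x hx
      (eq_of_le_of_card_ge hZ' (by rw [em, e]; exact d8) ▸ hD' x hx))

theorem Co.closed (h : Co S A ψ) (hS : SylIn 2 S ⊤)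
    (uq : ∀ B ≤ S, IsMulCommutative B → Nat.card B = 64 → B = A) : IsStronglyClosed A S := by
  have hF : Fam fun B => ∃ g, cj g A = B := ⟨fun B g ⟨k, e⟩ => ⟨g * k, by rw [← e, cj_cj]⟩,
    fun B ⟨k, e⟩ => e ▸ h.pr hS k, by
      rintro _ _ T ⟨g, rfl⟩ ⟨k, rfl⟩ hT h1 h2
      obtain ⟨n, -, hn⟩ := hS.exists_conj_le hT le_top
      have : ∀ g, cj g A ≤ T → cj n (cj g A) = A := fun g hg => by
        refine uq _ ((cj_mono n hg).trans hn) ?_ (by rw [card_cj, card_cj, h.card])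
        rw [cj_cj]
        exact ⟨⟨fun a b => Subtype.ext ((h.pr hS _).cm a a.2 b b.2)⟩⟩
      exact cj_inj.1 ((this g h1).trans (this k h2).symm)⟩
  exact ⟨h.le, fun x hx g hg => hF.closed ⟨1, cj_one A⟩ ⟨g, rfl⟩ (conj_mem_cj.2 hx) (h.norm hg)⟩

end CA.H13Mz
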