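import Cfsg.Agent.Lib.Loc.H13A8
import Cfsg.Agent.Lib.Loc.AmbRes
import Cfsg.Agent.Lib.Grp.Core

/-! An elementary abelian group of order `16` with automiser `A₅`. -/

set_option autoImplicit false

namespace CA.H13O4

open Subgroup Cfsg CA.Amb CA.AmbSyl CA.AmbCore CA.H13A8

variable {G : Type*} [Group G]

theorem card_modEq {r : ℕ} [Fact r.Prime] {P K : Subgroup G} [Finite K] (hP : IsPGroup r P)
    (hn : P ≤ 𝐍 K) : Nat.card K ≡ Nat.card ↥(K ⊓ 𝐂 P) [MOD r] := by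
  letI : MulAction P K := MulAction.compHom K (K.normalizerMonoidHom.comp (inclusion hn))
  have h := hP.card_modEq_card_fixedPoints K
  rwa [Nat.card_congr (α := MulAction.fixedPoints P K) (β := ↥(K ⊓ 𝐂 P))
    { toFun := fun x => ⟨x.1.1, x.1.2, fun g hg =>
        mul_inv_eq_iff_eq_mul.1 (congrArg Subtype.val (x.2 ⟨g, hg⟩))⟩
      invFun := fun x => ⟨⟨x.1, x.2.1⟩, fun g => Subtype.ext (mul_inv_eq_iff_eq_mul.2 (x.2.2 g g.2))⟩
      left_inv := fun _ => rfl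
      right_inv := fun _ => rfl }] at h

theorem orb (N : Subgroup G) (a : G) :
    ({x | ∃ n ∈ N, n * a * n⁻¹ = x} : Set G).ncard = (centralizer ({a} : Set G)).relIndex N := by
  letI : MulAction N G := MulAction.compHom G ((MulAut.conj : G →* MulAut G).comp N.subtype)
  have h := MulAction.index_stabilizer N a
  have e1 : MulAction.stabilizer N a = (centralizer ({a} : Set G)).subgroupOf N := by
    ext n
    rw [mem_subgroupOf, mem_centralizer_singleton_iff, MulAction.mem_stabilizer_iff]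
    exact mul_inv_eq_iff_eq_mul
  have e2 : MulAction.orbit N a = {x | ∃ n ∈ N, n * a * n⁻¹ = x} := by
    ext x
    exact ⟨fun ⟨n, hn⟩ => ⟨n, n.2, hn⟩, fun ⟨n, hn, e⟩ => ⟨⟨n, hn⟩, e⟩⟩
  rw [e1, e2] at h
  exact h.symm

theorem card_le_two {α : Type*} [Finite α] (a b : α) (h : ∀ x, x = a ∨ x = b) : Nat.card α ≤ 2 := by
  have := Nat.card_le_card_of_injective (fun x : α => x = a) fun x y e => by
    rcases h x with h1 | h1 <;> rcases h y with h2 | h2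
    · rw [h1, h2]
    · exact h1.trans ((show (x = a) = (y = a) from e) ▸ h1 : y = a).symm
    · exact ((show (y = a) = (x = a) from e.symm) ▸ h2 : x = a).trans h2.symm
    · rw [h1, h2]
  rwa [Nat.card_eq_fintype_card (α := Prop), Fintype.card_prop] at this

/-- the hypotheses -/
structure Cx (A O : Subgroup G) (φ : 𝐍 A →* alternatingGroup (Fin 5)) : Prop where
  cm : ∀ x ∈ A, ∀ y ∈ A, x * y = y * x
  sq : ∀ x ∈ A, x * x = 1
  card : Nat.card A = 16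
  surj : Function.Surjective φ
  ON : O ≤ 𝐍 A
  nO : 𝐍 A ≤ 𝐍 O
  odd : (Nat.card O).Coprime 2
  ker : ∀ n : 𝐍 A, φ n = 1 ↔ (n : G) ∈ A ⊔ O
  nc : ¬ 𝐍 A ≤ 𝐂 A

variable [Finite G] {A O : Subgroup G} {φ : 𝐍 A →* alternatingGroup (Fin 5)}

omit [Finite G] in
theorem Cx.pg (h : Cx A O φ) : IsPGroup 2 A :=
  isPGroup_iff_mem.2 fun x hx => ⟨1, by rw [pow_one, pow_two, h.sq x hx]⟩

theorem Cx.disj (h : Cx A O φ) {x : G} (h1 : x ∈ A) (h2 : x ∈ O) : x = 1 := by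
  have : A ⊓ O = ⊥ := eq_bot_of_not_dvd (h.pg.to_le inf_le_left) inf_le_right
    ((Nat.Prime.coprime_iff_not_dvd Nat.prime_two).1 h.odd.symm)
  exact mem_bot.1 (this ▸ mem_inf.2 ⟨h1, h2⟩)

theorem Cx.comm (h : Cx A O φ) {a o : G} (ha : a ∈ A) (ho : o ∈ O) : a * o = o * a := by
  have := h.disj (x := a * (o * a⁻¹ * o⁻¹))
    (mul_mem ha (conj_mem_of_mem_normalizer (h.ON ho) (inv_mem ha)))
    (by rw [show a * (o * a⁻¹ * o⁻¹) = a * o * a⁻¹ * o⁻¹ by group]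
        exact mul_mem (conj_mem_of_mem_normalizer (h.nO (le_normalizer ha)) ho) (inv_mem ho))
  calc a * o = a * (o * a⁻¹ * o⁻¹) * (o * a) := by group
    _ = o * a := by rw [this, one_mul]

theorem Cx.MC (h : Cx A O φ) : A ⊔ O ≤ 𝐂 A :=
  sup_le (fun x hx y hy => h.cm y hy x hx) fun _ ho _ ha => h.comm ha ho

omit [Finite G] in
theorem Cx.dich (h : Cx A O φ) {K : Subgroup G} (hK : 𝐍 A ≤ 𝐍 K) :
    (∀ n ∈ 𝐍 A, n ∈ K → n ∈ A ⊔ O) ∨ ∀ n : 𝐍 A, ∃ k : 𝐍 A, (k : G) ∈ K ∧ φ k = φ n := by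
  haveI := normal_subgroupOf_of_norm hK
  rcases ((inferInstance : (K.subgroupOf (𝐍 A)).Normal).map φ h.surj).eq_bot_or_eq_top with e | e
  · exact Or.inl fun n hn hk => (h.ker ⟨n, hn⟩).1 (mem_bot.1 (e ▸ mem_map_of_mem φ hk))
  · exact Or.inr fun n => (show φ n ∈ (K.subgroupOf (𝐍 A)).map φ from e ▸ mem_top _)

theorem Cx.CM (h : Cx A O φ) {n : G} (hn : n ∈ 𝐂 A) : n ∈ A ⊔ O := by
  rcases h.dich (normalizer_le_normalizer_centralizer A) with e | e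
  · exact e n (centralizer_le_normalizer _ hn) hn
  · refine absurd (fun x hx => ?_) h.nc
    obtain ⟨k, h1, h2⟩ := e ⟨x, hx⟩
    have := h.MC ((h.ker (k⁻¹ * ⟨x, hx⟩)).1 (by rw [map_mul, map_inv, h2, inv_mul_cancel]))
    simpa using mul_mem h1 this

theorem Cx.five (h : Cx A O φ) {n : 𝐍 A} (hn : orderOf (φ n) = 5) {a : G} (ha : a ∈ A)
    (e : a * n = n * a) : a = 1 := by
  haveI : Fact (Nat.Prime 5) := ⟨by norm_num⟩
  obtain ⟨u, v, hu, -, huv, ⟨k, hk⟩, hv⟩ := CA.PRes.exists_p_part (p := 5) n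
  have hu1 : φ u ≠ 1 := fun e1 => by
    have := orderOf_map_dvd φ v
    rw [← one_mul (φ v), ← e1, ← map_mul, ← huv, hn] at this
    exact absurd (Nat.Coprime.eq_one_of_dvd hv.symm this) (by norm_num)
  have hX : IsPGroup 5 (zpowers (u : G)) :=
    isPGroup_zpowers (k := k) (by exact_mod_cast congrArg Subtype.val hk)
  have h1 := card_modEq hX (zpowers_le.2 u.2)
  have h2 := card_dvd_of_le (inf_le_left : A ⊓ 𝐂 (zpowers (u : G)) ≤ A)
  rw [h.card] at h1 h2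
  have h3 : Nat.card ↥(A ⊓ 𝐂 (zpowers (u : G))) = 1 ∨ Nat.card ↥(A ⊓ 𝐂 (zpowers (u : G))) = 16 := by
    generalize Nat.card ↥(A ⊓ 𝐂 (zpowers (u : G))) = d at h1 h2
    have := Nat.le_of_dvd (by norm_num) h2
    unfold Nat.ModEq at h1
    interval_cases d <;> omega
  rcases h3 with h3 | h3
  · have h4 : a ∈ A ⊓ 𝐂 (zpowers (u : G)) := by
      refine mem_inf.2 ⟨ha, ?_⟩
      rw [centralizer_zpowers, mem_centralizer_singleton_iff]
      obtain ⟨i, rfl⟩ := hu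
      exact ((show Commute a n from e).zpow_right i)
    rwa [card_eq_one.1 h3, mem_bot] at h4
  · have h4 := eq_of_le_of_card_ge (inf_le_left : A ⊓ 𝐂 (zpowers (u : G)) ≤ A) (by rw [h3, h.card])
    refine absurd ((h.ker u).2 (h.CM fun x hx => ?_)) hu1
    exact ((h4.ge hx).2 u (mem_zpowers _)).symm

theorem Cx.fix_le (h : Cx A O φ) {s : 𝐍 A} (s1 : φ s ≠ 1) (s2 : φ s * φ s = 1) :
    Nat.card ↥(A ⊓ centralizer ({(s : G)} : Set G)) ≤ 4 := by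
  obtain ⟨g, hg⟩ := a5_five s1 s2
  obtain ⟨n, rfl⟩ := h.surj g
  set B := A ⊓ centralizer ({(s : G)} : Set G) with hB
  have h1 : cj (n : G) B ≤ A := cj_le_of_le inf_le_left n.2
  have h2 : B ⊓ cj (n : G) B = ⊥ := eq_bot_iff.2 fun x hx => mem_bot.2 <| by
    refine h.five (n := s * (n * s * n⁻¹)) (by simpa using hg) hx.1.1 ?_
    have c1 : Commute x s := mem_centralizer_singleton_iff.1 hx.1.2
    have h3 := hx.2
    rw [hB, cj_inf, cj_centralizer_singleton] at h3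
    have c2 : Commute x (n * s * n⁻¹ : G) := mem_centralizer_singleton_iff.1 h3.2
    exact c1.mul_right c2
  have h3 := card_sup_mul_card_inf (H := B) (N := cj (n : G) B)
    (norm_of_centralizer fun x hx y hy => h.cm y (h1 hy) x hx.1)
  have h4 := card_le_of_le (sup_le (inf_le_left : B ≤ A) h1)
  rw [h2, card_bot, mul_one, card_cj] at h3
  rw [h3, h.card] at h4
  nlinarith

theorem Cx.comm_onto (h : Cx A O φ) {s : 𝐍 A} (s1 : φ s ≠ 1) (s2 : (s : G) * s = 1) {a : G}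
    (ha : a ∈ A) (e : a * s = s * a) : ∃ b ∈ A, b * s * b⁻¹ = s * a := by
  have si : (s : G)⁻¹ = s := inv_eq_of_mul_eq_one_right s2
  have cj' : ∀ b ∈ A, (s : G)⁻¹ * b * s ∈ A := fun b hb => inv_conj_mem_of_mem_normalizer s.2 hb
  let f : A →* G := MonoidHom.mk' (fun b => (s : G)⁻¹ * b * s * (b : G)⁻¹) fun b c => by
    have := h.cm _ (mul_mem (cj' c c.2) (inv_mem c.2)) _ (inv_mem b.2)
    simp only [coe_mul]
    calc (s : G)⁻¹ * (b * c) * s * ((b : G) * c)⁻¹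
        = (s : G)⁻¹ * b * s * ((s : G)⁻¹ * c * s * (c : G)⁻¹ * (b : G)⁻¹) := by group
      _ = _ := by rw [this]; group
  have hf : ∀ b : A, f b = (s : G)⁻¹ * b * s * (b : G)⁻¹ := fun _ => rfl
  have k1 : f.ker = (A ⊓ centralizer ({(s : G)} : Set G)).subgroupOf A := by
    ext b
    rw [MonoidHom.mem_ker, mem_subgroupOf, mem_inf, mem_centralizer_singleton_iff, hf,
      mul_inv_eq_one, mul_assoc, inv_mul_eq_iff_eq_mul]
    exact ⟨fun e => ⟨b.2, e⟩, fun e => e.2⟩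
  have k2 : f.range ≤ A ⊓ centralizer ({(s : G)} : Set G) := by
    rintro _ ⟨b, rfl⟩
    have m : f b ∈ A := mul_mem (cj' b b.2) (inv_mem b.2)
    refine mem_inf.2 ⟨m, mem_centralizer_singleton_iff.2 ?_⟩
    have i1 : (f b)⁻¹ = f b := inv_eq_of_mul_eq_one_right (h.sq _ m)
    conv_lhs => rw [← i1]
    rw [hf]
    calc ((s : G)⁻¹ * b * s * (b : G)⁻¹)⁻¹ * s = (b : G) * (s : G)⁻¹ * (b : G)⁻¹ * (s * s) := by group
      _ = (b : G) * s * (b : G)⁻¹ := by rw [s2, si, mul_one]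
      _ = _ := by group
  have k3 := f.ker.card_mul_index
  rw [index_ker, k1, Nat.card_congr (subgroupOfEquivOfLe inf_le_left).toEquiv, h.card] at k3
  have k4 := h.fix_le s1 (by rw [← map_mul, show s * s = 1 from Subtype.ext s2, map_one])
  have k5 := eq_of_le_of_card_ge k2 (by nlinarith)
  obtain ⟨b, hb⟩ : a ∈ f.range := k5 ▸ mem_inf.2 ⟨ha, mem_centralizer_singleton_iff.2 e⟩
  exact ⟨b, b.2, by rw [← hb, hf]; group⟩

theorem Cx.conj_same (h : Cx A O φ) {s t : 𝐍 A} (s1 : φ s ≠ 1) (s2 : (s : G) * s = 1)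
    (t2 : (t : G) * t = 1) (e : φ s = φ t) : IsConj (s : G) t := by
  have si : (s : G)⁻¹ = s := inv_eq_of_mul_eq_one_right s2
  obtain ⟨a, ha, o, ho, e1⟩ := (mem_sup_of_norm (le_normalizer.trans h.nO)).1
    ((h.ker (s⁻¹ * t)).1 (by rw [map_mul, map_inv, e, inv_mul_cancel]))
  have e2 : (t : G) = s * a * o := by rw [mul_assoc, e1]; simp
  have m1 : (s : G) * a * (s : G)⁻¹ ∈ A := conj_mem_of_mem_normalizer s.2 ha
  have m2 : (s : G) * o * (s : G)⁻¹ ∈ O := conj_mem_of_mem_normalizer (h.nO s.2) ho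
  have e3 : (s : G) * a * (s : G)⁻¹ * a * ((s : G) * o * (s : G)⁻¹ * o) = 1 := by
    rw [← t2, e2, mul_assoc _ a, ← mul_assoc a, h.comm ha m2]
    calc _ = (s : G) * a * o * ((s : G)⁻¹ * a * o) := by group
      _ = _ := by rw [si]
  have e4 : (s : G) * a * (s : G)⁻¹ * a = 1 := h.disj (mul_mem m1 ha)
    (by rw [eq_inv_of_mul_eq_one_left e3]; exact inv_mem (mul_mem m2 ho))
  rw [e4, one_mul] at e3
  have e5 : a * s = s * a := by
    have := eq_inv_of_mul_eq_one_left e4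
    rw [inv_eq_of_mul_eq_one_right (h.sq a ha), mul_inv_eq_iff_eq_mul] at this
    exact this.symm
  obtain ⟨b, hb, e6⟩ := h.comm_onto s1 s2 ha e5
  obtain ⟨k, hk⟩ : Odd (orderOf o) := Nat.coprime_two_right.1
    (Nat.Coprime.coprime_dvd_left (orderOf_dvd_natCard O ho) h.odd)
  have e7 : o ^ (k + 1) * o ^ (k + 1) = o := by
    rw [← pow_add, show k + 1 + (k + 1) = 2 * k + 1 + 1 by ring, ← hk, pow_succ, pow_orderOf_eq_one,
      one_mul]
  have e8 : (o ^ (k + 1))⁻¹ = s * o ^ (k + 1) * (s : G)⁻¹ := by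
    rw [← conj_pow, eq_inv_of_mul_eq_one_left e3, inv_pow]
  refine isConj_iff.2 ⟨b * (o ^ (k + 1))⁻¹, ?_⟩
  calc b * (o ^ (k + 1))⁻¹ * s * (b * (o ^ (k + 1))⁻¹)⁻¹
      = b * ((o ^ (k + 1))⁻¹ * s * o ^ (k + 1)) * b⁻¹ := by group
    _ = b * s * ((o ^ (k + 1) * o ^ (k + 1)) * b⁻¹) := by rw [e8]; simp only [mul_assoc, inv_mul_cancel_left]
    _ = t := by rw [e7, ← h.comm (inv_mem hb) ho, ← mul_assoc, e6, e2]

theorem Cx.conj_out (h : Cx A O φ) {s t : G} (sN : s ∈ 𝐍 A) (tN : t ∈ 𝐍 A) (s1 : s ∉ A ⊔ O)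
    (t1 : t ∉ A ⊔ O) (s2 : s * s = 1) (t2 : t * t = 1) : IsConj s t := by
  have a1 : φ ⟨s, sN⟩ ≠ 1 := fun e => s1 ((h.ker _).1 e)
  have b1 : φ ⟨t, tN⟩ ≠ 1 := fun e => t1 ((h.ker _).1 e)
  obtain ⟨g, hg⟩ := a5_conj a1
    (by rw [← map_mul, show (⟨s, sN⟩ * ⟨s, sN⟩ : 𝐍 A) = 1 from Subtype.ext s2, map_one]) b1
    (by rw [← map_mul, show (⟨t, tN⟩ * ⟨t, tN⟩ : 𝐍 A) = 1 from Subtype.ext t2, map_one])
  obtain ⟨n, rfl⟩ := h.surj g
  have e : φ (n * ⟨s, sN⟩ * n⁻¹) = φ ⟨t, tN⟩ := by rw [map_mul, map_mul, map_inv, hg]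
  refine (isConj_iff.2 ⟨(n : G), rfl⟩).trans (h.conj_same (e ▸ b1) ?_ t2 e)
  calc (n : G) * s * (n : G)⁻¹ * (n * s * (n : G)⁻¹) = n * (s * s) * (n : G)⁻¹ := by group
    _ = 1 := by rw [s2]; group

theorem Cx.five_dvd (h : Cx A O φ) {a : G} (ha : a ∈ A) (a1 : a ≠ 1) :
    5 ∣ (centralizer ({a} : Set G)).relIndex (𝐍 A) := by
  haveI : Fact (Nat.Prime 5) := ⟨by norm_num⟩
  set C := (centralizer ({a} : Set G)).subgroupOf (𝐍 A)
  have h1 : (C.map φ).index = C.index := index_map_eq _ h.surj fun n hn =>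
    mem_centralizer_singleton_iff.2 (h.MC ((h.ker n).1 hn) a ha).symm
  have h2 := (C.map φ).card_mul_index
  rw [card_a5, h1] at h2
  rcases (Nat.Prime.dvd_mul Fact.out).1 (show 5 ∣ Nat.card (C.map φ) * C.index by
    rw [h2]; norm_num) with h3 | h3
  · obtain ⟨_, ⟨n, hn, rfl⟩, h4⟩ := exists_orderOf_eq_of_dvd h3
    exact absurd (h.five h4 ha (mem_centralizer_singleton_iff.1 hn).symm) a1
  · exact h3

theorem Cx.two_classes (h : Cx A O φ) {T : Subgroup G} (hT : SylIn 2 T (𝐍 A))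
    (hz : ∀ x ∈ T ⊓ 𝐂 T, ∀ y ∈ T ⊓ 𝐂 T, x ≠ 1 → y ≠ 1 → x = y) :
    ∃ u v : G, ∀ a ∈ A, a ≠ 1 → IsConj a u ∨ IsConj a v := by
  have hAT : A ≤ T := hT.le_of_norm h.pg le_normalizer hT.le
  have odd : ∀ a ∈ A, a ≠ 1 → ¬ 2 ∣ (centralizer ({a} : Set G)).relIndex (𝐍 A) →
      ∃ z ∈ T ⊓ 𝐂 T, z ≠ 1 ∧ IsConj a z := fun a ha a1 h2 => by
    obtain ⟨R, hR⟩ := exists_sylIn 2 (centralizer ({a} : Set G) ⊓ 𝐍 A)
    have hR' : SylIn 2 R (𝐍 A) := sylIn_of_not_dvd (hR.le.trans inf_le_right) hR.pg fun h3 => by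
      rw [← relIndex_mul_relIndex R _ _ hR.le inf_le_right, inf_relIndex_right] at h3
      exact ((Nat.Prime.dvd_mul Nat.prime_two).1 h3).elim hR.not_dvd h2
    obtain ⟨g, hg, e⟩ := hR'.exists_conj hT
    refine ⟨g * a * g⁻¹, ⟨hAT (conj_mem_of_mem_normalizer hg ha), ?_⟩, by simpa using a1,
      isConj_iff.2 ⟨g, rfl⟩⟩
    rw [← e, ← cj_centralizer]
    exact conj_mem_cj.2 fun x hx => mem_centralizer_singleton_iff.1 (hR.le hx).1
  have sub : ∀ a ∈ A, ({x | ∃ n ∈ 𝐍 A, n * a * n⁻¹ = x} : Set G) ⊆ A := by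
    rintro a ha _ ⟨n, hn, rfl⟩
    exact conj_mem_of_mem_normalizer hn ha
  have cA : (A : Set G).ncard = 16 := h.card
  have ev : ∀ a ∈ A, a ≠ 1 → 2 ∣ (centralizer ({a} : Set G)).relIndex (𝐍 A) →
      ({x | ∃ n ∈ 𝐍 A, n * a * n⁻¹ = x} : Set G).ncard = 10 := fun a ha a1 h2 => by
    have h3 := Set.ncard_le_ncard (sub a ha)
    have h4 := h.five_dvd ha a1
    have h5 := relIndex_ne_zero (centralizer ({a} : Set G)) (𝐍 A)
    rw [orb] at h3 ⊢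
    omega
  have ev2 : ∀ a ∈ A, a ≠ 1 → 2 ∣ (centralizer ({a} : Set G)).relIndex (𝐍 A) →
      ∀ b ∈ A, b ≠ 1 → 2 ∣ (centralizer ({b} : Set G)).relIndex (𝐍 A) → IsConj a b :=
    fun a ha a1 a2 b hb b1 b2 => by
      by_contra hn
      have h3 := Set.ncard_union_eq (s := {x | ∃ n ∈ 𝐍 A, n * a * n⁻¹ = x})
        (t := {x | ∃ n ∈ 𝐍 A, n * b * n⁻¹ = x}) (Set.disjoint_left.2 (by
          rintro x ⟨n, -, e⟩ ⟨m, -, e'⟩
          exact hn ((isConj_iff.2 ⟨n, e⟩).trans (isConj_iff.2 ⟨m, e'⟩).symm)))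
      have h4 := Set.ncard_le_ncard (Set.union_subset (sub a ha) (sub b hb))
      rw [h3, ev a ha a1 a2, ev b hb b1 b2] at h4
      omega
  obtain ⟨u, hu⟩ : ∃ u, ∀ z ∈ T ⊓ 𝐂 T, z ≠ 1 → z = u := by
    by_cases e : ∃ u ∈ T ⊓ 𝐂 T, u ≠ 1
    · obtain ⟨u, u1, u2⟩ := e
      exact ⟨u, fun z z1 z2 => hz z z1 u u1 z2 u2⟩
    · exact ⟨1, fun z z1 z2 => absurd ⟨z, z1, z2⟩ e⟩
  obtain ⟨v, hv⟩ : ∃ v, ∀ a ∈ A, a ≠ 1 → 2 ∣ (centralizer ({a} : Set G)).relIndex (𝐍 A) →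
      IsConj a v := by
    by_cases e : ∃ b ∈ A, b ≠ 1 ∧ 2 ∣ (centralizer ({b} : Set G)).relIndex (𝐍 A)
    · obtain ⟨b, hb, b1, b2⟩ := e
      exact ⟨b, fun a ha a1 a2 => ev2 a ha a1 a2 b hb b1 b2⟩
    · exact ⟨1, fun a ha a1 a2 => absurd ⟨a, ha, a1, a2⟩ e⟩
  refine ⟨u, v, fun a ha a1 => ?_⟩
  by_cases e : 2 ∣ (centralizer ({a} : Set G)).relIndex (𝐍 A)
  · exact Or.inr (hv a ha a1 e)
  · obtain ⟨z, z1, z2, z3⟩ := odd a ha a1 e
    exact Or.inl (hu z z1 z2 ▸ z3)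

theorem Cx.mem_A (h : Cx A O φ) {x : G} {k : ℕ} (hk : x ^ 2 ^ k = 1) (hx : x ∈ A ⊔ O) : x ∈ A := by
  obtain ⟨a, ha, o, ho, rfl⟩ := (mem_sup_of_norm (le_normalizer.trans h.nO)).1 hx
  have c : Commute a o := h.comm ha ho
  rw [c.mul_pow] at hk
  have h1 : o ^ 2 ^ k = 1 := h.disj (by
    rw [eq_inv_of_mul_eq_one_right hk]; exact inv_mem (pow_mem ha _)) (pow_mem ho _)
  have h2 : orderOf o = 1 := Nat.Coprime.eq_one_of_dvd
    ((Nat.Coprime.coprime_dvd_left (orderOf_dvd_natCard O ho) h.odd).pow_right k)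
    (orderOf_dvd_of_pow_eq_one h1)
  rw [orderOf_eq_one_iff.1 h2, mul_one]
  exact ha

end CA.H13O4
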