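import Cfsg.Agent.Lib.Grp.H7Ext
import Cfsg.Agent.Lib.Lin.PSL2Cl2
import Cfsg.Agent.Lib.Odd.BGCore

/-! Radical subgroups of an extraspecial Sylow subgroup of order `p ^ 3`. -/

set_option autoImplicit false
set_option linter.unusedSectionVars false

namespace CA.H13Xp

open Subgroup Cfsg CA.BG CA.H7Ext Matrix CA.PGL2Act CA.KleinCount
open scoped MatrixGroups commutatorElement

section lin
variable {F : Type*} [Field F]

theorem dich [Finite F] (h2 : (2 : F) ≠ 0) (H : Subgroup PGL(2, F)) (hH : (Nat.card H : F) ≠ 0) :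
    (∀ s t : H, s ^ 2 ≠ 1 → t ^ 2 ≠ 1 → s * t = t * s) ∨
    ∃ T : Finset H, T.card ≤ 6 ∧ ∀ s : H, s ^ 2 ≠ 1 → s ^ 3 ≠ 1 → s ^ 5 ≠ 1 → s ^ 4 = 1 ∧ s ∈ T := by
  classical
  have alt : ∀ {n : ℕ}, (∀ σ : Equiv.Perm (Fin n), σ.sign = 1 → σ ^ 2 = 1 ∨ σ ^ 3 = 1 ∨ σ ^ 5 = 1) →
      (H ≃* alternatingGroup (Fin n)) → ∃ T : Finset H, T.card ≤ 6 ∧
        ∀ s : H, s ^ 2 ≠ 1 → s ^ 3 ≠ 1 → s ^ 5 ≠ 1 → s ^ 4 = 1 ∧ s ∈ T := fun h e =>
    ⟨∅, by simp, fun s a b c => by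
      have k : ∀ m, (e s).1 ^ m = 1 → s ^ m = 1 := fun m h =>
        e.injective (by rw [map_pow, map_one]; exact Subtype.ext h)
      rcases h (e s).1 (e s).2 with h | h | h
      exacts [absurd (k _ h) a, absurd (k _ h) b, absurd (k _ h) c]⟩
  rcases PSL2Cl2.dicksonPGL H with ⟨x, hx⟩ | ⟨h, -⟩ | ⟨n, -, -, ⟨e⟩⟩ | ⟨-, ⟨e⟩⟩ | ⟨-, ⟨e⟩⟩ | ⟨-, ⟨e⟩⟩ |
    ⟨K, _, _, ι, γ, -, h⟩
  · obtain ⟨χ, hχ⟩ := exists_inj_of_not_uni H x fun g hg =>
      hH ((uni_pow_eq_one_iff (uni_coe_iff.1 hg) _).1 (congrArg Subtype.val (pow_card_eq_one' (x := g))))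
    exact .inl fun s t _ _ => congrArg Subtype.val (hχ (a₁ := ⟨s, hx s s.2⟩ * ⟨t, hx t t.2⟩)
      (a₂ := ⟨t, hx t t.2⟩ * ⟨s, hx s s.2⟩) (by rw [map_mul, map_mul, mul_comm]))
  · exact .inl fun s t _ _ => h.isMulCommutative.is_comm.comm s t
  · refine .inl fun s t a b => e.injective ?_
    have k : ∀ s : H, s ^ 2 ≠ 1 → ∃ i, e s = DihedralGroup.r i := fun s a => by
      rcases h : e s with i | i
      · exact ⟨i, rfl⟩
      · exact absurd (e.injective (by rw [map_pow, map_one, h, sq, DihedralGroup.sr_mul_self])) a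
    obtain ⟨i, hi⟩ := k s a
    obtain ⟨j, hj⟩ := k t b
    simp [hi, hj, add_comm]
  · exact .inr (alt (by decide +kernel) e)
  · refine .inr ⟨(Finset.univ.filter fun σ : Equiv.Perm (Fin 4) => σ ^ 2 ≠ 1 ∧ σ ^ 3 ≠ 1).map
      e.symm.toEquiv.toEmbedding, by rw [Finset.card_map]; decide +kernel, fun s a b _ => ?_⟩
    have k : ∀ m, e s ^ m = 1 ↔ s ^ m = 1 := fun m => by rw [← map_pow, e.map_eq_one_iff]
    have a' := mt (k 2).1 a
    have b' := mt (k 3).1 b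
    refine ⟨(k 4).1 ((by decide +kernel : ∀ σ : Equiv.Perm (Fin 4), σ ^ 2 ≠ 1 → σ ^ 3 ≠ 1 → σ ^ 4 = 1)
      _ a' b'), Finset.mem_map.2 ⟨e s, Finset.mem_filter.2 ⟨Finset.mem_univ _, a', b'⟩, by simp⟩⟩
  · exact .inr (alt (by decide +kernel) e)
  · have h0 : (Nat.card K : F) = 0 := by
      rw [← map_natCast ι, Nat.card_eq_fintype_card, FiniteField.cast_card_eq_zero, map_zero]
    have h1 : Nat.card H = Nat.card (PSL2Cl2.cj γ H) := (card_cj γ H).symm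
    refine absurd ?_ hH
    rcases h with h | ⟨h3, h⟩
    · rw [h1, h, PSL2Cl2.card_map_range, Nat.cast_mul, h0, zero_mul]
    · have := congrArg (Nat.cast : ℕ → F) (PSL2Cl2.card_piS ι h3)
      rw [Nat.cast_mul, Nat.cast_mul, h0, zero_mul, ← h, ← h1] at this
      exact (mul_eq_zero.1 this).resolve_left h2

/-- the determinant of two vectors -/
def cr (u v : Fin 2 → F) : F := u 0 * v 1 - u 1 * v 0

theorem cr_smul (c : F) (u v : Fin 2 → F) : cr (c • u) v = c * cr u v := by simp [cr]; ring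

theorem cr_self (u : Fin 2 → F) : cr u u = 0 := by simp [cr, mul_comm]

theorem cr_mulVec (g : Matrix (Fin 2) (Fin 2) F) (u v : Fin 2 → F) :
    cr (g *ᵥ u) (g *ᵥ v) = g.det * cr u v := by
  simp [cr, mulVec, dotProduct, det_fin_two]; ring

theorem of_cr {u v : Fin 2 → F} (hu : u ≠ 0) (h : cr u v = 0) : ∃ c : F, v = c • u := by
  by_cases a : u 0 = 0
  · have b : u 1 ≠ 0 := fun b => hu (funext (Fin.forall_fin_two.2 ⟨a, b⟩))
    refine ⟨v 1 / u 1, funext (Fin.forall_fin_two.2 ⟨?_, by simp [b]⟩)⟩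
    simpa [cr, a, b] using h
  · refine ⟨v 0 / u 0, funext (Fin.forall_fin_two.2 ⟨by simp [a], ?_⟩)⟩
    simp only [cr] at h
    simp only [Pi.smul_apply, smul_eq_mul]
    field_simp
    linear_combination h

theorem scal {g : GL (Fin 2) F} {u v w : Fin 2 → F} (h1 : cr u v ≠ 0) (h2 : cr u w ≠ 0) (h3 : cr v w ≠ 0)
    (a : cr (g.1 *ᵥ u) u = 0) (b : cr (g.1 *ᵥ v) v = 0) (c : cr (g.1 *ᵥ w) w = 0) :
    ProjGenLinGroup.mk g = 1 := by
  have h := mul_ne_zero (mul_ne_zero h1 h2) h3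
  simp only [cr, mulVec, dotProduct, Fin.sum_univ_two] at a b c h
  have e1 : g.1 1 0 = 0 := (mul_eq_zero.1 (by
    linear_combination -(v 1 * w 1 * (v 0 * w 1 - v 1 * w 0)) * a + u 1 * w 1 * (u 0 * w 1 - u 1 * w 0) * b -
      u 1 * v 1 * (u 0 * v 1 - u 1 * v 0) * c)).resolve_right h
  have e2 : g.1 0 1 = 0 := (mul_eq_zero.1 (by
    linear_combination v 0 * w 0 * (v 0 * w 1 - v 1 * w 0) * a - u 0 * w 0 * (u 0 * w 1 - u 1 * w 0) * b +
      u 0 * v 0 * (u 0 * v 1 - u 1 * v 0) * c)).resolve_right h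
  have e3 : g.1 0 0 - g.1 1 1 = 0 := (mul_eq_zero.1 (by
    linear_combination -((v 0 * w 1 + v 1 * w 0) * (v 0 * w 1 - v 1 * w 0)) * a +
      (u 0 * w 1 + u 1 * w 0) * (u 0 * w 1 - u 1 * w 0) * b -
      (u 0 * v 1 + u 1 * v 0) * (u 0 * v 1 - u 1 * v 0) * c)).resolve_right h
  refine ProjGenLinGroup.mk_eq_one.2 (mem_center_iff.2 fun k => Units.ext ?_)
  ext i j
  fin_cases i <;> fin_cases j <;> simp [mul_apply, e1, e2, sub_eq_zero.1 e3, mul_comm]

theorem mk_eq {g h : GL (Fin 2) F} (e : ProjGenLinGroup.mk g = ProjGenLinGroup.mk h) :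
    ∃ c : F, c ≠ 0 ∧ h.1 = c • g.1 := by
  obtain ⟨u, rfl⟩ := ProjGenLinGroup.mk_eq_mk_iff.1 e
  refine ⟨u, u.ne_zero, ?_⟩
  ext i j
  simp [mul_comm]

theorem lin [Finite F] (h2 : (2 : F) ≠ 0) (H : Subgroup PGL(2, F)) (hH : (Nat.card H : F) ≠ 0) {a : F}
    (a0 : a ≠ 0) (a6 : a ^ 6 ≠ 1) (a9 : a ^ 9 ≠ 1) (a15 : a ^ 15 ≠ 1) {I : Type*} [Fintype I]
    (hI : 3 ≤ Fintype.card I) (v : I → Fin 2 → F) (M : I → GL (Fin 2) F) (v0 : ∀ i, v i ≠ 0)
    (hv : ∀ i j, i ≠ j → ∀ c : F, v j ≠ c • v i) (hM : ∀ i, ProjGenLinGroup.mk (M i) ∈ H)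
    (h1 : ∀ i, (M i).1 *ᵥ v i = a⁻¹ • v i) (h3 : ∀ i, (M i).1.det = a) :
    a ^ 12 = 1 ∧ Fintype.card I ≤ 12 := by
  classical
  let s : I → H := fun i => ⟨_, hM i⟩
  have hc : ∀ i j, i ≠ j → cr (v i) (v j) ≠ 0 := fun i j h e =>
    (of_cr (v0 i) e).elim fun c => hv i j h c
  have pw : ∀ i k, s i ^ k = 1 → a ^ (3 * k) = 1 := fun i k h => by
    obtain ⟨c, -, hc⟩ := mk_eq (g := 1) (h := M i ^ k) (by
      rw [map_pow, map_one]; exact (congrArg Subtype.val h).symm)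
    have e1 : (M i ^ k).1 *ᵥ v i = a⁻¹ ^ k • v i := by
      clear hc h
      induction k with
      | zero => simp
      | succ k ih => rw [pow_succ, Units.val_mul, ← mulVec_mulVec, h1, mulVec_smul, ih, smul_smul, pow_succ']
    have e2 := congrArg det hc
    rw [Units.val_pow_eq_pow_val, det_pow, h3, det_smul, Units.val_one, det_one] at e2
    rw [hc, Units.val_one, smul_mulVec, one_mulVec] at e1
    rw [smul_left_injective F (v0 i) e1] at e2
    simp only [Fintype.card_fin, mul_one, inv_pow] at e2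
    field_simp at e2
    rw [← e2]
    ring
  have s2 : ∀ i, s i ^ 2 ≠ 1 := fun i e => a6 (pw i 2 e)
  have s1 : ∀ i, ProjGenLinGroup.mk (M i) ≠ 1 := fun i e => s2 i (by rw [show s i = 1 from Subtype.ext e, one_pow])
  have ev : ∀ i, cr ((M i).1 *ᵥ v i) (v i) = 0 := fun i => by rw [h1, cr_smul, cr_self, mul_zero]
  rcases dich h2 H hH with h | ⟨T, t1, t2⟩
  · obtain ⟨i, j, k, b1, b2, b3⟩ := Fintype.two_lt_card_iff.1 hI
    have key : ∀ i j, cr ((M j).1 *ᵥ v i) (v i) = 0 := fun i j => by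
      obtain ⟨c, -, e⟩ := mk_eq (g := M j * M i) (h := M i * M j) (by
        rw [map_mul, map_mul]; exact congrArg Subtype.val (h (s j) (s i) (s2 j) (s2 i)))
      have e1 := congrArg det e
      have e2 := congrArg (· *ᵥ v i) e
      simp only [Units.val_mul, det_mul, det_smul, h3, Fintype.card_fin, ← mulVec_mulVec, smul_mulVec, h1,
        mulVec_smul] at e1 e2
      have e3 := cr_mulVec (M i).1 ((M j).1 *ᵥ v i) (v i)
      rw [e2, h1, h3, cr_smul, cr_smul] at e3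
      by_contra n
      have e4 : cr ((M j).1 *ᵥ v i) (a⁻¹ • v i) = a⁻¹ * cr ((M j).1 *ᵥ v i) (v i) := by simp [cr]; ring
      rw [e4, ← mul_assoc, ← mul_assoc] at e3
      have e5 := mul_right_cancel₀ n e3
      have e6 : c ^ 2 = 1 := mul_right_cancel₀ (mul_ne_zero a0 a0) (e1.symm.trans (one_mul _).symm)
      field_simp at e5
      exact a6 (by rw [← e6, e5]; ring)
    exact absurd (scal (hc _ _ b1) (hc _ _ b2) (hc _ _ b3) (key i i) (key j i) (key k i)) (s1 i)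
  have t3 := fun i => t2 (s i) (s2 i) (fun e => a9 (pw i 3 e)) fun e => a15 (pw i 5 e)
  obtain ⟨i⟩ : Nonempty I := Fintype.card_pos_iff.1 (by omega)
  refine ⟨pw i 4 (t3 i).1, (Finset.card_le_mul_card_image_of_maps_to (s := Finset.univ) (f := s)
    (fun i _ => (t3 i).2) 2 fun t _ => ?_).trans (by omega)⟩
  by_contra! n
  obtain ⟨i, j, k, c1, c2, c3, b1, b2, b3⟩ := Finset.two_lt_card_iff.1 n
  have key : ∀ j ∈ Finset.univ.filter (s · = t), cr ((M i).1 *ᵥ v j) (v j) = 0 := fun j hj => by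
    obtain ⟨c, -, e⟩ := mk_eq (g := M j) (h := M i) (congrArg Subtype.val
      ((Finset.mem_filter.1 hj).2.trans (Finset.mem_filter.1 c1).2.symm))
    rw [e, smul_mulVec, cr_smul, ev, mul_zero]
  exact s1 i (scal (hc _ _ b1) (hc _ _ b2) (hc _ _ b3) (key i c1) (key j c2) (key k c3))

end lin

variable {G : Type*} [Group G] [Finite G] {p : ℕ} [hp : Fact p.Prime] {P : Subgroup G}
  {V : Type*} [AddCommGroup V] [Module (ZMod p) V] (c : Cov p P V)

theorem swap (x y : P) : x * y * x⁻¹ = c.ζ (c.b (c.π x) (c.π y)) * y := by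
  rw [c.ζ_b, commutatorElement_def, inv_mul_cancel_right]

theorem exists_conj (hz : center P = zpowers (c.ζ 1)) {y : P} (hy : c.π y ≠ 0) (t : ZMod p) :
    ∃ u : P, u * y * u⁻¹ = c.ζ t * y := by
  obtain ⟨v, hv⟩ : ∃ v, c.b (c.π y) v ≠ 0 := by
    by_contra! h
    exact hy (c.nondeg_iff.2 hz _ h)
  refine ⟨c.s ((-t / c.b (c.π y) v) • v), ?_⟩
  rw [swap c, c.π_s]
  congr 2
  change c.B _ _ = t
  rw [LinearMap.map_smul₂]
  change _ * c.b v _ = t
  rw [c.b_symm (c.π y) v]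
  field_simp

theorem line (hP : Syl p P ⊤) (hz : center P = zpowers (c.ζ 1)) {h : G} {x y : P}
    (hx : h * c.ζ 1 * h⁻¹ = x) (hy : h * y * h⁻¹ = c.ζ 1) (x0 : c.π x ≠ 0) {a : ZMod p} (a0 : a ≠ 0) :
    ∃ (n : G) (hn : n ∈ 𝓝(P)), (∀ i, P.normalizerMonoidHom ⟨n, hn⟩ (c.ζ i) = c.ζ (a * i)) ∧
      c.π (P.normalizerMonoidHom ⟨n, hn⟩ x) = a⁻¹ • c.π x := by
  have ξ0 : ∀ j, h * c.ζ j * h⁻¹ = (x ^ j.val : P) := fun j => by
    rw [c.ζ_eq j, coe_pow, coe_pow, ← hx, conj_pow]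
  let e : ZMod p → ZMod p → G := fun i j => c.ζ i * (h * c.ζ j * h⁻¹)
  have em : ∀ i j k l, e i j * e k l = e (i + k) (j + l) := fun i j k l => by
    simp only [e, c.ζ_add, coe_mul]
    rw [mul_assoc, ← mul_assoc (h * _ * _), ξ0 j, ← coe_mul, ← c.cent, coe_mul, ← ξ0]
    group
  let Act : G → (ZMod p → ZMod p → ZMod p) → (ZMod p → ZMod p → ZMod p) → Prop := fun g f f' =>
    ∀ i j, g * e i j * g⁻¹ = e (f i j) (f' i j)
  have am : ∀ {g g' f₁ f₂ f₃ f₄}, Act g f₁ f₂ → Act g' f₃ f₄ →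
      Act (g * g') (fun i j => f₁ (f₃ i j) (f₄ i j)) fun i j => f₂ (f₃ i j) (f₄ i j) :=
    fun {g g' _ _ _ _} a b i j => by rw [← a, ← b]; group
  have zc : ∀ (u : P) i, (u : G) * c.ζ i * (u : G)⁻¹ = c.ζ i := fun u i => by
    rw [← coe_mul, ← c.cent, coe_mul, mul_inv_cancel_right]
  have pw : ∀ (u w : P) t (j : ZMod p), u * w * u⁻¹ = c.ζ t * w →
      (u : G) * (w ^ j.val : P) * (u : G)⁻¹ = c.ζ (t * j) * (w ^ j.val : P) := fun u w t j e => by
    have : u * w ^ j.val * u⁻¹ = c.ζ (t * j) * w ^ j.val := by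
      rw [← conj_pow, e, (show Commute _ w from c.cent t w).mul_pow, ← c.ζ_nsmul]
      simp [mul_comm]
    exact congrArg Subtype.val this
  have up : ∀ (u : P) t, u * x * u⁻¹ = c.ζ t * x → Act u (fun i j => i + t * j) fun _ j => j :=
    fun u t a i j => by
      simp only [e, ξ0, c.ζ_add, coe_mul]
      rw [mul_assoc (c.ζ i : G), ← pw u x t j a, ← zc u i, zc u i]
      conv_rhs => rw [← zc u i]
      group
  have y0 : c.π y ≠ 0 := fun b => by
    obtain ⟨k, rfl⟩ := (c.ker y).1 b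
    have := congrArg c.π (Subtype.ext ((ξ0 k).symm.trans hy))
    rw [c.π_pow, c.π_ζ, ← Nat.cast_smul_eq_nsmul (ZMod p), smul_eq_zero_iff_left x0, ZMod.natCast_val,
      ZMod.cast_id', id] at this
    rw [this, c.ζ_zero] at hy
    exact one_ne_zero (c.ζ_eq_one.1 (Subtype.ext (by simpa using hy.symm)))
  have lo : ∀ t, ∃ g, Act g (fun i _ => i) fun i j => j + t * i := fun t => by
    obtain ⟨u, hu⟩ := exists_conj c hz y0 t
    refine ⟨h * u * h⁻¹, fun i j => ?_⟩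
    have e1 : (c.ζ i : G) = h * (y ^ i.val : P) * h⁻¹ := by
      rw [c.ζ_eq i, coe_pow, coe_pow, ← hy, conj_pow]
    have e2 := pw u y t i hu
    calc _ = h * (u * (y ^ i.val : P) * (u : G)⁻¹) * (u * c.ζ j * (u : G)⁻¹) * h⁻¹ := by
          simp only [e, e1]; group
      _ = h * (c.ζ (t * i) * y ^ i.val * c.ζ j : P) * h⁻¹ := by rw [e2, zc]; simp only [coe_mul, mul_assoc]
      _ = _ := by
          rw [c.cent, mul_assoc (y ^ _), ← c.ζ_add, add_comm]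
          simp only [e, e1, coe_mul]
          group
  choose u hu using fun t => exists_conj c hz x0 t
  choose l hl using lo
  have hg := am (am (am (up _ _ (hu a)) (hl (-a⁻¹))) (up _ _ (hu a)))
    (am (am (up _ _ (hu (-1))) (hl 1)) (up _ _ (hu (-1))))
  generalize (u a : G) * l (-a⁻¹) * u a * (u (-1) * l 1 * u (-1)) = g at hg
  replace hg : Act g (fun i _ => a * i) fun _ j => a⁻¹ * j := fun i j => by
    rw [hg]
    congr 1 <;> field_simp <;> ring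
  have hg' : Act g⁻¹ (fun i _ => a⁻¹ * i) fun _ j => a * j := fun i j => by
    have := hg (a⁻¹ * i) (a * j)
    simp only [mul_inv_cancel_left₀ a0, inv_mul_cancel_left₀ a0] at this
    rw [← this]
    group
  let K : Subgroup G :=
    { carrier := {k | ∃ t, Act k (fun i j => i + t * j) fun _ j => j}
      one_mem' := ⟨0, fun i j => by simp⟩
      mul_mem' := fun ⟨s, a⟩ ⟨t, b⟩ => ⟨s + t, fun i j => by rw [am a b]; congr 1; ring⟩
      inv_mem' := fun {k} ⟨t, a⟩ => ⟨-t, fun i j => by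
        have := a (i + -t * j) j
        simp only [neg_mul, neg_add_cancel_right] at this
        simp only [neg_mul]
        rw [← this]
        group⟩ }
  have PK : P ≤ K := fun w hw => ⟨_, up ⟨w, hw⟩ _ (swap c _ _)⟩
  have gK : cj g P ≤ K := by
    rintro _ ⟨w, hw, rfl⟩
    obtain ⟨t, ht⟩ := PK hw
    refine ⟨a ^ 2 * t, fun i j => (am (am hg ht) hg' i j).trans ?_⟩
    congr 1 <;> field_simp
  obtain ⟨k, ⟨t, hk⟩, e1⟩ := ((hP.cj_mem (mem_top g)).of_le gK le_top).syl_conj hp.1 (hP.of_le PK le_top)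
  have e2 := am hk hg
  refine ⟨k * g, mem_norm_iff_cj.2 (by rw [cj_mul, e1]), fun i => Subtype.ext ?_, ?_⟩
  · simpa [e, c.ζ_zero] using e2 i 0
  · have e3 := e2 0 1
    simp only [e, c.ζ_zero, hx, coe_one, one_mul, mul_one] at e3
    rw [ξ0] at e3
    rw [show P.normalizerMonoidHom ⟨k * g, _⟩ x = c.ζ _ * x ^ (a⁻¹).val from Subtype.ext e3, c.π_mul,
      c.π_ζ, zero_add, c.π_pow, ← Nat.cast_smul_eq_nsmul (ZMod p), ZMod.natCast_val, ZMod.cast_id', id]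

theorem ar1 {p : ℕ} (a : p.Prime) (b : 11 ≤ p) (c : p ≤ 15 + 1) (d : p - 1 ∣ 15) : False := by
  interval_cases p <;> first | omega | norm_num at a

theorem ar2 {p : ℕ} (b : 11 ≤ p) (c : p ≤ 12 + 1) (d : p - 1 ∣ 12) : p = 13 := by
  interval_cases p <;> omega

theorem main (c : Cov p P (Fin 2 → ZMod p)) (hP : Syl p P ⊤) (hz : center P = zpowers (c.ζ 1))
    (h11 : 11 ≤ p) {I : Type*} [Fintype I] (hI : 3 ≤ Fintype.card I) (x : I → P)
    (x0 : ∀ i, c.π (x i) ≠ 0) (hv : ∀ i j, i ≠ j → ∀ t : ZMod p, c.π (x j) ≠ t • c.π (x i))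
    (hx : ∀ i, ∃ (h : G) (y : P), h * c.ζ 1 * h⁻¹ = x i ∧ h * y * h⁻¹ = c.ζ 1) :
    p = 13 ∧ Fintype.card I ≤ 12 := by
  have cz : ∀ (φ : MulAut P) y, c.π y = 0 → c.π (φ y) = 0 := fun φ y h => c.mem_zpowers_iff.1
    (hz ▸ characteristic_iff_map_le.1 inferInstance φ ⟨y, hz ▸ c.mem_zpowers_iff.2 h, rfl⟩)
  have h1 : ∀ (φ : MulAut P) y, c.π (φ (c.s (c.π y))) = c.π (φ y) := fun φ y => by
    obtain ⟨a, ha⟩ := c.π_eq_iff.1 (c.π_s (c.π y))
    rw [ha, map_mul, c.π_mul, cz φ _ (c.π_ζ a), add_zero]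
  let L : MulAut P → Module.End (ZMod p) (Fin 2 → ZMod p) := fun φ =>
    (AddMonoidHom.mk' (fun v => c.π (φ (c.s v))) fun u v => by
      rw [← c.π_mul, ← map_mul, ← h1 φ (c.s u * c.s v), c.π_mul, c.π_s, c.π_s]).toZModLinearMap p
  have hL : ∀ φ y, L φ (c.π y) = c.π (φ y) := h1
  let L' : MulAut P →* Module.End (ZMod p) (Fin 2 → ZMod p) :=
    { toFun := L
      map_one' := LinearMap.ext fun v => c.π_s v
      map_mul' := fun φ ψ => LinearMap.ext fun v => (hL φ _).symm }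
  let ρ : 𝓝(P) →* GL (Fin 2) (ZMod p) :=
    (GeneralLinearGroup.toLin.symm.toMonoidHom.comp L'.toHomUnits).comp P.normalizerMonoidHom
  have hρ : ∀ n y, (ρ n).1 *ᵥ c.π y = c.π (P.normalizerMonoidHom n y) := fun n y => by
    rw [← hL]
    exact LinearMap.toMatrix'_mulVec _ _
  let τ := ProjGenLinGroup.mk.comp ρ
  have h2 : (Nat.card τ.range : ZMod p) ≠ 0 := fun e => by
    rw [ZMod.natCast_eq_zero_iff, ← index_ker] at e
    refine hP.idx p hp.1 (e.trans ((index_dvd_of_le (H := P.subgroupOf 𝓝(P)) fun n hn => ?_).trans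
      (Dvd.intro _ (relIndex_mul_relIndex _ _ _ le_normalizer le_top)))) rfl
    have : ρ n = 1 := Units.ext (toLin'.injective (LinearMap.ext fun v => by
      rw [← c.π_s v, toLin'_apply, hρ, show P.normalizerMonoidHom n (c.s v) = ⟨n, hn⟩ * c.s v * ⟨n, hn⟩⁻¹ from rfl,
        swap c, c.π_mul, c.π_ζ, zero_add]
      simp))
    change ProjGenLinGroup.mk (ρ n) = 1
    rw [this, map_one]
  obtain ⟨a, ha⟩ := IsCyclic.exists_ofOrder_eq_natCard (α := (ZMod p)ˣ)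
  rw [Nat.card_eq_fintype_card, ZMod.card_units] at ha
  have h3 : ∀ k, (a : ZMod p) ^ k = 1 → p - 1 ∣ k := fun k h =>
    ha ▸ orderOf_dvd_of_pow_eq_one (Units.ext h)
  have h4 : ∀ k, 0 < k → p - 1 ∣ k → p ≤ k + 1 := fun k a b => by
    have := Nat.le_of_dvd a b
    omega
  have hb : ∀ u v, c.b u v = cr u v * c.b (Pi.single 0 1) (Pi.single 1 1) := fun u v => by
    change c.B u v = _
    have e : ∀ u : Fin 2 → ZMod p, u = u 0 • Pi.single 0 1 + u 1 • Pi.single 1 1 := fun u => by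
      ext i; fin_cases i <;> simp
    have e1 : ∀ u, c.B u u = 0 := c.b_self
    have e2 : c.B (Pi.single 1 1) (Pi.single 0 1) = -c.b (Pi.single 0 1) (Pi.single 1 1) := c.b_symm _ _
    have e3 : c.B (Pi.single 0 1) (Pi.single 1 1) = c.b (Pi.single 0 1) (Pi.single 1 1) := rfl
    rw [e u, e v]
    simp only [map_add, map_smul, LinearMap.add_apply, LinearMap.smul_apply, e1, e2, e3, smul_eq_mul]
    rw [← e, ← e, cr]
    ring
  have b0 : c.b (Pi.single 0 1) (Pi.single 1 1) ≠ 0 := fun e => by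
    have := c.nondeg_iff.2 hz (Pi.single 0 1) fun v => by rw [hb, e, mul_zero]
    simpa using congrFun this 0
  choose n hn n1 n2 using fun i => (hx i).elim fun h e => e.elim fun y e =>
    line c hP hz e.1 e.2 (x0 i) a.ne_zero
  have h5 := lin (fun e => by
      have := Nat.le_of_dvd two_pos ((ZMod.natCast_eq_zero_iff 2 p).1 e)
      omega) τ.range h2 a.ne_zero (fun e => by have := h4 _ (by norm_num) (h3 _ e); omega)
    (fun e => by have := h4 _ (by norm_num) (h3 _ e); omega) (fun e => by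
      have e1 := h3 _ e
      have e2 := h4 _ (by norm_num) e1
      exact ar1 hp.1 h11 e2 e1) hI (fun i => c.π (x i)) (fun i => ρ ⟨n i, hn i⟩) x0 hv
    (fun i => ⟨_, rfl⟩) (fun i => (hρ _ _).trans (n2 i)) fun i => by
      have e := n1 i (c.b (c.π (c.s (Pi.single 0 1))) (c.π (c.s (Pi.single 1 1))))
      rw [c.ζ_b, map_commutatorElement, ← c.ζ_b, ← hρ, ← hρ, hb, cr_mulVec, c.π_s, c.π_s] at e
      simpa [cr, b0] using c.inj e
  have e1 := h3 _ h5.1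
  have e2 := h4 _ (by norm_num) e1
  exact ⟨ar2 h11 e2 e1, h5.2⟩

theorem main' (c : Cov p P (Fin 2 → ZMod p)) (hP : Syl p P ⊤) (hz : center P = zpowers (c.ζ 1))
    (h11 : 11 ≤ p) {I : Type*} [Fintype I] (hI : 3 ≤ Fintype.card I) (x : I → P)
    (x0 : ∀ i, c.π (x i) ≠ 0) (hv : ∀ i j, i ≠ j → ∀ t : ZMod p, c.π (x j) ≠ t • c.π (x i))
    (hx : ∀ i, ∃ g : G, g * c.ζ 1 * g⁻¹ = x i) : p = 13 ∧ Fintype.card I ≤ 12 := by
  refine main c hP hz h11 hI x x0 hv fun i => ?_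
  obtain ⟨g, hg⟩ := hx i
  have h1 : cj g P ≤ centralizer {(x i : G)} := by
    rintro _ ⟨w, hw, rfl⟩
    rw [mem_centralizer_singleton_iff, ← hg]
    have : w * c.ζ 1 = c.ζ 1 * w := (congrArg Subtype.val (c.cent 1 ⟨w, hw⟩)).symm
    change g * w * g⁻¹ * _ = _ * (g * w * g⁻¹)
    rw [conj_mul, conj_mul, this]
  obtain ⟨k, hk, e⟩ := ((hP.cj_mem (mem_top g)).of_le h1 le_top).syl_conj_le hp.1
    (K := zpowers (c.ζ 1 : G)) (hP.pi.of_le (zpowers_le.2 (c.ζ 1).2)) (zpowers_le.2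
      (mem_centralizer_singleton_iff.2 (congrArg Subtype.val (c.cent 1 (x i)))))
  obtain ⟨y, hy, e1⟩ := mem_cj'.1 (e (conj_mem_cj.2 (mem_zpowers _)))
  rw [mem_centralizer_singleton_iff] at hk
  refine ⟨k⁻¹ * g, ⟨y, hy⟩, ?_, ?_⟩
  · rw [show k⁻¹ * g * c.ζ 1 * (k⁻¹ * g)⁻¹ = k⁻¹ * (g * c.ζ 1 * g⁻¹ * k) by group, hg, ← hk]
    group
  · rw [show k⁻¹ * g * y * (k⁻¹ * g)⁻¹ = k⁻¹ * (g * y * g⁻¹) * k by group, e1]
    group

theorem exists_cov (hE : IsExtraspecial p P) (h : ♯P = p ^ 3) :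
    ∃ c : Cov p P (Fin 2 → ZMod p), center P = zpowers (c.ζ 1) := by
  obtain ⟨n, c, h1, -⟩ := exists_cov_extra hE
  have h2 := c.card_eq'
  rw [h, Module.finrank_fin_fun] at h2
  obtain rfl : n = 2 := by have := Nat.pow_right_injective hp.1.two_le h2; omega
  exact ⟨c, h1⟩

end CA.H13Xp
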