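import Mathlib

/-! A finite group acting faithfully on `F²` additively and containing `SL₂(F)`: axes and root groups. -/

set_option autoImplicit false
open Matrix MatrixGroups Subgroup

namespace CA.H19Nat

variable {F : Type*} [Field F] {Γ : Type*} [Group Γ] [DistribMulAction Γ (Fin 2 → F)]

variable (F) in
structure NatL (L : Subgroup Γ) : Prop where
  faith : ∀ g : Γ, (∀ v : Fin 2 → F, g • v = v) → g = 1
  lin : ∀ l ∈ L, ∃ A : SL(2, F), ∀ v : Fin 2 → F, l • v = A.1 *ᵥ v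
  surj : ∀ A : SL(2, F), ∃ l ∈ L, ∀ v : Fin 2 → F, l • v = A.1 *ᵥ v

variable (F) in
/-- the axis `g • (F e₁)` -/
def ax (g : Γ) : AddSubgroup (Fin 2 → F) where
  carrier := {v | (g⁻¹ • v) 1 = 0}
  add_mem' := by
    intro a b ha hb
    simp only [Set.mem_setOf_eq] at *
    rw [smul_add, Pi.add_apply, ha, hb, add_zero]
  zero_mem' := by simp
  neg_mem' := by
    intro a ha
    simp only [Set.mem_setOf_eq] at *
    rw [smul_neg, Pi.neg_apply, ha, neg_zero]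

theorem mem_ax {g : Γ} {v : Fin 2 → F} : v ∈ ax F g ↔ (g⁻¹ • v) 1 = 0 := Iff.rfl

theorem mem_ax_one {v : Fin 2 → F} : v ∈ ax F (1 : Γ) ↔ v 1 = 0 := by simp [mem_ax]

theorem smul_mem_ax {g h : Γ} {v : Fin 2 → F} : h • v ∈ ax F (h * g) ↔ v ∈ ax F g := by
  simp [mem_ax, mul_smul]

variable (Γ) in
def K (W : AddSubgroup (Fin 2 → F)) : Subgroup Γ where
  carrier := {k | (∀ v, k • v - v ∈ W) ∧ ∀ w ∈ W, k • w = w}
  mul_mem' := by
    rintro a b ⟨ha, ha'⟩ ⟨hb, hb'⟩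
    refine ⟨fun v => ?_, fun w hw => by rw [mul_smul, hb' w hw, ha' w hw]⟩
    have := W.add_mem (ha (b • v)) (hb v)
    rwa [sub_add_sub_cancel, ← mul_smul] at this
  one_mem' := ⟨fun v => by simp, fun w _ => one_smul _ _⟩
  inv_mem' := by
    rintro a ⟨ha, ha'⟩
    refine ⟨fun v => ?_, fun w hw => by rw [inv_smul_eq_iff, ha' w hw]⟩
    have := W.neg_mem (ha (a⁻¹ • v))
    rwa [neg_sub, smul_inv_smul] at this

variable (Γ) in
def St (W : AddSubgroup (Fin 2 → F)) : Subgroup Γ where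
  carrier := {g | ∀ v, g • v ∈ W ↔ v ∈ W}
  mul_mem' := fun ha hb v => by rw [mul_smul, ha, hb]
  one_mem' := fun v => by rw [one_smul]
  inv_mem' := fun {a} ha v => by rw [← ha, smul_inv_smul]

theorem conj_K {g h k : Γ} (hk : k ∈ K Γ (ax F g)) : h * k * h⁻¹ ∈ K Γ (ax F (h * g)) := by
  refine ⟨fun v => ?_, fun w hw => ?_⟩
  · have := (smul_mem_ax (h := h)).2 (hk.1 (h⁻¹ • v))
    rwa [smul_sub, smul_inv_smul, ← mul_smul, ← mul_smul] at this
  · rw [← smul_inv_smul h w, smul_mem_ax] at hw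
    rw [mul_smul, mul_smul, hk.2 _ hw, smul_inv_smul]

theorem ax_mul_eq {n : Γ} (hn : n ∈ St Γ (ax F (1 : Γ))) : ax F n = ax F (1 : Γ) := by
  ext v
  rw [← (St Γ _).inv_mem hn v, ← smul_mem_ax (h := n⁻¹), inv_mul_cancel]

theorem mem_St {n : Γ} (hn : ax F n = ax F (1 : Γ)) : n ∈ St Γ (ax F (1 : Γ)) := fun v => by
  rw [← smul_mem_ax (h := n) (v := v), mul_one, hn]

variable {L : Subgroup Γ}

theorem NatL.smul_comm (h : NatL F L) {l : Γ} (hl : l ∈ L) (a : F) (v : Fin 2 → F) :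
    l • (a • v) = a • (l • v) := by
  obtain ⟨A, hA⟩ := h.lin l hl
  rw [hA, hA, mulVec_smul]

theorem NatL.trans (h : NatL F L) {v : Fin 2 → F} (hv : v ≠ 0) : ∃ l ∈ L, l • (![1, 0] : Fin 2 → F) = v := by
  by_cases h0 : v 0 = 0
  · have h1 : v 1 ≠ 0 := fun h1 => hv (by ext i; fin_cases i <;> simp [h0, h1])
    obtain ⟨l, hl, e⟩ := h.surj ⟨!![v 0, -(v 1)⁻¹; v 1, 0], by simp [det_fin_two, h1]⟩
    exact ⟨l, hl, by rw [e]; ext i; fin_cases i <;> simp⟩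
  · obtain ⟨l, hl, e⟩ := h.surj ⟨!![v 0, 0; v 1, (v 0)⁻¹], by simp [det_fin_two, h0]⟩
    exact ⟨l, hl, by rw [e]; ext i; fin_cases i <;> simp⟩

theorem NatL.up (h : NatL F L) (c : F) : ∃ l ∈ L, l ∈ K Γ (ax F (1 : Γ)) ∧
    ∀ v : Fin 2 → F, l • v = ![v 0 + c * v 1, v 1] := by
  obtain ⟨l, hl, e⟩ := h.surj ⟨!![1, c; 0, 1], by simp [det_fin_two]⟩
  have e' : ∀ v : Fin 2 → F, l • v = ![v 0 + c * v 1, v 1] := fun v => by
    rw [e]; ext i; fin_cases i <;> simp [mulVec, dotProduct, Fin.sum_univ_two]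
  refine ⟨l, hl, ⟨fun v => ?_, fun w hw => ?_⟩, e'⟩
  · rw [mem_ax_one, e']; simp
  · rw [mem_ax_one] at hw
    rw [e']; ext i; fin_cases i <;> simp [hw]

theorem NatL.semi (h : NatL F L) {n : Γ} (hn : n ∈ normalizer (L : Set Γ)) (a : F) :
    ∃ c : F, ∀ v : Fin 2 → F, n • (a • v) = c • (n • v) := by
  let f : (Fin 2 → F) → (Fin 2 → F) := fun v => n • (a • (n⁻¹ • v))
  have hf : ∀ l ∈ L, ∀ v, f (l • v) = l • f v := fun l hl v => by
    have hl' : n⁻¹ * l * n ∈ L := by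
      have := (mem_normalizer_iff.1 ((normalizer (L : Set Γ)).inv_mem hn) l).1 hl
      simpa using this
    have e : n⁻¹ • l • v = (n⁻¹ * l * n) • n⁻¹ • v := by simp [mul_smul]
    simp only [f]
    rw [e, ← h.smul_comm hl', mul_smul, mul_smul, smul_inv_smul]
  obtain ⟨u, hu, -, e⟩ := h.up 1
  have h1 : f ![1, 0] 1 = 0 := by
    have h2 : u • (![1, 0] : Fin 2 → F) = ![1, 0] := by rw [e]; simp
    have := congrFun (hf u hu ![1, 0]) 0
    rw [h2, e] at this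
    simpa using this
  have h2 : f ![1, 0] = f ![1, 0] 0 • ![1, 0] := by ext i; fin_cases i <;> simp [h1]
  have h3 : ∀ v, f v = f ![1, 0] 0 • v := fun v => by
    by_cases hv : v = 0
    · simp [f, hv]
    · obtain ⟨l, hl, rfl⟩ := h.trans hv
      rw [hf l hl, ← h.smul_comm hl, ← h2]
  exact ⟨_, fun v => by rw [← h3]; simp [f]⟩

theorem NatL.lin_fix (h : NatL F L) {n : Γ} (hn : n ∈ normalizer (L : Set Γ))
    (hW : ∀ w ∈ ax F (1 : Γ), n • w = w) {v : Fin 2 → F} (hv : v ∉ ax F (1 : Γ)) (hf : n • v = v) :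
    n = 1 := by
  refine h.faith n fun u => ?_
  rw [mem_ax_one] at hv
  obtain ⟨c, hc⟩ := h.semi hn (u 1 / v 1)
  have e1 : c = u 1 / v 1 := by
    have := hc ![1, 0]
    rw [hW _ (by simp [mem_ax_one]), hW _ (by simp [mem_ax_one])] at this
    simpa using (congrFun this 0).symm
  have e2 : u = (u - (u 1 / v 1) • v) + (u 1 / v 1) • v := by simp
  rw [e2, smul_add, hW _ (by simp [mem_ax_one, hv]), hc, hf, e1]

variable {p : ℕ} [Fact p.Prime] [CharP F p]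

omit [Fact p.Prime] in
theorem NatL.K_p (h : NatL F L) (W : AddSubgroup (Fin 2 → F)) : IsPGroup p (K Γ W) := by
  intro k
  refine ⟨1, Subtype.ext (h.faith _ fun v => ?_)⟩
  have : ∀ m : ℕ, (k : Γ) ^ m • v = v + m • ((k : Γ) • v - v) := fun m => by
    induction m with
    | zero => simp
    | succ m ih =>
      rw [pow_succ', mul_smul, ih, smul_add, k.2.2 _ (W.nsmul_mem (k.2.1 v) m), succ_nsmul]
      abel
  rw [pow_one, Subgroup.coe_pow, this]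
  ext i
  simp

variable [Finite F] [Finite Γ]

theorem NatL.exists_S (h : NatL F L)
    (hS : ∀ Q : Subgroup Γ, IsPGroup p Q → Q ≤ L → ∃ S : Sylow p Γ, Q ≤ S ∧ (S : Subgroup Γ) ≤ normalizer (L : Set Γ)) :
    ∃ S : Sylow p Γ, (S : Subgroup Γ) ≤ normalizer (L : Set Γ) ∧ (S : Subgroup Γ) ≤ St Γ (ax F (1 : Γ)) ∧
      K Γ (ax F (1 : Γ)) ≤ S ∧ ∃ v0 : Fin 2 → F, v0 0 ≠ 0 ∧ v0 1 = 0 ∧ ∀ s ∈ (S : Subgroup Γ), s • v0 = v0 := by
  obtain ⟨S, hQ, hN⟩ := hS (K Γ (ax F (1 : Γ)) ⊓ L) ((h.K_p _).to_inf_left) inf_le_right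
  have hdvd : p ∣ Nat.card (Fin 2 → F) := by
    haveI := Fintype.ofFinite F
    obtain ⟨n, -, hn⟩ := FiniteField.card F p
    rw [Nat.card_fun, Nat.card_eq_fintype_card, hn]
    exact dvd_pow (dvd_pow_self _ n.2.ne') (by simp)
  obtain ⟨v0, hv0, hne⟩ := S.2.exists_fixed_point_of_prime_dvd_card_of_fixed_point (Fin 2 → F) hdvd
    (a := 0) (fun s => smul_zero _)
  have hfix : ∀ s ∈ (S : Subgroup Γ), s • v0 = v0 := fun s hs => hv0 ⟨s, hs⟩
  obtain ⟨u, hu, hu', e⟩ := h.up 1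
  have h1 : v0 1 = 0 := by
    have := congrFun (hfix u (hQ ⟨hu', hu⟩)) 0
    rw [e] at this
    simpa using this
  have h0 : v0 0 ≠ 0 := fun h0 => hne (by ext i; fin_cases i <;> simp [h0, h1])
  have hW : ∀ s ∈ (S : Subgroup Γ), ∀ v ∈ ax F (1 : Γ), s • v ∈ ax F (1 : Γ) := fun s hs v hv => by
    rw [mem_ax_one] at *
    obtain ⟨c, hc⟩ := h.semi (hN hs) (v 0 / v0 0)
    have : v = (v 0 / v0 0) • v0 := by ext i; fin_cases i <;> simp [h0, h1, hv]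
    rw [this, hc, hfix s hs]; simp [h1]
  have hSt : (S : Subgroup Γ) ≤ St Γ (ax F (1 : Γ)) := fun s hs v =>
    ⟨fun hv => by simpa using hW _ ((S : Subgroup Γ).inv_mem hs) _ hv, hW s hs v⟩
  refine ⟨S, hN, hSt, ?_, v0, h0, h1, hfix⟩
  have hn : (S : Subgroup Γ) ≤ normalizer (K Γ (ax F (1 : Γ)) : Set Γ) := fun s hs => by
    have : ∀ s ∈ (S : Subgroup Γ), ∀ k ∈ K Γ (ax F (1 : Γ)), s * k * s⁻¹ ∈ K Γ (ax F (1 : Γ)) :=
      fun s hs k hk => by
        have := conj_K (h := s) hk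
        rwa [mul_one, ax_mul_eq (hSt hs)] at this
    refine mem_normalizer_iff.2 fun k => ⟨this s hs k, fun hk => ?_⟩
    simpa [mul_assoc] using this _ ((S : Subgroup Γ).inv_mem hs) _ hk
  have := S.3 (IsPGroup.to_sup_of_normal_right' S.2 (h.K_p _) hn) le_sup_left
  exact this ▸ le_sup_right

omit [Finite F] [Finite Γ] [CharP F p] [Fact p.Prime] in
theorem NatL.reg (h : NatL F L) (g : Γ) {v w : Fin 2 → F} (hv : v ∉ ax F g) (hw : w ∈ ax F g) :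
    ∃ t ∈ K Γ (ax F (1 : Γ)), t ∈ L ∧ (g * t * g⁻¹) • v = v + w := by
  rw [mem_ax] at hv hw
  obtain ⟨t, ht, ht', e⟩ := h.up ((g⁻¹ • w) 0 / (g⁻¹ • v) 1)
  refine ⟨t, ht', ht, ?_⟩
  rw [mul_smul, mul_smul, ← eq_inv_smul_iff, e, smul_add]
  ext i; fin_cases i <;> simp [hv, hw]

omit [Finite F] [Finite Γ] [CharP F p] [Fact p.Prime] in
theorem NatL.fix1 (h : NatL F L) (hK : K Γ (ax F (1 : Γ)) ≤ normalizer (L : Set Γ)) {g k : Γ}
    (hk : k ∈ K Γ (ax F g)) {v : Fin 2 → F} (hv : v ∉ ax F g) (hf : k • v = v) : k = 1 := by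
  have h1 := conj_K (h := g⁻¹) hk
  rw [inv_mul_cancel] at h1
  have := h.lin_fix (hK h1) h1.2 (v := g⁻¹ • v) (by rwa [← inv_mul_cancel g, smul_mem_ax])
    (by simp [mul_smul, hf])
  simpa [mul_eq_one_iff_eq_inv, inv_mul_eq_iff_eq_mul] using this

omit [Finite F] [Finite Γ] [CharP F p] [Fact p.Prime] in
theorem NatL.K_le (h : NatL F L) (hK : K Γ (ax F (1 : Γ)) ≤ normalizer (L : Set Γ)) :
    K Γ (ax F (1 : Γ)) ≤ L := fun k hk => by
  have hv : (![0, 1] : Fin 2 → F) ∉ ax F (1 : Γ) := by simp [mem_ax_one]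
  obtain ⟨t, ht, ht', e⟩ := h.reg 1 hv (hk.1 ![0, 1])
  have := h.fix1 hK ((K Γ _).mul_mem ((K Γ _).inv_mem ht) hk) hv
    (by rw [one_mul, inv_one, mul_one, add_sub_cancel] at e; rw [mul_smul, inv_smul_eq_iff, e])
  rwa [← inv_mul_eq_one.1 this]

end CA.H19Nat
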