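import Cfsg.Agent.Lib.Loc.H19Nat

/-! If `N(L)` contains a Sylow `p`-subgroup then `L = SL₂(F)` is normal or `|F| = 4`. -/

set_option autoImplicit false
open Matrix MatrixGroups Subgroup

namespace CA.H19Nat

variable {F : Type*} [Field F]

theorem fld {σ : F → F} (hm : ∀ x y, σ (x * y) = σ x * σ y) (ha : ∀ x y, σ (x + y) = σ x + σ y)
    (hq : ∀ x, σ (σ x - x) = σ x - x) {a : F} (hσ : σ a ≠ a) :
    (2 : F) = 0 ∧ σ (a * a + a * (σ a - a)) = a * a + a * (σ a - a) := by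
  obtain ⟨u, hu⟩ : ∃ u, σ a = a + u := ⟨σ a - a, by ring⟩
  have hu0 : u ≠ 0 := fun h => hσ (by rw [hu, h, add_zero])
  have hσu : σ u = u := by have := hq a; rwa [hu, add_sub_cancel_left] at this
  have h2 : (2 : F) = 0 := by
    have := hq (a * a)
    rw [hm a a, hu, show (a + u) * (a + u) - a * a = a * u + a * u + u * u by ring, ha, ha, hm, hm, hu,
      hσu] at this
    have h3 : 2 * (u * u) = 0 := by linear_combination this
    simpa [hu0] using h3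
  refine ⟨h2, ?_⟩
  rw [hu, add_sub_cancel_left, ha, hm, hm, hu, hσu]
  linear_combination (a * u + u * u) * h2

theorem fld2 {σ τ : F → F} (hm : ∀ x y, σ (x * y) = σ x * σ y) (ha : ∀ x y, σ (x + y) = σ x + σ y)
    (hq : ∀ x, σ (σ x - x) = σ x - x) (hm' : ∀ x y, τ (x * y) = τ x * τ y)
    (ha' : ∀ x y, τ (x + y) = τ x + τ y) (hf : ∀ x, σ x = x → τ x = x)
    {a : F} (hσ : σ a ≠ a) (hτ : τ a ≠ a) : τ a = σ a := by
  obtain ⟨h2, h⟩ := fld hm ha hq hσ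
  have h1 := hf _ h
  have h3 := hf _ (hq a)
  rw [ha', hm', hm', h3] at h1
  have : (τ a - a) * (τ a - σ a) = 0 := by
    linear_combination h1 + (a * σ a - τ a * σ a) * h2
  rcases mul_eq_zero.1 this with h | h
  · exact absurd (sub_eq_zero.1 h) hτ
  · exact sub_eq_zero.1 h

theorem fld4 [Finite F] {σ : F → F} (hm : ∀ x y, σ (x * y) = σ x * σ y)
    (ha : ∀ x y, σ (x + y) = σ x + σ y) (hq : ∀ x, σ (σ x - x) = σ x - x)
    (hf : ∀ x, σ x = x → x = 0 ∨ x = 1) {a : F} (hσ : σ a ≠ a) (h0 : σ 0 = 0) (h1 : σ 1 = 1) :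
    Nat.card F = 4 := by
  classical
  have key : ∀ x, σ x ≠ x → x * x + x = 1 := fun x hx => by
    obtain ⟨h2, h⟩ := fld hm ha hq hx
    have e : σ x - x = 1 := (hf _ (hq x)).resolve_left (sub_ne_zero.2 hx)
    rw [e, mul_one] at h
    refine (hf _ h).resolve_left fun h3 => ?_
    rcases mul_eq_zero.1 (show x * (x - 1) = 0 by linear_combination h3 - x * h2) with h4 | h4
    · exact hx (by rw [h4, h0])
    · exact hx (by rw [sub_eq_zero.1 h4, h1])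
  have h2 := (fld hm ha hq hσ).1
  have a0 : a ≠ 0 := fun h => hσ (by rw [h, h0])
  have a1 : a ≠ 1 := fun h => hσ (by rw [h, h1])
  have a2 : a + 1 ≠ 0 := fun h => a1 (by linear_combination h - h2)
  haveI := Fintype.ofFinite F
  have : (Finset.univ : Finset F) = {0, 1, a, a + 1} := by
    ext x
    simp only [Finset.mem_univ, Finset.mem_insert, Finset.mem_singleton, true_iff]
    by_cases hx : σ x = x
    · rcases hf x hx with h | h <;> simp [h]
    · rcases mul_eq_zero.1 (show (x - a) * (x - (a + 1)) = 0 by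
        linear_combination key x hx - key a hσ + (a * a + a - a * x - x) * h2) with h | h
      · exact Or.inr (Or.inr (Or.inl (sub_eq_zero.1 h)))
      · exact Or.inr (Or.inr (Or.inr (sub_eq_zero.1 h)))
  rw [Nat.card_eq_fintype_card, ← Finset.card_univ, this, Finset.card_insert_of_notMem (by
    simp [a0.symm, a2.symm]), Finset.card_insert_of_notMem (by simp [a1.symm, a0]),
    Finset.card_pair (by simp)]

variable {Γ : Type*} [Group Γ] [DistribMulAction Γ (Fin 2 → F)] {L : Subgroup Γ}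

theorem NatL.core [Finite F] (h : NatL F L) (hK : K Γ (ax F (1 : Γ)) ≤ normalizer (L : Set Γ))
    {S : Subgroup Γ} (hN : S ≤ normalizer (L : Set Γ)) {v0 : Fin 2 → F} (h0 : v0 0 ≠ 0) (h1 : v0 1 = 0)
    (hfix : ∀ s ∈ S, s • v0 = v0) {g : Γ} {w : Fin 2 → F} (hw : w ∈ ax F (1 : Γ)) (hw' : w ∉ ax F g)
    (ht : ∀ δ ∈ ax F (1 : Γ), δ ∈ ax F g → ∃ t ∈ K Γ (ax F g), t ∈ S ∧ t • w = w + δ)
    {δ : Fin 2 → F} (hδ : δ ∈ ax F (1 : Γ)) (hδ' : δ ∈ ax F g) (hδ0 : δ ≠ 0) : Nat.card F = 4 := by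
  have inj : ∀ x y : F, x • v0 = y • v0 → x = y := fun x y e => by
    simpa [h0] using congrFun e 0
  have rep : ∀ v ∈ ax F (1 : Γ), ∃ x : F, v = x • v0 := fun v hv => ⟨v 0 / v0 0, by
    rw [mem_ax_one] at hv
    ext i; fin_cases i <;> simp [h0, h1, hv]⟩
  obtain ⟨a, rfl⟩ := rep w hw
  have key : ∀ u : F, u ≠ 0 → u • v0 ∈ ax F g → ∃ σ : F → F, (∀ x y, σ (x * y) = σ x * σ y) ∧
      (∀ x y, σ (x + y) = σ x + σ y) ∧ (∀ x, σ (σ x - x) = σ x - x) ∧
      (∀ x, σ x = x ↔ x • v0 ∈ ax F g) ∧ σ a = a + u ∧ σ 1 = 1 := fun u hu hu' => by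
    obtain ⟨t, htK, htS, e⟩ := ht (u • v0) (by simp [mem_ax_one, h1]) hu'
    choose σ hσ using h.semi (hN htS)
    have hv : ∀ x, t • (x • v0) = σ x • v0 := fun x => by rw [hσ, hfix t htS]
    have hiff : ∀ x, σ x = x ↔ x • v0 ∈ ax F g := fun x => by
      refine ⟨fun hx => by_contra fun hn => hu ?_, fun hx => inj _ _ (by rw [← hv, htK.2 _ hx])⟩
      have := h.fix1 hK htK hn (by rw [hv, hx])
      rw [this, one_smul, left_eq_add] at e
      exact inj _ _ (by rw [e, zero_smul])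
    refine ⟨σ, fun x y => inj _ _ ?_, fun x y => inj _ _ ?_, fun x => ?_, hiff, inj _ _ ?_, inj _ _ ?_⟩
    · rw [← hv, mul_smul, hσ, hv, mul_smul]
    · rw [← hv, add_smul, smul_add, hv, hv, add_smul]
    · rw [hiff, sub_smul, ← hv]; exact htK.1 _
    · rw [← hv, e, add_smul]
    · rw [← hv, one_smul, hfix t htS]
  obtain ⟨u, rfl⟩ := rep δ hδ
  have hu : u ≠ 0 := fun h => hδ0 (by rw [h, zero_smul])
  obtain ⟨σ, hm, ha, hq, hf, e, e1⟩ := key u hu hδ'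
  have hσ : σ a ≠ a := fun h => hw' ((hf a).1 h)
  have uniq : ∀ x, x ≠ 0 → σ x = x → x = u := fun x hx hx' => by
    obtain ⟨τ, hm', ha', -, hf', e', -⟩ := key x hx ((hf x).1 hx')
    have := fld2 hm ha hq hm' ha' (fun y hy => (hf' y).2 ((hf y).1 hy)) hσ
      (fun h => hw' ((hf' a).1 h))
    rwa [e, e', add_left_cancel_iff] at this
  refine fld4 hm ha hq (fun x hx => ?_) hσ ((hf 0).2 (by simp)) e1
  by_cases hx0 : x = 0
  · exact Or.inl hx0
  · exact Or.inr ((uniq x hx0 hx).trans (uniq 1 one_ne_zero e1).symm)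

theorem NatL.normal (h : NatL F L) (hK : K Γ (ax F (1 : Γ)) ≤ normalizer (L : Set Γ))
    (hd : ∀ g : Γ, ax F g ≠ ax F (1 : Γ) → ∀ v ∈ ax F (1 : Γ), v ∈ ax F g → v = 0) : L.Normal := by
  have e1 : (![1, 0] : Fin 2 → F) ≠ 0 := fun h => by simpa using congrFun h 0
  have hc : ∀ g : Γ, ∀ k ∈ K Γ (ax F (1 : Γ)), g * k * g⁻¹ ∈ L := fun g k hk => by
    obtain ⟨l, hl, e⟩ := h.trans (v := g • ![1, 0]) (fun h => e1 ((smul_eq_zero_iff_eq g).1 h))
    have : ax F (l⁻¹ * g) = ax F (1 : Γ) := by_contra fun hn => e1 (hd _ hn _ (by simp [mem_ax_one]) (by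
      rw [mem_ax, _root_.mul_inv_rev, inv_inv, mul_smul, e, inv_smul_smul]; simp))
    have h2 := conj_K (h := l⁻¹ * g) hk
    rw [mul_one, this] at h2
    have h3 := L.mul_mem (L.mul_mem hl (h.K_le hK h2)) (L.inv_mem hl)
    simpa [mul_assoc] using h3
  have hle : normalClosure (K Γ (ax F (1 : Γ)) : Set Γ) ≤ L := by
    rw [normalClosure, closure_le]
    intro x hx
    obtain ⟨k, hk, hc'⟩ := Group.mem_conjugatesOfSet_iff.1 hx
    obtain ⟨g, rfl⟩ := isConj_iff.1 hc'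
    exact hc g k hk
  set N := normalClosure (K Γ (ax F (1 : Γ)) : Set Γ)
  have hN : ∀ (g : Γ) (v w : Fin 2 → F), v ∉ ax F g → w ∈ ax F g → ∃ n ∈ N, n • v = v + w :=
    fun g v w hv hw => by
      obtain ⟨t, ht, -, e⟩ := h.reg g hv hw
      exact ⟨_, (normalClosure_normal (s := (K Γ (ax F (1 : Γ)) : Set Γ))).conj_mem _
        (subset_normalClosure ht) g, e⟩
  obtain ⟨r, -, hr⟩ := h.surj ⟨!![0, 1; -1, 0], by simp [det_fin_two]⟩
  have hr' : ∀ v : Fin 2 → F, v ∈ ax F r⁻¹ ↔ v 0 = 0 := fun v => by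
    rw [mem_ax, inv_inv, hr]; simp [mulVec, dotProduct, Fin.sum_univ_two]
  have t1 : ∀ v : Fin 2 → F, v 1 ≠ 0 → ∃ n ∈ N, n • v = ![1, 0] := fun v hv => by
    obtain ⟨n, hn, e⟩ := hN 1 v ![1 - v 0, 0] (by rwa [mem_ax_one]) (by simp [mem_ax_one])
    obtain ⟨m, hm, e'⟩ := hN r⁻¹ (n • v) ![0, -v 1] (by rw [hr', e]; simp) (by simp [hr'])
    exact ⟨m * n, N.mul_mem hm hn, by rw [mul_smul, e', e]; ext i; fin_cases i <;> simp [vecHead, vecTail]⟩
  have t2 : ∀ v : Fin 2 → F, v ≠ 0 → ∃ n ∈ N, n • v = ![1, 0] := fun v hv => by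
    by_cases h1 : v 1 = 0
    · have h0 : v 0 ≠ 0 := fun h0 => hv (by ext i; fin_cases i <;> simp [h0, h1])
      obtain ⟨m, hm, e⟩ := hN r⁻¹ v ![0, 1] (by rwa [hr']) (by simp [hr'])
      obtain ⟨n, hn, e'⟩ := t1 (m • v) (by rw [e]; simp [h1])
      exact ⟨n * m, N.mul_mem hn hm, by rw [mul_smul, e']⟩
    · exact t1 v h1
  have hge : L ≤ N := fun l hl => by
    obtain ⟨n, hn, e⟩ := t2 (l • ![1, 0]) (fun h => e1 ((smul_eq_zero_iff_eq l).1 h))
    rw [← mul_smul] at e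
    obtain ⟨A, hA⟩ := h.lin _ (L.mul_mem (hle hn) hl)
    have hd := A.2
    rw [hA] at e
    have a0 : A.1 0 0 = 1 := by simpa [mulVec, dotProduct, Fin.sum_univ_two] using congrFun e 0
    have a1 : A.1 1 0 = 0 := by simpa [mulVec, dotProduct, Fin.sum_univ_two] using congrFun e 1
    rw [det_fin_two, a0, a1, mul_zero, sub_zero, one_mul] at hd
    have : n * l ∈ K Γ (ax F (1 : Γ)) := by
      refine ⟨fun v => ?_, fun w hw => ?_⟩
      · rw [mem_ax_one, hA]; simp [mulVec, dotProduct, Fin.sum_univ_two, a1, hd]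
      · rw [mem_ax_one] at hw
        rw [hA]; ext i; fin_cases i <;> simp [mulVec, dotProduct, Fin.sum_univ_two, a0, a1, hw]
    simpa using N.mul_mem (N.inv_mem hn) (subset_normalClosure this)
  rw [le_antisymm hge hle]
  exact normalClosure_normal

theorem NatL.main [Finite F] [Finite Γ] {p : ℕ} [Fact p.Prime] [CharP F p] (h : NatL F L)
    (hS : ∀ Q : Subgroup Γ, IsPGroup p Q → Q ≤ L →
      ∃ S : Sylow p Γ, Q ≤ S ∧ (S : Subgroup Γ) ≤ normalizer (L : Set Γ)) :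
    L.Normal ∨ Nat.card F = 4 := by
  obtain ⟨S, hN, hSt, hKS, v0, h0, h1, hfix⟩ := h.exists_S hS
  have hK := hKS.trans hN
  refine or_iff_not_imp_right.2 fun h4 => h.normal hK fun g0 hg0 v hv hv' => by_contra fun hv0 => h4 ?_
  let D : Γ → Set (Fin 2 → F) := fun g => (ax F (1 : Γ) : Set (Fin 2 → F)) ∩ ax F g
  obtain ⟨g, hg, hmax⟩ := Set.exists_max_image {g : Γ | ax F g ≠ ax F (1 : Γ)} (fun g => (D g).ncard)
    (Set.toFinite _) ⟨g0, hg0⟩
  obtain ⟨δ, ⟨hδ, hδ'⟩, hδ0⟩ : ∃ δ ∈ D g, δ ≠ 0 := by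
    refine Set.exists_ne_of_one_lt_ncard (lt_of_lt_of_le ?_ (hmax g0 hg0)) 0
    exact (Set.one_lt_ncard (Set.toFinite _)).2 ⟨v, ⟨hv, hv'⟩, 0, ⟨zero_mem _, zero_mem _⟩, hv0⟩
  obtain ⟨w, hw, hw'⟩ : ∃ w ∈ ax F (1 : Γ), w ∉ ax F g := by
    by_contra! hc
    have e : (ax F g : Set (Fin 2 → F)) = (fun v => g • v) '' (ax F (1 : Γ) : Set (Fin 2 → F)) := by
      ext v
      refine ⟨fun hv => ⟨g⁻¹ • v, ?_, smul_inv_smul _ _⟩, ?_⟩
      · exact mem_ax_one.2 hv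
      · rintro ⟨v, hv, rfl⟩
        simpa using (smul_mem_ax (h := g)).2 hv
    refine hg (SetLike.coe_injective (Set.eq_of_subset_of_ncard_le hc ?_ (Set.toFinite _)).symm)
    rw [e, Set.ncard_image_of_injective _ (MulAction.injective g)]
  have ht : ∀ δ ∈ ax F (1 : Γ), δ ∈ ax F g →
      ∃ t ∈ K Γ (ax F g) ⊓ St Γ (ax F (1 : Γ)), t • w = w + δ := fun δ hδ hδ' => by
    obtain ⟨t, ht, -, e⟩ := h.reg g hw' hδ'
    have ht' := conj_K (h := g) ht
    rw [mul_one] at ht'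
    refine ⟨_, ⟨ht', mem_St (by_contra fun hn => ?_)⟩, e⟩
    set s := g * t * g⁻¹
    refine (hmax s hn).not_gt (Set.ncard_lt_ncard ⟨fun x hx => ⟨hx.1, ?_⟩, fun hs => ?_⟩ (Set.toFinite _))
    · have := (smul_mem_ax (h := s)).2 hx.1
      rwa [mul_one, ht'.2 _ hx.2] at this
    · have := (smul_mem_ax (h := s)).2 hw
      rw [mul_one, e] at this
      exact hw' (by simpa using (ax F g).sub_mem (hs ⟨(ax F 1).add_mem hw hδ, this⟩).2 hδ')
  obtain ⟨P, hP⟩ := (((h.K_p (ax F g)).to_inf_left (K := St Γ (ax F (1 : Γ)))).comap_of_injective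
    (St Γ (ax F (1 : Γ))).subtype Subtype.val_injective).exists_le_sylow
  obtain ⟨n, hn⟩ := MulAction.exists_smul_eq (St Γ (ax F (1 : Γ))) P (S.subtype hSt)
  refine h.core hK hN h0 h1 hfix (g := n * g) (w := (n : Γ) • w) ((n.2 w).2 hw)
    (by rwa [smul_mem_ax]) (fun ε hε hε' => ?_) (δ := (n : Γ) • δ) ((n.2 δ).2 hδ)
    (smul_mem_ax.2 hδ') (fun h => hδ0 ((smul_eq_zero_iff_eq _).1 h))
  rw [← smul_inv_smul (n : Γ) ε] at hε hε'
  obtain ⟨t, ht1, e⟩ := ht _ ((n.2 _).1 hε) (smul_mem_ax.1 hε')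
  refine ⟨_, conj_K ht1.1, ?_, by rw [mul_smul, mul_smul, inv_smul_smul, e, smul_add, smul_inv_smul]⟩
  have h1 : (⟨t, ht1.2⟩ : St Γ (ax F (1 : Γ))) ∈ (P : Subgroup _) := hP ht1
  have h2 : n * ⟨t, ht1.2⟩ * n⁻¹ ∈ ((n • P : Sylow p _) : Subgroup _) := by
    rw [Sylow.coe_subgroup_smul]
    exact Subgroup.smul_mem_pointwise_smul _ (MulAut.conj n) _ h1
  rw [hn] at h2
  exact h2

end CA.H19Nat
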