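import Mathlib

/-! Subgroups of `A₈` containing a perfect group of order 60 that centralizes an element of order 3 and is
normalized by a Sylow 2-subgroup. -/

set_option autoImplicit false
open Equiv Equiv.Perm Subgroup

namespace CA.H19Nat

variable {α : Type*} [Fintype α] [DecidableEq α]

def AO (s : Finset α) : Subgroup (Perm α) :=
  (alternatingGroup s).map (Perm.ofSubtype : Perm s →* Perm α)

theorem mem_AO {s : Finset α} {k : Perm α} : k ∈ AO s ↔ sign k = 1 ∧ ∀ x, x ∉ s → k x = x := by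
  rw [AO, alternatingGroup.map_ofSubtype, mem_inf, mem_alternatingGroup, Perm.mem_range_ofSubtype_iff,
    and_comm]
  refine and_congr_right fun _ => ⟨fun h x hx => by_contra fun hn => hx (h (by simpa using hn)),
    fun h x hx => by_contra fun hn => (by simpa using hx : k x ≠ x) (h x hn)⟩

theorem AO_equiv {s : Finset α} {n : ℕ} (h : s.card = n) : Nonempty (AO s ≃* alternatingGroup (Fin n)) :=
  ⟨(equivMapOfInjective _ _ Perm.ofSubtype_injective).symm.trans (s.equivFinOfCardEq h).altCongrHom⟩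

theorem three {s : Finset α} {y a z : α} (hy : y ∈ s) (ha : a ∈ s) (hz : z ∈ s) (h1 : y ≠ a) (h2 : y ≠ z)
    (h3 : a ≠ z) : ∃ n ∈ AO s, n y = a := by
  refine ⟨swap y a * swap a z, mem_AO.2 ⟨by simp [h1, h3], fun x hx => ?_⟩, ?_⟩
  · have e1 : x ≠ y := fun h => hx (h ▸ hy)
    have e2 : x ≠ a := fun h => hx (h ▸ ha)
    have e3 : x ≠ z := fun h => hx (h ▸ hz)
    rw [mul_apply, swap_apply_of_ne_of_ne e2 e3, swap_apply_of_ne_of_ne e1 e2]
  · rw [mul_apply, swap_apply_of_ne_of_ne h1 h2, swap_apply_left]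

theorem trans_AO {s : Finset α} (hs : 3 ≤ s.card) {y a : α} (hy : y ∈ s) (ha : a ∈ s) :
    ∃ n ∈ AO s, n y = a := by
  by_cases h : y = a
  · exact ⟨1, one_mem _, h⟩
  obtain ⟨z, hz, hz'⟩ := Finset.exists_mem_notMem_of_card_lt_card (s := {y, a}) (t := s)
    (lt_of_le_of_lt Finset.card_le_two hs)
  simp only [Finset.mem_insert, Finset.mem_singleton, not_or] at hz'
  exact three hy ha hz h (Ne.symm hz'.1) (Ne.symm hz'.2)

theorem AO_mono {s t : Finset α} (h : s ⊆ t) : AO s ≤ AO t := fun _ hk =>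
  mem_AO.2 ⟨(mem_AO.1 hk).1, fun x hx => (mem_AO.1 hk).2 x fun hs => hx (h hs)⟩

theorem AO_insert {G : Subgroup (Perm α)} {A B : Finset α} (hA : AO A ≤ G) (hB : AO B ≤ G)
    (h3 : 3 ≤ A.card) {x a b : α} (hx : x ∈ B) (hxA : x ∉ A) (ha : a ∈ A ∩ B) (hb : b ∈ A ∩ B)
    (hab : a ≠ b) : AO (insert x A) ≤ G := fun k hk => by
  rw [Finset.mem_inter] at ha hb
  have fin : ∀ k ∈ AO (insert x A), k x = x → k ∈ G := fun k hk e => hA (mem_AO.2 ⟨(mem_AO.1 hk).1,
    fun y hy => if h : y = x then h ▸ e else (mem_AO.1 hk).2 y (by simp [h, hy])⟩)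
  by_cases e : k x = x
  · exact fin k hk e
  have hy : k x ∈ A := by_contra fun hn => e (k.injective ((mem_AO.1 hk).2 _ (by simp [e, hn])))
  obtain ⟨n, hn, en⟩ := trans_AO h3 hy ha.1
  have hax : a ≠ x := fun h => hxA (h ▸ ha.1)
  have hbx : b ≠ x := fun h => hxA (h ▸ hb.1)
  obtain ⟨m, hm, em⟩ := three (s := insert x A ∩ B) (y := a) (a := x) (z := b) (by simp [ha]) (by simp [hx])
    (by simp [hb]) hax hab hbx.symm
  have := fin (m * n * k) (mul_mem (mul_mem (AO_mono Finset.inter_subset_left hm)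
    (AO_mono (Finset.subset_insert _ _) hn)) hk) (by rw [mul_apply, mul_apply, en, em])
  exact (G.mul_mem_cancel_left (mul_mem (hB (AO_mono Finset.inter_subset_right hm)) (hA hn))).1 this

theorem AO_conj {A : Finset α} {g k : Perm α} (hk : k ∈ AO (A.map g.toEmbedding)) : g⁻¹ * k * g ∈ AO A := by
  rw [mem_AO] at *
  refine ⟨by simp [hk.1], fun x hx => ?_⟩
  rw [mul_apply, mul_apply, hk.2 (g x) (by simpa using hx)]
  simp

theorem AO_norm {A : Finset α} {g : Perm α} (h : ∀ x ∈ A, g x ∈ A) : g ∈ normalizer (AO A : Set (Perm α)) := by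
  have e : A.map g.toEmbedding = A := Finset.eq_of_subset_of_card_le
    (fun y hy => by obtain ⟨x, hx, rfl⟩ := Finset.mem_map.1 hy; exact h x hx) (by simp)
  refine mem_normalizer_fintype fun k hk => ?_
  have e' : A.map (g⁻¹).toEmbedding = A := by
    conv_lhs => rw [← e]
    ext x; simp [Perm.inv_def]
  simpa using AO_conj (g := g⁻¹) (e'.symm ▸ hk)

theorem fix_support {L : Subgroup (Perm α)} (hp : L ≤ ⁅L, L⁆) {c : Perm α} (hc : c.IsCycle)
    (hl : ∀ l ∈ L, l * c = c * l) : ∀ l ∈ L, ∀ x ∈ c.support, l x = x := by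
  have h1 : ∀ l ∈ L, ∀ x ∈ c.support, l x ∈ c.support := fun l h x hx => by
    rw [mem_support] at *
    rw [← mul_apply, ← hl l h, mul_apply]
    exact fun e => hx (l.injective e)
  have h2 : ∀ l ∈ L, ∀ (i : ℤ) x, l ((c ^ i) x) = (c ^ i) (l x) := fun l h i x => by
    rw [← mul_apply, ← mul_apply, (Commute.zpow_right (hl l h) i).eq]
  have h3 : ∀ l ∈ L, ∀ m ∈ L, ∀ x ∈ c.support, l (m x) = m (l x) := fun l h m h' x hx => by
    obtain ⟨i, hi⟩ := hc.exists_zpow_eq (mem_support.1 hx) (mem_support.1 (h1 l h x hx))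
    obtain ⟨j, hj⟩ := hc.exists_zpow_eq (mem_support.1 hx) (mem_support.1 (h1 m h' x hx))
    rw [← hj, h2 l h, ← hi, h2 m h', ← hj, ← mul_apply, ← mul_apply, zpow_mul_comm]
  have : ⁅L, L⁆ ≤ fixingSubgroup (Perm α) (c.support : Set α) := commutator_le.2 fun l h m h' => by
    rw [mem_fixingSubgroup_iff]
    intro x hx
    have := h3 l h m h' _ (h1 _ (L.inv_mem h) _ (h1 _ (L.inv_mem h') x hx))
    simpa [commutatorElement_def] using this
  exact fun l h x hx => (mem_fixingSubgroup_iff _).1 (this (hp h)) x hx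

theorem perm8 {G L : Subgroup (Perm (Fin 8))} (hG : G ≤ alternatingGroup _) (hLG : L ≤ G)
    (hL : Nat.card L = 60) (hp : L ≤ ⁅L, L⁆) {c : Perm (Fin 8)} (hc : orderOf c = 3)
    (hl : ∀ l ∈ L, l * c = c * l) (S : Sylow 2 G)
    (hS : ∀ s ∈ (S : Subgroup G), (s : Perm (Fin 8)) ∈ normalizer (L : Set (Perm (Fin 8)))) :
    G ≤ normalizer (L : Set (Perm (Fin 8))) ∨ Nonempty (G ≃* alternatingGroup (Fin 7)) := by
  have h3 : c.IsThreeCycle := by
    obtain ⟨n, hn⟩ := cycleType_prime_order (σ := c) (by rw [hc]; decide)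
    rw [hc] at hn
    have h1 := c.sum_cycleType ▸ c.support.card_le_univ
    rw [hn, Multiset.sum_replicate, Fintype.card_fin, smul_eq_mul] at h1
    obtain rfl | rfl : n = 0 ∨ n = 1 := by omega
    · exact hn
    · have h2 := card_dvd_of_le (show L ≤ centralizer {c} from fun l h =>
        mem_centralizer_singleton_iff.2 (hl l h))
      rw [nat_card_centralizer, hn, hL] at h2
      simp at h2
  set Ω := c.supportᶜ with hΩ
  have hΩ5 : Ω.card = 5 := by rw [hΩ, Finset.card_compl, h3.card_support]; rfl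
  have hLΩ : L = AO Ω := by
    refine eq_of_le_of_card_ge (fun l h => mem_AO.2 ⟨hG (hLG h), fun x hx =>
      fix_support hp h3.isCycle hl l h x (by simpa [hΩ] using hx)⟩) ?_
    rw [Nat.card_congr (AO_equiv hΩ5).some.toEquiv, nat_card_alternatingGroup, hL, Nat.card_fin]
    rfl
  obtain ⟨A, ⟨hA1, hA2⟩, hmax⟩ := Set.exists_max_image {A : Finset (Fin 8) | Ω ⊆ A ∧ AO A ≤ G}
    Finset.card (Set.toFinite _) ⟨Ω, subset_rfl, hLΩ ▸ hLG⟩
  have h5 : 5 ≤ A.card := hΩ5 ▸ Finset.card_le_card hA1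
  have h8 : A.card ≤ 8 := by simpa using A.card_le_univ
  have hst : ∀ g ∈ G, ∀ x ∈ A, g x ∈ A := fun g hg x hx => by_contra fun hn => by
    have hB : AO (A.map g.toEmbedding) ≤ G := fun k hk => by
      simpa [mul_assoc] using G.mul_mem (G.mul_mem hg (hA2 (AO_conj hk))) (G.inv_mem hg)
    have h2 : 1 < (A ∩ A.map g.toEmbedding).card := by
      have e1 := Finset.card_union_add_card_inter A (A.map g.toEmbedding)
      have e2 : (A ∪ A.map g.toEmbedding).card ≤ 8 := (Finset.card_le_univ _).trans_eq (Fintype.card_fin 8)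
      rw [Finset.card_map] at e1
      omega
    obtain ⟨a, ha, b, hb, hab⟩ := Finset.one_lt_card.1 h2
    have := hmax (insert (g x) A) ⟨hA1.trans (Finset.subset_insert _ _),
      AO_insert hA2 hB (by omega) (Finset.mem_map_of_mem _ hx) hn ha hb hab⟩
    rw [Finset.card_insert_of_notMem hn] at this
    omega
  by_cases e5 : A.card = 5
  · rw [← Finset.eq_of_subset_of_card_le hA1 (by omega)] at hst
    exact Or.inl fun g hg => hLΩ ▸ AO_norm (hst g hg)
  by_cases e7 : A.card = 7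
  · refine Or.inr ?_
    rw [le_antisymm (fun g hg => mem_AO.2 ⟨hG hg, fun x hx => ?_⟩) hA2]
    · exact AO_equiv e7
    have h1 : Aᶜ.card ≤ 1 := by rw [Finset.card_compl, e7]; rfl
    refine Finset.card_le_one.1 h1 _ (Finset.mem_compl.2 fun h => hx ?_) _ (Finset.mem_compl.2 hx)
    simpa using hst _ (G.inv_mem hg) _ h
  exfalso
  have hSΩ : ∀ s ∈ (S : Subgroup G), ∀ x ∈ Ω, (s : Perm (Fin 8)) x ∈ Ω := fun s hs x hx => by
    obtain ⟨y, hy, hyx⟩ := Finset.exists_mem_ne (s := Ω) (by omega) x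
    obtain ⟨n, hn, e⟩ := trans_AO (by omega) hx hy
    have := (mem_normalizer_iff.1 (hS s hs) n).1 (hLΩ ▸ hn)
    rw [hLΩ] at this
    by_contra hc
    have h2 := (mem_AO.1 this).2 _ hc
    simp [e, hyx] at h2
  let B : SubMulAction (S : Subgroup G) (Fin 8) :=
    ⟨(A \ Ω : Finset (Fin 8)), fun s x hx => by
      simp only [Finset.mem_coe, Finset.mem_sdiff] at *
      refine ⟨hst _ s.1.2 _ hx.1, fun h => hx.2 ?_⟩
      have := hSΩ _ (s⁻¹).2 _ h
      simpa [Subgroup.smul_def] using this⟩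
  have hB : Nat.card B = A.card - 5 := by
    rw [← hΩ5, ← Finset.card_sdiff_of_subset hA1, ← Nat.card_eq_finsetCard]; rfl
  obtain ⟨⟨x, hx⟩, hfx⟩ := S.2.nonempty_fixed_point_of_prime_not_dvd_card B (by rw [hB]; omega)
  have hxA : x ∈ A := (Finset.mem_sdiff.1 hx).1
  have hle : (S : Subgroup G) ≤ MulAction.stabilizer G x := fun s hs =>
    congrArg Subtype.val (hfx ⟨s, hs⟩)
  have horb : MulAction.orbit G x = (A : Set (Fin 8)) := by
    ext y
    refine ⟨fun ⟨g, hg⟩ => hg ▸ hst _ g.2 _ hxA, fun hy => ?_⟩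
    obtain ⟨n, hn, e⟩ := trans_AO (by omega) hxA hy
    exact ⟨⟨n, hA2 hn⟩, e⟩
  have := index_dvd_of_le hle
  rw [MulAction.index_stabilizer, horb, Set.ncard_coe_finset] at this
  exact S.not_dvd_index (Dvd.dvd.trans (by omega) this)

end CA.H19Nat
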