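import Cfsg.Agent.Lib.Loc.H19Nat2
import Cfsg.Agent.Lib.Loc.H19Nat3
import Cfsg.Agent.Lib.Lin.A8GL4

/-! Natural `SL₂(q)`-module with Sylow-embedded `SL₂(q)`: normal, or `q = 4` and `A₇`. -/

set_option autoImplicit false
open Matrix MatrixGroups Subgroup

namespace CA.H19Nat

variable {F : Type} [Field F] [Finite F] {Γ : Type*} [Group Γ] [DistribMulAction Γ (Fin 2 → F)] {L : Subgroup Γ}

/-- the action as `ZMod 2`-linear automorphisms -/
def toE (M : Type*) [AddCommGroup M] [Module (ZMod 2) M] (H : Type*) [Group H] [DistribMulAction H M] :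
    H →* (Module.End (ZMod 2) M)ˣ :=
  MonoidHom.toHomUnits
    { toFun := fun g => (DistribSMul.toAddMonoidHom M g).toZModLinearMap 2
      map_one' := LinearMap.ext fun v => one_smul H v
      map_mul' := fun a b => LinearMap.ext fun v => mul_smul a b v }

theorem toE_apply {M : Type*} [AddCommGroup M] [Module (ZMod 2) M] {H : Type*} [Group H]
    [DistribMulAction H M] (g : H) (v : M) : (toE M H g).1 v = g • v := rfl

theorem exists_a (h4 : Nat.card F = 4) : ∃ a : Fˣ, orderOf a = 3 := by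
  haveI : Fact (Nat.Prime 3) := ⟨by decide⟩
  exact exists_prime_orderOf_dvd_card' 3 (by rw [Nat.card_units, h4])

theorem NatL.exists_pi (h : NatL F L) [CharP F 2] (h4 : Nat.card F = 4) :
    ∃ (π : Γ →* Equiv.Perm (Fin 8)) (c : Equiv.Perm (Fin 8)), (∀ g, π g ∈ alternatingGroup (Fin 8)) ∧
      Function.Injective π ∧ orderOf c = 3 ∧ ∀ l ∈ L, π l * c = c * π l := by
  letI : Algebra (ZMod 2) F := ZMod.algebra F 2
  have hr : Module.finrank (ZMod 2) (Fin 2 → F) = 4 := by
    have := Module.natCard_eq_pow_finrank (K := ZMod 2) (V := Fin 2 → F)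
    rw [Nat.card_fun, h4, Nat.card_zmod, Nat.card_fin] at this
    exact Nat.pow_right_injective le_rfl (this.symm.trans (by norm_num))
  let b := Module.finBasisOfFinrankEq (ZMod 2) (Fin 2 → F) hr
  obtain ⟨e⟩ := A8GL4.nonempty_SL (F := ZMod 2) (Nat.card_zmod 2)
  let θ : (Module.End (ZMod 2) (Fin 2 → F))ˣ ≃* alternatingGroup (Fin 8) :=
    (Units.mapEquiv (LinearMap.toMatrixAlgEquiv b).toMulEquiv).trans
      ((A8GL4.slEquivGL (Nat.card_zmod 2)).symm.trans e)
  let θ' := (alternatingGroup (Fin 8)).subtype.comp θ.toMonoidHom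
  have hθ : Function.Injective θ' := Subtype.val_injective.comp θ.injective
  obtain ⟨a, ha⟩ := exists_a h4
  refine ⟨θ'.comp (toE _ Γ), θ' (toE _ Fˣ a), fun g => (θ _).2, hθ.comp ?_, ?_, fun l hl => ?_⟩
  · exact (injective_iff_map_eq_one _).2 fun g hg => h.faith g fun v => by rw [← toE_apply, hg]; rfl
  · rw [orderOf_injective _ hθ, orderOf_injective _ ((injective_iff_map_eq_one _).2 fun u hu => ?_), ha]
    have : u • (![1, 0] : Fin 2 → F) = ![1, 0] := by rw [← toE_apply, hu]; rfl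
    simpa [Units.smul_def] using congrFun this 0
  · rw [MonoidHom.comp_apply, ← map_mul, ← map_mul]
    exact congrArg θ' (Units.ext (LinearMap.ext fun v => h.smul_comm hl a v))

theorem NatL.main' [Finite Γ] {p : ℕ} [Fact p.Prime] [CharP F p] (h : NatL F L) (e : L ≃* SL(2, F))
    (hS : ∀ Q : Subgroup Γ, IsPGroup p Q → Q ≤ L →
      ∃ S : Sylow p Γ, Q ≤ S ∧ (S : Subgroup Γ) ≤ normalizer (L : Set Γ)) :
    L.Normal ∨ (Nat.card F = 4 ∧ Nonempty (Γ ≃* alternatingGroup (Fin 7))) := by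
  refine (h.main hS).elim Or.inl fun h4 => ?_
  obtain rfl : p = 2 := by
    haveI := Fintype.ofFinite F
    obtain ⟨n, hp, hn⟩ := FiniteField.card F p
    rw [← Nat.card_eq_fintype_card, h4] at hn
    exact (Nat.prime_dvd_prime_iff_eq hp Nat.prime_two).1 (hp.dvd_of_dvd_pow (n := 2)
      ((dvd_pow_self _ n.2.ne').trans (hn ▸ by norm_num)))
  obtain ⟨π, c, hA, hi, hc, hl⟩ := h.exists_pi h4
  obtain ⟨S, -, hN⟩ := hS ⊥ IsPGroup.of_bot bot_le
  have hp : L ≤ ⁅L, L⁆ := by
    obtain ⟨a, ha⟩ := exists_a h4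
    have h1 : _root_.commutator SL(2, F) = ⊤ := SL2.commutator_eq_top a.ne_zero fun h2 => by
      have := orderOf_dvd_of_pow_eq_one (show a ^ 2 = 1 from Units.ext h2)
      rw [ha] at this
      omega
    haveI : Group.IsPerfect SL(2, F) := ⟨h1⟩
    haveI : Group.IsPerfect L := Group.IsPerfect.ofSurjective (f := e.symm.toMonoidHom) e.symm.surjective
    exact (Subgroup.isPerfect_iff.1 this).ge
  rcases perm8 (G := π.range) (L := L.map π) (by rintro _ ⟨g, rfl⟩; exact hA g) (map_le_range _ _)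
    (by rw [card_map_of_injective hi, Nat.card_congr e.toEquiv, SLnCard.card_SL2, h4]; rfl)
    (by rw [← map_commutator]; exact map_mono hp) hc (by rintro _ ⟨l, h, rfl⟩; exact hl l h)
    (S.mapSurjective π.rangeRestrict_surjective)
    (by rintro _ ⟨s, hs, rfl⟩; exact le_normalizer_map π ⟨s, hN hs, rfl⟩) with h1 | ⟨⟨h1⟩⟩
  · refine Or.inl ⟨fun l hl g => (mem_map_iff_mem hi).1 ?_⟩
    rw [map_mul, map_mul, map_inv]
    exact (mem_normalizer_iff.1 (h1 ⟨g, rfl⟩) _).1 ⟨l, hl, rfl⟩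
  · exact Or.inr ⟨h4, ⟨(MonoidHom.ofInjective hi).trans h1⟩⟩

end CA.H19Nat
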