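import Cfsg.Agent.Lib.Loc.LBal2

/-! Linear best offenders: measure, Timmesfeld replacement. -/

set_option autoImplicit false

namespace CA.PGV

open Subgroup Cfsg CA.Amb CA.AmbCore CA.AmbRes
open scoped commutatorElement

variable {p : ℕ} [hp : Fact p.Prime] {G V : Type*} [Group G] [AddCommGroup V] [Module (ZMod p) V]
  (ρ : Representation (ZMod p) G V)

theorem mul_ap (g h : G) (v : V) : ρ (g * h) v = ρ g (ρ h v) := by simp

def fx (B : Subgroup G) : Submodule (ZMod p) V where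
  carrier := {v | ∀ b ∈ B, ρ b v = v}
  add_mem' h k b hb := by rw [map_add, h b hb, k b hb]
  zero_mem' b _ := map_zero _
  smul_mem' c v h b hb := by rw [map_smul, h b hb]

def cen (U : Set V) : Subgroup G where
  carrier := {g | ∀ u ∈ U, ρ g u = u}
  mul_mem' h k u hu := by rw [mul_ap, k u hu, h u hu]
  one_mem' u _ := by simp
  inv_mem' {g} h u hu := by rw [← h u hu, ρ.inv_self_apply, h u hu]

def cm (S : Submodule (ZMod p) V) : Subgroup G where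
  carrier := {g | ∀ v, ρ g v - v ∈ S}
  mul_mem' {g h} hg hh v := by
    have := S.add_mem (hg (ρ h v)) (hh v)
    rwa [sub_add_sub_cancel, ← mul_ap] at this
  one_mem' v := by simp
  inv_mem' {g} h v := by
    have := S.neg_mem (h (ρ g⁻¹ v))
    rwa [ρ.self_inv_apply, neg_sub] at this

/-- centralizer of `[V, a]` -/
def X (a : G) : Subgroup G := cen ρ (Set.range fun v => ρ a v - v)

noncomputable def ms (B : Subgroup G) : ℕ := Nat.card B * Nat.card (fx ρ B)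

def Best (A : Subgroup G) : Prop := ∀ B ≤ A, ms ρ B ≤ ms ρ A

variable {ρ} {A B C K M : Subgroup G} {a b c g x y : G} {v : V} {S U W : Submodule (ZMod p) V}

theorem mem_fx : v ∈ fx ρ B ↔ ∀ b ∈ B, ρ b v = v := Iff.rfl
theorem mem_cen {U : Set V} : g ∈ cen ρ U ↔ ∀ u ∈ U, ρ g u = u := Iff.rfl
theorem mem_cm : g ∈ cm ρ S ↔ ∀ v, ρ g v - v ∈ S := Iff.rfl
theorem mem_X : g ∈ X ρ a ↔ ∀ v, ρ g (ρ a v - v) = ρ a v - v :=
  ⟨fun h v => h _ ⟨v, rfl⟩, fun h _ ⟨v, e⟩ => e ▸ h v⟩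

theorem X_symm (h : Commute g a) (hg : g ∈ X ρ a) : a ∈ X ρ g := mem_X.2 fun v => by
  have := mem_X.1 hg v
  rw [map_sub, ← mul_ap, h.eq, mul_ap] at this
  rw [map_sub]
  linear_combination (norm := abel) this

theorem conj_mem_X (h : g ∈ X ρ a) (c : G) : c * g * c⁻¹ ∈ X ρ (c * a * c⁻¹) := mem_X.2 fun v => by
  have := congrArg (ρ c) (mem_X.1 h (ρ c⁻¹ v))
  simpa using this

theorem conj_mem_X' (h : g ∈ X ρ a) (hc : Commute c a) : c * g * c⁻¹ ∈ X ρ a := by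
  have := conj_mem_X h c
  rwa [hc.eq, mul_inv_cancel_right] at this

theorem norm_X (h : ∀ c ∈ K, Commute c a) : K ≤ 𝐍 (X ρ a) :=
  le_normalizer_iff_cj.2 fun c hc => cj_le_iff'.2 fun _ hg => conj_mem_X' hg (h c hc)

theorem norm_cen {U : Set V} (h : ∀ c ∈ K, ∀ u ∈ U, ρ c u ∈ U) : K ≤ 𝐍 (cen ρ U) :=
  le_normalizer_iff_cj.2 fun c hc => cj_le_iff'.2 fun g hg u hu => by
    rw [mul_ap, mul_ap, hg _ (h _ (inv_mem hc) u hu), ρ.self_inv_apply]

theorem norm_cm (h : ∀ c ∈ K, ∀ u ∈ S, ρ c u ∈ S) : K ≤ 𝐍 (cm ρ S) :=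
  le_normalizer_iff_cj.2 fun c hc => cj_le_iff'.2 fun g hg v => by
    have := h c hc _ (hg (ρ c⁻¹ v))
    simpa using this

theorem fx_anti (h : B ≤ A) : fx ρ A ≤ fx ρ B := fun _ hv b hb => hv b (h hb)

theorem fx_sup : fx ρ (A ⊔ B) = fx ρ A ⊓ fx ρ B :=
  le_antisymm (le_inf (fx_anti le_sup_left) (fx_anti le_sup_right)) fun v hv _ hb =>
    (sup_le (fun a ha _ hu => hu ▸ hv.1 a ha) (fun a ha _ hu => hu ▸ hv.2 a ha) : A ⊔ B ≤ cen ρ {v}) hb v rfl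

theorem fx_bot : fx ρ ⊥ = ⊤ := eq_top_iff.2 fun v _ b hb => by rw [mem_bot.1 hb]; simp

theorem fx_inv (h : g ∈ 𝐍 B) (hv : v ∈ fx ρ B) : ρ g v ∈ fx ρ B := fun b hb => by
  have := congrArg (ρ g) (hv _ (inv_conj_mem_of_mem_normalizer h hb))
  simpa using this

theorem quad (hK : ⁅K, K⁆ = K) {W : Set V} (h : ∀ k ∈ K, ∀ w ∈ W, ρ k w - w ∈ fx ρ K) : K ≤ cen ρ W := by
  rw [← hK]
  refine commutator_le.2 fun x hx y hy w hw => ?_
  have e : ∀ x ∈ K, ∀ y ∈ K, ρ (x * y) w - w = (ρ x w - w) + (ρ y w - w) := fun x hx y hy => by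
    have := h y hy w hw x hx
    rw [map_sub] at this
    rw [mul_ap]
    linear_combination (norm := abel) this
  have e1 := e x hx x⁻¹ (inv_mem hx)
  have e2 := e y hy y⁻¹ (inv_mem hy)
  have e3 := e _ (mul_mem (mul_mem hx hy) (inv_mem hx)) _ (inv_mem hy)
  rw [e _ (mul_mem hx hy) _ (inv_mem hx), e x hx y hy] at e3
  simp only [mul_inv_cancel, map_one, Module.End.one_apply] at e1 e2
  rw [commutatorElement_def]
  linear_combination (norm := abel) e3 - e1 - e2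

theorem nilp (h : a ^ p = 1) : (ρ a - 1) ^ p = 0 := by
  rcases subsingleton_or_nontrivial V with _ | _
  · exact Subsingleton.elim _ _
  haveI : CharP (Module.End (ZMod p) V) p := charP_of_injective_algebraMap (algebraMap (ZMod p) _).injective p
  rw [sub_pow_char_of_commute _ (Commute.one_right _), ← map_pow, h, map_one, one_pow, sub_self]

theorem sup_range (h : a ^ p = 1) (hS : ∀ u ∈ S, ρ a u ∈ S) (e : LinearMap.range (ρ a - 1) ⊔ S = ⊤) : S = ⊤ := by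
  have : ∀ n : ℕ, ∀ v, ∃ w, v - ((ρ a - 1) ^ n : Module.End (ZMod p) V) w ∈ S := fun n => by
    induction n with
    | zero => exact fun v => ⟨v, by simp⟩
    | succ n ih =>
      intro v
      obtain ⟨_, ⟨w, rfl⟩, s, hs, rfl⟩ := Submodule.mem_sup.1 (e ▸ Submodule.mem_top : v ∈ _)
      obtain ⟨u, hu⟩ := ih w
      refine ⟨u, ?_⟩
      have := S.add_mem (S.sub_mem (hS _ hu) hu) hs
      rw [pow_succ', Module.End.mul_apply]
      simp only [map_sub, LinearMap.sub_apply, Module.End.one_apply] at this ⊢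
      convert this using 1
      abel
  refine eq_top_iff.2 fun v _ => ?_
  obtain ⟨w, hw⟩ := this p v
  simpa [nilp h] using hw

variable [Finite V]

theorem card_sup_inf (U W : Submodule (ZMod p) V) :
    Nat.card ↥(U ⊔ W) * Nat.card ↥(U ⊓ W) = Nat.card U * Nat.card W := by
  iterate 4 rw [Module.natCard_eq_pow_finrank (K := ZMod p) (V := ↥(_ : Submodule (ZMod p) V))]
  rw [← pow_add, ← pow_add, Submodule.finrank_sup_add_finrank_inf_eq]

theorem card_mono (h : U ≤ W) : Nat.card U ≤ Nat.card W :=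
  Nat.card_le_card_of_injective _ (Submodule.inclusion_injective h)

theorem eq_of_card (h : U ≤ W) (h' : Nat.card W ≤ Nat.card U) : U = W :=
  SetLike.coe_injective (Set.Finite.eq_of_subset_of_card_le (Set.toFinite _) h h')

variable [Finite G]

theorem Best.inf (h : Best ρ A) (hA : A ≤ 𝐂 A) (hB : B ≤ A) (hC : C ≤ A) (eB : ms ρ B = ms ρ A)
    (eC : ms ρ C = ms ρ A) : ms ρ (B ⊓ C) = ms ρ A ∧ fx ρ (B ⊓ C) = fx ρ B ⊔ fx ρ C := by
  have e1 := card_sup_mul_card_inf (H := B) (N := C) (norm_of_centralizer (hB.trans (hA.trans (centralizer_anti hC))))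
  have e2 := card_sup_inf (fx ρ B) (fx ρ C)
  have e3 := h _ (sup_le hB hC)
  have e4 := h _ (inf_le_left.trans hB : B ⊓ C ≤ A)
  have l : fx ρ B ⊔ fx ρ C ≤ fx ρ (B ⊓ C) := sup_le (fx_anti inf_le_left) (fx_anti inf_le_right)
  have e5 := card_mono l
  have p0 : 0 < ms ρ A := Nat.mul_pos Nat.card_pos Nat.card_pos
  have p1 : 0 < Nat.card ↥(B ⊓ C) := Nat.card_pos
  rw [ms, fx_sup] at e3
  have e6 : ms ρ A ≤ Nat.card ↥(B ⊓ C) * Nat.card ↥(fx ρ B ⊔ fx ρ C) := by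
    refine Nat.le_of_mul_le_mul_left ?_ p0
    calc ms ρ A * ms ρ A = ms ρ B * ms ρ C := by rw [eB, eC]
      _ = (Nat.card ↥(B ⊔ C) * Nat.card ↥(fx ρ B ⊓ fx ρ C)) *
          (Nat.card ↥(B ⊓ C) * Nat.card ↥(fx ρ B ⊔ fx ρ C)) := by
        rw [ms, ms, mul_mul_mul_comm, ← e1, ← e2]; ring
      _ ≤ _ := Nat.mul_le_mul_right _ e3
  exact ⟨le_antisymm e4 (e6.trans (Nat.mul_le_mul_left _ e5)),
    (eq_of_card l (Nat.le_of_mul_le_mul_left (e4.trans e6) p1)).symm⟩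

theorem Best.one (h : Best ρ A) (hA : A ≤ 𝐂 A) (hS : fx ρ A ≤ S) (hS' : A ≤ cm ρ S) (v : V) :
    ∃ B ≤ A, ms ρ B = ms ρ A ∧ fx ρ B ≤ S ∧ ∀ b ∈ B, ∀ a ∈ A, ρ b (ρ a v - v) = ρ a v - v := by
  classical
  set B := A ⊓ cen ρ {u | ∃ a ∈ A, u = ρ a v - v}
  set T := S ⊓ fx ρ B
  have lB : B ≤ A := inf_le_left
  have m : ∀ a ∈ A, ∀ w ∈ fx ρ A, ρ a v - v + w ∈ T := fun a ha w hw =>
    T.add_mem ⟨hS' ha v, fun b hb => hb.2 _ ⟨a, ha, rfl⟩⟩ ⟨hS hw, fx_anti lB hw⟩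
  have k : ∀ a ∈ A, ∀ a' ∈ A, ∀ w ∈ fx ρ A, ∀ w' ∈ fx ρ A, ρ a v - v + w = ρ a' v - v + w' → a'⁻¹ * a ∈ B := by
    rintro a ha a' ha' w hw w' hw' e
    refine ⟨A.mul_mem (A.inv_mem ha') ha, ?_⟩
    rintro _ ⟨c, hc, rfl⟩
    have e1 := congrArg (ρ c) e
    simp only [map_add, map_sub, hw c hc, hw' c hc, ← mul_ap] at e1
    have e2 : ρ a (ρ c v - v) = ρ a' (ρ c v - v) := by
      simp only [map_sub, ← mul_ap]
      rw [hA hc a ha, hA hc a' ha']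
      linear_combination (norm := abel) e1 - e
    rw [mul_ap, e2, ρ.inv_self_apply]
  let ψ : A × fx ρ A → T := fun z => ⟨_, m z.1 z.1.2 z.2 z.2.2⟩
  let r : A × fx ρ A → A × fx ρ A := fun z => Classical.choose (⟨z, rfl⟩ : ∃ y, ψ y = ψ z)
  have hr : ∀ z, ψ (r z) = ψ z := fun z => Classical.choose_spec (⟨z, rfl⟩ : ∃ y, ψ y = ψ z)
  let f : A × fx ρ A → B × T := fun z =>
    (⟨_, k z.1 z.1.2 (r z).1 (r z).1.2 z.2 z.2.2 (r z).2 (r z).2.2 (congrArg Subtype.val (hr z)).symm⟩, ψ z)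
  have hf : Function.Injective f := fun z z' e => by
    have e1 : ψ z = ψ z' := congrArg Prod.snd e
    have e2 : r z = r z' := by simp only [r, e1]
    have e3 : ((r z).1 : G)⁻¹ * z.1 = ((r z').1 : G)⁻¹ * z'.1 := congrArg (fun t => (t.1 : G)) e
    rw [e2, mul_right_inj] at e3
    have e4 : ρ z.1 v - v + z.2 = ρ z'.1 v - v + z'.2 := congrArg Subtype.val e1
    rw [e3, add_right_inj] at e4
    exact Prod.ext (Subtype.ext e3) (Subtype.ext e4)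
  have c1 := Nat.card_le_card_of_injective f hf
  rw [Nat.card_prod, Nat.card_prod] at c1
  have c2 := h B lB
  have c3 := card_mono (inf_le_right : T ≤ fx ρ B)
  refine ⟨B, lB, le_antisymm c2 (c1.trans (Nat.mul_le_mul_left _ c3)), ?_, fun b hb a ha => hb.2 _ ⟨a, ha, rfl⟩⟩
  rw [← eq_of_card (inf_le_right : T ≤ fx ρ B) (Nat.le_of_mul_le_mul_left (c2.trans c1) Nat.card_pos)]
  exact inf_le_left

/-- Timmesfeld replacement -/
theorem Best.repl (h : Best ρ A) (hA : A ≤ 𝐂 A) (hp : ∀ a ∈ A, a ^ p = 1) (hn : fx ρ A ≠ ⊤) :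
    ∃ Q ≤ A, Q ≠ ⊥ ∧ ms ρ Q = ms ρ A ∧ ∀ a ∈ A, Q ≤ X ρ a := by
  obtain ⟨S, ⟨h1, h2, h3⟩, hm⟩ := WellFounded.has_min (wellFounded_gt (α := Submodule (ZMod p) V))
    {S | fx ρ A ≤ S ∧ S ≠ ⊤ ∧ ∀ a ∈ A, ∀ u ∈ S, ρ a u ∈ S} ⟨_, le_rfl, hn, fun a ha u hu => fx_inv (le_normalizer ha) hu⟩
  have h4 : A ≤ cm ρ S := fun a ha v => by
    by_contra hv
    refine hm (LinearMap.range (ρ a - 1) ⊔ S) ⟨le_sup_of_le_right h1, fun e => h2 (sup_range (hp a ha) (h3 a ha) e),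
      fun b hb u hu => ?_⟩ (lt_of_le_of_ne le_sup_right fun e => hv (e ▸ Submodule.mem_sup_left ⟨v, rfl⟩))
    obtain ⟨_, ⟨w, rfl⟩, s, hs, rfl⟩ := Submodule.mem_sup.1 hu
    rw [map_add]
    refine Submodule.add_mem_sup ⟨ρ b w, ?_⟩ (h3 b hb s hs)
    simp only [LinearMap.sub_apply, Module.End.one_apply, map_sub, ← mul_ap, hA hb a ha]
  obtain ⟨Q, ⟨q1, q2, q3⟩, qm⟩ := WellFounded.has_min (wellFounded_lt (α := Subgroup G))
    {Q | Q ≤ A ∧ ms ρ Q = ms ρ A ∧ fx ρ Q ≤ S} ⟨A, le_rfl, rfl, h1⟩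
  refine ⟨Q, q1, fun e => h2 (by rw [e, fx_bot] at q3; exact top_le_iff.1 q3), q2, fun a ha x hx => mem_X.2 fun v => ?_⟩
  obtain ⟨B, b1, b2, b3, b4⟩ := h.one hA h1 h4 v
  obtain ⟨c1, c2⟩ := h.inf hA q1 b1 q2 b2
  have : Q ⊓ B = Q := by
    by_contra e
    exact qm _ ⟨inf_le_left.trans q1, c1, c2 ▸ sup_le q3 b3⟩ (lt_of_le_of_ne inf_le_left e)
  exact b4 x (this.ge hx).2 a ha

end CA.PGV
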