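import Cfsg.Agent.Lib.Loc.H19PV1
import Cfsg.Agent.Lib.Char.CharBurn

/-! The P(G,V)-theorem: minimal counterexample, reduction to `p = 2` and two components. -/

set_option autoImplicit false

namespace CA.PGV

open Subgroup Cfsg CA.Amb CA.AmbCore CA.AmbRes CA.Comp CA.LBal2 CA.Quasi
open scoped commutatorElement

variable {p : ℕ} [hp : Fact p.Prime] {G V : Type*} [Group G] [AddCommGroup V] [Module (ZMod p) V]
  {ρ : Representation (ZMod p) G V} {A B K M J : Subgroup G} {a c d e k m x : G} {S : Submodule (ZMod p) V}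

structure Ctx (ρ : Representation (ZMod p) G V) (A K : Subgroup G) : Prop where
  ab : A ≤ 𝐂 A
  pw : ∀ a ∈ A, a ^ p = 1
  cp : IsComponent K
  mn : ∀ U : Submodule (ZMod p) V, (∀ g ∈ K, ∀ u ∈ U, ρ g u ∈ U) → (∀ g ∈ A, ∀ u ∈ U, ρ g u ∈ U) →
    U = ⊤ ∨ K ≤ cen ρ U
  nt : ¬ K ≤ cen ρ Set.univ
  best : Best ρ A
  ind : ∀ B < A, Best ρ B → B ≤ 𝐍 K
  nn : ¬ A ≤ 𝐍 K

theorem zp (ha : a ^ p = 1) (hx : x ∈ zpowers a) (n : x ≠ 1) (hM : x ∈ M) : a ∈ M := by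
  obtain ⟨i, rfl⟩ := ((isOfFinOrder_iff_pow_eq_one.2 ⟨p, hp.out.pos, ha⟩).mem_powers_iff_mem_zpowers).2 hx
  have e : a ^ (i % p) = a ^ i := by
    conv_rhs => rw [← Nat.mod_add_div i p, pow_add, pow_mul, ha, one_pow, mul_one]
  refine mem_of_pow_prime (n := i % p) (Nat.pos_of_ne_zero fun h => n ?_) (Nat.mod_lt _ hp.out.pos) (e ▸ hM)
    (ha ▸ one_mem _)
  show a ^ i = 1
  rw [← e, h, pow_zero]

theorem cm_of (h : m ∈ 𝐂 K) (hk : k ∈ K) : Commute k m := h k hk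

variable [Finite G]

theorem KL (hK : IsComponent K) (hn : K ≤ 𝐍 M) (hm : m ∈ M) (h : m ∉ 𝐂 K) : K ≤ M :=
  (comp_le_or_le_centralizer_of_le_normalizer hK hn).resolve_right fun e => h (cent_symm e hm)

theorem ne_cent (hK : IsComponent K) (h : c ∉ 𝐍 K) : cj c K ≤ 𝐂 K :=
  comp_le_centralizer_of_ne (comp_map_conj hK c) hK fun e => h (cj_eq_self_iff.1 e)

theorem step (hK : IsComponent K) (h1 : e ∈ 𝐂 K) (h2 : Commute e d) (h3 : e ∈ X ρ d) (h4 : d ∉ 𝐂 K) : K ≤ X ρ e :=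
  KL hK (norm_X fun _ hc => cm_of h1 hc) (X_symm h2 h3) h4

namespace Ctx

variable (h : Ctx ρ A K)
include h

theorem com (ha : a ∈ A) (hc : c ∈ A) : Commute a c := h.ab hc a ha

theorem V1 (hS : ∀ c ∈ A, cj c K ≤ cm ρ S) : S = ⊤ := by
  set S0 := Submodule.span (ZMod p) {u | ∃ g ∈ ncl K A, ∃ v, u = ρ g v - v}
  have i : ∀ g ∈ 𝐍 (ncl K A), ∀ u ∈ S0, ρ g u ∈ S0 := fun g hg => by
    refine (Submodule.span_le (p := S0.comap (ρ g))).2 ?_
    rintro _ ⟨l, hl, v, rfl⟩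
    exact Submodule.subset_span ⟨_, conj_mem_of_mem_normalizer hg hl, ρ g v, by simp⟩
  rcases h.mn S0 (fun g hg => i g (le_normalizer (le_ncl K A hg))) (fun g hg => i g (norm_ncl K A hg)) with e | e
  · refine top_le_iff.1 (e ▸ Submodule.span_le.2 ?_)
    rintro _ ⟨l, hl, v, rfl⟩
    exact ncl_le_iff.2 hS hl v
  · exact (h.nt (quad (comp_perfect h.cp) fun k hk w _ g hg =>
      e hg _ (Submodule.subset_span ⟨k, le_ncl K A hk, w, rfl⟩))).elim

theorem triv (hc : c ∈ A) (hK : c ∈ 𝐂 K) (v : V) : ρ c v = v := by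
  have i : ∀ g, Commute g c → ∀ u ∈ LinearMap.range (ρ c - 1), ρ g u ∈ LinearMap.range (ρ c - 1) := by
    rintro g hg _ ⟨w, rfl⟩
    exact ⟨ρ g w, by simp only [LinearMap.sub_apply, Module.End.one_apply, map_sub, ← mul_ap, hg.eq]⟩
  rcases h.mn _ (fun g hg => i g (cm_of hK hg)) (fun g hg => i g (h.com hg hc)) with e | e
  · have := sup_range (ρ := ρ) (S := ⊥) (h.pw c hc) (fun u hu => by rw [(Submodule.mem_bot _).1 hu]; simp) (by rw [e, top_sup_eq])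
    rw [(Submodule.mem_bot _).1 (this ▸ Submodule.mem_top : v ∈ ⊥), map_zero]
  · have : LinearMap.ker (ρ c - 1) = ⊤ := h.V1 fun a ha => cj_le_iff'.2 fun k hk w => by
      have e1 : a * k * a⁻¹ ∈ X ρ c := conj_mem_X' (mem_X.2 fun v => e hk _ ⟨v, rfl⟩) (h.com ha hc)
      have e2 : Commute (a * k * a⁻¹) c :=
        ((h.com ha hc).mul_left (cm_of hK hk)).mul_left (h.com (inv_mem ha) hc)
      exact sub_eq_zero.2 (mem_X.1 (X_symm e2 e1) w)
    exact sub_eq_zero.1 (this ▸ Submodule.mem_top : v ∈ LinearMap.ker (ρ c - 1))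

variable [Finite V]

theorem cA (hc : c ∈ A) (hK : c ∈ 𝐂 K) : c = 1 := by
  by_contra n
  obtain ⟨B, ⟨h1, h2⟩, hm⟩ := WellFounded.has_min (wellFounded_gt (α := Subgroup G))
    {B | B ≤ A ∧ c ∉ B} ⟨⊥, bot_le, n⟩
  have zc : zpowers c ≤ A := zle hc
  have nm : ∀ {B C}, B ≤ A → C ≤ A → B ≤ 𝐍 C := fun hB hC =>
    norm_of_centralizer (hB.trans (h.ab.trans (centralizer_anti hC)))
  have e : A = B ⊔ zpowers c := le_antisymm (fun a ha => by
    by_cases hB : a ∈ B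
    · exact mem_sup_left hB
    have : c ∈ B ⊔ zpowers a := by
      by_contra hn
      exact hm _ ⟨sup_le h1 (zle ha), hn⟩ (lt_of_le_of_ne le_sup_left fun e => hB (e ▸ mem_sup_right (mem_zpowers a)))
    obtain ⟨b, hb, z, hz, rfl⟩ := (mem_sup_of_norm (nm h1 (zle ha))).1 this
    refine zp (h.pw a ha) hz (fun e => h2 (by rwa [e, mul_one])) ?_
    have := mul_mem (inv_mem (mem_sup_left hb : b ∈ B ⊔ zpowers (b * z))) (mem_sup_right (mem_zpowers _))
    rwa [inv_mul_cancel_left] at this) (sup_le h1 zc)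
  have f : fx ρ (zpowers c) = ⊤ := eq_top_iff.2 fun v _ z hz =>
    (zle (show c ∈ cen ρ Set.univ from fun u _ => h.triv hc hK u)) hz v trivial
  have k : ∀ C ≤ B, ms ρ (C ⊔ zpowers c) = ms ρ C * Nat.card (zpowers c) := fun C hC => by
    have e1 := card_sup_mul_card_inf (nm (hC.trans h1) zc)
    have e2 : C ⊓ zpowers c = ⊥ := eq_bot_iff.2 fun z hz => by
      by_contra hz'
      exact h2 (zp (h.pw c hc) hz.2 hz' (hC hz.1))
    rw [e2, card_bot, mul_one] at e1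
    rw [ms, ms, fx_sup, f, inf_top_eq, e1]; ring
  refine h.nn (e ▸ sup_le (h.ind B (lt_of_le_of_ne h1 fun e => h2 (e ▸ hc)) fun C hC => ?_)
    (zle (centralizer_le_normalizer _ hK)))
  have := h.best _ (sup_le (hC.trans h1) zc)
  rw [k C hC, e, k B le_rfl] at this
  exact Nat.le_of_mul_le_mul_right this Nat.card_pos

theorem exQ : ∃ Q ≤ A, Q ≠ ⊥ ∧ Nat.card V ≤ ms ρ Q ∧ (∀ a ∈ A, Q ≤ X ρ a) ∧ (Q = A ∨ Q ≤ 𝐍 K) := by
  obtain ⟨Q, h1, h2, h3, h4⟩ := h.best.repl h.ab h.pw fun e => by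
    obtain ⟨a, ha, n⟩ := SetLike.not_le_iff_exists.1 h.nn
    exact h.nt (KL h.cp (norm_cen fun _ _ _ _ => trivial) (m := a)
      (fun u _ => (e ▸ Submodule.mem_top : u ∈ fx ρ A) a ha) fun e => n (centralizer_le_normalizer _ e))
  refine ⟨Q, h1, h2, ?_, h4, h1.eq_or_lt.imp_right fun l => h.ind Q l fun B hB => h3 ▸ h.best B (hB.trans h1)⟩
  have := h.best ⊥ bot_le
  rwa [ms, fx_bot, card_bot, one_mul, Nat.card_congr Submodule.topEquiv.toEquiv, ← h3] at this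

theorem dg (ha : a ∈ A) (n : a ∉ 𝐍 K) : ∃ δ : K →* G, Dg p a K δ ∧ ∀ k : K, δ k = (k * a) ^ p := by
  obtain ⟨δ, hδ⟩ := exists_dg (p := p) (Cp.top_iff.2 h.cp) (x := a) (le_normalizer trivial) n (by rw [h.pw a ha]; exact one_mem _)
  exact ⟨δ, hδ, fun k => by rw [hδ.fm, h.pw a ha, inv_one, mul_one]⟩

theorem dg' (ha : a ∈ A) (n : a ∉ 𝐍 K) (hk : k ∈ K) : Commute ((k * a) ^ p) a ∧ k⁻¹ * (k * a) ^ p ∈ 𝐂 K := by
  obtain ⟨δ, hδ, e⟩ := h.dg ha n
  exact e ⟨k, hk⟩ ▸ ⟨mem_cs.1 (hδ.fix _), hδ.c ⟨k, hk⟩⟩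

theorem P (ha : a ∈ A) (n : a ∉ 𝐍 K) (hk : k ∈ K) : (k * a) ^ p ∈ X ρ a := by
  obtain ⟨δ, hδ, e⟩ := h.dg ha n
  obtain ⟨Q, q1, q2, q3, q4, q5⟩ := h.exQ
  have hD := hδ.cp (Cp.top_iff.2 h.cp) (le_normalizer trivial)
  suffices δ.range ≤ X ρ a from this ⟨⟨k, hk⟩, e _⟩
  by_cases hQ : Q ≤ zpowers a
  · obtain ⟨⟨x, hx⟩, hx1⟩ := ne_bot_iff_exists_ne_one.1 q2
    have aQ : a ∈ Q := zp (h.pw a ha) (hQ hx) (fun e => hx1 (Subtype.ext e)) hx
    have c1 : Nat.card Q ≤ p := (card_le_of_le hQ).trans (by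
      rw [Nat.card_zpowers]; exact orderOf_le_of_pow_eq_one hp.out.pos (h.pw a ha))
    have c2 := card_mono (show fx ρ Q ≤ LinearMap.ker (ρ a - 1) from fun v hv => sub_eq_zero.2 (hv a aQ))
    have c3 := q3.trans (Nat.mul_le_mul c1 c2)
    rw [Module.natCard_eq_pow_finrank (K := ZMod p), Module.natCard_eq_pow_finrank (K := ZMod p) (V := ↥(_ : Submodule _ V)),
      Nat.card_zmod, ← pow_succ', Nat.pow_le_pow_iff_right hp.out.one_lt,
      ← (ρ a - 1).finrank_range_add_finrank_ker] at c3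
    obtain ⟨w0, hw⟩ := (finrank_le_one_iff (K := ZMod p) (V := LinearMap.range (ρ a - 1))).1 (by omega)
    have i : ∀ g ∈ δ.range, ∀ u ∈ LinearMap.range (ρ a - 1), ρ g u ∈ LinearMap.range (ρ a - 1) := by
      rintro g hg _ ⟨w, rfl⟩
      exact ⟨ρ g w, by simp only [LinearMap.sub_apply, Module.End.one_apply, map_sub, ← mul_ap,
        mem_cs.1 (hδ.le_cs hg)]⟩
    have s : ∀ g ∈ δ.range, ∃ c : ZMod p, ∀ u ∈ LinearMap.range (ρ a - 1), ρ g u = c • u := fun g hg => by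
      obtain ⟨c, hc⟩ := hw ⟨_, i g hg _ w0.2⟩
      refine ⟨c, fun u hu => ?_⟩
      obtain ⟨t, ht⟩ := hw ⟨u, hu⟩
      have e1 : c • (w0 : V) = ρ g w0 := congrArg Subtype.val hc
      have e2 : t • (w0 : V) = u := congrArg Subtype.val ht
      rw [← e2, map_smul, ← e1, smul_comm]
    rw [← hD.perfect]
    refine commutator_le.2 fun x hx y hy => mem_X.2 fun v => ?_
    obtain ⟨c, hc⟩ := s y hy
    have m : ρ a v - v ∈ LinearMap.range (ρ a - 1) := ⟨v, rfl⟩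
    have m1 := i _ (inv_mem hy) _ m
    rw [commutatorElement_def, mul_ap, mul_ap, mul_ap, hc _ (i _ (inv_mem hx) _ m1), map_smul, ρ.self_inv_apply,
      ← hc _ m1, ρ.self_inv_apply]
  · obtain ⟨x, hx, n'⟩ := SetLike.not_le_iff_exists.1 hQ
    have xA := q1 hx
    rcases hD.le_or_le_centralizer_of_le_normalizer (U := X ρ a ⊓ (⊤ ⊓ centralizer {a})) inf_le_right
      (norm_inf (norm_X fun c hc => mem_cs.1 (hδ.le_cs hc)) (norm_of_le hD.le)) with l | l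
    · exact l.trans inf_le_left
    have x1 : x ∈ 𝐂 δ.range := cent_symm l ⟨q4 a ha hx, trivial, mem_cs.2 (h.com xA ha)⟩
    obtain ⟨g, hg, eg⟩ := hδ.conj_mem (Cp.top_iff.2 h.cp) (le_normalizer trivial) (u := x) (le_normalizer trivial)
      (centralizer_le_normalizer _ x1)
    have g1 : g ∈ 𝐂 δ.range := zle (show a ∈ 𝐂 δ.range from fun c hc => mem_cs.1 (hδ.le_cs hc)) hg
    have := hδ.cent (comp_perfect h.cp) (U := zpowers (g⁻¹ * x))
      (zle (cj_eq_self_iff.1 (by rw [← cj_cj, eg, cj_inv_cj]))) (zle (mul_mem (inv_mem g1) x1)) (mem_zpowers _)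
    exact (n' (inv_mul_eq_one.1 (h.cA (mul_mem (inv_mem (zle ha hg)) xA) this) ▸ hg)).elim

theorem P' (ha : a ∈ A) (n : a ∉ 𝐍 K) (hk : k ∈ K) : a ∈ X ρ ((k * a) ^ p) :=
  X_symm (h.dg' ha n hk).1 (h.P ha n hk)

theorem not_orth (o : ∀ c ∈ A, c ∉ 𝐍 K → ∀ k ∈ K, cj c K ≤ X ρ k) : False := by
  obtain ⟨a, ha, n⟩ := SetLike.not_le_iff_exists.1 h.nn
  have pf := comp_perfect h.cp
  refine h.nt (quad pf fun k' hk' u _ k hk => ?_)
  refine quad pf (W := {ρ k' u - u}) ?_ hk _ rfl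
  rintro k hk _ rfl j hj
  have r : ∀ i, i + 1 ≤ p → k⁻¹ * ((k * a) ^ (i + 1) * (a ^ (i + 1))⁻¹) ∈ X ρ k' := fun i hi => by
    induction i with
    | zero => simpa using one_mem _
    | succ i ih =>
      have := mul_mem (ih (by omega)) (o _ (pow_mem ha (i + 1)) (fun e => n (mem_of_pow_prime (n := i + 1)
        (by omega) (show i + 1 < p by omega) e (h.pw a ha ▸ one_mem _))) k' hk' (conj_mem_cj.2 hk))
      convert this using 1
      simp only [pow_succ _ (i + 1)]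
      group
  have r1 := r (p - 1) (by have := hp.out.pos; omega)
  rw [Nat.sub_add_cancel hp.out.pos, h.pw a ha, inv_one, mul_one] at r1
  have e1 := mem_X.1 r1 u
  set t := ρ k' u - u
  have e2 : ρ ((k * a) ^ p) t = ρ k t := by rw [← congrArg (ρ k) e1, ← mul_ap, mul_inv_cancel_left]
  have e3 := mem_X.1 (h.P' ha n hk) t
  have m := (conj_mem_cj (g := a)).2 hk
  have e4 := mem_X.1 (X_symm (cm_of (ne_cent h.cp n m) hj).symm (o a ha n j hj m)) (ρ a t)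
  rw [e2, map_sub] at e3
  simp only [mul_ap, ρ.inv_self_apply] at e4
  rwa [e3] at e4

theorem two : p = 2 ∧ ∀ a ∈ A, ∀ c ∈ A, a ∉ 𝐍 K → c ∉ 𝐍 K → a * c ∈ 𝐍 K := by
  obtain ⟨k, hk, nk⟩ := SetLike.not_le_iff_exists.1 (qs_not_le_centralizer h.cp.2)
  have nd : ∀ a ∈ A, a ∉ 𝐍 K → (k * a) ^ p ∉ 𝐂 K := fun a ha n e => nk (by
    have := mul_mem e (inv_mem (h.dg' ha n hk).2)
    rwa [mul_inv_rev, mul_inv_cancel_left, inv_inv] at this)
  by_contra hn
  refine h.not_orth fun c hc n k' hk' => ?_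
  have hJ := comp_map_conj h.cp c
  have jc := ne_cent h.cp n
  by_cases p2 : p = 2
  · subst p2
    have sq : ∀ a ∈ A, a * a = 1 := fun a ha => by rw [← pow_two, h.pw a ha]
    obtain ⟨a, ha, na, nc⟩ : ∃ a ∈ A, a ∉ 𝐍 K ∧ c * a ∉ 𝐍 K := by
      by_contra hh
      push Not at hh
      refine hn ⟨rfl, fun a ha b hb na nb => ?_⟩
      have := mul_mem (hh a ha na) (hh b hb nb)
      rwa [(h.com hc ha).eq, mul_assoc, ← mul_assoc c, sq c hc, one_mul] at this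
    have j2 : cj a K ≤ 𝐂 (cj c K) := comp_le_centralizer_of_ne (comp_map_conj h.cp a) hJ fun e => nc
      (cj_eq_self_iff.1 (by rw [← cj_cj, show cj a K = cj c K from e, cj_cj, sq c hc, cj_one]))
    have cd : (k * a) ^ 2 ∈ 𝐂 (cj c K) := by
      have := mul_mem (cent_symm jc hk) (j2 (conj_mem_cj.2 hk))
      rwa [inv_eq_of_mul_eq_one_right (sq a ha), ← mul_assoc, ← mul_assoc, mul_assoc (k * a), ← pow_two] at this
    have l := KL hJ (norm_X fun j hj => cm_of cd hj) (h.P' ha na hk) fun e => na (by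
      have := cj_mono c⁻¹ (zle e)
      rw [cj_centralizer, cj_inv_cj, cj_zpowers, (h.com (inv_mem hc) ha).eq, mul_inv_cancel_right] at this
      exact centralizer_le_normalizer _ (this (mem_zpowers _)))
    exact fun j hj => X_symm (cm_of (jc hj) hk') (step h.cp (jc hj) (cm_of cd hj) (l hj) (nd a ha na) hk')
  · have n2 : c * c ∉ 𝐍 K := fun e => n (mem_of_pow_prime (n := 2) (by omega)
      (lt_of_le_of_ne hp.out.two_le (Ne.symm p2)) (by rwa [pow_two]) (h.pw c hc ▸ one_mem _))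
    obtain ⟨d1, d2⟩ := h.dg' hc n hk
    have d3 : Commute k ((k * c) ^ p) := by
      have := (Commute.refl k).mul_right (cm_of d2 hk)
      rwa [mul_inv_cancel_left] at this
    have m2 := (conj_mem_cj (g := c)).2 hk
    have m3 := (conj_mem_cj (g := c * c)).2 hk
    have j3 := ne_cent h.cp n2
    have j4 : cj (c * c) K ≤ 𝐂 (cj c K) := by rw [← cj_cj, ← cj_centralizer]; exact cj_mono c jc
    have e0 : c * k * c⁻¹ * (c * c * k * (c * c)⁻¹)⁻¹ = c * (k * c * k⁻¹ * c⁻¹) * c⁻¹ := by group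
    have e1 : c * k * c⁻¹ * (c * c * k * (c * c)⁻¹)⁻¹ ∈ X ρ ((k * c) ^ p) :=
      e0 ▸ conj_mem_X' (mul_mem (conj_mem_X' (h.P' hc n hk) d3) (inv_mem (h.P' hc n hk))) d1.symm
    have e2 := mul_mem (jc m2) (inv_mem (j3 m3))
    have e3 : Commute (c * k * c⁻¹ * (c * c * k * (c * c)⁻¹)⁻¹) ((k * c) ^ p) := by
      rw [e0]
      exact (d1.symm.mul_left (((d3.mul_left d1.symm).mul_left d3.inv_left).mul_left d1.symm.inv_left)).mul_left
        d1.symm.inv_left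
    have l := step h.cp e2 e3 e1 (nd c hc n)
    refine KL hJ (norm_X fun j hj => (cm_of (jc hj) hk').symm) (X_symm (cm_of e2 hk') (l hk')) fun e => nk ?_
    have := mul_mem e (j4 m3)
    rwa [inv_mul_cancel_right, ← cj_centralizer, conj_mem_cj] at this

end Ctx

end CA.PGV
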