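import Cfsg.Agent.Lib.Loc.H19PV2

/-! The P(G,V)-theorem: the case `p = 2` and the induction. -/

set_option autoImplicit false

namespace CA.PGV

open Subgroup Cfsg CA.Amb CA.AmbCore CA.AmbRes CA.Comp CA.LBal2 CA.Quasi
open scoped commutatorElement

section
variable {G V : Type*} [Group G] [AddCommGroup V] [Module (ZMod 2) V] [Finite G] [Finite V]
  {ρ : Representation (ZMod 2) G V} {A K M : Subgroup G} {a c g k : G} {v : V}

/-- fixed space of `K` and `K^a` -/
abbrev Zs (ρ : Representation (ZMod 2) G V) (K : Subgroup G) (a : G) : Submodule (ZMod 2) V :=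
  fx ρ K ⊓ fx ρ (cj a K)

abbrev Ys (ρ : Representation (ZMod 2) G V) (Z : Submodule (ZMod 2) V) (a : G) : Submodule (ZMod 2) V :=
  Z.comap (ρ a - 1)

omit [Finite G] [Finite V] in
theorem mem_Ys {Z : Submodule (ZMod 2) V} : v ∈ Ys ρ Z a ↔ ρ a v - v ∈ Z := Iff.rfl

namespace Ctx

variable (h : Ctx ρ A K)
include h

omit [Finite G] [Finite V] in
theorem sq (ha : a ∈ A) : a * a = 1 := by rw [← pow_two, h.pw a ha]

omit [Finite G] [Finite V] in
theorem pw2 (ha : a ∈ A) (k : G) : (k * a) ^ 2 = k * (a * k * a⁻¹) := by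
  rw [inv_eq_of_mul_eq_one_right (h.sq ha), pow_two]; group

theorem cj_eq (ha : a ∈ A) (n : a ∉ 𝐍 K) (hc : c ∈ A) (n' : c ∉ 𝐍 K) : cj c K = cj a K := by
  rw [← cj_inj (g := a), cj_cj, cj_cj, h.sq ha, cj_one, cj_eq_self (h.two.2 a ha c hc n n')]

theorem Z_inv (ha : a ∈ A) (n : a ∉ 𝐍 K) (hc : c ∈ A) (hv : v ∈ Zs ρ K a) : ρ c v ∈ Zs ρ K a := by
  have k : ∀ c ∈ A, c ∈ 𝐍 K → ∀ v ∈ Zs ρ K a, ρ c v ∈ Zs ρ K a := fun c hc l v hv =>
    ⟨fx_inv l hv.1, fx_inv (cj_eq_self_iff.1 (by rw [cj_cj, (h.com hc ha).eq, ← cj_cj, cj_eq_self l])) hv.2⟩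
  have ka : ∀ v ∈ Zs ρ K a, ρ a v ∈ Zs ρ K a := fun v hv => by
    have ia := inv_eq_of_mul_eq_one_right (h.sq ha)
    refine ⟨fun k hk => ?_, fun j hj => ?_⟩
    · have := congrArg (ρ a) (hv.2 _ ((conj_mem_cj (g := a)).2 hk))
      rwa [← mul_ap, ← mul_assoc, ← mul_assoc, h.sq ha, one_mul, ia, mul_ap] at this
    · obtain ⟨k, hk, rfl⟩ := mem_cj'.1 hj
      rw [← mul_ap, inv_mul_cancel_right, mul_ap, hv.1 k hk]
  by_cases l : c ∈ 𝐍 K
  · exact k c hc l v hv
  · have := ka _ (k _ (mul_mem ha hc) (h.two.2 a ha c hc n l) v hv)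
    rwa [← mul_ap, ← mul_assoc, h.sq ha, one_mul] at this

theorem tv (ha : a ∈ A) (n : a ∉ 𝐍 K) : 3 * Nat.card (Ys ρ (Zs ρ K a) a) ≤ Nat.card V := by
  set Z := Zs ρ K a
  by_contra hn
  have i1 : (Ys ρ Z a).toAddSubgroup.index ≤ 2 := by
    have := (Ys ρ Z a).toAddSubgroup.index_mul_card
    by_contra hh
    exact hn (this ▸ Nat.mul_le_mul_right _ (by omega))
  have ia := inv_eq_of_mul_eq_one_right (h.sq ha)
  have key : ∀ k ∈ K, k ^ 24 ∈ 𝐂 K := fun k hk => by
    have zk : ∀ k ∈ K, ∀ z ∈ Z, ρ k z = z := fun k hk z hz => hz.1 k hk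
    set T := Ys ρ Z a ⊓ (Ys ρ Z a).comap (ρ k⁻¹)
    have i2 : T.toAddSubgroup.index ≤ 4 := by
      have := (Ys ρ Z a).toAddSubgroup.index_comap_of_surjective (f := (ρ k⁻¹).toAddMonoidHom)
        fun v => ⟨ρ k v, ρ.inv_self_apply k v⟩
      refine (AddSubgroup.index_inf_le (H := (Ys ρ Z a).toAddSubgroup)
        (K := (Ys ρ Z a).toAddSubgroup.comap (ρ k⁻¹).toAddMonoidHom)).trans ?_
      rw [this]; nlinarith
    set e := k * (a * k⁻¹ * a⁻¹) with he
    have m := (conj_mem_cj (g := a)).2 (inv_mem hk)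
    have ez : ∀ z ∈ Z, ρ e z = z := fun z hz => by rw [he, mul_ap, hz.2 _ m, zk k hk z hz]
    have zT : Z ≤ T := fun z hz => ⟨Z.sub_mem (h.Z_inv ha n ha hz) hz, by
      show ρ a (ρ k⁻¹ z) - ρ k⁻¹ z ∈ Z
      rw [zk _ (inv_mem hk) z hz]
      exact Z.sub_mem (h.Z_inv ha n ha hz) hz⟩
    have et : ∀ t ∈ T, ρ e t - t ∈ Z := fun t ht => by
      have h1 : ρ a t - t ∈ Z := ht.1
      have h2 : ρ a (ρ k⁻¹ t) - ρ k⁻¹ t ∈ Z := ht.2
      have e1 := zk _ (inv_mem hk) _ h1
      have e2 := zk k hk _ (h.Z_inv ha n ha h1)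
      have e3 := zk k hk _ h2
      have : ρ e t - t = ρ a (ρ a t - t) + (ρ a (ρ k⁻¹ t) - ρ k⁻¹ t) := by
        rw [← e2, ← e3, ← e1, he, ia]
        simp only [mul_ap, map_sub, ρ.self_inv_apply]
        abel
      exact this ▸ Z.add_mem (h.Z_inv ha n ha h1) h2
    have iT : T ≤ T.comap (ρ e) := fun t ht => by
      have := T.add_mem (zT (et t ht)) ht
      rwa [sub_add_cancel] at this
    have e2 : e ^ 12 ∈ cen ρ T := by
      have : e ^ 2 ∈ cen ρ T := fun t ht => by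
        have := ez _ (et t ht)
        rw [map_sub] at this
        rw [pow_two, mul_ap]
        linear_combination (norm := abel) this + ZModModule.add_self (ρ e t - t)
      simpa only [← pow_mul] using pow_mem this 6
    have it : ∀ (i : ℕ) v, (T.mapQ T (ρ e) iT)^[i] (Submodule.Quotient.mk v) = Submodule.Quotient.mk (ρ (e ^ i) v) :=
      fun i v => by
        induction i with
        | zero => simp
        | succ i ih => rw [Function.iterate_succ_apply', ih, Submodule.mapQ_apply, pow_succ', mul_ap ρ e]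
    have e3 : e ^ 24 ∈ cen ρ Set.univ := fun v _ => by
      have p1 : Function.IsPeriodicPt (T.mapQ T (ρ e) iT) (orderOf e) (Submodule.Quotient.mk v) := by
        rw [Function.IsPeriodicPt, Function.IsFixedPt, it, pow_orderOf_eq_one]; simp
      have p2 := p1.minimalPeriod_pos (orderOf_pos e)
      haveI : Finite (V ⧸ T) := Finite.of_surjective _ T.mkQ_surjective
      haveI := Fintype.ofFinite (V ⧸ T)
      have p3 := Function.minimalPeriod_le_card (f := T.mapQ T (ρ e) iT) (x := Submodule.Quotient.mk v)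
      rw [← Nat.card_eq_fintype_card] at p3
      have p4 := p3.trans i2
      have p5 : Function.IsPeriodicPt (T.mapQ T (ρ e) iT) 12 (Submodule.Quotient.mk v) := by
        rw [Function.isPeriodicPt_iff_minimalPeriod_dvd]
        generalize Function.minimalPeriod _ _ = r at p2 p4
        interval_cases r <;> norm_num
      rw [Function.IsPeriodicPt, Function.IsFixedPt, it, Submodule.Quotient.eq] at p5
      have := e2 _ p5
      rw [map_sub, ← mul_ap, ← pow_add] at this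
      linear_combination (norm := abel) this + ZModModule.add_self (ρ (e ^ 12) v - v)
    by_contra hh
    refine h.nt (KL h.cp (norm_cen fun _ _ _ _ => trivial) e3 fun l => hh ?_)
    have jc := ne_cent h.cp n m
    rw [he, (cm_of jc hk).mul_pow] at l
    have := mul_mem l (inv_mem (pow_mem jc 24))
    rwa [mul_inv_cancel_right] at this
  refine qs_not_isSolvable (qs_quotient_center h.cp.2)
    (CChar.CharBurn.isSolvable_of_primes (p := 2) (q := 3) fun r hr hd => ?_)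
  haveI := Fact.mk hr
  obtain ⟨g, hg⟩ := exists_prime_orderOf_dvd_card' r hd
  obtain ⟨k, rfl⟩ := QuotientGroup.mk_surjective g
  have : r ∣ 2 ^ 3 * 3 := hg ▸ orderOf_dvd_of_pow_eq_one (by
    rw [← QuotientGroup.mk_pow, QuotientGroup.eq_one_iff, mem_center_iff]
    exact fun g => Subtype.ext (key k k.2 g g.2))
  exact ((Nat.Prime.dvd_mul hr).1 this).imp
    (fun l => (Nat.prime_dvd_prime_iff_eq hr Nat.prime_two).1 (hr.dvd_of_dvd_pow l))
    (Nat.prime_dvd_prime_iff_eq hr Nat.prime_three).1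

theorem gen (ha : a ∈ A) (n : a ∉ 𝐍 K) (hc : c ∈ A) (c1 : c ≠ 1) (cN : c ∈ 𝐍 K)
    (h1 : ∀ k ∈ K, (k * a) ^ 2 ∈ M) (h2 : ∀ k ∈ K, (k * (a * c)) ^ 2 ∈ M) : K ≤ M ∧ cj a K ≤ M := by
  have l : cj a K ≤ M := by
    rcases comp_le_commutator_or (comp_map_conj h.cp a) (zpowers c) with l | l
    · refine l.trans (commutator_le.2 fun j hj x hx => ?_)
      obtain ⟨k, hk, rfl⟩ := mem_cj'.1 hj
      by_cases x1 : x = 1
      · rw [x1, commutatorElement_one_right]; exact one_mem _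
      obtain rfl : x = c := ((CA.Two.mem_zpowers_two (h.pw c hc)).1 hx).resolve_left x1
      have := mul_mem (inv_mem (h1 _ (inv_mem hk))) (h2 _ (inv_mem hk))
      rw [h.pw2 ha, h.pw2 (mul_mem ha hc), (h.com ha hc).eq] at this
      convert this using 1
      rw [commutatorElement_def]; group
    · refine (c1 (h.cA hc ?_)).elim
      have := cj_mono a⁻¹ (cent_symm l)
      rw [cj_centralizer, cj_inv_cj, cj_zpowers, (h.com (inv_mem ha) hc).eq, mul_inv_cancel_right] at this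
      exact this (mem_zpowers _)
  refine ⟨fun k hk => ?_, l⟩
  have := mul_mem (h1 k hk) (inv_mem (l ((conj_mem_cj (g := a)).2 hk)))
  rwa [h.pw2 ha, mul_inv_cancel_right] at this

theorem star (ha : a ∈ A) (n : a ∉ 𝐍 K) (hc : c ∈ A) (c1 : c ≠ 1) (cN : c ∈ 𝐍 K) (cX : ∀ b ∈ A, c ∈ X ρ b)
    (hv : ρ c v - v ∈ Zs ρ K a) (hg : g ∈ A) : ρ g v - v ∈ Zs ρ K a := by
  have k : ∀ b ∈ A, b ∉ 𝐍 K → ρ b v - v ∈ Zs ρ K a := fun b hb nb => by
    have nb' : b * c ∉ 𝐍 K := fun e => nb (by simpa using mul_mem e (inv_mem cN))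
    have e1 : ρ (b * c) v - v = ρ b v - v + (ρ c v - v) := by
      have := mem_X.1 (cX b hb) v
      rw [map_sub] at this
      rw [(h.com hb hc).eq, mul_ap]
      linear_combination (norm := abel) this
    obtain ⟨l1, l2⟩ := h.gen (M := cen ρ {ρ b v - v}) hb nb hc c1 cN
      (fun k hk u hu => hu ▸ mem_X.1 (h.P hb nb hk) v) fun k hk u hu => by
        have e2 := mem_X.1 (h.P (mul_mem hb hc) nb' hk) v
        have e3 : ρ ((k * (b * c)) ^ 2) (ρ c v - v) = ρ c v - v := by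
          rw [h.pw2 (mul_mem hb hc), mul_ap, hv.2 _ (h.cj_eq ha n (mul_mem hb hc) nb' ▸ conj_mem_cj.2 hk), hv.1 k hk]
        rw [e1, map_add, e3, add_left_inj] at e2
        exact hu ▸ e2
    exact ⟨fun k hk => l1 hk _ rfl, fun k hk => l2 (h.cj_eq hb nb ha n ▸ hk) _ rfl⟩
  by_cases l : g ∈ 𝐍 K
  · have := (Zs ρ K a).add_mem (h.Z_inv ha n ha (k _ (mul_mem ha hg) fun e => n (by
      simpa using mul_mem e (inv_mem l)))) (k a ha n)
    rwa [map_sub, ← mul_ap, ← mul_assoc, h.sq ha, one_mul, sub_add_sub_cancel] at this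
  · exact k g hg l

theorem false2 : False := by
  classical
  obtain ⟨a, ha, n⟩ := SetLike.not_le_iff_exists.1 h.nn
  obtain ⟨Q, q1, q2, q3, q4, q5⟩ := h.exQ
  set Z := Zs ρ K a
  set N := Q ⊓ 𝐍 K
  have cQ : Nat.card Q ≤ 2 * Nat.card N ∧ (N = ⊥ → a ∈ Q) := by
    rcases q5 with rfl | l
    · refine ⟨?_, fun _ => ha⟩
      rw [← Nat.card_zmod 2, ← Nat.card_prod]
      refine Nat.card_le_card_of_injective (fun x : Q => if l : (x : G) ∈ 𝐍 K then ((0 : ZMod 2), (⟨x, x.2, l⟩ : N))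
        else (1, ⟨a * x, mul_mem ha x.2, h.two.2 a ha x x.2 n l⟩)) fun x y e => ?_
      dsimp only at e
      split_ifs at e
      · exact Subtype.ext (congrArg (fun t => (t.2 : G)) e)
      · exact absurd (congrArg Prod.fst e) zero_ne_one
      · exact absurd (congrArg Prod.fst e) one_ne_zero
      · exact Subtype.ext (mul_left_cancel (a := a) (congrArg (fun t => (t.2 : G)) e))
    · rw [show N = Q from inf_eq_left.2 l]
      exact ⟨by omega, fun e => (q2 e).elim⟩
  have na : ∀ b : N, a * b ∉ 𝐍 K := fun b e => n (by simpa using mul_mem e (inv_mem b.2.2))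
  have ma : ∀ b : N, a * b ∈ A := fun b => mul_mem ha (q1 b.2.1)
  have tv : ∀ b : N, 3 * Nat.card (Ys ρ Z (a * b)) ≤ Nat.card V := fun b => by
    have := h.tv (ma b) (na b)
    rwa [Zs, h.cj_eq ha n (ma b) (na b)] at this
  have pV : 0 < Nat.card V := Nat.card_pos
  by_cases N1 : N = ⊥
  · have c1 := card_mono (show fx ρ Q ≤ Ys ρ Z a from fun v hv => mem_Ys.2 (by
      rw [hv a (cQ.2 N1), sub_self]; exact zero_mem _))
    have c2 := tv 1
    have c3 := cQ.1
    rw [N1, card_bot] at c3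
    have := q3.trans (Nat.mul_le_mul c3 c1)
    rw [OneMemClass.coe_one, mul_one] at c2
    omega
  obtain ⟨c, c1⟩ := ne_bot_iff_exists_ne_one.1 N1
  set T : Submodule (ZMod 2) V := ⨅ g : A, Ys ρ Z g
  have mT : ∀ c : N, c ≠ 1 → ∀ v, ρ c v - v ∈ Z → v ∈ T := fun c c1 v hv => (Submodule.mem_iInf _).2 fun g =>
    h.star ha n (q1 c.2.1) (fun e => c1 (Subtype.ext e)) c.2.2 (fun b hb => q4 b hb c.2.1) hv g.2
  have c2 := card_mono (show fx ρ Q ≤ T from fun v hv => mT c c1 v (by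
    rw [hv c c.2.1, sub_self]; exact zero_mem _))
  have sq : ∀ b : N, b * b = 1 := fun b => Subtype.ext (h.sq (q1 b.2.1))
  have ne : ∀ {b b' : N}, b ≠ b' → b * b' ≠ 1 := fun {b b'} l e => l (mul_left_cancel ((sq b).trans e.symm))
  have yi : ∀ {b b' : N}, b ≠ b' → Ys ρ Z (a * b) ⊓ Ys ρ Z (a * b') = T := fun {b b'} l =>
    le_antisymm (fun v hv => mT _ (ne l) v (by
      have := Z.add_mem (h.Z_inv ha n (ma b) hv.2) hv.1
      have e : a * b * (a * b') = (b * b' : N) := by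
        rw [(h.com ha (q1 b.2.1)).eq, mul_assoc, ← mul_assoc a, h.sq ha, one_mul]; rfl
      simp only [LinearMap.sub_apply, Module.End.one_apply, map_sub, ← mul_ap, sub_add_sub_cancel, e] at this
      exact this)) (le_inf (iInf_le (fun g : A => Ys ρ Z g) ⟨_, ma b⟩) (iInf_le (fun g : A => Ys ρ Z g) ⟨_, ma b'⟩))
  have ys : ∀ {b b' : N}, b ≠ b' → Ys ρ Z (a * b) ⊔ Ys ρ Z (a * b') = ⊤ := fun {b b'} l => by
    have k : ∀ b : N, ∀ k ∈ K, ∀ v, ρ ((k * (a * b)) ^ 2) v - v ∈ Ys ρ Z (a * b) := fun b k hk v => mem_Ys.2 (by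
      rw [mem_X.1 (h.P' (ma b) (na b) hk) v, sub_self]; exact zero_mem _)
    have e : a * b * (b * b' : N) = a * b' := by
      rw [coe_mul, mul_assoc, ← mul_assoc (b : G), h.sq (q1 b.2.1), one_mul]
    obtain ⟨l1, l2⟩ := h.gen (M := cm ρ (Ys ρ Z (a * b) ⊔ Ys ρ Z (a * b'))) (ma b) (na b) (q1 (b * b').2.1)
      (fun e => ne l (Subtype.ext e)) (b * b').2.2 (fun j hj v => Submodule.mem_sup_left (k b j hj v))
      fun j hj v => Submodule.mem_sup_right (e ▸ k b' j hj v)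
    refine h.V1 fun g hg => ?_
    by_cases l : g ∈ 𝐍 K
    · rwa [cj_eq_self l]
    · rwa [h.cj_eq (ma b) (na b) hg l]
  have y3 : ∀ b : N, 3 * Nat.card T ≤ Nat.card (Ys ρ Z (a * b)) := fun b => by
    have l : b ≠ b * c := fun e => c1 (left_eq_mul.1 e)
    have e := card_sup_inf (Ys ρ Z (a * b)) (Ys ρ Z (a * (b * c : N)))
    rw [yi l, ys l, Nat.card_congr Submodule.topEquiv.toEquiv] at e
    have := tv (b * c)
    have p1 : 0 < Nat.card (Ys ρ Z (a * (b * c : N))) := Nat.card_pos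
    nlinarith
  haveI := Fintype.ofFinite V
  haveI := Fintype.ofFinite N
  have cf : ∀ U : Submodule (ZMod 2) V, (Finset.univ.filter (· ∈ U)).card = Nat.card U := fun U => by
    rw [Nat.card_eq_fintype_card, Fintype.card_subtype]
  set F : N → Finset V := fun b => Finset.univ.filter (· ∈ Ys ρ Z (a * b)) \ Finset.univ.filter (· ∈ T)
  have f1 : ∀ b, 2 * Nat.card T ≤ (F b).card := fun b => by
    have := Finset.le_card_sdiff (Finset.univ.filter (· ∈ T)) (Finset.univ.filter (· ∈ Ys ρ Z (a * b)))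
    rw [cf, cf] at this
    have := y3 b
    simp only [F]
    omega
  have f2 : (Finset.univ.biUnion F).card = ∑ b, (F b).card := Finset.card_biUnion fun b _ b' _ l =>
    Finset.disjoint_left.2 fun v h1 h2 => by
      simp only [F, Finset.mem_sdiff, Finset.mem_filter, Finset.mem_univ, true_and] at h1 h2
      exact h1.2 (yi l ▸ ⟨h1.1, h2.1⟩)
  have f3 : (Finset.univ.biUnion F).card < Nat.card V := by
    rw [Nat.card_eq_fintype_card]
    refine Finset.card_lt_card ⟨Finset.subset_univ _, fun l => ?_⟩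
    obtain ⟨b, -, hb⟩ := Finset.mem_biUnion.1 (l (Finset.mem_univ 0))
    simp [F] at hb
  have f4 := Finset.card_nsmul_le_sum Finset.univ (fun b => (F b).card) _ fun b _ => f1 b
  rw [Finset.card_univ, ← Nat.card_eq_fintype_card, smul_eq_mul] at f4
  have := q3.trans (Nat.mul_le_mul cQ.1 c2)
  nlinarith

end Ctx
end

theorem main {p : ℕ} [hp : Fact p.Prime] (n : ℕ) : ∀ {G V : Type*} [Group G] [Finite G] [AddCommGroup V] [Finite V]
    [Module (ZMod p) V] (ρ : Representation (ZMod p) G V) (A K : Subgroup G), Nat.card A = n → A ≤ 𝐂 A →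
    (∀ a ∈ A, a ^ p = 1) → Best ρ A → IsComponent K → ¬ K ≤ cen ρ Set.univ → A ≤ 𝐍 K := by
  induction n using Nat.strong_induction_on with
  | _ n ih =>
  intro G V _ _ _ _ _ ρ A K hn ab pw best cp nt
  by_contra nn
  obtain ⟨W, ⟨w1, w2⟩, hm⟩ := WellFounded.has_min (wellFounded_lt (α := Submodule (ZMod p) V))
    {W | (∀ g ∈ K ⊔ A, ∀ u ∈ W, ρ g u ∈ W) ∧ ¬ K ≤ cen ρ W} ⟨⊤, fun _ _ _ _ => trivial, nt⟩
  set H := K ⊔ A
  let σ : Representation (ZMod p) H W :=
    Representation.subrepresentation (ρ.comp H.subtype) W fun g u hu => w1 g g.2 u hu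
  have lK : K ≤ H := le_sup_left
  have lA : A ≤ H := le_sup_right
  have cf : ∀ B : Subgroup H, Nat.card (fx σ B) = Nat.card ↥(W ⊓ fx ρ (B.map H.subtype)) := fun B =>
    Nat.card_congr ⟨fun v => ⟨v.1, v.1.2, by rintro _ ⟨b, hb, rfl⟩; exact congrArg Subtype.val (v.2 b hb)⟩,
      fun v => ⟨⟨v, v.2.1⟩, fun b hb => Subtype.ext (v.2.2 b ⟨b, hb, rfl⟩)⟩, fun _ => rfl, fun _ => rfl⟩
  have nt' : ¬ K.subgroupOf H ≤ cen σ Set.univ := fun e => w2 fun k hk u hu =>
    congrArg Subtype.val (e (show (⟨k, lK hk⟩ : H) ∈ K.subgroupOf H from hk) ⟨u, hu⟩ trivial)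
  have ab' : A.subgroupOf H ≤ 𝐂 (A.subgroupOf H) := fun a ha b hb => Subtype.ext (ab ha b hb)
  have pw' : ∀ a ∈ A.subgroupOf H, a ^ p = 1 := fun a ha => Subtype.ext (pw a ha)
  have cA : Nat.card (A.subgroupOf H) = Nat.card A := Nat.card_congr (subgroupOfEquivOfLe lA).toEquiv
  have h : Ctx σ (A.subgroupOf H) (K.subgroupOf H) := by
    refine ⟨ab', pw', comp_subgroupOf cp lK, fun U h1 h2 => ?_, nt', fun B hB => ?_, fun B hB bB =>
      ih _ (hn ▸ cA ▸ card_lt_of_lt hB) σ B _ rfl (hB.le.trans (ab'.trans (centralizer_anti hB.le)))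
        (fun a ha => pw' a (hB.le ha)) bB (comp_subgroupOf cp lK) nt', fun e => nn fun a ha => ?_⟩
    · by_cases l : K.subgroupOf H ≤ cen σ U
      · exact .inr l
      left
      by_contra hU
      refine hm (U.map W.subtype) ⟨fun g hg => ?_, fun e => l fun k hk u hu => Subtype.ext (e hk _ ⟨u, hu, rfl⟩)⟩
        (lt_of_le_of_ne (W.map_subtype_le U) fun e => hU (Submodule.map_injective_of_injective W.injective_subtype
          (e.trans W.map_subtype_top.symm)))
      let M : Subgroup G :=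
        { carrier := {g | ∀ u, u ∈ U.map W.subtype ↔ ρ g u ∈ U.map W.subtype}
          mul_mem' := fun h k u => by rw [mul_ap, ← h, ← k]
          one_mem' := fun u => by simp
          inv_mem' := fun {g} h u => by rw [h (ρ g⁻¹ u), ρ.self_inv_apply] }
      have k : ∀ L ≤ H, (∀ g ∈ L.subgroupOf H, ∀ u ∈ U, σ g u ∈ U) → L ≤ M := fun L l h => by
        have k1 : ∀ g ∈ L, ∀ u ∈ U.map W.subtype, ρ g u ∈ U.map W.subtype := by
          rintro g hg _ ⟨u, hu, rfl⟩
          exact ⟨_, h ⟨g, l hg⟩ hg u hu, rfl⟩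
        exact fun g hg u => ⟨k1 g hg u, fun e => ρ.inv_self_apply g u ▸ k1 _ (inv_mem hg) _ e⟩
      exact fun u hu => ((sup_le (k K lK h1) (k A lA h2) : H ≤ M) hg u).1 hu
    · have l : B.map H.subtype ≤ A := map_le_iff_le_comap.2 hB
      have e1 := best _ l
      have e2 := card_sup_inf (W ⊓ fx ρ (B.map H.subtype)) (fx ρ A)
      have e3 := card_mono (sup_le inf_le_right (fx_anti l) : W ⊓ fx ρ (B.map H.subtype) ⊔ fx ρ A ≤ _)
      rw [inf_assoc, inf_eq_right.2 (fx_anti l)] at e2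
      rw [ms, ms, cf, cf, subgroupOf_map_subtype, inf_eq_left.2 lA, cA]
      rw [ms, ms, card_subtype] at e1
      have p1 : 0 < Nat.card (fx ρ A) := Nat.card_pos
      refine Nat.le_of_mul_le_mul_right ?_ p1
      calc _ = Nat.card B * (Nat.card ↥(W ⊓ fx ρ (B.map H.subtype) ⊔ fx ρ A) * Nat.card ↥(W ⊓ fx ρ A)) := by
            rw [e2, mul_assoc]
        _ ≤ Nat.card B * (Nat.card ↥(fx ρ (B.map H.subtype)) * Nat.card ↥(W ⊓ fx ρ A)) := by gcongr
        _ ≤ Nat.card A * Nat.card (fx ρ A) * Nat.card ↥(W ⊓ fx ρ A) := by rw [← mul_assoc]; gcongr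
        _ = _ := by ring
    · have := e (show (⟨a, lA ha⟩ : H) ∈ A.subgroupOf H from ha)
      rwa [normalizer_subgroupOf lK] at this
  obtain rfl := h.two.1
  exact h.false2

end CA.PGV
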