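import Cfsg.Agent.Lib.Odd.BG4x2
import Cfsg.Agent.Lib.Odd.BG2
import Cfsg.Agent.Lib.Odd.BGMisc
import Cfsg.Agent.Lib.Grp.Fpf

/-!
Solvable groups with four primes that are pairwise but not triply joined, part 1: tools.
-/

set_option autoImplicit false
set_option linter.unusedSectionVars false
set_option linter.unusedVariables false

namespace CA.H29Tri

open Subgroup Cfsg CA.BG CA.BG4
open scoped commutatorElement

variable {G : Type*} [Group G] [Finite G]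

/-- A nontrivial `p`-subgroup. -/
def NT (p : ℕ) (X : Subgroup G) : Prop := IsPi {p} X ∧ X ≠ ⊥

theorem NT.pi {p : ℕ} {X : Subgroup G} (h : NT p X) : IsPi {p} X := h.1
theorem NT.ne {p : ℕ} {X : Subgroup G} (h : NT p X) : X ≠ ⊥ := h.2

theorem nt_card {p : ℕ} (hp : p.Prime) {X : Subgroup G} (h : ♯X = p) : NT p X :=
  ⟨isPi_of_card_eq hp h, ne_bot_of_prime (h ▸ hp)⟩

/-- The standing hypotheses. -/
structure Ctx (σ : Set ℕ) (G : Type*) [Group G] : Prop where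
  solv : Group.IsSolvable G
  pr : ∀ t ∈ σ, t.Prime
  tri : ∀ {p q r : ℕ}, p ∈ σ → q ∈ σ → r ∈ σ → p ≠ q → p ≠ r → q ≠ r →
    ∀ {X Y Z : Subgroup G}, NT p X → NT q Y → NT r Z → X ≤ 𝓒(Y) → X ≤ 𝓒(Z) → Y ≤ 𝓒(Z) → False
  l1 : ∀ {p q r s : ℕ}, p ∈ σ → q ∈ σ → r ∈ σ → s ∈ σ → p ≠ q → p ≠ r → p ≠ s → q ≠ r → q ≠ s →
    r ≠ s → ∀ {X Y Z W : Subgroup G}, NT p X → NT q Y → NT r Z → NT s W → Y ≤ 𝓒(X) → Z ≤ 𝓒(X) →
    W ≤ 𝓒(X) → False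

/-- Four distinct members of `σ`. -/
structure Q4 (σ : Set ℕ) (p q r s : ℕ) : Prop where
  hp : p ∈ σ
  hq : q ∈ σ
  hr : r ∈ σ
  hs : s ∈ σ
  pq : p ≠ q
  pr : p ≠ r
  ps : p ≠ s
  qr : q ≠ r
  qs : q ≠ s
  rs : r ≠ s

variable {σ : Set ℕ} {p q r s t u : ℕ} {A B E H K L M N R U V W X Y Z : Subgroup G}

theorem Q4.s12 (h : Q4 σ p q r s) : Q4 σ q p r s :=
  ⟨h.hq, h.hp, h.hr, h.hs, h.pq.symm, h.qr, h.qs, h.pr, h.ps, h.rs⟩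
theorem Q4.s23 (h : Q4 σ p q r s) : Q4 σ p r q s :=
  ⟨h.hp, h.hr, h.hq, h.hs, h.pr, h.pq, h.ps, h.qr.symm, h.rs, h.qs⟩
theorem Q4.s34 (h : Q4 σ p q r s) : Q4 σ p q s r :=
  ⟨h.hp, h.hq, h.hs, h.hr, h.pq, h.ps, h.pr, h.qs, h.qr, h.rs.symm⟩

theorem Ctx.sv (C : Ctx σ G) (H : Subgroup G) : Group.IsSolvable H := by
  haveI := C.solv; infer_instance

theorem FX (ht : t.Prime) (hA : El t 2 A) (hn : A ≤ 𝓝(K)) (hc : (♯K).Coprime ♯A) (hK : K ≠ ⊥) :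
    ∃ X, X ≤ A ∧ ♯X = t ∧ K ⊓ 𝓒(X) ≠ ⊥ := by
  obtain ⟨X, h1, h2, h3⟩ := coprime_elem_exists_cent (k := 0) (L := ⊥) ht hA hn hc
    (fun h => hK (le_bot_iff.1 h))
  exact ⟨X, h1, h2, fun e => h3 e.le⟩

theorem FX' (ht : t.Prime) (hA : El t 2 A) (hn : A ≤ 𝓝(K)) (hK : NT u K) (h : u ≠ t) :
    ∃ X, X ≤ A ∧ ♯X = t ∧ K ⊓ 𝓒(X) ≠ ⊥ :=
  FX ht hA hn (hK.pi.coprime_ne (hA.pi ht) h) hK.ne

theorem semireg_prime (hR : (♯R).Prime) (h : K ⊓ 𝓒(R) = ⊥) : CA.Frob2.Semireg K R :=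
  fun x hx h1 => by rw [← cent_eq_cent1_of_prime hR hx h1]; exact h

theorem FRp (hp : p.Prime) (hr : r.Prime) (hV : IsPi {p} V) (hK : IsPi {u} K) (hR : ♯R = r)
    (h1 : p ≠ u) (h2 : p ≠ r) (hRK : R ≤ 𝓝(K)) (hf : K ⊓ 𝓒(R) = ⊥) (hKV : K ≤ 𝓝(V))
    (hRV : R ≤ 𝓝(V)) (h : ¬ K ≤ 𝓒(V)) : V ⊓ 𝓒(R) ≠ ⊥ := fun e =>
  h (CA.Fpf.le_centralizer_of_frobenius_solvable hRK (semireg_prime (hR ▸ hr) hf) (hV.isSolvable hp)
    hKV hRV (hK.coprime_ne hV h1.symm) ((isPi_of_card_eq hr hR).coprime_ne hV h2.symm) e)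

theorem norm_inf_cent (h1 : A ≤ 𝓝(V)) (h2 : A ≤ 𝓒(B)) : A ≤ 𝓝(V ⊓ 𝓒(B)) :=
  norm_inf h1 (norm_cent (norm_of_cent h2))

theorem F3 (C : Ctx σ G) (hp : p ∈ σ) (hq : q ∈ σ) (hr : r ∈ σ) (pq : p ≠ q) (pr : p ≠ r)
    (qr : q ≠ r) (hV : IsPi {p} V) (hA : El q 2 A) (hB : NT r B) (hc : A ≤ 𝓒(B))
    (hn : A ≤ 𝓝(V)) : V ⊓ 𝓒(B) = ⊥ := by
  by_contra hne
  obtain ⟨X, h1, h2, h3⟩ := FX' (C.pr q hq) hA (norm_inf_cent hn hc) ⟨hV.inf_left _, hne⟩ pq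
  exact C.tri hp hq hr pq pr qr ⟨(hV.inf_left _).inf_left _, h3⟩ (nt_card (C.pr q hq) h2) hB
    inf_le_right (inf_le_left.trans inf_le_right) (h1.trans hc)

theorem cent_of_not_dvd (ht : t.Prime) (hu : u.Prime) (hA : IsPi {t} A) (hX : ♯X = u)
    (hn : A ≤ 𝓝(X)) (h : ¬ t ∣ u - 1) : A ≤ 𝓒(X) :=
  hA.le_of_idx ((piNat_compl_iff ht).2 fun hd => h (hd.trans (relIndex_cent_abelem1_dvd hu hX hn)))

theorem lt_of_not_cent (ht : t.Prime) (hu : u.Prime) (hA : IsPi {t} A) (hX : ♯X = u)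
    (hn : A ≤ 𝓝(X)) (h : ¬ A ≤ 𝓒(X)) : t < u ∧ u ≠ 2 := by
  have hd : t ∣ u - 1 := by
    by_contra hd
    exact h (cent_of_not_dvd ht hu hA hX hn hd)
  have h2 := hu.two_le
  have h3 := Nat.le_of_dvd (by omega) hd
  have h4 := ht.two_le
  omega

theorem cent_of_lt (ht : t.Prime) (hu : u.Prime) (hA : IsPi {t} A) (hX : ♯X = u)
    (hn : A ≤ 𝓝(X)) (h : u < t) : A ≤ 𝓒(X) := by
  by_contra hc
  have := (lt_of_not_cent ht hu hA hX hn hc).1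
  omega

theorem exists_cent (ht : t.Prime) (hu : u.Prime) (hA : El t 2 A) (hX : ♯X = u) (hn : A ≤ 𝓝(X))
    (h : u ≠ t) : ∃ Y, Y ≤ A ∧ ♯Y = t ∧ Y ≤ 𝓒(X) := by
  obtain ⟨Y, h1, h2, h3⟩ := FX' ht hA hn (nt_card hu hX) h
  exact ⟨Y, h1, h2, cent_symm (le_of_inf_ne_bot_of_prime (hX ▸ hu) h3)⟩

theorem cyc_cent (ht : t.Prime) (hu : u.Prime) (hA : IsPi {t} A) (hV : IsPi {u} V)
    (hc : IsCyclic V) (hn : A ≤ 𝓝(V)) (h : u < t) : A ≤ 𝓒(V) := by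
  by_cases hb : V = ⊥
  · rw [hb, cent_bot]; exact le_top
  obtain ⟨X, h1, h2⟩ := hV.exists_card_eq hb
  have h3 := cent_of_lt ht hu hA h2 (hn.trans (norm_le_norm_of_cyc hc h1)) h
  exact coprime_cyc_cent hn (hV.coprime_ne hA h.ne) hc hV
    (ne_bot_mono (le_inf h1 (cent_symm h3)) (nt_card hu h2).ne)

theorem FIN (hs : Group.IsSolvable H) (hc : ∀ u, u.Prime → u ∣ ♯H → IsCyclic 𝓞({u}, H))
    (ht : t.Prime) (hmax : ∀ u, u.Prime → u ∣ ♯H → u ≤ t) (h : PRk t 2 H) : False := by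
  obtain ⟨A, hAH, hA⟩ := h
  have hd : ∀ u, u ∣ ♯𝓕(H) → u ∣ ♯H := fun u hu => hu.trans (card_dvd (fit_le H))
  have h1 : 𝓕(H) ≤ 𝓒(⁅H, H⁆) := fit_le_of_core fun u hu hud =>
    cent_symm (der_cent_cyclic (hc u hu (hd u hud)) (le_norm_core _ _))
  have h2 : ⁅H, H⁆ ≤ 𝓕(H) := (le_inf (der_le H) (cent_symm h1)).trans (cent_fit_le hs)
  have hP : IsPi {t} (A ⊔ 𝓞({t}, H)) := (hA.pi ht).sup (core_pi _ _) (hAH.trans (le_norm_core _ _))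
  have h3 : 𝓕(H) ≤ 𝓝(A ⊔ 𝓞({t}, H)) := fit_le_of_core fun u hu hud => by
    by_cases e : u = t
    · rw [e]; exact le_norm_of_le le_sup_right
    refine norm_of_cent (le_cent_sup (cent_symm (cyc_cent ht hu (hA.pi ht) (core_pi _ _)
      (hc u hu (hd u hud)) (hAH.trans (le_norm_core _ _))
      (lt_of_le_of_ne (hmax u hu (hd u hud)) e))) ?_)
    exact cent_of_norm_cop ((core_le _ _).trans (le_norm_core _ _))
      ((core_le _ _).trans (le_norm_core _ _)) ((core_pi _ _).coprime_ne (core_pi _ _) e)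
  have hB : A ⊔ 𝓕(H) ≤ H := sup_le hAH (fit_le H)
  have h4 : A ⊔ 𝓞({t}, H) ≤ 𝓞({t}, A ⊔ 𝓕(H)) :=
    le_core hP (sup_le_sup_left (core_p_le_fit ht H) A) (sup_le (le_norm_of_le le_sup_left) h3)
  have h5 := core_le_core (π := {t}) hB (norm_of_der_le (h2.trans le_sup_right) hB)
  exact hA.not_cyclic_of_le ht (le_sup_left.trans (h4.trans h5))
    (hc t ht ((hA.dvd).trans (card_dvd hAH)))

theorem conj_pow_aux {y f w : G} (h : y * f * y⁻¹ = w * f) (hc : y * w = w * y) (k : ℕ) :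
    y ^ k * f * (y ^ k)⁻¹ = w ^ k * f := by
  induction k with
  | zero => simp
  | succ k ih =>
    have e : Commute y (w ^ k) := Commute.pow_right hc k
    calc y ^ (k + 1) * f * (y ^ (k + 1))⁻¹ = y * (y ^ k * f * (y ^ k)⁻¹) * y⁻¹ := by
          rw [pow_succ']; group
      _ = w ^ k * (y * f * y⁻¹) := by rw [ih, ← mul_assoc, e.eq]; group
      _ = w ^ (k + 1) * f := by rw [h, pow_succ, mul_assoc]

theorem el2_X_e (hq : q.Prime) (hX : ♯X = q) {e : G} (he : e ^ q = 1) (heX : e ∉ X)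
    (hc : e ∈ 𝓒(X)) : El q 2 (X ⊔ zpowers e) ∧ ♯(zpowers e) = q := by
  have h1 : e ≠ 1 := fun h => heX (h ▸ X.one_mem)
  have h2 := card_zpowers_of_pow hq h1 he
  exact ⟨el2_sup hq hX h2 (zpowers_le.2 hc) fun h => heX (h ▸ mem_zpowers e), h2⟩

theorem CJ (hq : q.Prime) (hY : IsPi {q} Y) (hX : ♯(Ω₁(q, 𝓩(Y))) = q)
    (hE : ExpDvd Ω₁(q, Z2 Y) q) {e : G} (he : e ∈ Ω₁(q, Z2 Y)) (heX : e ∉ Ω₁(q, 𝓩(Y)))
    (hV : NT p V) (pq : p ≠ q) (hn : Y ≤ 𝓝(V)) (hf : V ⊓ 𝓒(Ω₁(q, 𝓩(Y))) = ⊥) :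
    V ⊓ 𝓒(zpowers e) ≠ ⊥ := by
  set X := Ω₁(q, 𝓩(Y)) with hXd
  set E := Ω₁(q, Z2 Y) with hEd
  have hEY : E ≤ Y := (omega_le _ _).trans (Z2_le Y)
  have hYX : Y ≤ 𝓒(X) := le_cent_omega_center q Y
  have hXY : X ≤ Y := omega_center_le q Y
  have hXE : X ≤ E := omega_mono q (center_le_Z2 Y)
  have hnE : Y ≤ 𝓝(E) := ((charIn_Z2 Y).omega q).normal
  obtain ⟨hA, hec⟩ := el2_X_e hq hX (hE e he) heX (hYX (hEY he))
  have hAE : X ⊔ zpowers e ≤ E := sup_le hXE (zpowers_le.2 he)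
  obtain ⟨X', h1, h2, h3⟩ := FX' hq hA ((hAE.trans hEY).trans hn) hV pq
  obtain ⟨x, hx, hx1⟩ := exists_ne_one (nt_card hq h2).ne
  have hX' : X' = zpowers x := eq_zpowers_of_prime (h2 ▸ hq) hx hx1
  obtain ⟨d, hd, f, hf', rfl⟩ := (mem_sup_norm' (A := zpowers e) (N := X)
    ((zpowers_le.2 (hEY he)).trans (norm_of_cent hYX))).1 (h1 hx)
  have hfE : f ∈ E := zpowers_le.2 he hf'
  have hf1 : f ≠ 1 := by
    rintro rfl
    rw [mul_one] at hX' hx1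
    have : X = X' := by rw [hX']; exact eq_zpowers_of_prime (hX ▸ hq) hd hx1
    exact h3 (this ▸ hf)
  have hef : zpowers e = zpowers f := eq_zpowers_of_prime (hec ▸ hq) hf' hf1
  have hfX : f ∉ X := fun h => heX (zpowers_le.2 h (hef ▸ mem_zpowers e))
  obtain ⟨y, hy, hyf⟩ : ∃ y ∈ Y, ⁅y, f⁆ ≠ 1 := by
    by_contra hcon
    push Not at hcon
    exact hfX (mem_omega ⟨hEY hfE, fun y hy => commutatorElement_eq_one_iff_mul_comm.1 (hcon y hy)⟩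
      (hE f hfE))
  have hw : ⁅y, f⁆ ∈ X := by
    refine mem_omega ?_ (hE _ ?_)
    · have := comm_Z2_le Y (commutator_mem_commutator (omega_le _ _ hfE) hy)
      rw [← commutatorElement_inv]
      exact inv_mem this
    · rw [commutatorElement_def]
      exact mul_mem (conj_mem_of_norm hnE hy hfE) (inv_mem hfE)
  have hXw : X = zpowers ⁅y, f⁆ := eq_zpowers_of_prime (hX ▸ hq) hw hyf
  obtain ⟨k, hk⟩ := (mem_powers_iff_mem_zpowers.2 (hXw ▸ hd : d ∈ zpowers ⁅y, f⁆))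
  have hk' : ⁅y, f⁆ ^ k = d := hk
  have h4 := conj_pow_aux (y := y) (f := f) (w := ⁅y, f⁆) (by rw [commutatorElement_def]; group)
    ((mem_cent.1 (hYX hy) _ hw).symm) k
  rw [hk'] at h4
  rw [hef]
  intro h5
  apply h3
  have h6 := congrArg (cj (y ^ k)) h5
  rw [cj_inf, cj_cent, cj_zpowers, h4, cj_bot, cj_of_mem_norm (hn (pow_mem hy k))] at h6
  rw [hX']; exact h6

theorem min_elem (hs : Group.IsSolvable K) (hK : K ≠ ⊥) (hn : L ≤ 𝓝(K)) :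
    ∃ M t, M ≤ K ∧ L ≤ 𝓝(M) ∧ t.Prime ∧ IsElementaryAbelian t M ∧ NT t M ∧ t ∣ ♯K := by
  obtain ⟨M, h1, h2⟩ := exists_minNormal hn hK
  obtain ⟨t, ht, h3⟩ := h2.elem (solv_of_le hs h1)
  have h4 : IsPi {t} M := isPi_of_elem ht h3
  exact ⟨M, t, h1, h2.2.1, ht, h3, ⟨h4, h2.1⟩, (h4.dvd_card h2.1).trans (card_dvd h1)⟩

theorem card_of_elem_cyc (ht : t.Prime) (h : IsElementaryAbelian t M) (hM : M ≠ ⊥)
    (hc : ¬ PRk t 2 M) : ♯M = t := by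
  have h1 := elem_card_dvd (k := 1) ht h hc
  rw [pow_one] at h1
  rcases (Nat.dvd_prime ht).1 h1 with e | e
  · exact absurd (card_eq_one.1 e) hM
  · exact e

theorem pi_swap (h : IsPi {r, s} L) : IsPi {s, r} L := by rwa [Set.pair_comm]

theorem pi_mem2 (h : IsPi {r, s} L) (ht : t.Prime) (hd : t ∣ ♯L) : t = r ∨ t = s := by
  simpa using h t ht hd

theorem core_cyc_of_not (h : IsPi {r, s} L) (hr : IsCyclic 𝓞({r}, L)) (hs : IsCyclic 𝓞({s}, L))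
    (u : ℕ) (hu : u.Prime) (hd : u ∣ ♯L) : IsCyclic 𝓞({u}, L) := by
  rcases pi_mem2 h hu hd with rfl | rfl
  exacts [hr, hs]

end CA.H29Tri
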