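import Cfsg.Agent.Lib.Loc.H29Tri1

/-!
Solvable groups with four primes that are pairwise but not triply joined, part 2: the cases.
-/

set_option autoImplicit false
set_option linter.unusedSectionVars false
set_option linter.unusedVariables false

namespace CA.H29Tri

open Subgroup Cfsg CA.BG CA.BG4
open scoped commutatorElement

variable {G : Type*} [Group G] [Finite G]
variable {σ : Set ℕ} {p q r s t u : ℕ} {A B E H K L M N R S U V W X Y Z : Subgroup G}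

/-- Data of the first case. -/
structure D1 (p q r s : ℕ) (V U L : Subgroup G) : Prop where
  hV : NT p V
  hU : NT q U
  c : V ≤ 𝓒(U)
  pi : IsPi {r, s} L
  nV : L ≤ 𝓝(V)
  nU : L ≤ 𝓝(U)
  kr : PRk r 2 L
  ks : PRk s 2 L

theorem D1.s12 (D : D1 p q r s V U L) : D1 q p r s U V L :=
  ⟨D.hU, D.hV, cent_symm D.c, D.pi, D.nU, D.nV, D.kr, D.ks⟩
theorem D1.s34 (D : D1 p q r s V U L) : D1 p q s r V U L :=
  ⟨D.hV, D.hU, D.c, pi_swap D.pi, D.nV, D.nU, D.ks, D.kr⟩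

theorem I0 (C : Ctx σ G) (Q : Q4 σ p q r s) (D : D1 p q r s V U L) (hX : NT r X)
    (h1 : V ⊓ 𝓒(X) ≠ ⊥) (h2 : U ⊓ 𝓒(X) ≠ ⊥) : False :=
  C.tri Q.hp Q.hq Q.hr Q.pq Q.pr Q.qr ⟨D.hV.pi.inf_left _, h1⟩ ⟨D.hU.pi.inf_left _, h2⟩ hX
    (le_cent_mono D.c inf_le_left inf_le_left) inf_le_right inf_le_right

theorem I1a (C : Ctx σ G) (Q : Q4 σ p q r s) (D : D1 p q r s V U L) (hS : El s 2 S) (hSL : S ≤ L)
    (hM : NT r M) (hML : M ≤ L) (hn : S ≤ 𝓝(M)) (hf : M ⊓ 𝓒(S) = ⊥) (hY : Y ≤ S) (hYc : ♯Y = s)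
    (hc : M ≤ 𝓒(Y)) (hV : ¬ M ≤ 𝓒(V)) : False := by
  have hp := C.pr p Q.hp
  have hq := C.pr q Q.hq
  have hs := C.pr s Q.hs
  have key : ∀ Y', Y' ≤ S → ♯Y' = s → Y' ≠ Y → M ⊓ 𝓒(Y') = ⊥ ∧ U ⊓ 𝓒(Y') = ⊥ := by
    intro Y' h1 h2 h3
    have h4 : M ⊓ 𝓒(Y') = ⊥ := by
      refine BG.eq_bot_mono ?_ hf
      rw [← hS.sup_eq hs h2 hYc h1 hY h3]
      exact le_inf inf_le_left (le_cent_sup inf_le_right (inf_le_left.trans hc))
    refine ⟨h4, ?_⟩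
    by_contra h5
    exact I0 C Q.s34 D.s34 (nt_card hs h2) (FRp hp hs D.hV.pi hM.pi h2 Q.pr Q.ps (h1.trans hn) h4
      (hML.trans D.nV) ((h1.trans hSL).trans D.nV) hV) h5
  obtain ⟨Y', h1, h2, h3⟩ := hS.exists_ne hs hYc
  have hMU : M ≤ 𝓒(U) := by
    by_contra h
    exact FRp hq hs D.hU.pi hM.pi h2 Q.qr Q.qs (h1.trans hn) (key Y' h1 h2 h3).1 (hML.trans D.nU)
      ((h1.trans hSL).trans D.nU) h (key Y' h1 h2 h3).2
  obtain ⟨Y'', g1, g2, g3⟩ := FX' hs hS (hSL.trans D.nU) D.hU Q.qs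
  have e : Y'' = Y := by
    by_contra e
    exact g3 (key Y'' g1 g2 e).2
  subst e
  exact C.tri Q.hq Q.hr Q.hs Q.qr Q.qs Q.rs ⟨D.hU.pi.inf_left _, g3⟩ hM (nt_card hs g2)
    (inf_le_left.trans (cent_symm hMU)) inf_le_right hc

theorem I1 (C : Ctx σ G) (Q : Q4 σ p q r s) (D : D1 p q r s V U L) (hS : El s 2 S) (hSL : S ≤ L)
    (hM : IsPi {r} M) (hc : IsMulCommutative M) (hML : M ≤ L) (hn : S ≤ 𝓝(M)) : S ≤ 𝓒(M) := by
  have hs := C.pr s Q.hs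
  by_contra hcon
  obtain ⟨Y, h1, h2, h3⟩ := coprime_elem_exists_cent (k := 0) (L := 𝓒(S)) hs hS hn
    (hM.coprime_ne (hS.pi hs) Q.rs) (fun h => hcon (cent_symm h))
  have hn1 : S ≤ 𝓝(M ⊓ 𝓒(Y)) := norm_inf_cent hn (le_cent_mono hS.le_cent le_rfl h1)
  have hle : ⁅M ⊓ 𝓒(Y), S⁆ ≤ M ⊓ 𝓒(Y) := comm_le_left hn1
  have hM2 : NT r ⁅M ⊓ 𝓒(Y), S⁆ :=
    ⟨hM.of_le (hle.trans inf_le_left), fun e => h3 (comm_eq_bot_iff.1 e)⟩
  have hf := coprime_abel_cent_TI hn1 ((hM.inf_left _).coprime_ne (hS.pi hs) Q.rs)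
    (comm_of_le hc inf_le_left)
  have hL : ⁅M ⊓ 𝓒(Y), S⁆ ≤ L := (hle.trans inf_le_left).trans hML
  by_cases hV : ⁅M ⊓ 𝓒(Y), S⁆ ≤ 𝓒(V)
  · refine I1a C Q.s12 D.s12 hS hSL hM2 hL (le_norm_comm_right _ _) hf h1 h2
      (hle.trans inf_le_right) fun hU => ?_
    exact C.tri Q.hp Q.hq Q.hr Q.pq Q.pr Q.qr D.hV D.hU hM2 D.c (cent_symm hV) (cent_symm hU)
  · exact I1a C Q D hS hSL hM2 hL (le_norm_comm_right _ _) hf h1 h2 (hle.trans inf_le_right) hV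

theorem I2 (C : Ctx σ G) (Q : Q4 σ p q r s) (D : D1 p q r s V U L) (hM : IsPi {r} M)
    (hc : IsMulCommutative M) (hML : M ≤ L) (hn : L ≤ 𝓝(M)) (hX : X ≤ M) (h1 : X ≠ ⊥) :
    V ⊓ 𝓒(X) = ⊥ := by
  obtain ⟨S, hSL, hS⟩ := D.ks
  exact F3 C Q.hp Q.hs Q.hr Q.ps Q.pr Q.rs.symm D.hV.pi hS ⟨hM.of_le hX, h1⟩
    ((I1 C Q D hS hSL hM hc hML (hSL.trans hn)).trans (cent_anti hX)) (hSL.trans D.nV)

theorem I2c (C : Ctx σ G) (Q : Q4 σ p q r s) (D : D1 p q r s V U L) (hM : IsPi {r} M)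
    (hc : IsMulCommutative M) (hML : M ≤ L) (hn : L ≤ 𝓝(M)) : ¬ PRk r 2 M := by
  rintro ⟨A, hA, hA'⟩
  have hr := C.pr r Q.hr
  obtain ⟨X, h1, h2, h3⟩ := FX' hr hA' ((hA.trans hML).trans D.nV) D.hV Q.pr
  exact h3 (I2 C Q D hM hc hML hn (h1.trans hA) (nt_card hr h2).ne)

theorem I2f (C : Ctx σ G) (Q : Q4 σ p q r s) (D : D1 p q r s V U L) : L ⊓ 𝓒(V) = ⊥ := by
  by_contra hne
  obtain ⟨M, t, h1, h2, ht, h3, h4, h5⟩ := min_elem (L := L) (C.sv _) hne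
    (norm_inf (le_norm_self L) (norm_cent D.nV))
  have h6 : V ⊓ 𝓒(M) = V := inf_eq_left.2 (cent_symm (h1.trans inf_le_right))
  rcases pi_mem2 D.pi ht (h5.trans (card_dvd inf_le_left)) with rfl | rfl
  · exact D.hV.ne (h6 ▸ I2 C Q D h4.pi h3.1 (h1.trans inf_le_left) h2 le_rfl h4.ne)
  · exact D.hV.ne (h6 ▸ I2 C Q.s34 D.s34 h4.pi h3.1 (h1.trans inf_le_left) h2 le_rfl h4.ne)

theorem inv_two (hL : L ≤ 𝓝(V)) (hf : L ⊓ 𝓒(V) = ⊥) (hX : ♯X = 2) (hY : ♯Y = 2) (hXL : X ≤ L)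
    (hYL : Y ≤ L) (h1 : V ⊓ 𝓒(X) = ⊥) (h2 : V ⊓ 𝓒(Y) = ⊥) : Y = X := by
  have h2p := Nat.prime_two
  obtain ⟨x, hx, hx1⟩ := exists_ne_one (nt_card h2p hX).ne
  obtain ⟨y, hy, hy1⟩ := exists_ne_one (nt_card h2p hY).ne
  have ex : x * x = 1 := by rw [← pow_two]; exact pow_eq_one_of_card hX hx
  have ey : y * y = 1 := by rw [← pow_two]; exact pow_eq_one_of_card hY hy
  rw [cent_eq_cent1_of_prime (hX ▸ h2p) hx hx1] at h1
  rw [cent_eq_cent1_of_prime (hY ▸ h2p) hy hy1] at h2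
  have h3 : x⁻¹ * y ∈ L ⊓ 𝓒(V) := by
    refine mem_inf.2 ⟨L.mul_mem (L.inv_mem (hXL hx)) (hYL hy), mem_cent.2 fun v hv => ?_⟩
    have a := CA.Frob2.conj_eq_inv_of_involution (hL (hXL hx)) ex h1 hv
    have b := CA.Frob2.conj_eq_inv_of_involution (hL (hYL hy)) ey h2 hv
    calc v * (x⁻¹ * y) = x⁻¹ * (x * v * x⁻¹) * y := by group
      _ = x⁻¹ * (y * v * y⁻¹) * y := by rw [a, b]
      _ = x⁻¹ * y * v := by group
  rw [hf, mem_bot, inv_mul_eq_one] at h3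
  rw [eq_zpowers_of_prime (hX ▸ h2p) hx hx1, eq_zpowers_of_prime (hY ▸ h2p) hy hy1, h3]

theorem I3 (C : Ctx σ G) (Q : Q4 σ p q r s) (D : D1 p q r s V U L) : IsCyclic 𝓞({r}, L) := by
  have hr := C.pr r Q.hr
  by_contra hcon
  have hY := core_pi {r} L
  have hY1 : 𝓞({r}, L) ≠ ⊥ := fun e => hcon (e ▸ cyc_bot)
  set Y := 𝓞({r}, L) with hYd
  have hYL : Y ≤ L := core_le _ _
  have hXL : Ω₁(r, 𝓩(Y)) ≤ L := (omega_center_le r Y).trans hYL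
  have hnX : L ≤ 𝓝(Ω₁(r, 𝓩(Y))) := (le_norm_core _ _).trans (norm_omega_center r Y)
  have hXe := elem_omega_center r Y
  have hXp := isPi_of_elem hr hXe
  have hX1 := omega_center_ne_bot hY hY1
  have hX : ♯(Ω₁(r, 𝓩(Y))) = r := card_of_elem_cyc hr hXe hX1 (I2c C Q D hXp hXe.1 hXL hnX)
  have fV := I2 C Q D hXp hXe.1 hXL hnX le_rfl hX1
  have fU := I2 C Q.s12 D.s12 hXp hXe.1 hXL hnX le_rfl hX1
  by_cases h2 : r = 2
  · subst h2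
    obtain ⟨R, hRL, hR⟩ := D.kr
    obtain ⟨T, h1, h3, h4⟩ := hR.exists_ne hr hX
    exact I0 C Q D (nt_card hr h3)
      (fun e => h4 (inv_two D.nV (I2f C Q D) hX h3 hXL (h1.trans hRL) fV e))
      (fun e => h4 (inv_two D.nU (I2f C Q.s12 D.s12) hX h3 hXL (h1.trans hRL) fU e))
  · obtain ⟨h3, h4⟩ := Ohm1_odd_ucn2 hr h2 hY hcon
    obtain ⟨e, he, heX⟩ : ∃ e ∈ Ω₁(r, Z2 Y), e ∉ Ω₁(r, 𝓩(Y)) := by
      by_contra h
      push Not at h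
      exact h3 (cyc_of_le (isCyclic_of_prime (by rw [hX]; exact hr)) h)
    have h1 : e ≠ 1 := fun h => heX (h ▸ one_mem _)
    exact I0 C Q D (nt_card hr (card_zpowers_of_pow hr h1 (h4 e he)))
      (CJ hr hY hX h4 he heX D.hV Q.pr (hYL.trans D.nV) fV)
      (CJ hr hY hX h4 he heX D.hU Q.qr (hYL.trans D.nU) fU)

theorem caseI (C : Ctx σ G) (Q : Q4 σ p q r s) (D : D1 p q r s V U L) : False := by
  have hc := core_cyc_of_not D.pi (I3 C Q D) (I3 C Q.s34 D.s34)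
  rcases le_total r s with h | h
  · exact FIN (C.sv L) hc (C.pr s Q.hs)
      (fun u hu hd => by rcases pi_mem2 D.pi hu hd with rfl | rfl <;> omega) D.ks
  · exact FIN (C.sv L) hc (C.pr r Q.hr)
      (fun u hu hd => by rcases pi_mem2 D.pi hu hd with rfl | rfl <;> omega) D.kr

/-- Data of the second case, with a noncyclic normal elementary abelian subgroup. -/
structure D2 (p q r s : ℕ) (V N L : Subgroup G) : Prop where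
  hV : NT p V
  hN : IsElementaryAbelian q N
  kq : PRk q 2 N
  f : N ⊓ 𝓒(V) = ⊥
  nNV : N ≤ 𝓝(V)
  pi : IsPi {r, s} L
  nV : L ≤ 𝓝(V)
  nN : L ≤ 𝓝(N)
  kr : PRk r 2 L
  ks : PRk s 2 L

theorem D2.s34 (D : D2 p q r s V N L) : D2 p q s r V N L :=
  ⟨D.hV, D.hN, D.kq, D.f, D.nNV, pi_swap D.pi, D.nV, D.nN, D.ks, D.kr⟩

theorem semireg_two (hr : r.Prime) (hs : s.Prime) (rs : r ≠ s) (hX : ♯X = r) (hY : ♯Y = s)
    (hc : X ≤ 𝓒(Y)) (h1 : K ⊓ 𝓒(X) = ⊥) (h2 : K ⊓ 𝓒(Y) = ⊥) : CA.Frob2.Semireg K (X ⊔ Y) := by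
  intro x hx hx1
  have hcop : (♯X).Coprime ♯Y := (isPi_of_card_eq hr hX).coprime_ne (isPi_of_card_eq hs hY) rs
  have hcyc := cyc_sup_of_cop (isCyclic_of_prime (hX ▸ hr)) (isCyclic_of_prime (hY ▸ hs)) hc hcop
  obtain ⟨Z, hZ, hZp⟩ := exists_prime_card_le (ne_bot_of_mem (mem_zpowers x) hx1)
  have hZ' : Z ≤ X ⊔ Y := hZ.trans (zpowers_le.2 hx)
  have hd : ♯Z ∣ r * s := by
    rw [← hX, ← hY]; exact (card_dvd hZ').trans (card_sup_dvd (norm_of_cent hc))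
  have h3 : K ⊓ 𝓒₁(x) ≤ K ⊓ 𝓒(Z) := by
    rw [← cent_zpowers]; exact inf_le_inf_left _ (cent_anti hZ)
  refine BG.eq_bot_mono h3 ?_
  rcases (Nat.Prime.dvd_mul hZp).1 hd with h | h
  · rw [eq_of_cyc_of_card hcyc hZ' le_sup_left
      (((Nat.prime_dvd_prime_iff_eq hZp hr).1 h).trans hX.symm), h1]
  · rw [eq_of_cyc_of_card hcyc hZ' le_sup_right
      (((Nat.prime_dvd_prime_iff_eq hZp hs).1 h).trans hY.symm), h2]

theorem A1 (C : Ctx σ G) (Q : Q4 σ p q r s) (D : D2 p q r s V N L) (hXL : X ≤ L) (hYL : Y ≤ L)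
    (hX : ♯X = r) (hY : ♯Y = s) (hc : X ≤ 𝓒(Y)) : X ≤ 𝓒(N) ∨ Y ≤ 𝓒(N) := by
  have hp := C.pr p Q.hp
  have hq := C.pr q Q.hq
  have hr := C.pr r Q.hr
  have hs := C.pr s Q.hs
  have hN := isPi_of_elem hq D.hN
  have hXp := isPi_of_card_eq hr hX
  have hYp := isPi_of_card_eq hs hY
  have nX := hXL.trans D.nN
  have nY := hYL.trans D.nN
  have l1 : ⁅N, X⁆ ≤ N := comm_le_left nX
  have nY1 : Y ≤ 𝓝(⁅N, X⁆) := norm_comm nY (norm_of_cent (cent_symm hc))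
  have l0 : ⁅⁅N, X⁆, Y⁆ ≤ ⁅N, X⁆ := comm_le_left nY1
  have f1 := coprime_abel_cent_TI nX (hN.coprime_ne hXp Q.qr) D.hN.1
  have f0 := coprime_abel_cent_TI nY1 ((hN.of_le l1).coprime_ne hYp Q.qs) (comm_of_le D.hN.1 l1)
  have hXY : IsPi {p}ᶜ (X ⊔ Y) := (hXp.ne Q.pr.symm).sup (hYp.ne Q.ps.symm) (norm_of_cent hc)
  have h0 : ⁅⁅N, X⁆, Y⁆ ≤ 𝓒(V) := by
    refine CA.Fpf.le_centralizer_of_frobenius_solvable (R := X ⊔ Y)
      (sup_le (norm_comm (le_norm_comm_right _ _) (norm_of_cent hc)) (le_norm_comm_right _ _))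
      (semireg_two hr hs Q.rs hX hY hc (BG.eq_bot_mono (inf_le_inf_right _ l0) f1) f0) (C.sv V)
      ((l0.trans l1).trans D.nNV) ((sup_le hXL hYL).trans D.nV)
      ((hN.of_le (l0.trans l1)).coprime_ne D.hV.pi Q.pq.symm) (hXY.coprime' D.hV.pi) ?_
    by_contra hne
    exact C.tri Q.hp Q.hr Q.hs Q.pr Q.ps Q.rs ⟨D.hV.pi.inf_left _, hne⟩ (nt_card hr hX)
      (nt_card hs hY) (inf_le_right.trans (cent_anti le_sup_left))
      (inf_le_right.trans (cent_anti le_sup_right)) hc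
  have h1 : ⁅N, X⁆ ≤ 𝓒(Y) := comm_eq_bot_iff.1 (BG.eq_bot_mono (le_inf (l0.trans l1) h0) D.f)
  by_cases hXN : X ≤ 𝓒(N)
  · exact Or.inl hXN
  right
  have h2 : ⁅N, X⁆ ≠ ⊥ := fun e => hXN (cent_symm (comm_eq_bot_iff.1 e))
  by_cases h3 : N ⊓ 𝓒(X) = ⊥
  · rw [coprime_comm_eq_of_cent nX (hN.coprime_ne hXp Q.qr) (Or.inl (C.sv X)) h3] at h1
    exact cent_symm h1
  exfalso
  have h4 : N ⊓ 𝓒(X) ⊓ 𝓒(Y) = ⊥ := by
    by_contra hne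
    exact C.tri Q.hq Q.hr Q.hs Q.qr Q.qs Q.rs ⟨(hN.inf_left _).inf_left _, hne⟩ (nt_card hr hX)
      (nt_card hs hY) (inf_le_left.trans inf_le_right) inf_le_right hc
  have h5 := FRp hp hs D.hV.pi (hN.inf_left 𝓒(X)) hY Q.pq Q.ps (norm_inf_cent nY (cent_symm hc)) h4
    (inf_le_left.trans D.nNV) (hYL.trans D.nV)
    (fun h => h3 (BG.eq_bot_mono (le_inf inf_le_left h) D.f))
  exact C.l1 Q.hs Q.hp Q.hq Q.hr Q.ps.symm Q.qs.symm Q.rs.symm Q.pq Q.pr Q.qr (nt_card hs hY)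
    ⟨D.hV.pi.inf_left _, h5⟩ ⟨hN.of_le l1, h2⟩ (nt_card hr hX) inf_le_right h1 hc

theorem A2 (C : Ctx σ G) (Q : Q4 σ p q r s) (D : D2 p q r s V N L) (hB : NT r B)
    (hc : B ≤ 𝓒(N)) : V ⊓ 𝓒(B) = ⊥ := by
  obtain ⟨A, hA, hA'⟩ := D.kq
  exact F3 C Q.hp Q.hq Q.hr Q.pq Q.pr Q.qr D.hV.pi hA' hB (hA.trans (cent_symm hc))
    (hA.trans D.nNV)

theorem A2c (C : Ctx σ G) (Q : Q4 σ p q r s) (D : D2 p q r s V N L) (hML : M ≤ L)
    (hc : M ≤ 𝓒(N)) : ¬ PRk r 2 M := by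
  rintro ⟨A, hA, hA'⟩
  have hr := C.pr r Q.hr
  obtain ⟨X, h1, h2, h3⟩ := FX' hr hA' ((hA.trans hML).trans D.nV) D.hV Q.pr
  exact h3 (A2 C Q D (nt_card hr h2) ((h1.trans hA).trans hc))

theorem A3 (C : Ctx σ G) (Q : Q4 σ p q r s) (D : D2 p q r s V N L) (hML : M ≤ L) (hc : M ≤ 𝓒(N))
    (hn : L ≤ 𝓝(M)) (he : IsElementaryAbelian r M) (hM1 : M ≠ ⊥) : False := by
  have hp := C.pr p Q.hp
  have hq := C.pr q Q.hq
  have hr := C.pr r Q.hr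
  have hs := C.pr s Q.hs
  have hN : NT q N := ⟨isPi_of_elem hq D.hN, D.kq.ne_bot hq⟩
  have hM : ♯M = r := card_of_elem_cyc hr he hM1 (A2c C Q D hML hc)
  have hM' := nt_card hr hM
  have nos : ∀ Y, Y ≤ L → ♯Y = s → ¬ Y ≤ 𝓒(N) := by
    intro Y h1 h2 h3
    have h4 : M ⊓ 𝓒(Y) = ⊥ := by
      by_contra hne
      exact C.tri Q.hq Q.hr Q.hs Q.qr Q.qs Q.rs hN ⟨hM'.pi.inf_left _, hne⟩ (nt_card hs h2)
        (cent_symm (inf_le_left.trans hc)) (cent_symm h3) inf_le_right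
    refine FRp hp hs D.hV.pi hM'.pi h2 Q.pr Q.ps (h1.trans hn) h4 (hML.trans D.nV) (h1.trans D.nV)
      (fun h => D.hV.ne ?_) (A2 C Q.s34 D.s34 (nt_card hs h2) h3)
    rw [← A2 C Q D hM' hc, inf_eq_left.2 (cent_symm h)]
  have key : ∀ X Y, X ≤ L → Y ≤ L → ♯X = r → ♯Y = s → X ≤ 𝓒(Y) → X = M := by
    intro X Y h1 h2 h3 h4 h5
    have h6 := (A1 C Q D h1 h2 h3 h4 h5).resolve_right (nos Y h2 h4)
    by_contra hne
    exact A2c C Q D (sup_le h1 hML) (sup_le h6 hc) ((el2_sup hr h3 hM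
      (cent_symm (prime_cent_of_norm hr (isPi_of_card_eq hr h3) hM (h1.trans hn))) hne).prk le_rfl)
  have fpf : ∀ Y : Subgroup G, ♯Y = s → Y ≤ 𝓒(M) → N ⊓ 𝓒(Y) = ⊥ := by
    intro Y h2 h3
    by_contra hne
    exact C.tri Q.hq Q.hr Q.hs Q.qr Q.qs Q.rs ⟨hN.pi.inf_left _, hne⟩ hM' (nt_card hs h2)
      (inf_le_left.trans (cent_symm hc)) inf_le_right (cent_symm h3)
  have fpf2 : ∀ A, A ≤ L → El s 2 A → ¬ A ≤ 𝓒(M) := by
    intro A h1 h2 h3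
    obtain ⟨Y, g1, g2, g3⟩ := FX' hs h2 (h1.trans D.nN) hN Q.qs
    exact g3 (fpf Y g2 (g1.trans h3))
  obtain ⟨S, hSL, hS⟩ := D.ks
  obtain ⟨R, hRL, hR⟩ := D.kr
  obtain ⟨Y₀, y1, y2, y3⟩ := exists_cent hs hr hS hM (hSL.trans hn) Q.rs
  have hlt := (lt_of_not_cent hs hr (hS.pi hs) hM (hSL.trans hn) (fpf2 S hSL hS)).1
  have hOs : 𝓞({s}, L) = ⊥ := by
    by_contra hne
    obtain ⟨M', t, g1, g2, ht, g3, g4, g5⟩ := min_elem (L := L) (C.sv _) hne (le_norm_core _ _)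
    obtain rfl : t = s := core_pi {s} L t ht g5
    have g6 : M' ≤ L := g1.trans (core_le _ _)
    have g7 : M' ≤ 𝓒(M) := cent_of_norm_cop (g6.trans hn) (hML.trans g2)
      (g4.pi.coprime_ne hM'.pi Q.rs.symm)
    have g8 : ♯M' = t := card_of_elem_cyc ht g3 g4.ne fun ⟨A, a1, a2⟩ =>
      fpf2 A (a1.trans g6) a2 (a1.trans g7)
    obtain ⟨X, x1, x2, x3⟩ := hR.exists_ne hr hM
    exact x3 (key X M' (x1.trans hRL) g6 x2 g8
      (x1.trans (cent_of_lt hr ht (hR.pi hr) g8 (hRL.trans g2) hlt)))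
  have hOr : 𝓞({r}, L) ≤ 𝓒(Y₀) := by
    refine coprime_elem_gen_cent (k := 0) hs hS (hSL.trans (le_norm_core _ _))
      ((core_pi _ _).coprime_ne (hS.pi hs) Q.rs) fun Y g1 g2 => ?_
    by_cases hb : 𝓞({r}, L) ⊓ 𝓒(Y) = ⊥
    · rw [hb]; exact bot_le
    obtain ⟨X, x1, x2⟩ := ((core_pi {r} L).inf_left 𝓒(Y)).exists_card_eq hb
    have e := key X Y ((x1.trans inf_le_left).trans (core_le _ _)) (g1.trans hSL) x2 g2
      (x1.trans inf_le_right)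
    have e' : Y = Y₀ := by
      by_contra hne
      refine fpf2 S hSL hS ?_
      rw [← hS.sup_eq hs g2 y2 g1 y1 hne]
      exact sup_le (cent_symm (e ▸ x1.trans inf_le_right)) y3
    rw [e']; exact inf_le_right
  have hF : 𝓕(L) ≤ 𝓒(Y₀) := fit_le_of_core fun u hu hd => by
    rcases pi_mem2 D.pi hu (hd.trans (card_dvd (fit_le L))) with rfl | rfl
    · exact hOr
    · rw [hOs]; exact bot_le
  have h1 : Y₀ ≤ 𝓕(L) := (le_inf (y1.trans hSL) (cent_symm hF)).trans (cent_fit_le (C.sv L))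
  exact (nt_card hs y2).ne (BG.eq_bot_mono ((isPi_of_card_eq hs y2).le_core_of_le_fit h1) hOs)

theorem A4 (C : Ctx σ G) (Q : Q4 σ p q r s) (D : D2 p q r s V N L) (hML : M ≤ L)
    (hn : L ≤ 𝓝(M)) (hM : NT r M) : L ⊓ 𝓒(N) ≠ ⊥ := by
  have hr := C.pr r Q.hr
  have hs := C.pr s Q.hs
  obtain ⟨S, hSL, hS⟩ := D.ks
  obtain ⟨Y, h1, h2, h3⟩ := FX' hs hS (hSL.trans hn) hM Q.rs
  obtain ⟨X, x1, x2⟩ := (hM.pi.inf_left 𝓒(Y)).exists_card_eq h3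
  have x3 := (x1.trans inf_le_left).trans hML
  rcases A1 C Q D x3 (h1.trans hSL) x2 h2 (x1.trans inf_le_right) with h | h
  · exact ne_bot_mono (le_inf x3 h) (nt_card hr x2).ne
  · exact ne_bot_mono (le_inf (h1.trans hSL) h) (nt_card hs h2).ne

theorem caseA (C : Ctx σ G) (Q : Q4 σ p q r s) (D : D2 p q r s V N L) : False := by
  have h0 : L ⊓ 𝓒(N) ≠ ⊥ := by
    obtain ⟨M, t, h1, h2, ht, h3, h4, h5⟩ := min_elem (L := L) (C.sv L)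
      (D.kr.ne_bot (C.pr r Q.hr)) (le_norm_self L)
    rcases pi_mem2 D.pi ht h5 with rfl | rfl
    · exact A4 C Q D h1 h2 h4
    · exact A4 C Q.s34 D.s34 h1 h2 h4
  obtain ⟨M, t, h1, h2, ht, h3, h4, h5⟩ := min_elem (L := L) (C.sv _) h0
    (norm_inf (le_norm_self L) (norm_cent D.nN))
  rcases pi_mem2 D.pi ht (h5.trans (card_dvd inf_le_left)) with rfl | rfl
  · exact A3 C Q D (h1.trans inf_le_left) (h1.trans inf_le_right) h2 h3 h4.ne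
  · exact A3 C Q.s34 D.s34 (h1.trans inf_le_left) (h1.trans inf_le_right) h2 h3 h4.ne

theorem B1 (C : Ctx σ G) (Q : Q4 σ p q r s) (hV : NT p V) (hY : IsPi {q} Y) (nY : Y ≤ 𝓝(V))
    (hX : ♯(Ω₁(q, 𝓩(Y))) = q) (fX : V ⊓ 𝓒(Ω₁(q, 𝓩(Y))) = ⊥) (hM : NT r M) (nM : M ≤ 𝓝(V))
    (fM : ¬ M ≤ 𝓒(V)) (cM : M ≤ 𝓒(Ω₁(q, 𝓩(Y)))) (hS : El s 2 S) (nSV : S ≤ 𝓝(V))
    (nSY : S ≤ 𝓝(Y)) (nSM : S ≤ 𝓝(M)) : IsCyclic Y := by
  have hp := C.pr p Q.hp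
  have hq := C.pr q Q.hq
  have hr := C.pr r Q.hr
  have hs := C.pr s Q.hs
  have hX' := nt_card hq hX
  have k1 : ∀ Y', Y' ≤ S → ♯Y' = s → Y' ≤ 𝓒(Ω₁(q, 𝓩(Y))) → M ⊓ 𝓒(Y') = ⊥ := by
    intro Y' h1 h2 h3
    by_contra hne
    exact C.tri Q.hq Q.hr Q.hs Q.qr Q.qs Q.rs hX' ⟨hM.pi.inf_left _, hne⟩ (nt_card hs h2)
      (cent_symm (inf_le_left.trans cM)) (cent_symm h3) inf_le_right
  have k2 : ¬ S ≤ 𝓒(Ω₁(q, 𝓩(Y))) := fun h => by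
    obtain ⟨Y', g1, g2, g3⟩ := FX' hs hS nSM hM Q.rs
    exact g3 (k1 Y' g1 g2 (g1.trans h))
  have nSX := nSY.trans (norm_omega_center q Y)
  have h2 := (lt_of_not_cent hs hq (hS.pi hs) hX nSX k2).2
  by_contra hcon
  obtain ⟨h3, h4⟩ := Ohm1_odd_ucn2 hq h2 hY hcon
  have hEY : Ω₁(q, Z2 Y) ≤ Y := (omega_le _ _).trans (Z2_le Y)
  refine h3 (cyc_of_le (isCyclic_of_prime (X := Ω₁(q, 𝓩(Y))) (by rw [hX]; exact hq)) ?_)
  refine coprime_elem_gen_cent (k := 0) hs hS (norm_omega q (nSY.trans (norm_Z2 Y)))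
    ((hY.of_le hEY).coprime_ne (hS.pi hs) Q.qs) fun Y' g1 g2 e he => ?_
  by_contra heX
  have ec : e ∈ 𝓒(Ω₁(q, 𝓩(Y))) := le_cent_omega_center q Y (hEY he.1)
  obtain ⟨hA, hec⟩ := el2_X_e hq hX (h4 e he.1) heX ec
  have eY : zpowers e ≤ Y := zpowers_le.2 (hEY he.1)
  have eY' : zpowers e ≤ 𝓒(Y') := zpowers_le.2 he.2
  by_cases hc : Y' ≤ 𝓒(Ω₁(q, 𝓩(Y)))
  · refine FRp hp hs hV.pi hM.pi g2 Q.pr Q.ps (g1.trans nSM) (k1 Y' g1 g2 hc) nM (g1.trans nSV) fM ?_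
    exact F3 C Q.hp Q.hq Q.hs Q.pq Q.ps Q.qs hV.pi hA (nt_card hs g2) (sup_le (cent_symm hc) eY')
      ((sup_le (omega_center_le q Y) eY).trans nY)
  · have w := CJ hq hY hX h4 he.1 heX hV Q.pq nY fX
    have w1 := FRp hp hs (hV.pi.inf_left 𝓒(zpowers e)) hX'.pi g2 Q.pq Q.ps (g1.trans nSX)
      (inf_eq_bot_of_prime_not_le (by rw [hX]; exact hq) fun h => hc (cent_symm h))
      (norm_inf_cent ((omega_center_le q Y).trans nY) (cent_symm (zpowers_le.2 ec)))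
      (norm_inf_cent (g1.trans nSV) (cent_symm eY'))
      (fun h => w (BG.eq_bot_mono (le_inf inf_le_left (cent_symm h)) fX))
    exact C.tri Q.hp Q.hq Q.hs Q.pq Q.ps Q.qs ⟨(hV.pi.inf_left _).inf_left _, w1⟩ (nt_card hq hec)
      (nt_card hs g2) (inf_le_left.trans inf_le_right) inf_le_right eY'

theorem caseB (C : Ctx σ G) (Q : Q4 σ p q r s) (hV : NT p V) (nH : H ≤ 𝓝(V))
    (f : H ⊓ 𝓒(V) = ⊥) (hL : L ≤ H) (pi : IsPi {r, s} L) (kr : PRk r 2 L) (ks : PRk s 2 L) :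
    IsCyclic 𝓞({q}, H) := by
  have hq := C.pr q Q.hq
  have hr := C.pr r Q.hr
  have hs := C.pr s Q.hs
  have hY := core_pi {q} H
  by_cases hY1 : 𝓞({q}, H) = ⊥
  · rw [hY1]; exact cyc_bot
  set Y := 𝓞({q}, H) with hYd
  have hYH : Y ≤ H := core_le _ _
  have nLY : L ≤ 𝓝(Y) := hL.trans (le_norm_core _ _)
  have hXH : Ω₁(q, 𝓩(Y)) ≤ H := (omega_center_le q Y).trans hYH
  have hnX : L ≤ 𝓝(Ω₁(q, 𝓩(Y))) := nLY.trans (norm_omega_center q Y)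
  have hXe := elem_omega_center q Y
  have hX : ♯(Ω₁(q, 𝓩(Y))) = q := card_of_elem_cyc hq hXe (omega_center_ne_bot hY hY1) fun h =>
    caseA C Q ⟨hV, hXe, h, BG.eq_bot_mono (inf_le_inf_right _ hXH) f, hXH.trans nH, pi, hL.trans nH,
      hnX, kr, ks⟩
  obtain ⟨R, hRL, hR⟩ := kr
  obtain ⟨S, hSL, hS⟩ := ks
  obtain ⟨Y₁, a1, a2, a3⟩ := exists_cent hr hq hR hX (hRL.trans hnX) Q.qr
  obtain ⟨Y₂, b1, b2, b3⟩ := exists_cent hs hq hS hX (hSL.trans hnX) Q.qs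
  have fX : V ⊓ 𝓒(Ω₁(q, 𝓩(Y))) = ⊥ := by
    by_contra hne
    exact C.l1 Q.hq Q.hp Q.hr Q.hs Q.pq.symm Q.qr Q.qs Q.pr Q.ps Q.rs (nt_card hq hX)
      ⟨hV.pi.inf_left _, hne⟩ (nt_card hr a2) (nt_card hs b2) inf_le_right a3 b3
  obtain ⟨M, t, h1, h2, ht, h3, h4, h5⟩ := min_elem (L := L) (C.sv _)
    (ne_bot_mono (le_inf (a1.trans hRL) a3) (nt_card hr a2).ne)
    (norm_inf (le_norm_self L) (norm_cent hnX))
  have hMH : M ≤ H := (h1.trans inf_le_left).trans hL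
  have fM : ¬ M ≤ 𝓒(V) := fun h => h4.ne (BG.eq_bot_mono (le_inf hMH h) f)
  rcases pi_mem2 pi ht (h5.trans (card_dvd inf_le_left)) with rfl | rfl
  · exact B1 C Q hV hY (hYH.trans nH) hX fX h4 (hMH.trans nH) fM (h1.trans inf_le_right) hS
      ((hSL.trans hL).trans nH) (hSL.trans nLY) (hSL.trans h2)
  · exact B1 C Q.s34 hV hY (hYH.trans nH) hX fX h4 (hMH.trans nH) fM (h1.trans inf_le_right) hR
      ((hRL.trans hL).trans nH) (hRL.trans nLY) (hRL.trans h2)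

theorem hall2 (C : Ctx σ G) (hr : r ∈ σ) (hs : s ∈ σ) (kr : PRk r 2 H) (ks : PRk s 2 H) :
    ∃ L, L ≤ H ∧ IsPi {r, s} L ∧ PRk r 2 L ∧ PRk s 2 L := by
  obtain ⟨L, hL⟩ := hall_exists {r, s} (C.sv H)
  exact ⟨L, hL.le, hL.pi, (hL.prk (C.pr r hr) (by simp)).2 kr, (hL.prk (C.pr s hs) (by simp)).2 ks⟩

theorem caseB' (C : Ctx σ G) (Q : Q4 σ p q r s) (hV : NT p V) (nH : H ≤ 𝓝(V))
    (f : H ⊓ 𝓒(V) = ⊥) (kr : PRk r 2 H) (ks : PRk s 2 H) : IsCyclic 𝓞({q}, H) := by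
  obtain ⟨L, h1, h2, h3, h4⟩ := hall2 C Q.hr Q.hs kr ks
  exact caseB C Q hV nH f h1 h2 h3 h4

theorem caseI' (C : Ctx σ G) (Q : Q4 σ p q r s) (hV : NT p V) (hU : NT q U) (c : U ≤ 𝓒(V))
    (nV : H ≤ 𝓝(V)) (nU : H ≤ 𝓝(U)) (kr : PRk r 2 H) (ks : PRk s 2 H) : False := by
  obtain ⟨L, h1, h2, h3, h4⟩ := hall2 C Q.hr Q.hs kr ks
  exact caseI C Q ⟨hV, hU, cent_symm c, h2, h1.trans nV, h1.trans nU, h3, h4⟩

theorem main1 (C : Ctx σ G) (Q : Q4 σ p q r s) (hV : NT p V) (nK : K ≤ 𝓝(V)) (kq : PRk q 2 K)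
    (kr : PRk r 2 K) (ks : PRk s 2 K) : False := by
  have hq := C.pr q Q.hq
  have hr := C.pr r Q.hr
  have hs := C.pr s Q.hs
  obtain ⟨H, hH⟩ := hall_exists {q, r, s} (C.sv K)
  have nH := hH.le.trans nK
  replace kq := (hH.prk hq (by simp)).2 kq
  replace kr := (hH.prk hr (by simp)).2 kr
  replace ks := (hH.prk hs (by simp)).2 ks
  have hm : ∀ u, u.Prime → u ∣ ♯H → u = q ∨ u = r ∨ u = s := fun u hu hd => by
    simpa using hH.pi u hu hd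
  by_cases f : H ⊓ 𝓒(V) = ⊥
  · have hc : ∀ u, u.Prime → u ∣ ♯H → IsCyclic 𝓞({u}, H) := fun u hu hd => by
      rcases hm u hu hd with rfl | rfl | rfl
      · exact caseB' C Q hV nH f kr ks
      · exact caseB' C Q.s23 hV nH f kq ks
      · exact caseB' C Q.s34.s23 hV nH f kq kr
    by_cases h1 : r ≤ q ∧ s ≤ q
    · exact FIN (C.sv H) hc hq (fun u hu hd => by rcases hm u hu hd with rfl | rfl | rfl <;> omega) kq
    by_cases h2 : s ≤ r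
    · exact FIN (C.sv H) hc hr (fun u hu hd => by rcases hm u hu hd with rfl | rfl | rfl <;> omega) kr
    · exact FIN (C.sv H) hc hs (fun u hu hd => by rcases hm u hu hd with rfl | rfl | rfl <;> omega) ks
  obtain ⟨U, t, h1, h2, ht, h3, h4, h5⟩ := min_elem (L := H) (C.sv _) f
    (norm_inf (le_norm_self H) (norm_cent nH))
  rcases hm t ht (h5.trans (card_dvd inf_le_left)) with rfl | rfl | rfl
  · exact caseI' C Q hV h4 (h1.trans inf_le_right) nH h2 kr ks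
  · exact caseI' C Q.s23 hV h4 (h1.trans inf_le_right) nH h2 kq ks
  · exact caseI' C Q.s34.s23 hV h4 (h1.trans inf_le_right) nH h2 kq kr

/-- Adjacency of two primes. -/
def Adj (G : Type*) [Group G] (p q : ℕ) : Prop := ∃ X Y : Subgroup G, ♯X = p ∧ NT q Y ∧ Y ≤ 𝓒(X)

theorem R2 (C : Ctx σ G) (Q : Q4 σ p q r s) (a : Adj G p q) (b : Adj G p r) (c : Adj G p s) :
    PRk p 2 (⊤ : Subgroup G) := by
  have hp := C.pr p Q.hp
  by_contra hcon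
  obtain ⟨P, hP⟩ := syl_exists hp (⊤ : Subgroup G)
  have hP1 : P ≠ ⊥ := by
    obtain ⟨X, -, h1, -⟩ := a
    exact hP.ne_bot hp rfl (h1 ▸ card_dvd le_top)
  obtain ⟨Z, hZ, hZc⟩ := exists_center_prime hP.pi hP1
  have key : ∀ u, Adj G p u → ∃ Y, NT u Y ∧ Y ≤ 𝓒(Z) := by
    rintro u ⟨X, Y, h1, h2, h3⟩
    obtain ⟨g, -, hg⟩ := hP.syl_conj_le hp (isPi_of_card_eq hp h1) le_top
    have e : cj g X = Z := by
      by_contra hne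
      exact hcon ((el2_sup hp ((card_cj g X).trans h1) hZc
        ((hZ.trans inf_le_right).trans (cent_anti hg)) hne).prk le_top)
    exact ⟨cj g Y, ⟨h2.pi.cj g, fun h => h2.ne (cj_eq_bot.1 h)⟩, e ▸ cent_cj g h3⟩
  obtain ⟨Y₁, a1, a2⟩ := key q a
  obtain ⟨Y₂, b1, b2⟩ := key r b
  obtain ⟨Y₃, c1, c2⟩ := key s c
  exact C.l1 Q.hp Q.hq Q.hr Q.hs Q.pq Q.pr Q.ps Q.qr Q.qs Q.rs (nt_card hp hZc) a1 b1 c1 a2 b2 c2

theorem main (C : Ctx σ G) (Q : Q4 σ p q r s)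
    (adj : ∀ x ∈ σ, ∀ y ∈ σ, x ≠ y → Adj G x y) : False := by
  have R : ∀ {a b c d : ℕ}, Q4 σ a b c d → PRk a 2 (⊤ : Subgroup G) := fun Q' =>
    R2 C Q' (adj _ Q'.hp _ Q'.hq Q'.pq) (adj _ Q'.hp _ Q'.hr Q'.pr) (adj _ Q'.hp _ Q'.hs Q'.ps)
  obtain ⟨K, hK⟩ := hall_exists {p, q, r, s} (C.sv ⊤)
  have kp := (hK.prk (C.pr p Q.hp) (by simp)).2 (R Q)
  have kq := (hK.prk (C.pr q Q.hq) (by simp)).2 (R Q.s12)
  have kr := (hK.prk (C.pr r Q.hr) (by simp)).2 (R Q.s23.s12)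
  have ks := (hK.prk (C.pr s Q.hs) (by simp)).2 (R Q.s34.s23.s12)
  obtain ⟨V, t, h1, h2, ht, h3, h4, h5⟩ := min_elem (L := K) (C.sv K) (kp.ne_bot (C.pr p Q.hp))
    (le_norm_self K)
  have hm : t = p ∨ t = q ∨ t = r ∨ t = s := by simpa using hK.pi t ht h5
  rcases hm with rfl | rfl | rfl | rfl
  · exact main1 C Q h4 h2 kq kr ks
  · exact main1 C Q.s12 h4 h2 kp kr ks
  · exact main1 C Q.s23.s12 h4 h2 kp kq ks
  · exact main1 C Q.s34.s23.s12 h4 h2 kp kq kr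

end CA.H29Tri
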