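import Cfsg.Agent.Lib.Lin.H2Free
import Cfsg.Agent.Lib.Grp.Coprime2
import Cfsg.Agent.Lib.Perm.PermBasic
import Cfsg.Agent.S0016

/-! Faithful `𝔽₂`-modules of groups whose Sylow 2-subgroup has a unique involution. -/

set_option autoImplicit false

namespace CA.H2SE
open Subgroup Module

variable {G : Type*} [Group G] [Finite G]

theorem card_le_finrank {k V : Type*} [Field k] [AddCommGroup V] [Module k V] [FiniteDimensional k V]
    (ρ : Representation k G V) {S R : Subgroup G} (hn : S ≤ normalizer (R : Set G))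
    (hc : ∀ z ∈ R, ∀ w ∈ R, z * w = w * z) (hcard : (Nat.card R : k) ≠ 0)
    (hf : ∀ h ∈ S, h ≠ 1 → ∀ z ∈ R, h * z * h⁻¹ = z → z = 1) {z : G} (hz : z ∈ R) (hne : ρ z ≠ 1) :
    Nat.card S ≤ finrank k V := by
  classical
  haveI := Fintype.ofFinite G
  set N := normalizer (R : Set G)
  let e : V →ₗ[k] V := ∑ z : R, ρ z
  have he : ∀ g : N, e * ρ g = ρ g * e := fun g => by
    rw [Finset.sum_mul, Finset.mul_sum]
    refine (Fintype.sum_equiv (R.normalizerMonoidHom g).toEquiv _ _ fun z => ?_).symm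
    rw [← map_mul, ← map_mul]
    congr 1
    show _ = (g : G) * (z : G) * (g : G)⁻¹ * g
    group
  have hU : ∀ g : N, LinearMap.ker e ≤ (LinearMap.ker e).comap ((ρ.comp N.subtype) g) := fun g v hv => by
    show (e * ρ g) v = 0
    rw [he, Module.End.mul_apply, show e v = 0 from hv, map_zero]
  obtain ⟨W, h1, h2⟩ := CA.H2Free.core (Representation.subrepresentation (ρ.comp N.subtype) _ hU)
    (H := S.subgroupOf N) (Z := R.subgroupOf N) (by rw [normalizer_eq_top]; exact le_top)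
    (fun a b => by rw [← map_mul, ← map_mul]; congr 1; exact Subtype.ext (hc _ a.2 _ b.2))
    (by
      ext v
      rw [LinearMap.sum_apply, Submodule.coe_sum]
      refine Eq.trans ?_ (show e v = 0 from v.2)
      rw [LinearMap.sum_apply]
      exact Fintype.sum_equiv (subgroupOfEquivOfLe le_normalizer).toEquiv _ _ fun _ => rfl)
    (by rwa [← Nat.card_eq_fintype_card, Nat.card_congr (subgroupOfEquivOfLe le_normalizer).toEquiv])
    (fun h hh h1 z hz e => Subtype.ext (hf h hh (fun e => h1 (Subtype.ext e)) z hz (congrArg Subtype.val e)))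
  obtain ⟨v, hv⟩ : ∃ v, ρ z v ≠ v := by
    by_contra! h
    exact hne (LinearMap.ext h)
  have hu : ρ z v - v ∈ LinearMap.ker e := by
    have : e * ρ z = e := by
      rw [Finset.sum_mul]
      exact Fintype.sum_equiv (Equiv.mulRight (⟨z, hz⟩ : R)) _ _ fun w => by rw [← map_mul]; rfl
    rw [LinearMap.mem_ker, map_sub, ← Module.End.mul_apply, this, sub_self]
  obtain ⟨w, hw, h3⟩ := h2 ⟨_, hu⟩
  obtain ⟨i, hi⟩ : ∃ i, w i ≠ 0 := by
    by_contra! h
    simp only [h, map_zero, Finset.sum_const_zero] at h3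
    exact hv (sub_eq_zero.1 (congrArg Subtype.val h3).symm)
  have h4 : LinearIndependent k fun h : S.subgroupOf N =>
      Representation.subrepresentation (ρ.comp N.subtype) _ hU h (w i) := by
    rw [Fintype.linearIndependent_iff]
    intro c hc' j
    have := h1 (fun h => c h • w i) (fun h => W.smul_mem _ (hw i)) (by simpa only [map_smul] using hc') j
    exact (smul_eq_zero.1 this).resolve_right hi
  rw [← Nat.card_congr (subgroupOfEquivOfLe hn).toEquiv, Nat.card_eq_fintype_card]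
  exact h4.fintype_card_le_finrank.trans (Submodule.finrank_le _)

theorem card_dvd_GL {V : Type*} [AddCommGroup V] [Module (ZMod 2) V] [Module.Finite (ZMod 2) V]
    (ρ : Representation (ZMod 2) G V) (hρ : Function.Injective ρ) :
    Nat.card G ∣ ∏ i ∈ Finset.range (finrank (ZMod 2) V), (2 ^ finrank (ZMod 2) V - 2 ^ i) := by
  have h1 := Matrix.card_GL_field (𝔽 := ZMod 2) (finrank (ZMod 2) V)
  rw [ZMod.card, Fin.prod_univ_eq_prod_range fun i => 2 ^ finrank (ZMod 2) V - 2 ^ i] at h1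
  rw [← h1, Nat.card_congr (Matrix.GeneralLinearGroup.toLin' (Module.finBasis (ZMod 2) V)).toEquiv]
  exact card_dvd_of_injective ρ.toHomUnits fun a b e => hρ (congrArg Units.val e)

theorem arith {k d r a : ℕ} (hk : k ≤ 5) (hd : d < 2 * k) (hr : r.Prime) (h2 : r ≠ 2) (ha : 0 < a)
    (h3 : 2 ^ k ∣ r ^ a - 1) (h4 : r ^ (a + 1) ∣ ∏ i ∈ Finset.range d, (2 ^ d - 2 ^ i)) : False := by
  have h5 : ∀ d < 10, ∏ i ∈ Finset.range d, (2 ^ d - 2 ^ i) ∣
      2 ^ 36 * (3 ^ 5 * (5 ^ 2 * (7 ^ 3 * (17 * (31 * (73 * 127)))))) := by decide +kernel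
  have h6 := h4.trans (h5 d (by omega))
  have h7 := (dvd_pow_self r a.succ_ne_zero).trans h6
  have h8 : r ∈ [3, 5, 7, 17, 31, 73, 127] := by
    have e : ∀ {p n : ℕ}, p.Prime → r ∣ p ^ n → r = p := fun hp h =>
      (Nat.prime_dvd_prime_iff_eq hr hp).1 (hr.dvd_of_dvd_pow h)
    have e' : ∀ {p : ℕ}, p.Prime → r ∣ p → r = p := fun hp h => (Nat.prime_dvd_prime_iff_eq hr hp).1 h
    simp only [hr.dvd_mul] at h7
    rcases h7 with h | h | h | h | h | h | h | h
    · exact (h2 (e Nat.prime_two h)).elim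
    · simp [e (by norm_num) h]
    · simp [e (by norm_num) h]
    · simp [e (by norm_num) h]
    all_goals simp [e' (by norm_num) h]
  have h9 : ∀ r ∈ [3, 5, 7, 17, 31, 73, 127], ¬ r ^ 6 ∣
      2 ^ 36 * (3 ^ 5 * (5 ^ 2 * (7 ^ 3 * (17 * (31 * (73 * 127)))))) := by decide +kernel
  have h10 : a < 5 := not_le.1 fun h => h9 r h8 ((pow_dvd_pow r (by omega)).trans h6)
  have h11 : ∀ k < 6, ∀ d < 2 * k, ∀ r ∈ [3, 5, 7, 17, 31, 73, 127], ∀ a < 5, 0 < a → 2 ^ k ∣ r ^ a - 1 →
      ¬ r ^ (a + 1) ∣ ∏ i ∈ Finset.range d, (2 ^ d - 2 ^ i) := by decide +kernel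
  exact h11 k (by omega) d hd r h8 a h10 ha h3 h4

theorem unip {V : Type*} [AddCommGroup V] [Module (ZMod 2) V] [Module.Finite (ZMod 2) V]
    (f : Module.End (ZMod 2) V) {i j : ℕ} (h1 : f ^ 2 ^ i = 1) (h2 : finrank (ZMod 2) V ≤ 2 ^ j) :
    f ^ 2 ^ j = 1 := by
  rcases subsingleton_or_nontrivial V with h | h
  · exact Subsingleton.elim _ _
  haveI : CharP (Module.End (ZMod 2) V) 2 := charP_of_injective_algebraMap
    (algebraMap (ZMod 2) _).injective 2
  have e : ∀ n, (f - 1) ^ 2 ^ n = f ^ 2 ^ n - 1 := fun n => by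
    rw [sub_pow_char_pow_of_commute _ _ (Commute.one_right f), one_pow]
  have h3 : IsNilpotent (f - 1) := ⟨2 ^ i, by rw [e, h1, sub_self]⟩
  have h4 := LinearMap.aeval_self_charpoly (f - 1)
  rw [h3.charpoly_eq_X_pow_finrank, map_pow, Polynomial.aeval_X] at h4
  rw [← sub_eq_zero, ← e]
  exact pow_eq_zero_of_le h2 h4

theorem rank1 {V : Type*} [AddCommGroup V] [Module (ZMod 2) V] [Module.Finite (ZMod 2) V]
    (ρ : Representation (ZMod 2) G V) (hρ : Function.Injective ρ) {S O : Subgroup G} {k : ℕ}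
    (hS : Nat.card S = 2 ^ k) {t : G} (ht : orderOf t = 2) (htS : t ∈ S)
    (hu : ∀ u ∈ S, orderOf u = 2 → u = t) [O.Normal] (ho : Odd (Nat.card O))
    (hO : ¬ O ≤ centralizer {t}) : 2 * k ≤ finrank (ZMod 2) V := by
  haveI := Fact.mk Nat.prime_two
  have hS' : IsPGroup 2 S := IsPGroup.of_card hS
  have t2 : t * t = 1 := by rw [← pow_two, ← ht, pow_orderOf_eq_one]
  have hz : ∀ h ∈ S, h ≠ 1 → t ∈ zpowers h := fun h hh h1 => by
    obtain ⟨n, hn⟩ := IsPGroup.iff_orderOf.1 hS' ⟨h, hh⟩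
    rw [← orderOf_coe] at hn
    obtain ⟨n, rfl⟩ := Nat.exists_eq_succ_of_ne_zero (n := n) (by
      rintro rfl; exact h1 (orderOf_eq_one_iff.1 hn))
    rw [← hu (h ^ 2 ^ n) (pow_mem hh _) (by
      rw [orderOf_pow' _ (by positivity), show orderOf h = _ from hn, Nat.gcd_eq_right (pow_dvd_pow 2 n.le_succ),
        pow_succ', Nat.mul_div_cancel _ (by positivity)])]
    exact npow_mem_zpowers _ _
  have hc : ∀ h ∈ S, h * t * h⁻¹ = t := fun h hh => hu _ (mul_mem (mul_mem hh htS) (inv_mem hh))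
    (by rw [← ht]; exact (MulAut.conj h).orderOf_eq t)
  by_contra hd
  rw [not_le] at hd
  by_cases hk : k ≤ 5
  swap
  · obtain ⟨j, rfl⟩ : ∃ j, k = j + 2 := ⟨k - 2, by omega⟩
    obtain ⟨g, hg⟩ : ∃ g : S, ¬ orderOf g ∣ 2 ^ j := by
      rcases Cfsg.Agent.S0016.result 2 hS' (fun H K hH hK => by
        have key : ∀ H : Subgroup S, Nat.card H = 2 → H = zpowers ⟨t, htS⟩ := fun H hH => by
          obtain ⟨u, h1⟩ := exists_prime_orderOf_dvd_card' (G := H) 2 hH.symm.dvd
          refine (eq_of_le_of_card_ge (zpowers_le.2 ?_) ?_).symm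
          · have := hu u u.1.2 (by simpa using h1)
            exact (show u.1 = ⟨t, htS⟩ from Subtype.ext this) ▸ u.2
          · rw [hH, Nat.card_zpowers, ← orderOf_coe, ht]
        rw [key H hH, key K hK]) with h | ⟨-, n, ⟨e⟩⟩
      · obtain ⟨g, hg⟩ := IsCyclic.exists_ofOrder_eq_natCard (α := S)
        exact ⟨g, by rw [hg, hS, Nat.pow_dvd_pow_iff_le_right one_lt_two]; omega⟩
      · refine ⟨e.symm (QuaternionGroup.a 1), ?_⟩
        have h1 := Nat.card_congr e.toEquiv
        rw [hS, Nat.card_eq_fintype_card, QuaternionGroup.card, pow_add, mul_comm] at h1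
        rw [MulEquiv.orderOf_eq, QuaternionGroup.orderOf_a_one, ← show 2 ^ j = 2 ^ n by omega]
        intro h
        have := Nat.le_of_dvd (by positivity) h
        have : 0 < 2 ^ j := by positivity
        omega
    refine hg (orderOf_dvd_of_pow_eq_one (Subtype.ext (hρ ?_)))
    rw [coe_pow, map_pow, coe_one, map_one]
    refine unip _ (i := j + 2) (by
      rw [← map_pow, ← hS, ← coe_pow, pow_card_eq_one', coe_one, map_one]) (hd.le.trans ?_)
    obtain ⟨i, rfl⟩ : ∃ i, j = i + 4 := ⟨j - 4, by omega⟩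
    have := i.lt_two_pow_self
    rw [pow_add]; omega
  obtain ⟨r, _, R, -, hR, hn, h1⟩ : ∃ (r : ℕ) (_ : Fact r.Prime) (R : Subgroup G), r ∣ Nat.card O ∧
      CA.SylIn.IsSylowIn r R O ∧ S ≤ normalizer (R : Set G) ∧ ¬ R ≤ centralizer {t} := by
    by_contra! h
    exact hO (CA.Coprime2.le_of_forall_invariant_sylow (by rw [normalizer_eq_top]; exact le_top)
      (by rw [hS]; exact (Nat.coprime_two_left.2 ho).pow_left k)
      (.inl (by haveI := hS'.isNilpotent; infer_instance)) fun p hp T => h p hp T)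
  have hoR : Odd (Nat.card R) := ho.of_dvd_nat (card_dvd_of_le hR.le)
  have odd1 : ∀ x ∈ R, x * x = 1 → x = 1 := fun x hx h => orderOf_eq_one_iff.1
    (Nat.eq_one_of_dvd_coprimes (Nat.coprime_two_left.2 hoR) (orderOf_dvd_of_pow_eq_one (by rwa [pow_two]))
      (Subgroup.orderOf_dvd_natCard _ hx))
  have hm : ∀ h ∈ S, ∀ x ∈ R, h * x * h⁻¹ ∈ R := fun h hh x hx => (mem_normalizer_iff.1 (hn hh) x).1 hx
  have ti : t⁻¹ = t := inv_eq_of_mul_eq_one_left t2
  obtain ⟨z, hz1, hz2⟩ := SetLike.not_le_iff_exists.1 h1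
  by_cases hC : ∀ x ∈ R, t * x * t⁻¹ = x → x = 1
  · have hi : ∀ x ∈ R, t * x * t⁻¹ = x⁻¹ := fun x hx => by
      obtain ⟨y, hy⟩ := (Finite.injective_iff_surjective (f := fun y : R =>
        (⟨y⁻¹ * (t * y * t⁻¹), mul_mem (inv_mem y.2) (hm t htS y y.2)⟩ : R))).1 (fun a b e => by
          have e1 : (a : G)⁻¹ * (t * a * t⁻¹) = (b : G)⁻¹ * (t * b * t⁻¹) := congrArg Subtype.val e
          refine Subtype.ext (mul_inv_eq_one.1 (hC _ (mul_mem a.2 (inv_mem b.2)) ?_))
          calc _ = a * ((a : G)⁻¹ * (t * a * t⁻¹)) * (t * b * t⁻¹)⁻¹ := by group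
            _ = _ := by rw [e1]; group) ⟨x, hx⟩
      rw [← show (y : G)⁻¹ * (t * y * t⁻¹) = x from congrArg Subtype.val hy, ti]
      calc _ = t * (y : G)⁻¹ * t * y * (t * t) := by group
        _ = _ := by rw [t2]; simp only [mul_inv_rev, ti, inv_inv, mul_one, mul_assoc]
    have := card_le_finrank ρ hn (fun a ha b hb => by
        apply inv_injective
        rw [← hi _ (mul_mem ha hb), mul_inv_rev, ← hi a ha, ← hi b hb]; group)
      (fun e => (Nat.not_even_iff_odd.2 hoR) (even_iff_two_dvd.2 ((ZMod.natCast_eq_zero_iff _ 2).1 e)))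
      (fun h hh h1 x hx e => hC x hx (by
        have : t ∈ centralizer {x} := zpowers_le.2 (mem_centralizer_singleton_iff.2
          (mul_inv_eq_iff_eq_mul.1 e)) (hz h hh h1)
        rw [mem_centralizer_singleton_iff.1 this, mul_inv_cancel_right])) hz1
      (fun e => hz2 (by rw [hρ (e.trans (map_one ρ).symm)]; exact one_mem _))
    rw [hS] at this
    interval_cases k <;> omega
  push Not at hC
  obtain ⟨x, hx, hx1, hx2⟩ := hC
  obtain ⟨a, ha⟩ := hR.isPGroup.index ((centralizer {t}).subgroupOf R)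
  obtain ⟨b, hb⟩ := IsPGroup.iff_card.1 (hR.isPGroup.to_subgroup ((centralizer {t}).subgroupOf R))
  let act : MulAction R G := MulAction.compHom G (MulAut.conj.comp R.subtype)
  have h2 := @MulAction.index_stabilizer R G _ act t
  rw [show @MulAction.stabilizer R G _ act t = (centralizer {t}).subgroupOf R from Subgroup.ext fun y =>
    (mul_inv_eq_iff_eq_mul.trans mem_centralizer_singleton_iff.symm), ha] at h2
  have h3 := @CA.PermBasic.card_dvd_of_semiregular_on G G _ (MulAction.compHom G MulAut.conj) S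
    (@MulAction.orbit R G _ t \ {t}) (Set.toFinite _) (by
      rintro h hh _ ⟨⟨y, rfl⟩, hy⟩
      refine ⟨⟨⟨_, hm h hh y y.2⟩, ?_⟩, fun e => hy ?_⟩
      · show h * y * h⁻¹ * t * (h * y * h⁻¹)⁻¹ = h * (y * t * (y : G)⁻¹) * h⁻¹
        conv_lhs => rw [← hc h hh]
        group
      · exact (MulAut.conj h).injective (e.trans (hc h hh).symm)) (by
      rintro h hh _ ⟨⟨y, rfl⟩, hy⟩ e
      by_contra h1
      have e1 : t ∈ centralizer {y * t * (y : G)⁻¹} := zpowers_le.2 (mem_centralizer_singleton_iff.2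
        (mul_inv_eq_iff_eq_mul.1 e)) (hz h hh h1)
      rw [mem_centralizer_singleton_iff] at e1
      have e2 := odd1 _ (mul_mem (hm t htS y y.2) (inv_mem y.2)) (by
        rw [ti]
        calc _ = t * (y * t * (y : G)⁻¹) * (t * (y * t * (y : G)⁻¹)) := by group
          _ = y * t * (y : G)⁻¹ * (t * t) * (y * t * (y : G)⁻¹) := by rw [e1]; nth_rw 2 [← e1]; group
          _ = y * (t * t) * (y : G)⁻¹ := by nth_rw 1 [t2]; group
          _ = 1 := by rw [t2, mul_one, mul_inv_cancel])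
      apply hy
      show y * t * (y : G)⁻¹ = t
      rw [ti] at e2
      calc _ = t⁻¹ * (t * y * t * (y : G)⁻¹) := by group
        _ = t := by rw [e2, mul_one, ti])
  rw [Set.ncard_sdiff_singleton_of_mem (@MulAction.mem_orbit_self R G _ act t), ← h2, hS] at h3
  have hr : r.Prime := Fact.out
  refine arith hk hd hr ?_ (Nat.pos_of_ne_zero ?_) h3
    (Dvd.dvd.trans ?_ ((card_subgroup_dvd_card R).trans (card_dvd_GL ρ hρ)))
  · rintro rfl
    obtain ⟨c, hc⟩ := IsPGroup.iff_card.1 hR.isPGroup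
    rw [hc] at hoR
    rcases c with _ | c
    · exact hz2 (by rw [card_eq_one.1 hc] at hz1; rw [mem_bot.1 hz1]; exact one_mem _)
    · exact Nat.not_odd_iff_even.2 ((Nat.even_pow' c.succ_ne_zero).2 even_two) hoR
  · rintro rfl
    exact h1 (subgroupOf_eq_top.1 (index_eq_one.1 ha))
  · rw [← index_mul_card ((centralizer {t}).subgroupOf R), ha, hb, ← pow_add]
    refine pow_dvd_pow _ (Nat.succ_le_of_lt (Nat.lt_add_of_pos_right (Nat.pos_of_ne_zero ?_)))
    rintro rfl
    have : (⟨x, hx⟩ : R) ∈ (centralizer {t}).subgroupOf R :=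
      mem_centralizer_singleton_iff.2 (mul_inv_eq_iff_eq_mul.1 hx1).symm
    rw [card_eq_one.1 hb] at this
    exact hx2 (congrArg Subtype.val (mem_bot.1 this))

end CA.H2SE
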