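import Cfsg.Agent.Lib.Loc.H6Odd
import Cfsg.Prelude.Def_BaumannBlocks

/-! Baumann blocks: abstract properties. -/

set_option autoImplicit false

namespace CA.H6Blk

open Subgroup Cfsg CA.Amb CA.AmbSyl CA.AmbCore CA.AmbRes CA.AmbWC CA.AmbSpe CA.H6Nat CA.H6Nat2
open CA.H6Core CA.H6Core2 CA.H6J CA.H6Bau CA.H6Am1 CA.H6Am2 CA.H6Exp CA.H6PD CA.H6TV2
open scoped commutatorElement MatrixGroups Matrix

variable {G : Type*} [Group G] {p : ℕ}

theorem bau_eq (p : ℕ) (T : Subgroup G) : baumannSubgroupOf p T = Bm p T := by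
  rw [baumannSubgroupOf, centerThompsonOf_eq]

theorem J_cj' (g : G) (T : Subgroup G) : J p (cj g T) = cj g (J p T) := J_cj g p T

theorem Bm_cj (g : G) (T : Subgroup G) : Bm p (cj g T) = cj g (Bm p T) := by
  rw [Bm, Bm, cj_inf, cj_centralizer, cj_OZ, J_cj]

section wc

variable [Finite G] [Fact p.Prime] {T R : Subgroup G}

theorem J_eq_syl (hT : SylIn p T ⊤) (hR : SylIn p R ⊤) (h : J p T ≤ R) : J p R = J p T := by
  obtain ⟨g, -, rfl⟩ := hT.exists_conj hR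
  refine (eq_of_le_of_card_ge (J_le_iff.2 fun A hA => le_J (mem_mx_of_card_le (cj_mem_mx_iff.2 hA)
    ((le_J hA).trans h) hA.2.1 (card_cj _ _).le)) ?_).symm
  rw [J_cj, card_cj]

theorem Bm_eq_syl (hT : SylIn p T ⊤) (hR : SylIn p R ⊤) (h : Bm p T ≤ R) : Bm p R = Bm p T := by
  have e := J_eq_syl hT hR ((J_le_Bm p T).trans h)
  refine (eq_of_le_of_card_ge (le_inf h (by rw [e]; exact inf_le_right)) ?_).symm
  obtain ⟨g, -, rfl⟩ := hT.exists_conj hR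
  exact ((congrArg (fun X : Subgroup G => Nat.card X) (Bm_cj g T)).trans (card_cj _ _)).le

theorem wc_J (hT : SylIn p T ⊤) : WC p (J p T) := ⟨hT.pg.to_le (J_le _ _), fun R g hR h1 h2 => by
  obtain ⟨S, hS, hRS⟩ := exists_sylIn_ge hR (le_top (a := R))
  rw [← J_cj'] at h2 ⊢
  rw [← J_eq_syl hT hS (h1.trans hRS), J_eq_syl (hT.conj_mem trivial) hS (h2.trans hRS)]⟩

theorem wc_Bm (hT : SylIn p T ⊤) : WC p (Bm p T) := ⟨hT.pg.to_le inf_le_left, fun R g hR h1 h2 => by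
  obtain ⟨S, hS, hRS⟩ := exists_sylIn_ge hR (le_top (a := R))
  rw [← Bm_cj] at h2 ⊢
  rw [← Bm_eq_syl hT hS (h1.trans hRS), Bm_eq_syl (hT.conj_mem trivial) hS (h2.trans hRS)]⟩

end wc

/-- `U / U₀` is a nonzero irreducible `E`-section -/
structure Irr (E U U₀ : Subgroup G) : Prop where
  norm : E ≤ 𝐍 U
  le : U₀ ≤ U
  norm₀ : E ≤ 𝐍 U₀
  normU : U ≤ 𝐍 U₀
  nle : ¬ U ≤ U₀
  irr : ∀ Y, Y ≤ U → E ≤ 𝐍 Y → ¬ Y ≤ U₀ → U ≤ Y ⊔ U₀

section sl

variable {F : Type*} [Field F]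

theorem der_sup_U : _root_.commutator SL(2, F) ⊔ SL2Unip.U F = ⊤ := by
  refine top_le_iff.1 (U_sup_LL.ge.trans (sup_le le_sup_right (cj_le_iff'.2 fun x hx => ?_)))
  have := mul_mem_sup (commutator_mem_commutator (mem_top SL2Unip.w0) (mem_top x)) hx
  rwa [commutatorElement_def, inv_mul_cancel_right] at this

theorem der_trans1 {x : Fin 2 → F} (hx : x ≠ 0) :
    ∃ m ∈ _root_.commutator SL(2, F), m.1 *ᵥ ![1, 0] = x := by
  obtain ⟨m, hm⟩ := exists_sl_mulVec (x := (![1, 0] : Fin 2 → F)) (fun e => by simpa using congrFun e 0) hx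
  obtain ⟨d, hd, u, ⟨b, rfl⟩, rfl⟩ := (mem_sup_of_norm' norm_of_normal).1 (der_sup_U.ge (mem_top m))
  refine ⟨d, hd, ?_⟩
  rw [← hm, sl_mul_mulVec]
  congr 1
  change _ = (SL2Unip.u _).1 *ᵥ _
  rw [u_mulVec]; simp

theorem der_trans {x y : Fin 2 → F} (hx : x ≠ 0) (hy : y ≠ 0) :
    ∃ m ∈ _root_.commutator SL(2, F), m.1 *ᵥ x = y := by
  obtain ⟨a, ha, rfl⟩ := der_trans1 hx
  obtain ⟨b, hb, rfl⟩ := der_trans1 hy
  exact ⟨b * a⁻¹, mul_mem hb (inv_mem ha), by rw [sl_mul_mulVec, sl_inv_mulVec]⟩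

theorem irr_nd {E U U₀ : Subgroup G} (d : ND F E U U₀) (hd : _root_.commutator SL(2, F) ≤ d.rim E) :
    Irr E U U₀ := by
  refine ⟨d.norm, d.le, d.norm₀, d.normU₀, fun h => ?_, fun Y h1 h2 h3 u hu => ?_⟩
  · obtain ⟨u, hu, e⟩ := d.ψ_surj ![1, 0]
    simpa using congrFun (e.symm.trans ((d.ψ_zero hu).2 (h hu))) 0
  · obtain ⟨y, hy, hy'⟩ := SetLike.not_le_iff_exists.1 h3
    by_cases h0 : u ∈ U₀
    · exact mem_sup_right h0
    obtain ⟨m, hm, e⟩ := der_trans (mt (d.ψ_zero (h1 hy)).1 hy') (mt (d.ψ_zero hu).1 h0)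
    obtain ⟨t, ht, rfl⟩ := (d.mem_rim le_rfl).1 (hd hm)
    rw [← d.act ht (h1 hy)] at e
    exact d.mem_of_ψ_eq le_sup_right (sup_le h1 d.le) hu
      (mem_sup_left (conj_mem_of_mem_normalizer (h2 ht) hy)) e.symm

end sl

section alt

open Equiv Equiv.Perm

variable {ι : Type*} [Fintype ι] [DecidableEq ι]

theorem ex_even {a b c d : ι} (h1 : a ≠ b) (h2 : c ≠ d) : ∃ σ ∈ alternatingGroup ι,
    (σ a = c ∧ σ b = d) ∨ (σ a = d ∧ σ b = c) := by
  have h3 : swap a c b ≠ c := fun e => h1 ((swap a c).injective (by rw [e, swap_apply_left]))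
  set σ := swap (swap a c b) d * swap a c with hσ
  have e1 : σ a = c := by rw [hσ, mul_apply, swap_apply_left, swap_apply_of_ne_of_ne h3.symm h2]
  have e2 : σ b = d := by rw [hσ, mul_apply, swap_apply_left]
  rcases Int.units_eq_one_or (sign σ) with h | h
  · exact ⟨σ, h, Or.inl ⟨e1, e2⟩⟩
  · refine ⟨σ * swap a b, by rw [mem_alternatingGroup, map_mul, h, sign_swap h1]; simp, Or.inr ?_⟩
    rw [mul_apply σ, mul_apply σ, swap_apply_left, swap_apply_right]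
    exact ⟨e2, e1⟩

theorem irr_pd {E U U₀ : Subgroup G} (d : PD ι E U U₀) (h3 : 3 ≤ Fintype.card ι)
    (ho : Odd (Fintype.card ι)) (hd : alternatingGroup ι ≤ d.rim E) : Irr E U U₀ := by
  obtain ⟨o⟩ : Nonempty ι := Fintype.card_pos_iff.1 (by omega)
  refine ⟨d.norm, d.le, d.norm₀, d.normU₀, fun h => ?_, fun Y h1 h2 h4 => ?_⟩
  · obtain ⟨k, hk, -⟩ := ex_third h3 o o
    obtain ⟨u, hu, e⟩ := d.ψ_surj _ (sum_ee o k)
    have := congrFun (e.symm.trans ((d.ψ_zero hu).2 (h hu))) o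
    simp [ee_apply, hk.symm] at this
  obtain ⟨y, hy, hy'⟩ := SetLike.not_le_iff_exists.1 h4
  have hx := mt (d.ψ_zero (h1 hy)).1 hy'
  obtain ⟨i, hi⟩ : ∃ i, d.ψ y i = 1 := by
    by_contra hc
    exact hx (funext fun i => (z2' _).resolve_right fun e => hc ⟨i, e⟩)
  obtain ⟨j, hj⟩ : ∃ j, d.ψ y j = 0 := by
    by_contra hc
    have := d.ψ_sum (h1 hy)
    rw [Finset.sum_congr rfl fun j _ => (z2' (d.ψ y j)).resolve_left fun e => hc ⟨j, e⟩] at this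
    obtain ⟨k, hk⟩ := ho
    simp only [Finset.sum_const, Finset.card_univ, hk, nsmul_eq_mul, mul_one] at this
    rw [Nat.cast_add, Nat.cast_mul] at this
    exact absurd this (by rw [show ((2 : ℕ) : ZMod 2) = 0 from rfl]; simp)
  have hij : i ≠ j := fun e => by rw [e, hj] at hi; exact absurd hi (by decide)
  obtain ⟨k, hk, hk'⟩ := ex_third h3 i j
  obtain ⟨a, b, hab, w, hw, e⟩ : ∃ a b, a ≠ b ∧ ∃ w ∈ Y, d.ψ w = ee a b := by
    obtain ⟨t, ht, e⟩ := (d.mem_rim le_rfl).1 (hd (x := swap i j * swap j k) (by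
      rw [mem_alternatingGroup, map_mul, sign_swap hij, sign_swap hk'.symm]; simp))
    have hw : ⁅t, y⁆ ∈ Y := H6Off.comm_mem_right hy (h2 ht)
    have e' : ∀ s, d.ψ ⁅t, y⁆ s = d.ψ y (swap j k (swap i j s)) + d.ψ y s := fun s => by
      rw [d.ψ_comm ht (h1 hy), e]; simp
    have c1 : swap j k (swap i j i) = k := by simp
    have c2 : swap j k (swap i j j) = i := by
      rw [swap_apply_right, swap_apply_of_ne_of_ne hij hk.symm]
    have c3 : swap j k (swap i j k) = j := by rw [swap_apply_of_ne_of_ne hk hk', swap_apply_right]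
    have c4 : ∀ s, s ≠ i → s ≠ j → s ≠ k → swap j k (swap i j s) = s := fun s a b c => by
      rw [swap_apply_of_ne_of_ne a b, swap_apply_of_ne_of_ne b c]
    rcases z2' (d.ψ y k) with h | h
    · refine ⟨i, j, hij, _, hw, funext fun s => ?_⟩
      rw [e', ee_apply]
      by_cases a : s = i
      · rw [a, c1, h, hi]; simp [hij]
      by_cases b : s = j
      · rw [b, c2, hj, hi]; simp [hij.symm]
      by_cases c : s = k
      · rw [c, c3, hj, h]; simp [hk, hk']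
      · rw [c4 s a b c, z2]; simp [a, b]
    · refine ⟨j, k, hk'.symm, _, hw, funext fun s => ?_⟩
      rw [e', ee_apply]
      by_cases a : s = i
      · rw [a, c1, h, hi, z2]; simp [hij, hk.symm]
      by_cases b : s = j
      · rw [b, c2, hj, hi]; simp [hk'.symm]
      by_cases c : s = k
      · rw [c, c3, hj, h]; simp [hk']
      · rw [c4 s a b c, z2]; simp [c, b]
  refine d.le_of_ee h1 o fun s hs => ?_
  obtain ⟨σ, hσ, h⟩ := ex_even hab hs.symm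
  obtain ⟨t, ht, rfl⟩ := (d.mem_rim le_rfl).1 (hd hσ)
  refine ⟨_, conj_mem_of_mem_normalizer (h2 ht) hw, funext fun x => ?_⟩
  rw [d.act' ht (h1 hw), e, ee_apply, ee_apply]
  simp only [Perm.inv_eq_iff_eq]
  rcases h with ⟨h, h'⟩ | ⟨h, h'⟩ <;> rw [h, h']
  rw [add_comm]

theorem card_rim_pd {E U U₀ : Subgroup G} (d : PD ι E U U₀) (h3 : 3 ≤ Fintype.card ι) :
    Nat.card (d.rim E) = (Kn U U₀).relIndex E := by
  rw [d.rim_self, relIndex, ← d.ker_ρ h3, index_ker]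

end alt

theorem card_quot (E : Subgroup G) : Nat.card (E ⧸ pCore p E) = (pCoreOf p E).relIndex E := by
  rw [relIndex, subgroupOf_pCoreOf]; rfl

namespace Irr

variable {E U U₀ : Subgroup G} (h : Irr E U U₀)
include h

/-- a `p`-group normalized by `E` acts trivially -/
theorem comm_le [Finite G] [Fact p.Prime] (hU : IsPGroup p U) {P : Subgroup G} (hP : IsPGroup p P)
    (h1 : P ≤ 𝐍 U) (h2 : P ≤ 𝐍 U₀) (h3 : E ≤ 𝐍 P) : ⁅U, P⁆ ≤ U₀ := by
  obtain ⟨v, hv, hv', h4⟩ := ex_fix (Y := U₀) hP _ U rfl hU h1 h.nle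
  have := h.irr (Fx U U₀ P) (Fx_le _ _ _) (norm_Fx h.norm h.norm₀ h3) fun e =>
    hv' (e (mem_Fx'.2 ⟨hv, h.normU hv, fun y hy => comm_symm_mem (h4 y hy)⟩))
  exact (le_Fx_iff.1 (this.trans (sup_le le_rfl (le_Fx_iff.2 ⟨h.le, le_normalizer,
    commutator_le_left_of_norm h2⟩)))).2.2

end Irr

/-- the abstract properties of a block -/
structure Blk (p : ℕ) (T E : Subgroup G) : Prop where
  res : pResidualOf p E = E
  cB : ⁅E, Bm p T⁆ = E
  cQ : ⁅pCoreOf p E, E⁆ = pCoreOf p E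
  nz : ¬ E ≤ 𝐂 (OZ p T)
  irr : Irr E (Zo p E) (Zo p E ⊓ 𝐂 E)
  kn : E ⊓ Kn (Zo p E) (Zo p E ⊓ 𝐂 E) ≤ pCoreOf p E
  ty : pCoreOf p E = Zo p E ∨ (Irr E (pCoreOf p E) (Zo p E) ∧ ⁅pCoreOf p E, pCoreOf p E⁆ ≠ ⊥)

theorem kn_of [Finite G] {E : Subgroup G}
    (h : (pCoreOf p E).relIndex E ≤ (Kn (Zo p E) (Zo p E ⊓ 𝐂 E)).relIndex E) :
    E ⊓ Kn (Zo p E) (Zo p E ⊓ 𝐂 E) ≤ pCoreOf p E :=
  eq_of_idx (inf_le_right.trans (le_Kn_iff.2 ⟨norm_of_centralizer ((Q_cent p E).trans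
    (centralizer_anti inf_le_left)), comm_bot_le' (Q_cent p E)⟩)) h

theorem blk_of [Finite G] [hp : Fact p.Prime] {T E : Subgroup G} (h : IsBaumannBlock p T E) :
    Blk p T E := by
  obtain ⟨h1, h2, h3, h4, h5⟩ := h
  rw [bau_eq] at h2 h5
  have h4' : ¬ E ≤ 𝐂 (OZ p T) := fun e => h4 (comm_eq_bot_of_le e)
  rcases h5 with ⟨F, _, _, n, hF, ⟨e⟩, a, h5⟩ | ⟨rfl, m, ⟨e⟩, a, h5⟩
  · obtain ⟨d, hd⟩ := H6Nat.acts_iff.1 a
    refine ⟨h1, h2, h3, h4', irr_nd d hd.ge, kn_of ?_, h5.imp id ?_⟩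
    · rw [← card_quot, Nat.card_congr e.toEquiv, ← hd, d.card_rim le_rfl]; rfl
    · rintro ⟨rfl, a', b1, -, b2, b3, -⟩
      obtain ⟨d', hd'⟩ := H6Nat.acts_iff.1 a'
      refine ⟨irr_nd d' hd'.ge, fun e => ?_⟩
      rw [b2, ← b1, e, ← hF, card_bot] at b3
      exact absurd b3 Fintype.one_lt_card.ne
  · obtain ⟨d, hd⟩ := H6PD.acts_iff.1 a
    have hm : 3 ≤ Fintype.card (Fin (2 * m + 1)) := by
      rw [Fintype.card_fin]
      by_contra hm
      obtain rfl : m = 0 := by omega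
      haveI : Subsingleton (alternatingGroup (Fin (2 * 0 + 1))) :=
        ⟨fun a b => Subtype.ext (Equiv.ext fun i => Subsingleton.elim (α := Fin 1) _ _)⟩
      have := Nat.card_congr e.toEquiv
      rw [card_quot, Nat.card_unique, relIndex_eq_one] at this
      rw [← h1, res_eq_bot_of_isPGroup ((isPGroup_pCoreOf 2 E).to_le this)] at h4'
      exact h4' bot_le
    refine ⟨h1, h2, h3, h4', irr_pd d hm (by simp) hd.ge, kn_of ?_, Or.inl h5⟩
    rw [← card_quot, Nat.card_congr e.toEquiv, ← hd, card_rim_pd d hm]; rfl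

namespace Blk

variable {T E : Subgroup G} (h : Blk p T E)
include h

theorem B_norm : Bm p T ≤ 𝐍 E := by
  have := norm_comm_right E (Bm p T)
  rwa [h.cB] at this

theorem le_ncl : E ≤ ncl (Bm p T) E := by
  rw [ncl_eq_sup, Subgroup.commutator_comm, h.cB]; exact le_sup_right

variable [Finite G] [Fact p.Prime] (hT : SylIn p T ⊤)

theorem W_not_le : ¬ ⁅Zo p E, E⁆ ≤ 𝐂 E := fun e => h.irr.nle (le_inf le_rfl (cent_symm (h.res.ge.trans
  (AmbChar.res_le_cent_of_comm_le (isPGroup_OZ _ _) (norm_Zo p E) (by rwa [h.res])))))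

theorem Zo_le : Zo p E ≤ ⁅Zo p E, E⁆ ⊔ (Zo p E ⊓ 𝐂 E) :=
  h.irr.irr _ (commutator_le_left_of_norm (norm_Zo p E)) (norm_comm_right _ _) fun e =>
    h.W_not_le (e.trans inf_le_right)

theorem inf_cent : E ⊓ 𝐂 ⁅Zo p E, E⁆ ≤ pCoreOf p E := by
  have : E ⊓ 𝐂 ⁅Zo p E, E⁆ ≤ 𝐂 (Zo p E) := le_trans (by
    rw [centralizer_sup]
    exact le_inf inf_le_right (inf_le_left.trans (cent_symm inf_le_right))) (centralizer_anti h.Zo_le)
  exact le_trans (le_inf inf_le_left (le_Kn_iff.2 ⟨inf_le_left.trans h.irr.norm₀, comm_bot_le' this⟩)) h.kn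

include hT

theorem norm_of {Q : Subgroup G} (hQ : IsPGroup p Q) (h1 : Bm p T ≤ 𝐍 Q) (h2 : E ≤ 𝐍 Q) : Q ≤ 𝐍 E := by
  have h3 : Q ≤ 𝐍 (ncl (Bm p T) E) := norm_iSup fun g =>
    ((wc_Bm hT).conj g).norm_of_norm hQ (cj_le_of_mem h1 (h2 g.2))
  rw [ncl_eq_sup, Subgroup.commutator_comm, h.cB] at h3
  have := norm_res_of_norm (p := p) h3
  rwa [res_sup_eq (hT.pg.to_le inf_le_left) h.B_norm, h.res] at this

theorem O_norm : pCoreOf p ⊤ ≤ 𝐍 E :=
  h.norm_of hT (isPGroup_pCoreOf _ _) (le_top.trans (norm_pCoreOf _ _)) (le_top.trans (norm_pCoreOf _ _))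

theorem comm_O : ⁅pCoreOf p (⊤ : Subgroup G), E⁆ ≤ pCoreOf p E :=
  have : ⁅pCoreOf p (⊤ : Subgroup G), E⁆ ≤ pCoreOf p ⊤ := commutator_le_left_of_norm (le_top.trans (norm_pCoreOf _ _))
  le_pCoreOf (commutator_le_right_of_norm (h.O_norm hT)) ((isPGroup_pCoreOf p ⊤).to_le this)
    (norm_comm_right _ _)

theorem W_le (hc : AmbChar.CharP p (⊤ : Subgroup G)) : ⁅Zo p E, E⁆ ≤ OZ p (pCoreOf p ⊤) := by
  have n := h.O_norm hT
  have n1 : pCoreOf p ⊤ ≤ 𝐍 (Zo p E) := norm_OZ (norm_pCoreOf_of_norm n)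
  have h1 := h.irr.comm_le (isPGroup_OZ _ _) (isPGroup_pCoreOf p ⊤) n1
    (norm_inf n1 (norm_centralizer n)) (le_top.trans (norm_pCoreOf _ _))
  have h2 : ⁅Zo p E, E⁆ ≤ 𝐂 (pCoreOf p ⊤) := three_bot
    ((comm_swap (h.comm_O hT)).trans (Q_cent p E)) (comm_swap (h1.trans inf_le_right))
  exact le_OZ' (ea_of_le (ea_OZ _ _) (commutator_le_left_of_norm (norm_Zo p E)))
    (hc.le_of_cent le_top h2) h2

theorem J_not_cent : ¬ ⁅Zo p E, E⁆ ≤ 𝐂 (J p T) := fun e => by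
  have n : J p T ≤ 𝐍 E := (J_le_Bm p T).trans h.B_norm
  have h1 : ⁅E, J p T⁆ ≤ pCoreOf p E := le_trans (le_inf (commutator_le_left_of_norm n) (three_bot
    (comm_bot_le' e) ((commutator_le_left_of_norm (norm_comm_right _ _)).trans e))) h.inf_cent
  have n2 := norm_pCoreOf_of_norm (p := p) n
  have h2 : E ≤ 𝐍 (J p T ⊔ pCoreOf p E) := norm_of_commutator_le (le_trans (comm_sup_le n2 le_normalizer
    (comm_swap h1) h.cQ.le) le_sup_right)
  have h3 := h2.trans ((wc_J hT).normalizer_le (isPGroup_sup_of_norm (wc_J hT).pg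
    (isPGroup_pCoreOf _ _) n2) le_sup_left)
  exact h.nz (h.le_ncl.trans ((ncl_le_cent (norm_OZ h3) inf_le_right).trans
    (centralizer_anti (OZ_le_OZJ p T))))

end Blk

end CA.H6Blk
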