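import Cfsg.Agent.Lib.Loc.H6Bau
import Cfsg.Agent.Lib.Loc.AmbCD
import Cfsg.Agent.Lib.Loc.AmbFs

/-! Centrally large subgroups in the pushing up situation. -/

set_option autoImplicit false

namespace CA.H6CL

open Subgroup Cfsg CA.Amb CA.AmbSyl CA.AmbCore CA.AmbRes CA.AmbSpe CA.AmbWC CA.H6Nat CA.H6Nat2 CA.H6E0
open CA.H6Bau CA.AmbCD CA.H6J CA.AmbFs CA.H6Core2
open scoped commutatorElement

universe u

variable {G : Type u} [Group G] {p q : ℕ} {S Q R : Subgroup G}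

noncomputable def fz (R : Subgroup G) : ℕ := Nat.card R * Nat.card (Z R)

def CLa (S R : Subgroup G) : Prop := R ≤ S ∧ ∀ K, K ≤ S → fz K ≤ fz R

def MCLa (S R : Subgroup G) : Prop := CLa S R ∧ ∀ K, K ≤ R → CLa S K → K = R

theorem fz_map {G' : Type*} [Group G'] {f : G →* G'} (hf : Function.Injective f) (R : Subgroup G) :
    fz (R.map f) = fz R := by
  rw [fz, fz, Z_map hf, card_map_of_injective hf, card_map_of_injective hf]

theorem CLa.cj {T : Subgroup G} (h : CLa S R) (hT : T ≤ S) (hR : R ≤ T) {g : G} (hg : g ∈ 𝐍 T) :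
    CLa S (cj g R) :=
  ⟨(cj_le_of_le hR hg).trans hT, fun K hK => (fz_map (conj_injective g) R).symm ▸ h.2 K hK⟩

theorem MCLa.cj {T : Subgroup G} (h : MCLa S R) (hT : T ≤ S) (hR : R ≤ T) {g : G} (hg : g ∈ 𝐍 T) :
    MCLa S (cj g R) :=
  ⟨h.1.cj hT hR hg, fun K h1 h2 => by
    rw [← h.2 _ (le_cj_iff.1 h1) (h2.cj hT (h1.trans (cj_le_of_le hR hg)) (inv_mem hg)), cj_cj_inv]⟩

variable [Finite G]

theorem cl_iff' : CL Q ↔ ∀ K : Subgroup G, fz K ≤ fz Q := by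
  refine ⟨fun h K => ?_, fun h => ?_⟩
  · refine le_trans (Nat.mul_le_mul_left _ (card_le_of_le inf_le_right)) ((h.1 K).trans ?_)
    rw [fz, Z, inf_eq_right.2 h.2, ms]
  · obtain ⟨H, hH⟩ := exists_cl G
    refine (cl_of_card hH.1 inf_le_left inf_le_right (le_trans ?_ (h H))).1
    rw [fz, Z, inf_eq_right.2 hH.2, ms]

theorem cla_iff {Q : Subgroup S} : CL Q ↔ CLa S (Q.map S.subtype) := by
  rw [cl_iff', CLa, fz_map S.subtype_injective]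
  refine ⟨fun h => ⟨map_subtype_le _, fun K hK => ?_⟩, fun h K => ?_⟩
  · rw [← map_subgroupOf_eq_of_le hK, fz_map S.subtype_injective]; exact h _
  · rw [← fz_map S.subtype_injective]; exact h.2 _ (map_subtype_le _)

theorem mcla_iff {Q : Subgroup S} : MCL Q ↔ MCLa S (Q.map S.subtype) := by
  rw [MCL, MCLa, cla_iff]
  refine and_congr_right fun _ => ⟨fun h K h1 h2 => ?_, fun h K h1 h2 =>
    map_injective S.subtype_injective (h _ (map_mono h1) (cla_iff.1 h2))⟩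
  obtain ⟨K, rfl⟩ : ∃ K' : Subgroup S, K'.map S.subtype = K := ⟨_, map_subgroupOf_eq_of_le h2.1⟩
  rw [h _ ((map_le_map_iff_of_injective S.subtype_injective).1 h1) (cla_iff.2 h2)]

theorem CLa.lift (h : CLa S R) : ∃ Q : Subgroup S, CL Q ∧ Q.map S.subtype = R :=
  ⟨R.subgroupOf S, cla_iff.2 ((map_subgroupOf_eq_of_le h.1).symm ▸ h), map_subgroupOf_eq_of_le h.1⟩

theorem MCLa.lift (h : MCLa S R) : ∃ Q : Subgroup S, MCL Q ∧ Q.map S.subtype = R :=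
  ⟨R.subgroupOf S, mcla_iff.2 ((map_subgroupOf_eq_of_le h.1.1).symm ▸ h), map_subgroupOf_eq_of_le h.1.1⟩

theorem CLa.cent_le (h : CLa S Q) : S ⊓ 𝐂 Q ≤ Q := by
  obtain ⟨Q, hQ, rfl⟩ := h.lift
  rw [← map_subtype_centralizer]; exact map_mono hQ.2

theorem CLa.exists_mcl (h : CLa S Q) : ∃ K, K ≤ Q ∧ MCLa S K := by
  obtain ⟨Q, hQ, rfl⟩ := h.lift
  obtain ⟨K, h1, h2⟩ := hQ.exists_mcl
  exact ⟨_, map_mono h1, mcla_iff.1 h2⟩

theorem exists_cla (S : Subgroup G) : ∃ Q, CLa S Q :=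
  let ⟨_, h⟩ := exists_cl S
  ⟨_, cla_iff.1 h⟩

theorem MCLa.eq_sup (h : MCLa S Q) (k : CLa S R) : Q = (Q ⊓ R) ⊔ Z Q := by
  obtain ⟨Q, hQ, rfl⟩ := h.lift
  obtain ⟨R, hR, rfl⟩ := k.lift
  rw [Z_map S.subtype_injective, ← map_inf _ _ _ S.subtype_injective, ← Subgroup.map_sup, Z,
    inf_eq_right.2 hQ.1.2, hQ.eq_sup hR]

theorem MCLa.der_eq (h : MCLa S Q) (k : MCLa S R) : ⁅Q, Q⁆ = ⁅R, R⁆ := by
  obtain ⟨Q, hQ, rfl⟩ := h.lift
  obtain ⟨R, hR, rfl⟩ := k.lift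
  rw [← map_commutator, ← map_commutator, hQ.der_eq hR]

theorem MCLa.of_card_le (h : MCLa S Q) (k : CLa S R) (e : Nat.card R ≤ Nat.card Q) : MCLa S R := by
  obtain ⟨Q, hQ, rfl⟩ := h.lift
  obtain ⟨R, hR, rfl⟩ := k.lift
  rw [card_map_of_injective S.subtype_injective, card_map_of_injective S.subtype_injective] at e
  exact mcla_iff.1 (hQ.of_card_le hR e)

theorem CLa.sup_mx (h : CLa S Q) {A : Subgroup G} (hA : A ∈ mx 0 S) : CLa S (Q ⊔ A) := by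
  obtain ⟨Q, hQ, rfl⟩ := h.lift
  obtain ⟨A, hA', rfl⟩ := (image_maxAbelianSubgroups S).ge hA
  simp only [← Subgroup.map_sup]
  exact cla_iff.1 (hQ.ma (ma_iff.1 hA')).1

def SM (S : Subgroup G) : Subgroup G := sSup {R | MCLa S R}

def MX (p : ℕ) (S Q : Subgroup G) : Prop :=
  MCLa S Q ∧ ∀ R, MCLa S R → Nat.card (OZ p R) ≤ Nat.card (OZ p Q)

def SP (p : ℕ) (S : Subgroup G) : Subgroup G := ⨆ Q : {Q // MX p S Q}, Phi Q.1

theorem map_SM (S : Subgroup G) : (minimalCentrallyLargeJoin S).map S.subtype = SM S := by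
  refine le_antisymm (map_le_iff_le_comap.2 (sSup_le fun R hR => map_le_iff_le_comap.1
    (le_sSup (mcla_iff.1 (mcl_iff.1 hR))))) (sSup_le fun R hR => ?_)
  obtain ⟨R, h, rfl⟩ := MCLa.lift hR
  exact map_mono (le_sSup (mcl_iff.2 h))

theorem exists_MX (p : ℕ) (S : Subgroup G) : ∃ Q, MX p S Q := by
  obtain ⟨Q, h⟩ := exists_cla S
  obtain ⟨K, -, hK⟩ := h.exists_mcl
  exact Set.exists_max_image {R | MCLa S R} (fun R => Nat.card (OZ p R)) (Set.toFinite _) ⟨K, hK⟩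

theorem MX_iff {Q : Subgroup S} : (IsMinimalCentrallyLarge Q ∧
    Nat.card (omegaOneCenter p Q) = maxOmegaCenterOfMinimalCL p S) ↔ MX p S (Q.map S.subtype) := by
  have e : ∀ Q : Subgroup S, Nat.card (OZ p (Q.map S.subtype)) = Nat.card (omegaOneCenter p Q) :=
    fun Q => by rw [← map_OZ S.subtype_injective, card_map_of_injective S.subtype_injective]; rfl
  rw [MX, mcl_iff, ← mcla_iff]
  refine and_congr_right fun hQ => ⟨fun h R hR => ?_, fun h => ?_⟩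
  · obtain ⟨R, hR', rfl⟩ := hR.lift
    rw [e, e, h]
    refine le_csSup ⟨Nat.card S, ?_⟩ ⟨R, mcl_iff.2 hR', rfl⟩
    rintro _ ⟨K, -, rfl⟩
    exact card_le_card_group _
  · refine (IsGreatest.csSup_eq ?_).symm
    refine ⟨⟨Q, mcl_iff.2 hQ, rfl⟩, ?_⟩
    rintro _ ⟨K, hK, rfl⟩
    rw [← e, ← e]
    exact h _ (mcla_iff.1 (mcl_iff.1 hK))

theorem map_SP [Fact p.Prime] (hS : IsPGroup p S) :
    (frattiniOfMinimalCLJoin p S).map S.subtype = SP p S := by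
  rw [frattiniOfMinimalCLJoin, Subgroup.map_iSup]
  refine le_antisymm (iSup_le fun Q => ?_) (iSup_le fun ⟨Q, hQ⟩ => ?_)
  · rw [PGFrattini.map_map_frattini _ (hS.to_subgroup _)]
    exact le_iSup (fun Q : {Q // MX p S Q} => Phi Q.1) ⟨_, MX_iff.1 Q.2⟩
  · obtain ⟨Q, -, rfl⟩ := hQ.1.lift
    refine le_iSup_of_le ⟨Q, MX_iff.2 hQ⟩ ?_
    rw [PGFrattini.map_map_frattini _ (hS.to_subgroup _)]

theorem der_char {P : Type*} [Group P] [Finite P] {Q : Subgroup P} (h : MCL Q) :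
    (⁅Q, Q⁆).Characteristic := by
  refine characteristic_iff_map_eq.2 fun φ => ?_
  have key : ∀ (φ : P ≃* P) (K : Subgroup P), CL K → CL (K.map φ.toMonoidHom) := fun φ K hK =>
    cl_iff'.2 fun L => (fz_map (f := φ.toMonoidHom) φ.injective K).symm ▸ cl_iff'.1 hK L
  rw [map_commutator]
  refine MCL.der_eq ⟨key _ _ h.1, fun K h1 h2 => ?_⟩ h
  rw [← h.2 _ (map_le_iff_le_comap.2 fun x hx => ?_) (key φ.symm K h2), map_map]
  · simp
  · obtain ⟨y, hy, rfl⟩ := h1 hx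
    simpa using hy

omit [Finite G] in
theorem card_inf (Q T : Subgroup G) : Nat.card Q = Nat.card ↥(Q ⊓ T) * T.relIndex Q := by
  rw [inf_comm, card_inf_mul_relIndex]

theorem Phi_sup [Fact p.Prime] {B E : Subgroup G} (hB : IsPGroup p B) (hE : IsElementaryAbelian p E)
    (hc : E ≤ 𝐂 B) : Phi (B ⊔ E) = Phi B := by
  have hn := norm_of_centralizer (cent_symm hc)
  have hP : IsPGroup p ↥(B ⊔ E) := isPGroup_sup_of_norm hB (ea_pg hE) hn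
  refine le_antisymm ((PGFrattini.map_frattini_le_iff hP).2 ⟨?_, fun x hx => ?_⟩)
    (PGFrattini.map_frattini_mono hP le_sup_left)
  · rw [comm_sup_cent (norm_of_le le_sup_left) (by
      rw [centralizer_sup]; exact le_inf hc (ea_le_cent hE)), commutator_comm,
      comm_sup_cent le_normalizer hc]
    exact PGFrattini.commutator_le_map_frattini hB
  · obtain ⟨b, hb, e, he, rfl⟩ := (mem_sup_of_norm hn).1 hx
    rw [Commute.mul_pow (mem_centralizer_sub.1 (hc he) b hb), ea_pow hE he, mul_one]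
    exact PGFrattini.pow_mem_map_frattini hB hb

variable [Fact p.Prime] {X M : Subgroup G} (h : R1 p q X S M) (hc : AmbChar.CharP p X)
  (hnt : ¬ X ≤ 𝐂 (OZ 0 S)) (hJ : ¬ J 0 S ≤ pCoreOf p X) {F : Type*} [Field F] [Finite F] [CharP F p]
  (hF : Nat.card F = q)
include h hc hnt hJ hF

theorem idx_Z {A Y : Subgroup G} (hA : A ≤ S) (hAQ : ¬ A ≤ pCoreOf p X) (h1 : OZ 0 S ≤ Y)
    (h2 : Y ≤ 𝐂 A) : Y.relIndex (OZ 0 (pCoreOf p X)) = q := by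
  obtain ⟨e1, e2⟩ := cent_eq h hc hnt hJ hF hA hAQ
  rw [← e2, ← inf_relIndex_left, ← inf_relIndex_left _ (𝐂 A), e1]
  congr 1
  exact le_antisymm (e1 ▸ inf_le_inf_left _ h2) (le_inf (e1.ge.trans inf_le_left) h1)

theorem exists_T : ∃ R, MCLa S R ∧ R ≤ pCoreOf p X := by
  obtain ⟨A, hA, hAQ⟩ : ∃ A ∈ mx 0 S, ¬ A ≤ pCoreOf p X := by simpa [J_le_iff] using hJ
  obtain ⟨Q, hQ⟩ := exists_cla S
  have h1 := hQ.sup_mx (mx_facts h hc hnt hJ hF hA hAQ).2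
  have h2 : OZ 0 (pCoreOf p X) ≤ Q ⊔ (OZ 0 (pCoreOf p X) ⊔ A ⊓ pCoreOf p X) :=
    le_sup_of_le_right le_sup_left
  generalize Q ⊔ (OZ 0 (pCoreOf p X) ⊔ A ⊓ pCoreOf p X) = Q at h1 h2
  suffices CLa S (Q ⊓ pCoreOf p X) from
    let ⟨K, k1, k2⟩ := this.exists_mcl
    ⟨K, k2, k1.trans inf_le_right⟩
  by_cases hQT : Q ≤ pCoreOf p X
  · rwa [inf_eq_left.2 hQT]
  have h3 : Z Q ≤ pCoreOf p X := (inf_cent_OZ h hc hnt).symm ▸
    le_inf (inf_le_left.trans h1.1) (inf_le_right.trans (centralizer_anti h2))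
  refine ⟨inf_le_left.trans h1.1, fun K hK => (h1.2 K hK).trans ?_⟩
  have h4 : OZ 0 (pCoreOf p X) ⊔ Z Q ⊓ pCoreOf p X ≤ Z (Q ⊓ pCoreOf p X) := sup_le
    (le_inf (le_inf h2 (OZ_le _ _)) ((OZ_le_cent _ _).trans (centralizer_anti inf_le_right)))
    (le_inf (inf_le_inf_right _ inf_le_left) (inf_le_left.trans (inf_le_right.trans
      (centralizer_anti inf_le_left))))
  have h5 := card_le_of_le h4
  have hZ : OZ 0 S ≤ Z Q := le_inf ((le_inf (OZ_le _ _) ((OZ_le_cent _ _).trans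
    (centralizer_anti h1.1))).trans h1.cent_le) ((OZ_le_cent _ _).trans (centralizer_anti h1.1))
  rw [card_sup_eq (OZ_le _ _) (OZ_le_cent _ _), inf_eq_left.2 h3,
    idx_Z h hc hnt hJ hF h1.1 hQT hZ inf_le_right] at h5
  rw [fz, fz, card_inf Q (pCoreOf p X), mul_assoc]
  refine Nat.mul_le_mul_left _ (le_trans ?_ h5)
  rw [mul_comm]
  exact Nat.mul_le_mul_left _ (h.idx ▸ idx_mono h1.1 _)

theorem Z_not_le (hQ : MCLa S Q) (hQT : ¬ Q ≤ pCoreOf p X) : ¬ Z Q ≤ pCoreOf p X := fun hle => by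
  obtain ⟨R, h1, h2⟩ := exists_T h hc hnt hJ hF
  exact hQT ((hQ.eq_sup h1.1).le.trans (sup_le (inf_le_right.trans h2) hle))

theorem star (hQ : MCLa S Q) (hQT : ¬ Q ≤ pCoreOf p X) :
    MCLa S (OZ 0 (pCoreOf p X) ⊔ Q ⊓ pCoreOf p X) := by
  have h1 := Z_not_le h hc hnt hJ hF hQ hQT
  have hS := hQ.1.1
  have hZ : OZ 0 S ≤ Z Q := le_inf ((le_inf (OZ_le _ _) ((OZ_le_cent _ _).trans
    (centralizer_anti hS))).trans hQ.1.cent_le) ((OZ_le_cent _ _).trans (centralizer_anti hS))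
  have h4 : OZ 0 (pCoreOf p X) ⊔ Z Q ⊓ pCoreOf p X ≤ Z (OZ 0 (pCoreOf p X) ⊔ Q ⊓ pCoreOf p X) := by
    refine le_inf (sup_le_sup_left (inf_le_inf_right _ inf_le_left) _) ?_
    rw [centralizer_sup]
    exact sup_le (le_inf (OZ_cent _ _) ((OZ_le_cent _ _).trans (centralizer_anti inf_le_right)))
      (le_inf (inf_le_right.trans (le_cent_OZ _ _)) (inf_le_left.trans (inf_le_right.trans
      (centralizer_anti inf_le_left))))
  have h5 := card_le_of_le h4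
  rw [card_sup_eq (OZ_le _ _) (OZ_le_cent _ _), idx_Z h hc hnt hJ hF hS hQT hZ inf_le_right] at h5
  have h6 := card_sup_eq (A := Q) (OZ_le 0 (pCoreOf p X)) (OZ_le_cent _ _)
  rw [idx_Z h hc hnt hJ hF (inf_le_left.trans hS) h1 (hZ.trans inf_le_left) (cent_symm inf_le_right)] at h6
  have h7 : Nat.card Q ≤ Nat.card ↥(OZ 0 (pCoreOf p X) ⊔ Q ⊓ pCoreOf p X) := by
    rw [h6, card_inf Q (pCoreOf p X)]
    exact Nat.mul_le_mul_left _ (h.idx ▸ idx_mono hS _)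
  have h8 : Nat.card (Z Q) ≤ Nat.card (Z (OZ 0 (pCoreOf p X) ⊔ Q ⊓ pCoreOf p X)) := by
    rw [card_inf (Z Q) (pCoreOf p X)]
    exact le_trans (Nat.mul_le_mul_left _ (h.idx ▸ idx_mono (inf_le_left.trans hS) _)) h5
  have hle : OZ 0 (pCoreOf p X) ⊔ Q ⊓ pCoreOf p X ≤ S :=
    (sup_le (OZ_le _ _) inf_le_right).trans h.Q_le
  refine hQ.of_card_le ⟨hle, fun K hK => (hQ.1.2 K hK).trans (Nat.mul_le_mul h7 h8)⟩ ?_
  exact Nat.le_of_mul_le_mul_right ((Nat.mul_le_mul_left _ h8).trans (hQ.1.2 _ hle)) Nat.card_pos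

theorem Z_le_sup : OZ 0 (pCoreOf p X) ≤ OZ p (pCoreOf p X) ⊔ (OZ 0 (pCoreOf p X) ⊓ 𝐂 X) := by
  have h1 := (nat_OZ h hc hnt hJ hF).1
  have hle : OZ p (pCoreOf p X) ≤ OZ 0 (pCoreOf p X) := fun x hx =>
    mem_OZ.2 ⟨(mem_OZ.1 hx).1, (mem_OZ.1 hx).2.1, pow_zero x⟩
  refine h1.le_sup hle (norm_OZ (norm_pCoreOf p X)) fun h2 => h1.not_le_Kn (le_Kn_iff.2 ⟨h1.norm₀,
    le_trans (commutator_le.2 fun z hz g hg => ?_) h2⟩)
  have h3 := conj_mem_of_mem_normalizer (h1.norm hg) (inv_mem hz)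
  have h4 := mul_mem hz h3
  rw [commutatorElement_def, mul_assoc, mul_assoc, ← mul_assoc g]
  refine mem_OZ.2 ⟨(mem_OZ.1 h4).1, (mem_OZ.1 h4).2.1, ?_⟩
  rw [Commute.mul_pow (mem_centralizer_sub.1 (OZ_cent _ _ h3) z hz), conj_pow, inv_pow,
    mem_centralizer_sub.1 (inv_mem (h1.pow_mem hz (p := p)).2) g hg]
  simp

omit h hc hnt hJ hF [Finite G] [Fact p.Prime] in
theorem OZ_le_OZ0 (T : Subgroup G) : OZ p T ≤ OZ 0 T := fun x hx =>
  mem_OZ.2 ⟨(mem_OZ.1 hx).1, (mem_OZ.1 hx).2.1, pow_zero x⟩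

theorem idx_OZ (hQ : CLa S Q) (hQT : ¬ Q ≤ pCoreOf p X) :
    (OZ p Q).relIndex (OZ p (pCoreOf p X)) = q := by
  have e1 : OZ p (pCoreOf p X) ⊓ OZ p Q = OZ p (pCoreOf p X) ⊓ 𝐂 Q :=
    le_antisymm (inf_le_inf_left _ (OZ_le_cent _ _)) fun x hx => mem_inf.2 ⟨hx.1, mem_OZ.2 ⟨hQ.cent_le
      (mem_inf.2 ⟨h.Q_le (OZ_le _ _ hx.1), hx.2⟩), hx.2, (mem_OZ.1 hx.1).2.2⟩⟩
  have e2 := relIndex_sup_left_of_le (Y := 𝐂 Q) (norm_of_ab (OZ_cent 0 (pCoreOf p X))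
    (OZ_le_OZ0 (p := p) _) (inf_le_left (b := 𝐂 X)))
    (inf_le_right.trans (centralizer_anti (hQ.1.trans h.syl.le)))
  rw [← le_antisymm (Z_le_sup h hc hnt hJ hF) (sup_le (OZ_le_OZ0 _) inf_le_left),
    (cent_eq h hc hnt hJ hF hQ.1 hQT).2] at e2
  rw [← inf_relIndex_left, e1, inf_relIndex_left, e2]

theorem star_eq (hQ : CLa S Q) :
    OZ 0 (pCoreOf p X) ⊔ Q ⊓ pCoreOf p X = Q ⊓ pCoreOf p X ⊔ OZ p (pCoreOf p X) := by
  have hZ : OZ 0 S ≤ Q := (le_inf (OZ_le _ _) ((OZ_le_cent _ _).trans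
    (centralizer_anti hQ.1))).trans hQ.cent_le
  have h3 : OZ 0 (pCoreOf p X) ⊓ 𝐂 X ≤ OZ 0 S :=
    (inf_le_inf_left _ (centralizer_anti h.syl.le)).trans (OZ_inf hc h.syl).le
  exact le_antisymm (sup_le ((Z_le_sup h hc hnt hJ hF).trans (sup_le le_sup_right (le_sup_of_le_left (le_inf
    (h3.trans hZ) (inf_le_left.trans (OZ_le _ _)))))) le_sup_left)
    (sup_le le_sup_right (le_sup_of_le_left (OZ_le_OZ0 _)))

omit h hc hnt hJ hF [Finite G] [Fact p.Prime] in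
theorem OZ_sup_le (Q T : Subgroup G) : OZ p T ⊔ OZ p Q ⊓ T ≤ OZ p (Q ⊓ T ⊔ OZ p T) := by
  refine le_OZ' (ea_sup (ea_OZ _ _) (ea_of_le (ea_OZ _ _) inf_le_left) ((OZ_le_cent _ _).trans
    (centralizer_anti inf_le_right))) (sup_le le_sup_right (le_sup_of_le_left
    (inf_le_inf_right _ (OZ_le _ _)))) ?_
  rw [centralizer_sup]
  exact sup_le (le_inf ((OZ_le_cent _ _).trans (centralizer_anti inf_le_right)) (OZ_cent _ _))
    (le_inf (inf_le_left.trans ((OZ_le_cent _ _).trans (centralizer_anti inf_le_left)))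
    (inf_le_right.trans (le_cent_OZ _ _)))

theorem star' (hQ : MCLa S Q) (hQT : ¬ Q ≤ pCoreOf p X)
    (hm : ∀ R, MCLa S R → Nat.card (OZ p R) ≤ Nat.card (OZ p Q)) :
    ∃ R, MCLa S R ∧ R ≤ pCoreOf p X ∧ Nat.card (OZ p Q) ≤ Nat.card (OZ p R) ∧ Phi Q = Phi R := by
  have h1 := star h hc hnt hJ hF hQ hQT
  have hS := hQ.1.1
  have h5 := card_le_of_le (OZ_sup_le (p := p) Q (pCoreOf p X))
  rw [card_sup_eq (OZ_le _ _) (OZ_le_cent _ _), idx_OZ h hc hnt hJ hF hQ.1 hQT] at h5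
  rw [star_eq h hc hnt hJ hF hQ.1] at h1
  have h7 := h5.trans (hm _ h1)
  rw [card_inf (OZ p Q) (pCoreOf p X)] at h7
  have h8 := h.eq_sup ((OZ_le p Q).trans hS) (Nat.le_of_mul_le_mul_left h7 Nat.card_pos)
  have h9 : Q ⊓ pCoreOf p X ⊔ OZ p Q = Q := by
    rw [sup_comm, inf_comm, ← sup_inf_of_norm (((OZ_le p Q).trans (hS.trans h.syl.le)).trans
      (norm_pCoreOf p X)) (OZ_le p Q), ← h8, inf_eq_right.2 hS]
  have hp : IsPGroup p ↥(Q ⊓ pCoreOf p X) := h.syl.pg.to_le (inf_le_left.trans hS)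
  refine ⟨_, h1, sup_le inf_le_right (OZ_le _ _), ?_, ?_⟩
  · rw [card_inf (OZ p Q) (pCoreOf p X)]
    exact le_trans (Nat.mul_le_mul_left _ (h.idx ▸ idx_mono ((OZ_le p Q).trans hS) _)) h5
  · rw [Phi_sup hp (ea_OZ _ _) ((OZ_le_cent _ _).trans (centralizer_anti inf_le_right)),
      ← Phi_sup hp (ea_OZ p Q) ((OZ_le_cent _ _).trans (centralizer_anti inf_le_left)), h9]

theorem der_cent (hQ : MCLa S Q) (hQT : ¬ Q ≤ pCoreOf p X) : OZ 0 S ⊓ ⁅Q, Q⁆ ≤ 𝐂 X := by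
  obtain ⟨R, h1, h2⟩ := exists_T h hc hnt hJ hF
  have h3 := (nat_OZ h hc hnt hJ hF).1
  have hn : X ≤ 𝐍 ⁅Q, Q⁆ := le_normalizer_iff_cj.2 fun g hg => by
    rw [hQ.der_eq h1, cj_commutator, h1.der_eq (h1.cj h.Q_le h2 (norm_pCoreOf p X hg))]
  by_contra hne
  have h4 := h3.le_sup (W := OZ 0 (pCoreOf p X) ⊓ ⁅Q, Q⁆) inf_le_left (norm_inf h3.norm hn) fun hle =>
    hne ((le_trans (inf_le_inf_right _ ((OZ_inf hc h.syl).ge.trans inf_le_left)) hle).trans inf_le_right)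
  refine Z_not_le h hc hnt hJ hF hQ hQT ((inf_cent_OZ h hc hnt).symm ▸
    le_inf (inf_le_left.trans hQ.1.1) (cent_symm (h4.trans (sup_le ?_ ?_))))
  · exact inf_le_right.trans ((comm_le_of_le le_rfl le_rfl).trans (cent_symm inf_le_right))
  · exact inf_le_right.trans (centralizer_anti (inf_le_left.trans (hQ.1.1.trans h.syl.le)))

theorem norm_SM (hQ : MCLa S Q) : OZ 0 S ⊓ ⁅Q, Q⁆ ≤ 𝐂 X ∨ X ≤ 𝐍 (SM S) := by
  by_cases h1 : ∃ R, MCLa S R ∧ ¬ R ≤ pCoreOf p X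
  · obtain ⟨R, h1, h2⟩ := h1
    exact Or.inl (hQ.der_eq h1 ▸ der_cent h hc hnt hJ hF h1 h2)
  refine Or.inr (le_normalizer_iff_cj.2 fun g hg => cj_le_iff.2 (sSup_le fun R hR => cj_le_iff.1
    (le_sSup (MCLa.cj hR h.Q_le (by_contra fun e => h1 ⟨R, hR, e⟩) (norm_pCoreOf p X hg)))))

theorem norm_SP : X ≤ 𝐍 (SP p S) := by
  refine le_normalizer_iff_cj.2 fun g hg => cj_le_iff.2 (iSup_le fun ⟨Q, hQ⟩ => cj_le_iff.1 ?_)
  obtain ⟨R, h1, h2, h3⟩ : ∃ R, MX p S R ∧ R ≤ pCoreOf p X ∧ Phi Q = Phi R := by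
    by_cases hQT : Q ≤ pCoreOf p X
    · exact ⟨Q, hQ, hQT, rfl⟩
    obtain ⟨R, h1, h2, h3, h4⟩ := star' h hc hnt hJ hF hQ.1 hQT hQ.2
    exact ⟨R, ⟨h1, fun K hK => (hQ.2 K hK).trans h3⟩, h2, h4⟩
  have h4 : MX p S (cj g R) := ⟨h1.1.cj h.Q_le h2 (norm_pCoreOf p X hg), fun K hK => by
    rw [← cj_OZ, card_cj]; exact h1.2 K hK⟩
  rw [h3, cj, PGFrattini.map_map_frattini _ (h.syl.pg.to_le h1.1.1.1)]
  exact le_iSup (fun Q : {Q // MX p S Q} => Phi Q.1) ⟨_, h4⟩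

omit hJ hF in
theorem J_not_le (hB : S ≤ 𝐂 (centerThompsonAOf S)) : ¬ J 0 S ≤ pCoreOf p X := fun hJ =>
  h.nt (le_trans (le_inf le_rfl (by rwa [OZ_zero, ← Z, ← centerThompsonAOf_eq])) (case1 h hc hnt hJ).1)

omit h hc hnt hJ hF in
theorem of_pus (hE : IsPushingUpSituation p S) : ∃ (F : Type) (_ : Field F) (_ : Finite F) (_ : CharP F p)
    (M : Subgroup G), R1 p (Nat.card F) ⊤ S M ∧ AmbChar.CharP p (⊤ : Subgroup G) := by
  obtain ⟨-, ⟨P, rfl⟩, h1, h2, K, _, F, _, _, n, hF, h3⟩ := hE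
  haveI := charP_of_card (Nat.card_eq_fintype_card.trans hF)
  obtain ⟨M, hR⟩ := r1_of P h2 h3
  exact ⟨F, _, inferInstance, this, M, hR, AmbChar.charP_top_iff.2 h1⟩

end CA.H6CL
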