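import Cfsg.Agent.Lib.Grp.H7Lge
import Cfsg.Agent.Lib.Odd.BG4a
import Mathlib.RepresentationTheory.Basic
import Mathlib.LinearAlgebra.Determinant
import Mathlib.LinearAlgebra.Matrix.GeneralLinearGroup.Card

/-!
An element `b` of order three permuting a four-group, on an `F₃`-space where `b - 1` has rank at most two.
-/

set_option autoImplicit false
set_option linter.unusedSectionVars false
set_option linter.unusedVariables false

namespace CA.H6Fr

open Subgroup Cfsg CA.BG CA.BG4 Module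
open scoped commutatorElement

variable {S : Type*} [Group S] {E : Type*} [AddCommGroup E] [Module (ZMod 3) E]
  {ρ : Representation (ZMod 3) S E} {b q1 q2 q3 g : S} {e1 e2 e3 : E}

theorem three (v : E) : v + v + v = 0 := by
  have h : ((1 : ZMod 3) + 1 + 1) • v = 0 := by
    rw [show ((1 : ZMod 3) + 1 + 1) = 0 from rfl, zero_smul]
  simpa only [add_smul, one_smul] using h

theorem mul_ap (g h : S) (v : E) : ρ (g * h) v = ρ g (ρ h v) := by rw [map_mul]; rfl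

theorem one_ap (v : E) : ρ 1 v = v := by rw [map_one]; rfl

theorem inv_ap (g : S) (v : E) : ρ g⁻¹ (ρ g v) = v := by rw [← mul_ap, inv_mul_cancel, one_ap]

theorem ap_inv (g : S) (v : E) : ρ g (ρ g⁻¹ v) = v := by rw [← mul_ap, mul_inv_cancel, one_ap]

theorem ap_ne {v : E} (g : S) (h : v ≠ 0) : ρ g v ≠ 0 := fun e => h (by rw [← inv_ap (ρ := ρ) g v, e, map_zero])

theorem comm_ap {g h : S} (e : g * h = h * g) (v : E) : ρ g (ρ h v) = ρ h (ρ g v) := by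
  rw [← mul_ap, e, mul_ap]

theorem eq_one (hf : Function.Injective ρ) (h : ∀ v, ρ g v = v) : g = 1 :=
  hf (by rw [map_one]; exact LinearMap.ext h)

theorem eq_of (hf : Function.Injective ρ) {h : S} (e : ∀ v, ρ g v = ρ h v) : g = h :=
  hf (LinearMap.ext e)

theorem sgn (c : ZMod 3) (h : c ≠ 0) : c = 1 ∨ c = -1 := by revert c; decide

theorem neg_self {v : E} (h : -v = v) : v = 0 := by
  linear_combination (norm := module) h + three v

/-- `b` permutes the involutions of a four-group. -/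
structure Fo (b q1 q2 q3 : S) : Prop where
  sq : q1 * q1 = 1
  ne : q1 ≠ 1
  c1 : b * q1 * b⁻¹ = q2
  c2 : b * q2 * b⁻¹ = q3
  c3 : b * q3 * b⁻¹ = q1
  mul : q1 * q2 = q3

namespace Fo

variable (h : Fo b q1 q2 q3)
include h

theorem rot : Fo b q2 q3 q1 where
  sq := by rw [← h.c1, conj_mul, h.sq]; group
  ne := fun e => h.ne (by have := h.c1; rw [e] at this; simpa using this)
  c1 := h.c2
  c2 := h.c3
  c3 := h.c1
  mul := by
    have := h.c3
    rwa [← h.mul, ← conj_mul, h.c1, h.c2] at this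

theorem mul' : q2 * q1 = q3 := by
  have h3 := h.rot.rot.sq
  have h2 := h.rot.sq
  calc q2 * q1 = q2 * (q1 * (q3 * q3)) := by rw [h3, mul_one]
    _ = q2 * (q1 * q1) * q2 * q3 := by rw [← h.mul]; group
    _ = q3 := by rw [h.sq, mul_one, h2, one_mul]

theorem com : q1 * q2 = q2 * q1 := by rw [h.mul, h.mul']

theorem bq1 (v : E) : ρ q2 (ρ b v) = ρ b (ρ q1 v) := by
  rw [← h.c1, mul_ap, mul_ap, inv_ap]

theorem ne12 : q1 ≠ q2 := fun e => h.rot.rot.ne (by rw [← h.mul, ← e, h.sq])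

theorem comm_eq : ⁅b, q2⁆ = q1 := by
  rw [commutatorElement_def, h.c2, H7Lge.inv_eq h.rot.sq, h.rot.mul']

theorem dec (v : E) : ∃ x1 x2 x3 c : E, (ρ q1 x1 = x1 ∧ ρ q2 x1 = -x1) ∧ (ρ q2 x2 = x2 ∧ ρ q3 x2 = -x2) ∧
    (ρ q3 x3 = x3 ∧ ρ q1 x3 = -x3) ∧ (ρ q1 c = c ∧ ρ q2 c = c) ∧ v = x1 + x2 + x3 + c := by
  have s1 : ρ q1 (ρ q1 v) = v := by rw [← mul_ap, h.sq, one_ap]
  have s2 : ρ q2 (ρ q2 v) = v := by rw [← mul_ap, h.rot.sq, one_ap]
  have s3 : ρ q3 (ρ q3 v) = v := by rw [← mul_ap, h.rot.rot.sq, one_ap]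
  have m12 : ρ q1 (ρ q2 v) = ρ q3 v := by rw [← mul_ap, h.mul]
  have m21 : ρ q2 (ρ q1 v) = ρ q3 v := by rw [← mul_ap, h.mul']
  have m23 : ρ q2 (ρ q3 v) = ρ q1 v := by rw [← mul_ap, h.rot.mul]
  have m32 : ρ q3 (ρ q2 v) = ρ q1 v := by rw [← mul_ap, h.rot.mul']
  have m31 : ρ q3 (ρ q1 v) = ρ q2 v := by rw [← mul_ap, h.rot.rot.mul]
  have m13 : ρ q1 (ρ q3 v) = ρ q2 v := by rw [← mul_ap, h.rot.rot.mul']
  refine ⟨v + ρ q1 v - ρ q2 v - ρ q3 v, v - ρ q1 v + ρ q2 v - ρ q3 v, v - ρ q1 v - ρ q2 v + ρ q3 v,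
    v + ρ q1 v + ρ q2 v + ρ q3 v, ⟨?_, ?_⟩, ⟨?_, ?_⟩, ⟨?_, ?_⟩, ⟨?_, ?_⟩, ?_⟩
  iterate 8 simp only [map_add, map_sub, s1, s2, s3, m12, m21, m23, m32, m31, m13]; abel
  linear_combination (norm := module) - three v

theorem q3p {x : E} (a1 : ρ q1 x = x) (a2 : ρ q2 x = -x) : ρ q3 x = -x := by
  rw [← h.mul, mul_ap, a2, map_neg, a1]

theorem q3c {x : E} (a1 : ρ q1 x = x) (a2 : ρ q2 x = x) : ρ q3 x = x := by
  rw [← h.mul, mul_ap, a2, a1]

theorem proj {x1 x2 x3 c : E} (a1 : ρ q1 x1 = x1 ∧ ρ q2 x1 = -x1) (a2 : ρ q2 x2 = x2 ∧ ρ q3 x2 = -x2)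
    (a3 : ρ q3 x3 = x3 ∧ ρ q1 x3 = -x3) (a : ρ q1 c = c ∧ ρ q2 c = c) (e : x1 + x2 + x3 + c = 0) :
    x1 = 0 ∧ x2 = 0 ∧ x3 = 0 ∧ c = 0 := by
  have f1 := congrArg (ρ q1) e
  have f2 := congrArg (ρ q2) e
  have f3 := congrArg (ρ q3) e
  simp only [map_add, map_zero, a1.1, a1.2, a2.1, a2.2, a3.1, a3.2, a.1, a.2, h.q3p a1.1 a1.2,
    h.rot.q3p a2.1 a2.2, h.rot.rot.q3p a3.1 a3.2, h.q3c a.1 a.2] at f1 f2 f3
  refine ⟨?_, ?_, ?_, ?_⟩
  · linear_combination (norm := module) e + f1 - f2 - f3 - three x1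
  · linear_combination (norm := module) e - f1 + f2 - f3 - three x2
  · linear_combination (norm := module) e - f1 - f2 + f3 - three x3
  · linear_combination (norm := module) e + f1 + f2 + f3 - three c

end Fo

/-- A frame: `e1, e2, e3` span the three nontrivial eigenspaces of the four-group. -/
structure Fr (ρ : Representation (ZMod 3) S E) (b q1 q2 q3 : S) (e1 e2 e3 : E) : Prop
    extends Fo b q1 q2 q3 where
  rk : finrank (ZMod 3) (LinearMap.range (ρ b - 1)) ≤ 2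
  e0 : e1 ≠ 0
  a1 : ρ q1 e1 = e1
  a2 : ρ q2 e1 = -e1
  b1 : ρ b e1 = e2
  b2 : ρ b e2 = e3
  b3 : ρ b e3 = e1

theorem Fo.exFr (h : Fo b q1 q2 q3) (hf : Function.Injective ρ) (hb : b * b * b = 1)
    (rk : finrank (ZMod 3) (LinearMap.range (ρ b - 1)) ≤ 2) : ∃ e1 e2 e3, Fr ρ b q1 q2 q3 e1 e2 e3 := by
  have key : ∃ x : E, x ≠ 0 ∧ ρ q1 x = x ∧ ρ q2 x = -x := by
    by_contra hn
    push Not at hn
    refine h.ne (eq_one hf fun v => ?_)
    obtain ⟨x1, x2, x3, c, a1, a2, a3, a, rfl⟩ := h.dec (ρ := ρ) v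
    have z1 : x1 = 0 := by by_contra h0; exact hn _ h0 a1.1 a1.2
    have z3 : ∀ x, ρ q3 x = x ∧ ρ q1 x = -x → x = 0 := fun x a3 => by
      by_contra h0
      refine hn _ (ap_ne b h0) (by rw [h.rot.rot.bq1, a3.1]) (by rw [h.bq1, a3.2, map_neg])
    have z2 : x2 = 0 := by
      by_contra h0
      exact ap_ne b h0 (z3 _ ⟨by rw [h.rot.bq1, a2.1], by rw [h.rot.rot.bq1, a2.2, map_neg]⟩)
    rw [z1, z2, z3 _ a3]; simpa using a.1
  obtain ⟨x, h0, a1, a2⟩ := key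
  exact ⟨x, ρ b x, ρ b (ρ b x), h, rk, h0, a1, a2, rfl, rfl, by rw [← mul_ap, ← mul_ap, hb, one_ap]⟩

namespace Fr

variable [Finite E] (h : Fr ρ b q1 q2 q3 e1 e2 e3)
include h

theorem rot : Fr ρ b q2 q3 q1 e2 e3 e1 :=
  ⟨h.toFo.rot, h.rk, h.b1 ▸ ap_ne b h.e0, by rw [← h.b1, h.toFo.bq1, h.a1],
    by rw [← h.b1, h.toFo.rot.bq1, h.a2, map_neg], h.b2, h.b3, h.b1⟩

theorem a3 : ρ q3 e1 = -e1 := h.toFo.q3p h.a1 h.a2

theorem sm (c : ZMod 3) : ρ q1 (c • e1) = c • e1 ∧ ρ q2 (c • e1) = -(c • e1) := by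
  simp [h.a1, h.a2]

theorem ind {c1 c2 c3 : ZMod 3} {c : E} (a : ρ q1 c = c ∧ ρ q2 c = c)
    (e : c1 • e1 + c2 • e2 + c3 • e3 + c = 0) : c1 = 0 ∧ c2 = 0 ∧ c3 = 0 ∧ c = 0 := by
  obtain ⟨z1, z2, z3, z⟩ := h.toFo.proj (h.sm c1) (h.rot.sm c2) (h.rot.rot.sm c3) a e
  exact ⟨(smul_eq_zero.1 z1).resolve_right h.e0, (smul_eq_zero.1 z2).resolve_right h.rot.e0,
    (smul_eq_zero.1 z3).resolve_right h.rot.rot.e0, z⟩

theorem rng (w : E) : ∃ α β : ZMod 3, ρ b w - w = α • (e2 - e1) + β • (e3 - e2) := by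
  have li : LinearIndependent (ZMod 3) ![e2 - e1, e3 - e2] := LinearIndependent.pair_iff.2 fun s t e => by
    obtain ⟨z1, -, z3, -⟩ := h.ind (c1 := -s) (c2 := s - t) (c3 := t) (c := 0) (by simp)
      (by linear_combination (norm := module) e)
    exact ⟨neg_eq_zero.1 z1, z3⟩
  have le : Submodule.span (ZMod 3) (Set.range ![e2 - e1, e3 - e2]) ≤ LinearMap.range (ρ b - 1) := by
    rw [Submodule.span_le]
    rintro _ ⟨i, rfl⟩
    fin_cases i
    · exact ⟨e1, by simp [h.b1]⟩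
    · exact ⟨e2, by simp [h.b2]⟩
  have eq := Submodule.eq_of_le_of_finrank_le le (by rw [finrank_span_eq_card li]; simpa using h.rk)
  have m : ρ b w - w ∈ Submodule.span (ZMod 3) (Set.range ![e2 - e1, e3 - e2]) := eq ▸ ⟨w, by simp⟩
  obtain ⟨c, hc⟩ := (Submodule.mem_span_range_iff_exists_fun _).1 m
  exact ⟨c 0, c 1, by rw [← hc]; simp [Fin.sum_univ_two]⟩

theorem line {w : E} (a : ρ q1 w = w ∧ ρ q2 w = -w) : ∃ c : ZMod 3, w = c • e1 := by
  obtain ⟨α, β, e⟩ := h.rng w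
  have := (h.toFo.proj (x1 := α • e1 - w) (x2 := ρ b w - (α - β) • e2) (x3 := (-β) • e3) (c := 0)
    (by simp [h.a1, h.a2, a.1, a.2]; abel)
    (by simp [h.rot.a1, h.rot.a2, h.toFo.bq1, h.toFo.rot.bq1, a.1, a.2]; abel)
    (h.rot.rot.sm _) (by simp) (by linear_combination (norm := module) e)).1
  exact ⟨α, (sub_eq_zero.1 this).symm⟩

theorem bc {c : E} (a : ρ q1 c = c ∧ ρ q2 c = c) : ρ b c = c := by
  obtain ⟨α, β, e⟩ := h.rng c
  have := (h.ind (c1 := α) (c2 := β - α) (c3 := -β) (c := ρ b c - c)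
    (by simp [h.toFo.bq1, h.toFo.rot.rot.bq1, a.1, a.2, h.toFo.q3c a.1 a.2])
    (by linear_combination (norm := module) e)).2.2.2
  exact sub_eq_zero.1 this

theorem dec (v : E) : ∃ (c1 c2 c3 : ZMod 3) (c : E), (ρ q1 c = c ∧ ρ q2 c = c) ∧
    v = c1 • e1 + c2 • e2 + c3 • e3 + c := by
  obtain ⟨x1, x2, x3, c, a1, a2, a3, a, rfl⟩ := h.toFo.dec (ρ := ρ) v
  obtain ⟨c1, rfl⟩ := h.line a1
  obtain ⟨c2, rfl⟩ := h.rot.line a2
  obtain ⟨c3, rfl⟩ := h.rot.rot.line a3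
  exact ⟨c1, c2, c3, c, a, rfl⟩

theorem sign (h1 : g * q1 = q1 * g) (h2 : g * q2 = q2 * g) :
    ∃ s : ZMod 3, (s = 1 ∨ s = -1) ∧ ρ g e1 = s • e1 := by
  obtain ⟨s, e⟩ := h.line (w := ρ g e1) ⟨by rw [← comm_ap h1, h.a1], by rw [← comm_ap h2, h.a2, map_neg]⟩
  exact ⟨s, sgn s fun z => ap_ne g h.e0 (by rw [e, z, zero_smul]), e⟩

theorem cm3 (h1 : g * q1 = q1 * g) (h2 : g * q2 = q2 * g) : g * q3 = q3 * g := by
  rw [← h.mul, ← mul_assoc, h1, mul_assoc, h2, mul_assoc]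

theorem sq1 (h1 : g * q1 = q1 * g) (h2 : g * q2 = q2 * g) : ρ (g * g) e1 = e1 := by
  obtain ⟨s, hs, e⟩ := h.sign h1 h2
  rw [mul_ap, e, map_smul, e, smul_smul]
  rcases hs with rfl | rfl <;> simp

theorem cent4 (hf : Function.Injective ρ) (h1 : g * q1 = q1 * g) (h2 : g * q2 = q2 * g) :
    g * g * b = b * (g * g) := eq_of hf fun v => by
  obtain ⟨c1, c2, c3, c, a, rfl⟩ := h.dec v
  have h3 := h.cm3 h1 h2
  have k : ρ q1 (ρ (g * g) c) = ρ (g * g) c ∧ ρ q2 (ρ (g * g) c) = ρ (g * g) c := by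
    constructor
    · rw [mul_ap, ← comm_ap h1, ← comm_ap h1, a.1]
    · rw [mul_ap, ← comm_ap h2, ← comm_ap h2, a.2]
  rw [mul_ap (g * g), mul_ap b]
  simp only [map_add, map_smul, h.b1, h.b2, h.b3, h.bc a, h.bc k, h.sq1 h1 h2, h.rot.sq1 h2 h3,
    h.rot.rot.sq1 h3 h1]

end Fr

/-- The elements acting trivially on `W`. -/
def Fx (ρ : Representation (ZMod 3) S E) (W : Submodule (ZMod 3) E) : Subgroup S where
  carrier := {g | ∀ v ∈ W, ρ g v = v}
  mul_mem' := fun {a c} ha hc v hv => by rw [mul_ap, hc v hv, ha v hv]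
  one_mem' := fun v _ => one_ap v
  inv_mem' := fun {a} ha v hv => by rw [← ha v hv, inv_ap, ha v hv]

/-- The elements acting trivially on `E / W`. -/
def St (ρ : Representation (ZMod 3) S E) (W : Submodule (ZMod 3) E) : Subgroup S where
  carrier := {g | ∀ v, ρ g v - v ∈ W}
  mul_mem' := fun {a c} ha hc v => by
    have := W.add_mem (ha (ρ c v)) (hc v)
    rwa [sub_add_sub_cancel, ← mul_ap] at this
  one_mem' := fun v => by rw [one_ap, sub_self]; exact W.zero_mem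
  inv_mem' := fun {a} ha v => by
    have := W.neg_mem (ha (ρ a⁻¹ v))
    rwa [ap_inv, neg_sub] at this

theorem St.inv {W : Submodule (ZMod 3) E} (hg : g ∈ St ρ W) : W ≤ W.comap (ρ g) := fun v hv => by
  have := W.add_mem (hg v) hv
  rwa [sub_add_cancel] at this

theorem triv {K B : Subgroup S} {W : Submodule (ZMod 3) E} (hK : ∀ k ∈ K, ∀ v ∈ W, ρ k v ∈ W)
    (hB : B ≤ Fx ρ W) : ⁅K, B⁆ ≤ Fx ρ W := commutator_le.2 fun k hk c hc v hv => by
  rw [commutatorElement_def, mul_ap, mul_ap, mul_ap, hB (inv_mem hc) v hv,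
    hB hc _ (hK _ (inv_mem hk) v hv), ap_inv]

theorem det_comm [Finite E] {K B : Subgroup S} (hg : g ∈ ⁅K, B⁆) : LinearMap.det (ρ g) = 1 := by
  have : ⁅K, B⁆ ≤ ((LinearMap.det.comp ρ).toHomUnits).ker := commutator_le.2 fun k _ c _ => by
    rw [MonoidHom.mem_ker, map_commutatorElement, commutatorElement_eq_one_iff_mul_comm, mul_comm]
  have h := congrArg Units.val (MonoidHom.mem_ker.1 (this hg))
  simpa using h

theorem det_eq [Finite E] {n : ℕ} {e : Fin n → E} (li : LinearIndependent (ZMod 3) e)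
    (hg : g ∈ St ρ (Submodule.span (ZMod 3) (Set.range e))) (M : Matrix (Fin n) (Fin n) (ZMod 3))
    (hM : ∀ j, ρ g (e j) = ∑ i, M i j • e i) : LinearMap.det (ρ g) = M.det := by
  rw [LinearMap.det_eq_det_mul_det _ _ (St.inv hg)]
  have h1 : (Submodule.span (ZMod 3) (Set.range e)).mapQ _ (ρ g) (St.inv hg) = LinearMap.id := by
    refine Submodule.linearMap_qext _ (LinearMap.ext fun v => ?_)
    exact (Submodule.Quotient.eq _).2 (hg v)
  rw [h1, LinearMap.det_id, mul_one, ← LinearMap.det_toMatrix (Basis.span li)]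
  congr 1
  ext i j
  have h2 : (ρ g).restrict (St.inv hg) (Basis.span li j) = ∑ i, M i j • Basis.span li i := by
    apply Subtype.ext
    simp [hM]
  rw [LinearMap.toMatrix_apply, h2]
  exact congrFun ((Basis.span li).repr_sum_self fun i => M i j) i

theorem card_St [Finite S] [Finite E] (hf : Function.Injective ρ) {W : Submodule (ZMod 3) E} {T : Subgroup S}
    (hT : T ≤ St ρ W) (h3 : IsPi {3}ᶜ T) :
    ♯T ∣ ∏ i : Fin (finrank (ZMod 3) W), (3 ^ finrank (ZMod 3) W - 3 ^ (i : ℕ)) := by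
  let σ := Representation.subrepresentation (ρ.comp T.subtype) W fun t => St.inv (hT t.2)
  have hi : Function.Injective σ.toHomUnits := by
    rw [injective_iff_map_eq_one]
    intro t ht
    have h1 : ∀ w ∈ W, ρ t w = w := fun w hw =>
      congrArg Subtype.val (LinearMap.congr_fun (congrArg Units.val ht) ⟨w, hw⟩)
    have h2 : (t : S) ^ 3 = 1 := eq_one hf fun v => by
      have a := h1 _ (hT t.2 v)
      rw [map_sub] at a
      have a' := congrArg (ρ t) a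
      simp only [map_sub] at a'
      rw [pow_three, mul_ap, mul_ap]
      linear_combination (norm := module) a' + a + a + three (ρ t v - v)
    have h4 := (piNat_compl_iff_coprime Nat.prime_three).1 (h3.orderOf t.2)
    exact Subtype.ext (orderOf_eq_one_iff.1 (Nat.Coprime.eq_one_of_dvd h4 (orderOf_dvd_of_pow_eq_one h2)))
  have h5 := card_dvd_of_injective _ hi
  haveI : Fact (Nat.Prime 3) := ⟨Nat.prime_three⟩
  rw [← Nat.card_congr (Matrix.GeneralLinearGroup.toLin' (finBasis (ZMod 3) W)).toEquiv,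
    Matrix.card_GL_field, ZMod.card] at h5
  exact h5

end CA.H6Fr
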