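import Cfsg.Agent.Lib.Loc.H6Fr
import Cfsg.Agent.Lib.Odd.BG2
import Cfsg.Agent.Lib.Grp.Fitting

/-!
An element `b` of order three permuting a four-group, rank of `b - 1` at most two: `[O_{3'}, b]` is a `2`-group.
-/

set_option autoImplicit false
set_option linter.unusedSectionVars false
set_option linter.unusedVariables false
set_option linter.style.haveILetI false

namespace CA.H6Fr

open Subgroup Cfsg CA.BG CA.BG4 Module
open scoped commutatorElement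

variable {S : Type*} [Group S] [Finite S] {E : Type*} [AddCommGroup E] [Module (ZMod 3) E] [Finite E]
  {ρ : Representation (ZMod 3) S E} {b q1 q2 q3 g : S} {e1 e2 e3 : E}

theorem cube (hb : orderOf b = 3) : b * b * b = 1 := by
  rw [← pow_three', ← hb, pow_orderOf_eq_one]

theorem piB (hb : orderOf b = 3) : IsPi {3} (zpowers b) :=
  isPi_of_card_eq Nat.prime_three (by rw [Nat.card_zpowers, hb])

theorem exFo {V : Subgroup S} (hb : orderOf b = 3) (hV : IsMulCommutative V) (h2 : IsPi {2} V)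
    (hn : zpowers b ≤ 𝓝(V)) (hc : ¬ zpowers b ≤ 𝓒(V)) :
    ∃ q1 q2 q3, Fo b q1 q2 q3 ∧ q1 ∈ V ∧ q2 ∈ V ∧ q3 ∈ V := by
  have ti := coprime_abel_cent_TI hn (h2.coprime_ne (piB hb) (by norm_num)) hV
  have hU : ⁅V, zpowers b⁆ ≠ ⊥ := fun e => hc (cent_symm (comm_eq_bot_iff.1 e))
  have hle := comm_le_left hn
  obtain ⟨a, ha, ho⟩ := exists_orderOf_eq Nat.prime_two ((h2.of_le hle).dvd_card hU)
  have hnU := le_norm_comm_right V (zpowers b)
  have a2 := conj_mem_of_norm hnU (mem_zpowers b) ha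
  have a3 := conj_mem_of_norm hnU (mem_zpowers b) a2
  have sq : a * a = 1 := by rw [← pow_two, ← ho, pow_orderOf_eq_one]
  have c3 : b * (b * (b * a * b⁻¹) * b⁻¹) * b⁻¹ = a := by
    calc _ = (b * b * b) * a * (b * b * b)⁻¹ := by group
      _ = a := by simp [cube hb]
  have s3 : (b * (b * a * b⁻¹) * b⁻¹) * (b * (b * a * b⁻¹) * b⁻¹) = 1 := by
    rw [conj_mul, conj_mul, sq]; group
  have cm : ∀ x ∈ ⁅V, zpowers b⁆, ∀ y ∈ ⁅V, zpowers b⁆, x * y = y * x := fun x hx y hy =>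
    mem_cent.1 (comm_iff_le_cent.1 hV (hle hy)) x (hle hx)
  refine ⟨a, _, _, ⟨sq, fun e => by simp [e] at ho, rfl, rfl, c3, ?_⟩, hle ha, hle a2, hle a3⟩
  generalize e2 : b * a * b⁻¹ = x at *
  generalize e3 : b * x * b⁻¹ = y at *
  have hm : a * x * y ∈ ⁅V, zpowers b⁆ ⊓ 𝓒(zpowers b) := by
    refine mem_inf.2 ⟨mul_mem (mul_mem ha a2) a3, ?_⟩
    rw [cent_zpowers, mem_cent1, eq_comm, ← mul_inv_eq_iff_eq_mul, ← conj_mul, ← conj_mul,
      e2, e3, c3, cm _ (mul_mem a2 a3) _ ha, mul_assoc]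
  rw [ti, mem_bot] at hm
  rw [← H7Lge.inv_eq s3]
  exact eq_inv_of_mul_eq_one_left hm

theorem rk_le (hb : b * b * b = 1) {E₀ E₁ : Submodule (ZMod 3) E} (h : E₀ ⊔ E₁ = ⊤) (h1 : ∀ v ∈ E₁, ρ b v = v)
    (h0 : ∀ v ∈ E₀, ρ b v ∈ E₀) (hc : Nat.card E₀ = 27) :
    finrank (ZMod 3) (LinearMap.range (ρ b - 1)) ≤ 2 := by
  haveI : Fact (Nat.Prime 3) := ⟨Nat.prime_three⟩
  have h3 : finrank (ZMod 3) E₀ = 3 := by
    rw [Module.natCard_eq_pow_finrank (K := ZMod 3), Nat.card_zmod] at hc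
    exact Nat.pow_right_injective (a := 3) (by norm_num) hc
  have k : ∀ v, ∃ w ∈ E₀, ρ b v - v = ρ b w - w := fun v => by
    obtain ⟨x, hx, y, hy, rfl⟩ := Submodule.mem_sup.1 (h ▸ Submodule.mem_top : v ∈ E₀ ⊔ E₁)
    exact ⟨x, hx, by rw [map_add, h1 y hy]; abel⟩
  have le : LinearMap.range (ρ b - 1) ≤ E₀ := by
    rintro _ ⟨v, rfl⟩
    obtain ⟨w, hw, e⟩ := k v
    have : (ρ b - 1) v = ρ b w - w := e
    exact this ▸ E₀.sub_mem (h0 w hw) hw
  have ne : LinearMap.range (ρ b - 1) ≠ E₀ := fun e => by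
    have k2 : ∀ v ∈ E₀, ∃ w ∈ E₀, v = ρ b w - w := fun v hv => by
      obtain ⟨u, rfl⟩ : v ∈ LinearMap.range (ρ b - 1) := e ▸ hv
      exact k u
    have : E₀ = ⊥ := by
      refine eq_bot_iff.2 fun v hv => ?_
      obtain ⟨x, hx, rfl⟩ := k2 v hv
      obtain ⟨y, hy, rfl⟩ := k2 x hx
      obtain ⟨z, hz, rfl⟩ := k2 y hy
      have h4 : ρ b (ρ b (ρ b z)) = z := by rw [← mul_ap, ← mul_ap, hb, one_ap]
      simp only [map_sub, h4, Submodule.mem_bot]
      linear_combination (norm := module) three (ρ b z - ρ b (ρ b z))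
    rw [this] at h3
    simp at h3
  have := Submodule.finrank_lt_finrank_of_lt (lt_of_le_of_ne le ne)
  omega

theorem Fo.memH [Group.IsSolvable S] (h : Fo b q1 q2 q3) (P : Sylow 3 S) (hP : b ∈ 𝓒((P : Subgroup S))) :
    q1 ∈ pPrimeCore 3 S := by
  haveI : Fact (Nat.Prime 3) := ⟨Nat.prime_three⟩
  let π := QuotientGroup.mk' (pPrimeCore 3 S)
  have h1 := (CA.Core.isPGroup_pCore (p := 3) (G := S ⧸ pPrimeCore 3 S)).le_sylow_of_normal
    (P.mapSurjective (QuotientGroup.mk'_surjective (pPrimeCore 3 S)))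
  have h2 : π b ∈ pCore 3 (S ⧸ pPrimeCore 3 S) := by
    refine CA.Fitting.centralizer_pCore_le 3 CA.Core.pPrimeCore_quotient_pPrimeCore (mem_cent.2 fun k hk => ?_)
    obtain ⟨x, hx, rfl⟩ := h1 hk
    rw [← map_mul, mem_cent.1 hP x hx, map_mul]
  have h3 : π q1 ∈ pCore 3 (S ⧸ pPrimeCore 3 S) := by
    rw [← h.comm_eq, map_commutatorElement, commutatorElement_def, mul_assoc, mul_assoc, ← mul_assoc (π q2)]
    exact mul_mem h2 (Normal.conj_mem inferInstance _ (inv_mem h2) _)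
  have h4 := (isPi_of_isPGroup Nat.prime_three CA.Core.isPGroup_pCore).orderOf h3
  have h5 : orderOf (π q1) ∣ 2 := orderOf_dvd_of_pow_eq_one (by rw [pow_two, ← map_mul, h.sq, map_one])
  rw [← QuotientGroup.eq_one_iff]
  rcases (Nat.dvd_prime Nat.prime_two).1 h5 with e | e
  · exact orderOf_eq_one_iff.1 e
  · exact absurd (h4 2 Nat.prime_two (e ▸ dvd_rfl)) (by norm_num)

theorem Fr.conj_St (h : Fr ρ b q1 q2 q3 e1 e2 e3) (x : S) {W : Submodule (ZMod 3) E}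
    (h1 : ρ x (e2 - e1) ∈ W) (h2 : ρ x (e3 - e2) ∈ W) : x * b * x⁻¹ ∈ St ρ W := fun v => by
  obtain ⟨α, β, e⟩ := h.rng (ρ x⁻¹ v)
  have := congrArg (ρ x) e
  rw [map_sub, ap_inv, map_add, map_smul, map_smul, ← mul_ap, ← mul_ap] at this
  exact this ▸ W.add_mem (W.smul_mem _ h1) (W.smul_mem _ h2)

theorem Fr.b_St (h : Fr ρ b q1 q2 q3 e1 e2 e3) {W : Submodule (ZMod 3) E}
    (h1 : e2 - e1 ∈ W) (h2 : e3 - e2 ∈ W) : b ∈ St ρ W := by
  simpa using h.conj_St 1 (W := W) (by rwa [one_ap]) (by rwa [one_ap])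

theorem gl4 (hf : Function.Injective ρ) (e : Fin 4 → E) {T : Subgroup S}
    (hT : T ≤ St ρ (Submodule.span (ZMod 3) (Set.range e))) (h3 : IsPi {3}ᶜ T) : ♯T ∣ 2 ^ 9 * 3 ^ 6 * 5 * 13 := by
  have h1 := card_St hf hT h3
  have h2 : finrank (ZMod 3) (Submodule.span (ZMod 3) (Set.range e)) ≤ 4 := finrank_range_le_card e
  generalize finrank (ZMod 3) (Submodule.span (ZMod 3) (Set.range e)) = n at h1 h2
  refine h1.trans ?_
  interval_cases n <;> decide +kernel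

theorem gl5 (hf : Function.Injective ρ) (e : Fin 5 → E) {T : Subgroup S}
    (hT : T ≤ St ρ (Submodule.span (ZMod 3) (Set.range e))) (h3 : IsPi {3}ᶜ T) :
    ♯T ∣ 2 ^ 10 * 3 ^ 10 * 5 * 11 ^ 2 * 13 := by
  have h1 := card_St hf hT h3
  have h2 : finrank (ZMod 3) (Submodule.span (ZMod 3) (Set.range e)) ≤ 5 := finrank_range_le_card e
  generalize finrank (ZMod 3) (Submodule.span (ZMod 3) (Set.range e)) = n at h1 h2
  refine h1.trans ?_
  interval_cases n <;> decide +kernel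

theorem num1 {p : ℕ} (hp : p.Prime) (h : p ∣ 2 ^ 10 * 3 ^ 10 * 5 * 11 ^ 2 * 13) :
    p = 2 ∨ p = 3 ∨ p = 5 ∨ p = 11 ∨ p = 13 := by
  simp only [hp.dvd_mul] at h
  rcases h with (((h | h) | h) | h) | h
  · exact .inl ((Nat.prime_dvd_prime_iff_eq hp (by norm_num)).1 (hp.dvd_of_dvd_pow h))
  · exact .inr (.inl ((Nat.prime_dvd_prime_iff_eq hp (by norm_num)).1 (hp.dvd_of_dvd_pow h)))
  · exact .inr (.inr (.inl ((Nat.prime_dvd_prime_iff_eq hp (by norm_num)).1 h)))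
  · exact .inr (.inr (.inr (.inl ((Nat.prime_dvd_prime_iff_eq hp (by norm_num)).1 (hp.dvd_of_dvd_pow h)))))
  · exact .inr (.inr (.inr (.inr ((Nat.prime_dvd_prime_iff_eq hp (by norm_num)).1 h))))

theorem num2 {p j n k : ℕ} (h : p ^ j ∣ n) (hk : ¬ p ^ (k + 1) ∣ n) : j ≤ k := by
  by_contra hn
  exact hk ((pow_dvd_pow p (by omega)).trans h)

theorem num3 {p i j : ℕ} (hp : p.Prime) (h3 : p ≠ 3 ∨ j = 0) (h : p ^ j ∣ 2 ^ 10 * 3 ^ 10 * 5 * 11 ^ 2 * 13)
    (hi : i ≤ j) (hm : p ^ j ≡ p ^ i [MOD 13]) : i = j := by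
  rcases Nat.eq_zero_or_pos j with rfl | h0
  · omega
  rcases num1 hp ((dvd_pow_self p h0.ne').trans h) with rfl | rfl | rfl | rfl | rfl
  · have := num2 (k := 10) h (by norm_num)
    interval_cases j <;> interval_cases i <;> first | rfl | exact absurd hm (by decide)
  · omega
  · have := num2 (k := 1) h (by norm_num)
    interval_cases j <;> interval_cases i <;> first | rfl | exact absurd hm (by decide)
  · have := num2 (k := 2) h (by norm_num)
    interval_cases j <;> interval_cases i <;> first | rfl | exact absurd hm (by decide)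
  · have := num2 (k := 1) h (by norm_num)
    interval_cases j <;> interval_cases i <;> first | rfl | exact absurd hm (by decide)

theorem Fr.cent13 [Group.IsSolvable S] (h : Fr ρ b q1 q2 q3 e1 e2 e3) (hf : Function.Injective ρ)
    {H : Subgroup S} [H.Normal] (h3 : IsPi {3}ᶜ H) (x : S) {T : Subgroup S} (hT : ♯T = 13) (hH : T ≤ H)
    (hx : T ≤ zpowers b ⊔ zpowers (x * b * x⁻¹)) : T ≤ 𝓒₁(b) := by
  have p13 : Nat.Prime 13 := by norm_num
  obtain ⟨G, hG⟩ : ∃ G, G = (zpowers b ⊔ zpowers (x * b * x⁻¹)) ⊔ zpowers (q1 * b * q1⁻¹) := ⟨_, rfl⟩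
  have hb : b ∈ G := hG ▸ mem_sup_left (mem_sup_left (mem_zpowers b))
  have m3 : q3 ∈ G := by
    have : q1 * b * q1⁻¹ * b⁻¹ ∈ G := mul_mem (hG ▸ mem_sup_right (mem_zpowers _)) (inv_mem hb)
    rwa [H7Lge.inv_eq h.sq, mul_assoc, mul_assoc, ← mul_assoc b, h.c1, h.mul] at this
  have m1 : q1 ∈ G := h.c3 ▸ mul_mem (mul_mem hb m3) (inv_mem hb)
  have m2 : q2 ∈ G := h.c1 ▸ mul_mem (mul_mem hb m1) (inv_mem hb)
  have hM : ♯(H ⊓ G) ∣ 2 ^ 10 * 3 ^ 10 * 5 * 11 ^ 2 * 13 := by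
    refine gl5 hf ![e1, e2, e3, ρ x (e2 - e1), ρ x (e3 - e2)] (inf_le_right.trans ?_) (h3.inf_left _)
    have m : ∀ i, ![e1, e2, e3, ρ x (e2 - e1), ρ x (e3 - e2)] i ∈ Submodule.span (ZMod 3)
      (Set.range ![e1, e2, e3, ρ x (e2 - e1), ρ x (e3 - e2)]) := fun i => Submodule.subset_span ⟨i, rfl⟩
    rw [hG]
    refine sup_le (sup_le (zpowers_le.2 ?_) (zpowers_le.2 (h.conj_St x (m 3) (m 4)))) (zpowers_le.2 ?_)
    · exact h.b_St (sub_mem (m 1) (m 0)) (sub_mem (m 2) (m 1))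
    · refine h.conj_St q1 ?_ ?_
      · rw [map_sub (ρ q1), h.a1, h.rot.a3]; exact sub_mem (neg_mem (m 1)) (m 0)
      · rw [map_sub (ρ q1), h.rot.a3, h.rot.rot.a2]; exact sub_mem (neg_mem (m 2)) (neg_mem (m 1))
  have hTM : T ≤ H ⊓ G := le_inf hH (hG ▸ hx.trans le_sup_left)
  have piT := isPi_of_card_eq p13 hT
  have hF : 𝓕(H ⊓ G) ≤ 𝓒(T) := fit_le_of_core fun p hp _ => by
    obtain ⟨j, hj⟩ := (core_pi {p} (H ⊓ G)).exists_card hp
    obtain ⟨i, hi⟩ := ((core_pi {p} (H ⊓ G)).inf_left 𝓒(T)).exists_card hp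
    have m := card_modEq_cent p13 piT (hTM.trans (le_norm_core {p} _))
    have d := card_dvd (inf_le_left : 𝓞({p}, H ⊓ G) ⊓ 𝓒(T) ≤ _)
    have d2 := card_dvd (core_le {p} (H ⊓ G))
    rw [hi, hj] at m d
    have e := num3 hp (by
      by_contra hn
      push Not at hn
      exact h3.inf_left G 3 Nat.prime_three ((hn.1 ▸ hj ▸ dvd_pow_self p hn.2 : 3 ∣ _).trans d2) rfl)
      (hj ▸ d2.trans hM) ((Nat.pow_dvd_pow_iff_le_right hp.one_lt).1 d) m
    exact inf_eq_left.1 (eq_of_le_of_card_eq inf_le_left (by rw [hi, hj, e]))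
  have h4 := piT.le_core_of_le_fit ((le_inf hTM (cent_symm hF)).trans (cent_fit_le inferInstance))
  have h5 : T = 𝓞({13}, H ⊓ G) := eq_of_le_of_card_le h4 (by
    obtain ⟨j, hj⟩ := (core_pi {13} (H ⊓ G)).exists_card p13
    have := num2 (k := 1) (hj ▸ (card_dvd (core_le {13} (H ⊓ G))).trans hM) (by norm_num)
    rw [hj, hT]
    interval_cases j <;> norm_num)
  have h6 : G ≤ 𝓝(T) := h5 ▸ norm_core _ (norm_inf le_normalizer_of_normal le_normalizer)
  have h7 := der_cent_cyclic (isCyclic_of_prime (hT ▸ p13)) h6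
  intro t ht
  have c1 := mem_cent.1 (h7 (h.comm_eq ▸ commutator_mem_commutator hb m2)) t ht
  have c2 := mem_cent.1 (h7 (h.toFo.rot.comm_eq ▸ commutator_mem_commutator hb m3)) t ht
  have h8 : t ^ 13 = 1 := orderOf_dvd_iff_pow_eq_one.1 (hT ▸ orderOf_dvd_card_of_mem ht)
  have h9 : (t * t) ^ 7 = t := by rw [← pow_two, ← pow_mul, pow_succ, h8, one_mul]
  exact h9 ▸ pow_mem (mem_cent1.2 (h.cent4 hf c1 c2)) 7

theorem Fr.centT [Group.IsSolvable S] (h : Fr ρ b q1 q2 q3 e1 e2 e3) (hf : Function.Injective ρ)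
    (hb : orderOf b = 3) {H : Subgroup S} [H.Normal] (h3 : IsPi {3}ᶜ H) {T : Subgroup S} {r : ℕ} (hr : r.Prime)
    (h2 : r ≠ 2) (hT : IsPi {r} T) (hH : T ≤ H) (hn : zpowers b ≤ 𝓝(T)) : T ≤ 𝓒(zpowers b) := by
  intro x hx
  obtain ⟨U, hU⟩ : ∃ U, U = T ⊓ (zpowers b ⊔ zpowers (x * b * x⁻¹)) := ⟨_, rfl⟩
  have hUT : U ≤ T := hU ▸ inf_le_left
  have key : U ≤ 𝓒(zpowers b) := by
    by_contra hc
    have hd : ♯U ∣ 2 ^ 9 * 3 ^ 6 * 5 * 13 := by
      refine gl4 hf ![e2 - e1, e3 - e2, ρ x (e2 - e1), ρ x (e3 - e2)] ?_ (h3.of_le (hUT.trans hH))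
      have m : ∀ i, ![e2 - e1, e3 - e2, ρ x (e2 - e1), ρ x (e3 - e2)] i ∈ Submodule.span (ZMod 3)
        (Set.range ![e2 - e1, e3 - e2, ρ x (e2 - e1), ρ x (e3 - e2)]) := fun i => Submodule.subset_span ⟨i, rfl⟩
      rw [hU]
      refine inf_le_right.trans (sup_le (zpowers_le.2 ?_) (zpowers_le.2 (h.conj_St x (m 2) (m 3))))
      exact h.b_St (m 0) (m 1)
    have h0 : U ≠ ⊥ := fun e => hc (e ▸ bot_le)
    have d := (hT.of_le hUT).dvd_card h0
    obtain ⟨k, hk⟩ := (hT.of_le hUT).exists_card hr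
    have k0 : k ≠ 0 := fun e => h0 (card_eq_one.1 (by rw [hk, e, pow_zero]))
    have m := card_modEq_cent Nat.prime_three (piB hb) (hU ▸ norm_inf hn (le_norm_of_le le_sup_left) :
      zpowers b ≤ 𝓝(U))
    rcases num1 hr ((d.trans hd).trans (by norm_num)) with rfl | rfl | rfl | rfl | rfl
    · exact h2 rfl
    · exact h3.of_le (hUT.trans hH) 3 hr d rfl
    · have := num2 (k := 1) (hk ▸ hd) (by norm_num)
      obtain rfl : k = 1 := by omega
      rw [inf_eq_bot_of_prime_not_le (by rw [hk]; norm_num) hc, hk, card_bot] at m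
      exact absurd m (by decide)
    · exact absurd (d.trans hd) (by norm_num)
    · have := num2 (k := 1) (hk ▸ hd) (by norm_num)
      obtain rfl : k = 1 := by omega
      exact hc (cent_zpowers b ▸ h.cent13 hf h3 x hk (hUT.trans hH) (hU ▸ inf_le_right))
  have hy : x * b * x⁻¹ * b⁻¹ ∈ U := hU ▸ mem_inf.2 ⟨by
      rw [mul_assoc, mul_assoc, ← mul_assoc b]
      exact mul_mem hx (conj_mem_of_norm hn (mem_zpowers b) (inv_mem hx)),
    mul_mem (mem_sup_right (mem_zpowers _)) (inv_mem (mem_sup_left (mem_zpowers b)))⟩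
  have c : Commute (x * b * x⁻¹ * b⁻¹) b := (mem_cent.1 (key hy) b (mem_zpowers b)).symm
  have b3 : b ^ 3 = 1 := hb ▸ pow_orderOf_eq_one b
  have y3 : (x * b * x⁻¹ * b⁻¹) ^ 3 = 1 := by
    have := c.mul_pow 3
    rwa [inv_mul_cancel_right, conj_pow, b3, mul_one, mul_one, mul_inv_cancel, eq_comm] at this
  have y1 := orderOf_eq_one_iff.1 (((piNat_compl_iff_coprime Nat.prime_three).1
    (h3.orderOf (hH (hUT hy)))).eq_one_of_dvd (orderOf_dvd_of_pow_eq_one y3))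
  rw [cent_zpowers, mem_cent1]
  rwa [mul_inv_eq_one, mul_inv_eq_iff_eq_mul] at y1

theorem Fr.two [Group.IsSolvable S] (h : Fr ρ b q1 q2 q3 e1 e2 e3) (hf : Function.Injective ρ)
    (hb : orderOf b = 3) {H : Subgroup S} [H.Normal] (h3 : IsPi {3}ᶜ H) : IsPi {2} ⁅H, zpowers b⁆ := by
  have cp : ∀ K ≤ H, (♯K).Coprime ♯(zpowers b) := fun K hK => (h3.of_le hK).coprime' (piB hb)
  obtain ⟨L, hL, hn⟩ := coprime_Hall_exists (K := H) {2}ᶜ le_normalizer_of_normal (cp H le_rfl) inferInstance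
  refine (core_pi {2} H).of_le
    (coprime_comm_pcore le_normalizer_of_normal (cp H le_rfl) inferInstance hL ?_)
  have gid := coprime_commGid hn (cp L hL.le) (.inl inferInstance)
  have hTL := comm_le_left hn
  have nT := le_norm_comm_right L (zpowers b)
  rw [← comm_eq_bot_iff]
  generalize ⁅L, zpowers b⁆ = T at gid hTL nT
  have hF : 𝓕(T) ≤ 𝓒(zpowers b) := fit_le_of_core fun p hp hd =>
    h.centT hf hb h3 hp (hL.pi p hp (hd.trans (card_dvd ((fit_le T).trans hTL)))) (core_pi _ _)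
      ((core_le _ _).trans (hTL.trans hL.le)) (norm_core _ nT)
  have h1 : T ≤ 𝓒(𝓕(T)) := gid.ge.trans
    ((commutator_mono le_rfl (cent_symm hF)).trans (comm_le_right (norm_cent (le_norm_fit T))))
  rw [← gid, comm_eq_bot_iff]
  exact ((le_inf le_rfl h1).trans (cent_fit_le inferInstance)).trans hF

end CA.H6Fr
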