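import Cfsg.Agent.Lib.Loc.H6Fr2

/-!
The `2`-group `R = [R, b]` when `b - 1` has rank at most two and `b` permutes a four-subgroup of `R`.
-/

set_option autoImplicit false
set_option linter.unusedSectionVars false
set_option linter.unusedVariables false
set_option linter.style.haveILetI false
set_option linter.unusedSimpArgs false

namespace CA.H6Fr

open Subgroup Cfsg CA.BG CA.BG4 Module
open scoped commutatorElement

variable {S : Type*} [Group S] [Finite S] {E : Type*} [AddCommGroup E] [Module (ZMod 3) E] [Finite E]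
  {ρ : Representation (ZMod 3) S E} {b q1 q2 q3 g d x y z : S} {e0 e1 e2 e3 v : E} {R : Subgroup S}
  {s t : ZMod 3}

theorem exFo2 (hb : orderOf b = 3) (h2 : IsPi {2} R) (nb : zpowers b ≤ 𝓝(R)) (gid : ⁅R, zpowers b⁆ = R)
    (h : Fo b q1 q2 q3) (m : q1 ∈ R) :
    ∃ q1 q2 q3, Fo b q1 q2 q3 ∧ q1 ∈ R ∧ ∀ x ∈ R, ⁅x, q1⁆ ∈ 𝓩(R) ⊓ 𝓒(zpowers b) := by
  by_cases hc : ⁅R, R⁆ ≤ 𝓩(R) ⊓ 𝓒(zpowers b)
  · exact ⟨q1, q2, q3, h, m, fun x hx => hc (commutator_mem_commutator hx m)⟩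
  obtain ⟨N, -, ⟨n1, n2, n3, n4⟩, hm⟩ := exists_minimal_le (H := ⁅R, R⁆)
    (P := fun N => N ≤ ⁅R, R⁆ ∧ R ≤ 𝓝(N) ∧ zpowers b ≤ 𝓝(N) ∧ ¬ N ≤ 𝓩(R) ⊓ 𝓒(zpowers b))
    ⟨le_rfl, le_norm_comm_left R R, norm_comm nb nb, hc⟩
  have nR := n1.trans (der_le R)
  have lt := comm_lt_of_nil (h2.isNilpotent Nat.prime_two) le_rfl nR n2 fun e => n4 (e ▸ bot_le)
  have k : ⁅N, R⁆ ≤ 𝓩(R) ⊓ 𝓒(zpowers b) := by
    by_contra hn
    exact lt.ne (hm _ ⟨lt.le.trans n1, le_norm_comm_right N R, norm_comm n3 nb, hn⟩ lt.le)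
  have k1 : ⁅N, R⁆ ≤ 𝓒(R) := k.trans (inf_le_left.trans inf_le_right)
  have ab : IsMulCommutative N :=
    comm_iff_le_cent.2 (n1.trans (three_subgroups (comm_symm N R ▸ k1) k1))
  obtain ⟨a1, a2, a3, ha, m1, -, -⟩ := exFo hb ab (h2.of_le nR) n3 fun hn => n4 (le_inf (le_inf nR
    (cent_symm (gid.ge.trans (three_subgroups ((comm_eq_bot_iff.2 hn).le.trans bot_le)
      (k.trans inf_le_right))))) (cent_symm hn))
  exact ⟨a1, a2, a3, ha, nR m1, fun x hx => k (comm_symm N R ▸ commutator_mem_commutator hx m1)⟩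

/-- Eigenspaces. -/
def Eg (ρ : Representation (ZMod 3) S E) (d : S) (s : ZMod 3) : Submodule (ZMod 3) E :=
  LinearMap.eqLocus (ρ d) (s • LinearMap.id)

theorem mem_Eg : v ∈ Eg ρ d s ↔ ρ d v = s • v := Iff.rfl

theorem mem_Eg1 : v ∈ Eg ρ d 1 ↔ ρ d v = v := by rw [mem_Eg, one_smul]

theorem mem_Egn : v ∈ Eg ρ d (-1) ↔ ρ d v = -v := by rw [mem_Eg, neg_smul, one_smul]

theorem Eg_inv (e : g * d = d * g) (hv : v ∈ Eg ρ d s) : ρ g v ∈ Eg ρ d s := by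
  rw [mem_Eg] at hv ⊢
  rw [← comm_ap e, hv, map_smul]

theorem elem2 {A : Subgroup S} (h : ∀ a ∈ A, a * a = 1) : IsElementaryAbelian 2 A :=
  ⟨comm_iff_le_cent.2 fun a ha => mem_cent.2 fun c hc => by
    rw [← H7Lge.inv_eq (h _ (mul_mem hc ha)), mul_inv_rev, H7Lge.inv_eq (h a ha), H7Lge.inv_eq (h c hc)],
   fun a ha => by rw [pow_two, h a ha]⟩

theorem card2 (h : z * z = 1) (h1 : z ≠ 1) : ♯(zpowers z) = 2 := by
  rw [Nat.card_zpowers, orderOf_eq_prime (p := 2) (by rw [pow_two, h]) h1]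

theorem Fo.card4 (h : Fo b q1 q2 q3) : ♯(zpowers q1 ⊔ zpowers q2) = 4 := by
  rw [card_sup_of_disjoint (norm_of_cent (cent_zpowers q2 ▸ zpowers_le.2 (mem_cent1.2 h.com)))
    (inf_eq_bot_of_prime_not_le (card2 h.sq h.ne ▸ Nat.prime_two) fun e => ?_), card2 h.sq h.ne,
    card2 h.rot.sq h.rot.ne]
  exact ((H7Lge.mem_two h.rot.sq).1 (e (mem_zpowers q1))).elim h.ne h.ne12

theorem Fr.irr (h : Fr ρ b q1 q2 q3 e1 e2 e3) {N : Submodule (ZMod 3) E} (n1 : ∀ v ∈ N, ρ q1 v ∈ N)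
    (n2 : ∀ v ∈ N, ρ q2 v ∈ N) (nb : ∀ v ∈ N, ρ b v ∈ N) {c1 c2 c3 : ZMod 3} {c : E}
    (a : ρ q1 c = c ∧ ρ q2 c = c) (hv : c1 • e1 + c2 • e2 + c3 • e3 + c ∈ N) :
    c ∈ N ∧ ((c1 = 0 ∧ c2 = 0 ∧ c3 = 0) ∨ (e1 ∈ N ∧ e2 ∈ N ∧ e3 ∈ N)) := by
  have f1 := n1 _ hv
  have f2 := n2 _ hv
  have f3 := n1 _ f2
  simp only [map_add, map_smul, map_neg, a.1, a.2, h.a1, h.a2, h.rot.a1, h.rot.a3, h.rot.rot.a2,
    h.rot.rot.a3] at f1 f2 f3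
  have k1 : e1 ∈ N → e1 ∈ N ∧ e2 ∈ N ∧ e3 ∈ N := fun m => ⟨m, h.b1 ▸ nb _ m, h.b2 ▸ h.b1 ▸ nb _ (nb _ m)⟩
  have m1 : c1 • e1 ∈ N := by
    convert sub_mem (sub_mem (add_mem hv f1) f2) f3 using 1
    linear_combination (norm := module) - three (c1 • e1)
  have m2 : c2 • e2 ∈ N := by
    convert sub_mem (add_mem (sub_mem hv f1) f2) f3 using 1
    linear_combination (norm := module) - three (c2 • e2)
  have m3 : c3 • e3 ∈ N := by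
    convert add_mem (sub_mem (sub_mem hv f1) f2) f3 using 1
    linear_combination (norm := module) - three (c3 • e3)
  refine ⟨?_, ?_⟩
  · convert sub_mem (sub_mem (sub_mem hv m1) m2) m3 using 1
    abel
  by_cases z1 : c1 = 0
  · by_cases z2 : c2 = 0
    · by_cases z3 : c3 = 0
      · exact .inl ⟨z1, z2, z3⟩
      · exact .inr (k1 (h.b3 ▸ nb _ ((N.smul_mem_iff z3).1 m3)))
    · exact .inr (k1 (h.b3 ▸ h.b2 ▸ nb _ (nb _ ((N.smul_mem_iff z2).1 m2))))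
  · exact .inr (k1 ((N.smul_mem_iff z1).1 m1))

/-- The elements leaving `W` invariant. -/
def Iv (ρ : Representation (ZMod 3) S E) (W : Submodule (ZMod 3) E) : Subgroup S where
  carrier := {g | ∀ v ∈ W, ρ g v ∈ W}
  mul_mem' := fun {a c} ha hc v hv => by rw [mul_ap]; exact ha _ (hc v hv)
  one_mem' := fun v hv => by rwa [one_ap]
  inv_mem' := fun {a} ha v hv => by
    have k : ∀ n : ℕ, ρ (a ^ n) v ∈ W := fun n => by
      induction n with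
      | zero => rwa [pow_zero, one_ap]
      | succ n ih => rw [pow_succ', mul_ap]; exact ha _ ih
    have := k (orderOf a - 1)
    rwa [eq_inv_of_mul_eq_one_left (show a ^ (orderOf a - 1) * a = 1 by
      rw [← pow_succ, Nat.sub_add_cancel (orderOf_pos a), pow_orderOf_eq_one])] at this

theorem mem_St {F₀ F₁ : Submodule (ZMod 3) E} (h : F₀ ⊔ F₁ = ⊤) (h0 : g ∈ Iv ρ F₀) (h1 : g ∈ Fx ρ F₁) :
    g ∈ St ρ F₀ := fun v => by
  obtain ⟨x, hx, y, hy, rfl⟩ := Submodule.mem_sup.1 (h ▸ Submodule.mem_top : v ∈ F₀ ⊔ F₁)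
  rw [map_add, h1 y hy, add_sub_add_right_eq_sub]
  exact sub_mem (h0 x hx) hx

theorem ext_span (hf : Function.Injective ρ) {n : ℕ} {e : Fin n → E} {F₁ : Submodule (ZMod 3) E}
    (h : Submodule.span (ZMod 3) (Set.range e) ⊔ F₁ = ⊤) (hg : g ∈ Fx ρ F₁) (hd : d ∈ Fx ρ F₁)
    (he : ∀ i, ρ g (e i) = ρ d (e i)) : g = d := eq_of hf fun v => by
  obtain ⟨x, hx, y, hy, rfl⟩ := Submodule.mem_sup.1 (h ▸ Submodule.mem_top : v ∈ _ ⊔ F₁)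
  obtain ⟨c, rfl⟩ := (Submodule.mem_span_range_iff_exists_fun _).1 hx
  simp only [map_add, map_sum, map_smul, he, hg y hy, hd y hy]

/-- The module part of the conclusion. -/
def Md (ρ : Representation (ZMod 3) S E) (R B : Subgroup S) : Prop :=
  ∃ F₀ F₁ : Submodule (ZMod 3) E, F₀ ⊓ F₁ = ⊥ ∧ F₀ ⊔ F₁ = ⊤ ∧
    (∀ r ∈ R, ∀ v ∈ F₁, ρ r v = v) ∧ (∀ r ∈ R ⊔ B, ∀ v ∈ F₀, ρ r v ∈ F₀) ∧
    (∀ r ∈ R ⊔ B, (∀ v ∈ F₀, ρ r v = v) → r = 1) ∧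
    (∀ N : Submodule (ZMod 3) E, N ≤ F₀ → (∀ r ∈ R ⊔ B, ∀ v ∈ N, ρ r v ∈ N) → N = ⊥ ∨ N = F₀)

theorem md_of (hf : Function.Injective ρ) {B : Subgroup S} {F₀ F₁ : Submodule (ZMod 3) E} (h1 : F₀ ⊓ F₁ = ⊥)
    (h2 : F₀ ⊔ F₁ = ⊤) (h3 : R ⊔ B ≤ Fx ρ F₁) (h4 : R ⊔ B ≤ Iv ρ F₀)
    (h5 : ∀ N : Submodule (ZMod 3) E, (∀ r ∈ R ⊔ B, ∀ v ∈ N, ρ r v ∈ N) → ∀ v ∈ N, v ∈ F₀ → v ≠ 0 → F₀ ≤ N) :
    Md ρ R B := by
  refine ⟨F₀, F₁, h1, h2, fun r hr => h3 (mem_sup_left hr), h4, fun r hr h => eq_one hf fun v => ?_,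
    fun N hN hi => ?_⟩
  · obtain ⟨x, hx, y, hy, rfl⟩ := Submodule.mem_sup.1 (h2 ▸ Submodule.mem_top : v ∈ F₀ ⊔ F₁)
    rw [map_add, h x hx, h3 hr y hy]
  · refine or_iff_not_imp_left.2 fun h0 => le_antisymm hN ?_
    obtain ⟨v, hv, h0⟩ := (Submodule.ne_bot_iff N).1 h0
    exact h5 N hi v hv (hN hv) h0

/-- The four-group lies in `R = [R, b]` and is central modulo `C_{Z(R)}(b)`. -/
structure Cx (ρ : Representation (ZMod 3) S E) (R : Subgroup S) (b q1 q2 q3 : S) (e1 e2 e3 : E) : Prop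
    extends Fr ρ b q1 q2 q3 e1 e2 e3 where
  hf : Function.Injective ρ
  nb : zpowers b ≤ 𝓝(R)
  gid : ⁅R, zpowers b⁆ = R
  m1 : q1 ∈ R
  z1 : ∀ x ∈ R, ⁅x, q1⁆ ∈ 𝓩(R) ⊓ 𝓒(zpowers b)

theorem zb (hd : d ∈ 𝓩(R) ⊓ 𝓒(zpowers b)) : b * d = d * b := mem_cent.1 hd.2 b (mem_zpowers b)

theorem zr (hd : d ∈ 𝓩(R) ⊓ 𝓒(zpowers b)) (hx : x ∈ R) : x * d = d * x := mem_cent.1 hd.1.2 x hx

namespace Cx

variable (h : Cx ρ R b q1 q2 q3 e1 e2 e3)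
include h

theorem cb (hx : x ∈ R) : b * x * b⁻¹ ∈ R := conj_mem_of_norm h.nb (mem_zpowers b) hx

theorem cb' (hx : x ∈ R) : b⁻¹ * x * b ∈ R := by
  simpa using conj_mem_of_norm h.nb (inv_mem (mem_zpowers b)) hx

theorem rot : Cx ρ R b q2 q3 q1 e2 e3 e1 :=
  ⟨h.toFr.rot, h.hf, h.nb, h.gid, h.c1 ▸ h.cb h.m1, fun x hx => by
    have k := h.z1 _ (h.cb' hx)
    have : ⁅x, q2⁆ = b * ⁅b⁻¹ * x * b, q1⁆ * b⁻¹ := by
      rw [← h.c1]; simp only [commutatorElement_def]; group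
    rwa [this, zb k, mul_inv_cancel_right]⟩

theorem zs (hd : d ∈ 𝓩(R) ⊓ 𝓒(zpowers b)) (ht : ρ d e1 = t • e1) : ρ d e2 = t • e2 := by
  rw [← h.b1, ← comm_ap (zb hd), ht, map_smul]

theorem egF (hd : d ∈ 𝓩(R) ⊓ 𝓒(zpowers b)) (ht : ρ d e1 = t • e1) (hs : t ≠ s) :
    R ⊔ zpowers b ≤ Fx ρ (Eg ρ d s) := by
  have k : zpowers b ≤ Fx ρ (Eg ρ d s) := zpowers_le.2 fun v hv => by
    obtain ⟨c1, c2, c3, c, a, rfl⟩ := h.dec v
    rw [mem_Eg] at hv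
    simp only [map_add, map_smul, ht, h.zs hd ht, h.rot.zs hd (h.zs hd ht)] at hv
    obtain ⟨z1, z2, z3, -⟩ := h.ind (c1 := c1 * (t - s)) (c2 := c2 * (t - s)) (c3 := c3 * (t - s))
      (c := ρ d c - s • c) (by simp [comm_ap (zr hd h.m1), comm_ap (zr hd h.rot.m1), a.1, a.2])
      (by linear_combination (norm := module) hv)
    haveI : Fact (Nat.Prime 3) := ⟨Nat.prime_three⟩
    have hs' := sub_ne_zero.2 hs
    rw [(mul_eq_zero.1 z1).resolve_right hs', (mul_eq_zero.1 z2).resolve_right hs',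
      (mul_eq_zero.1 z3).resolve_right hs']
    simpa using h.bc a
  exact sup_le (h.gid.ge.trans (triv (fun r hr v hv => Eg_inv (zr hd hr) hv) k)) k

theorem zneg (hd : d ∈ 𝓩(R) ⊓ 𝓒(zpowers b)) (h2 : d * d = 1) (h1 : d ≠ 1) : ρ d e1 = -e1 := by
  obtain ⟨s, rfl | rfl, e⟩ := h.sign (zr hd h.m1).symm (zr hd h.rot.m1).symm
  · refine absurd (eq_one h.hf fun v => ?_) h1
    have k : ρ d v - v ∈ Eg ρ d (-1) := by rw [mem_Egn, map_sub, ← mul_ap, h2, one_ap, neg_sub]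
    exact sub_eq_zero.1 (neg_self ((mem_Egn.1 k).symm.trans
      (h.egF hd e (by decide) (mem_sup_left hd.1.1) _ k)))
  · simpa using e

theorem uniq (hd : d ∈ 𝓩(R) ⊓ 𝓒(zpowers b)) (h2 : d * d = 1) (hz : z ∈ 𝓩(R) ⊓ 𝓒(zpowers b)) (z2 : z * z = 1)
    (z1 : z ≠ 1) : d = 1 ∨ d = z := by
  refine or_iff_not_imp_left.2 fun h1 => ?_
  by_contra hn
  have k := h.zneg (mul_mem hd hz) (by
    rw [mul_assoc, ← mul_assoc z, zr hd hz.1.1, mul_assoc, z2, mul_one, h2]) fun e =>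
      hn ((eq_inv_of_mul_eq_one_left e).trans (H7Lge.inv_eq z2))
  rw [mul_ap, h.zneg hz z2 z1, map_neg, h.zneg hd h2 h1, neg_neg] at k
  exact h.e0 (neg_self k.symm)

theorem csq (hx : x ∈ R) : ⁅x, q1⁆ * ⁅x, q1⁆ = 1 := by
  have k := zr (h.z1 x hx) h.m1
  have e : x * q1 * x⁻¹ = ⁅x, q1⁆ * q1 := by rw [commutatorElement_def, inv_mul_cancel_right]
  have : (x * q1 * x⁻¹) * (x * q1 * x⁻¹) = 1 := by rw [conj_mul, h.sq]; group
  rwa [e, mul_assoc, ← mul_assoc q1, k, mul_assoc, h.sq, mul_one] at this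

theorem pat (hz : z ∈ 𝓩(R) ⊓ 𝓒(zpowers b)) (z2 : z * z = 1) (z1 : z ≠ 1) (hx : x ∈ R) :
    x * q1 = q1 * x ∨ x * q1 = z * (q1 * x) := by
  refine (h.uniq (h.z1 x hx) (h.csq hx) hz z2 z1).imp commutatorElement_eq_one_iff_mul_comm.1 fun e => ?_
  rw [← e, commutatorElement_def]; group

theorem det1 (hx : x ∈ R) : LinearMap.det (ρ x) = 1 := det_comm (h.gid.ge hx)

theorem case1 (hc : ∀ x ∈ R, x * q1 = q1 * x) :
    (IsElementaryAbelian 2 R ∧ ♯R = 4) ∧ Md ρ R (zpowers b) := by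
  have hc2 : ∀ x ∈ R, x * q2 = q2 * x := fun x hx => by
    have := hc _ (h.cb' hx)
    rw [← h.c1]
    calc _ = b * (b⁻¹ * x * b * q1) * b⁻¹ := by group
      _ = _ := by rw [this]; group
  obtain ⟨W, hW⟩ : ∃ W, W = Submodule.span (ZMod 3) (Set.range ![e1, e2, e3]) := ⟨_, rfl⟩
  have m : ∀ i, ![e1, e2, e3] i ∈ W := fun i => hW ▸ Submodule.subset_span ⟨i, rfl⟩
  have mW : ∀ v ∈ W, ∃ c1 c2 c3 : ZMod 3, v = c1 • e1 + c2 • e2 + c3 • e3 := fun v hv => by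
    obtain ⟨c, rfl⟩ := (Submodule.mem_span_range_iff_exists_fun _).1 (hW ▸ hv)
    exact ⟨c 0, c 1, c 2, by simp [Fin.sum_univ_three]⟩
  have mC : ∀ {v}, v ∈ Eg ρ q1 1 ⊓ Eg ρ q2 1 ↔ ρ q1 v = v ∧ ρ q2 v = v := by
    simp [mem_Eg1]
  have top : W ⊔ Eg ρ q1 1 ⊓ Eg ρ q2 1 = ⊤ := eq_top_iff.2 fun v _ => by
    obtain ⟨c1, c2, c3, c, a, rfl⟩ := h.dec v
    exact Submodule.add_mem_sup (add_mem (add_mem (W.smul_mem _ (m 0)) (W.smul_mem _ (m 1)))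
      (W.smul_mem _ (m 2))) (mC.2 a)
  have fb : zpowers b ≤ Fx ρ (Eg ρ q1 1 ⊓ Eg ρ q2 1) := zpowers_le.2 fun v hv => h.bc (mC.1 hv)
  have fR : R ≤ Fx ρ (Eg ρ q1 1 ⊓ Eg ρ q2 1) :=
    h.gid.ge.trans (triv (fun r hr v hv => ⟨Eg_inv (hc r hr) hv.1, Eg_inv (hc2 r hr) hv.2⟩) fb)
  have sg : ∀ r ∈ R, ∃ s1 s2 s3 : ZMod 3, (s1 = 1 ∨ s1 = -1) ∧ (s2 = 1 ∨ s2 = -1) ∧ (s3 = 1 ∨ s3 = -1) ∧
      ρ r e1 = s1 • e1 ∧ ρ r e2 = s2 • e2 ∧ ρ r e3 = s3 • e3 := fun r hr => by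
    have c3 := h.cm3 (hc r hr) (hc2 r hr)
    obtain ⟨s1, a1, f1⟩ := h.sign (hc r hr) (hc2 r hr)
    obtain ⟨s2, a2, f2⟩ := h.rot.sign (hc2 r hr) c3
    obtain ⟨s3, a3, f3⟩ := h.rot.rot.sign c3 (hc r hr)
    exact ⟨s1, s2, s3, a1, a2, a3, f1, f2, f3⟩
  have iv : R ⊔ zpowers b ≤ Iv ρ W := by
    refine sup_le (fun r hr v hv => ?_) (zpowers_le.2 fun v hv => ?_)
    · obtain ⟨s1, s2, s3, -, -, -, f1, f2, f3⟩ := sg r hr
      obtain ⟨c1, c2, c3, rfl⟩ := mW v hv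
      simp only [map_add, map_smul, f1, f2, f3]
      exact add_mem (add_mem (W.smul_mem _ (W.smul_mem _ (m 0))) (W.smul_mem _ (W.smul_mem _ (m 1))))
        (W.smul_mem _ (W.smul_mem _ (m 2)))
    · obtain ⟨c1, c2, c3, rfl⟩ := mW v hv
      simp only [map_add, map_smul, h.b1, h.b2, h.b3]
      exact add_mem (add_mem (W.smul_mem _ (m 1)) (W.smul_mem _ (m 2))) (W.smul_mem _ (m 0))
  have li : LinearIndependent (ZMod 3) ![e1, e2, e3] := Fintype.linearIndependent_iff.2 fun c e i => by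
    obtain ⟨z1, z2, z3, -⟩ := h.ind (c1 := c 0) (c2 := c 1) (c3 := c 2) (c := 0) (by simp)
      (by simpa [Fin.sum_univ_three] using e)
    fin_cases i <;> assumption
  have four : ∀ r ∈ R, r = 1 ∨ r = q1 ∨ r = q2 ∨ r = q3 := fun r hr => by
    obtain ⟨s1, s2, s3, a1, a2, a3, f1, f2, f3⟩ := sg r hr
    have hd := det_eq li (hW ▸ mem_St top (iv (mem_sup_left hr)) (fR hr)) (Matrix.diagonal ![s1, s2, s3])
      fun j => by fin_cases j <;> simp [Fin.sum_univ_three, f1, f2, f3, Matrix.diagonal]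
    rw [h.det1 hr, Matrix.det_diagonal, Fin.prod_univ_three] at hd
    have key : ∀ a ∈ R, ρ a e1 = s1 • e1 → ρ a e2 = s2 • e2 → ρ a e3 = s3 • e3 → r = a :=
      fun a ha g1 g2 g3 => ext_span h.hf (hW ▸ top) (fR hr) (fR ha) fun i => by
        fin_cases i <;> simp [f1, f2, f3, g1, g2, g3]
    rcases a1 with rfl | rfl <;> rcases a2 with rfl | rfl <;> rcases a3 with rfl | rfl <;>
      first
      | exact absurd hd (by decide)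
      | refine .inl (key 1 (one_mem _) ?_ ?_ ?_) <;> (simp; done)
      | refine .inr (.inl (key _ h.m1 ?_ ?_ ?_)) <;> (simp [h.a1, h.rot.a3, h.rot.rot.a2]; done)
      | refine .inr (.inr (.inl (key _ h.rot.m1 ?_ ?_ ?_))) <;> (simp [h.a2, h.rot.a1, h.rot.rot.a3]; done)
      | refine .inr (.inr (.inr (key _ h.rot.rot.m1 ?_ ?_ ?_))) <;> (simp [h.a3, h.rot.a2, h.rot.rot.a1]; done)
  refine ⟨⟨elem2 fun r hr => ?_, ?_⟩, md_of h.hf ?_ top (sup_le fR fb) iv fun N hN v hv h0 h1 => ?_⟩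
  · rcases four r hr with rfl | rfl | rfl | rfl
    exacts [mul_one _, h.sq, h.rot.sq, h.rot.rot.sq]
  · rw [← h.toFo.card4]
    congr 2
    refine le_antisymm (fun r hr => ?_) (sup_le (zpowers_le.2 h.m1) (zpowers_le.2 h.rot.m1))
    rcases four r hr with rfl | rfl | rfl | rfl
    exacts [one_mem _, mem_sup_left (mem_zpowers _), mem_sup_right (mem_zpowers _),
      h.mul ▸ mul_mem_sup (mem_zpowers _) (mem_zpowers _)]
  · refine eq_bot_iff.2 fun v hv => ?_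
    obtain ⟨c1, c2, c3, e⟩ := mW v hv.1
    have := (h.ind (c1 := c1) (c2 := c2) (c3 := c3) (c := -v) (by simpa using mC.1 hv.2)
      (by rw [e, add_neg_cancel])).2.2.2
    exact neg_eq_zero.1 this
  · obtain ⟨c1, c2, c3, rfl⟩ := mW v h0
    obtain ⟨-, ⟨rfl, rfl, rfl⟩ | ⟨m1, m2, m3⟩⟩ := h.irr (hN _ (mem_sup_left h.m1)) (hN _ (mem_sup_left h.rot.m1))
      (hN _ (mem_sup_right (mem_zpowers b))) (c := 0) (by simp) (by rwa [add_zero])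
    · simp at h1
    · intro v hv
      obtain ⟨c1, c2, c3, rfl⟩ := mW v hv
      exact add_mem (add_mem (N.smul_mem _ m1) (N.smul_mem _ m2)) (N.smul_mem _ m3)

end Cx

end CA.H6Fr
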