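import Cfsg.Agent.Lib.Grp.SL23
import Cfsg.Agent.Lib.Grp.PGClassTwo

/-! The group `3^{1+2}_+ ⋊ SL(2,3)` by generators and relations. -/

set_option autoImplicit false
set_option linter.unusedVariables false
set_option linter.unusedSimpArgs false

namespace CA.H6Heis

open Subgroup CA.PGClassTwo CA.SL23
open scoped commutatorElement

variable {G : Type*} [Group G]

structure Hz (a b : G) : Prop where
  a3 : a ^ 3 = 1
  b3 : b ^ 3 = 1
  az : Commute a ⁅a, b⁆
  bz : Commute b ⁅a, b⁆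

def nf (a b : G) (i j k : ℤ) : G := a ^ i * b ^ j * ⁅a, b⁆ ^ k

theorem nf_mem {H : Subgroup G} {a b : G} (ha : a ∈ H) (hb : b ∈ H) (i j k : ℤ) : nf a b i j k ∈ H :=
  H.mul_mem (H.mul_mem (H.zpow_mem ha _) (H.zpow_mem hb _)) (H.zpow_mem (by
    rw [commutatorElement_def]
    exact H.mul_mem (H.mul_mem (H.mul_mem ha hb) (H.inv_mem ha)) (H.inv_mem hb)) _)

theorem map_nf {H : Type*} [Group H] (f : G →* H) (a b : G) (i j k : ℤ) :
    f (nf a b i j k) = nf (f a) (f b) i j k := by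
  simp [nf, map_commutatorElement]

theorem conj_nf (g a b : G) (i j k : ℤ) :
    g * nf a b i j k * g⁻¹ = nf (g * a * g⁻¹) (g * b * g⁻¹) i j k :=
  map_nf (MulAut.conj g).toMonoidHom a b i j k

theorem zpow_of_dvd {x : G} (h : x ^ 3 = 1) {i : ℤ} (hi : 3 ∣ i) : x ^ i = 1 := by
  obtain ⟨m, rfl⟩ := hi
  rw [zpow_mul, zpow_ofNat, h, one_zpow]

theorem zpow_congr {x : G} (h : x ^ 3 = 1) {i j : ℤ} (hi : 3 ∣ i - j) : x ^ i = x ^ j := by
  rw [show i = (i - j) + j by ring, zpow_add, zpow_of_dvd h hi, one_mul]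

theorem dvd_of_zpow {x : G} (h : x ^ 3 = 1) (h1 : x ≠ 1) {i : ℤ} (hi : x ^ i = 1) : 3 ∣ i := by
  have : Fact (Nat.Prime 3) := ⟨by norm_num⟩
  have := orderOf_dvd_iff_zpow_eq_one.2 hi
  rwa [orderOf_eq_prime h h1] at this

namespace Hz

variable {a b : G} (h : Hz a b)
include h

theorem z3 : ⁅a, b⁆ ^ 3 = 1 := by
  rw [← comm_pow_left h.az, h.a3, commutatorElement_one_left]

theorem swap (i j : ℤ) : b ^ j * a ^ i = a ^ i * b ^ j * ⁅a, b⁆ ^ (-(i * j)) := by
  have e := mul_eq_comm_mul (b ^ j) (a ^ i)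
  rw [comm_zpow_zpow h.az h.bz] at e
  have c : Commute (⁅a, b⁆ ^ (i * j)) (b ^ j * a ^ i) :=
    ((h.bz.zpow_zpow _ _).mul_left (h.az.zpow_zpow _ _)).symm
  rw [e, c.eq, mul_assoc, ← zpow_add]; simp

theorem mul (i j k i' j' k' : ℤ) :
    nf a b i j k * nf a b i' j' k' = nf a b (i + i') (j + j') (k + k' - i' * j) := by
  have c : Commute (⁅a, b⁆ ^ k) (a ^ i' * b ^ j') :=
    ((h.az.zpow_zpow _ _).mul_left (h.bz.zpow_zpow _ _)).symm
  have c' : Commute (⁅a, b⁆ ^ (-(i' * j))) (b ^ j') := (h.bz.zpow_zpow _ _).symm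
  calc nf a b i j k * nf a b i' j' k'
      = a ^ i * b ^ j * (⁅a, b⁆ ^ k * (a ^ i' * b ^ j')) * ⁅a, b⁆ ^ k' := by simp only [nf, mul_assoc]
    _ = a ^ i * (b ^ j * a ^ i') * b ^ j' * (⁅a, b⁆ ^ k * ⁅a, b⁆ ^ k') := by
      rw [c.eq]; simp only [mul_assoc]
    _ = a ^ i * a ^ i' * b ^ j * (⁅a, b⁆ ^ (-(i' * j)) * b ^ j') * (⁅a, b⁆ ^ k * ⁅a, b⁆ ^ k') := by
      rw [h.swap]; simp only [mul_assoc]
    _ = _ := by
      rw [c'.eq, nf, show k + k' - i' * j = -(i' * j) + (k + k') by ring, zpow_add, zpow_add, zpow_add,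
        zpow_add]
      simp only [mul_assoc]

omit h in
theorem zero : nf a b 0 0 0 = 1 := by simp [nf]

theorem inv (i j k : ℤ) : (nf a b i j k)⁻¹ = nf a b (-i) (-j) (-k - i * j) := by
  rw [inv_eq_iff_mul_eq_one, h.mul, ← zero (a := a) (b := b)]
  congr 1 <;> ring

theorem congr {i j k i' j' k' : ℤ} (h1 : 3 ∣ i - i') (h2 : 3 ∣ j - j') (h3 : 3 ∣ k - k') :
    nf a b i j k = nf a b i' j' k' := by
  rw [nf, nf, zpow_congr h.a3 h1, zpow_congr h.b3 h2, zpow_congr h.z3 h3]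

theorem comm (hz : ⁅a, b⁆ ≠ 1) {i j k i' j' k' : ℤ} (e : Commute (nf a b i j k) (nf a b i' j' k')) :
    3 ∣ i * j' - i' * j := by
  have e' := e.eq
  rw [h.mul, h.mul, nf, nf, add_comm i', add_comm j', mul_right_inj, ← mul_inv_eq_one, ← zpow_sub] at e'
  have := dvd_of_zpow h.z3 hz e'
  convert this using 1; ring

theorem eq_one (hz : ⁅a, b⁆ ≠ 1) {i j k : ℤ} (e : nf a b i j k = 1) : 3 ∣ i ∧ 3 ∣ j ∧ 3 ∣ k := by
  have h1 := h.comm hz (i := i) (j := j) (k := k) (i' := 0) (j' := 1) (k' := 0) (e ▸ Commute.one_left _)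
  have h2 := h.comm hz (i := 1) (j := 0) (k := 0) (i' := i) (j' := j) (k' := k) (e ▸ Commute.one_right _)
  simp only [mul_one, zero_mul, sub_zero, one_mul, mul_zero] at h1 h2
  rw [nf, zpow_of_dvd h.a3 h1, zpow_of_dvd h.b3 h2, one_mul, one_mul] at e
  exact ⟨h1, h2, dvd_of_zpow h.z3 hz e⟩

theorem eq (hz : ⁅a, b⁆ ≠ 1) {i j k i' j' k' : ℤ} (e : nf a b i j k = nf a b i' j' k') :
    3 ∣ i - i' ∧ 3 ∣ j - j' ∧ 3 ∣ k - k' := by
  rw [← mul_inv_eq_one, h.inv, h.mul] at e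
  obtain ⟨h1, h2, h3⟩ := h.eq_one hz e
  refine ⟨by omega, by omega, ?_⟩
  have := dvd_sub h3 (h2.mul_left i')
  rwa [show k + (-k' - i' * j') - -i' * j - i' * (j + -j') = k - k' by ring] at this

def N : Subgroup G where
  carrier := {g | ∃ i j k, g = nf a b i j k}
  mul_mem' := by
    rintro _ _ ⟨i, j, k, rfl⟩ ⟨i', j', k', rfl⟩
    exact ⟨_, _, _, h.mul ..⟩
  one_mem' := ⟨0, 0, 0, zero.symm⟩
  inv_mem' := by
    rintro _ ⟨i, j, k, rfl⟩
    exact ⟨_, _, _, h.inv ..⟩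

theorem mem_N {g : G} : g ∈ h.N ↔ ∃ i j k, g = nf a b i j k := Iff.rfl

theorem a_mem : a ∈ h.N := ⟨1, 0, 0, by simp [nf]⟩

theorem b_mem : b ∈ h.N := ⟨0, 1, 0, by simp [nf]⟩

theorem card_N (hz : ⁅a, b⁆ ≠ 1) : Nat.card h.N = 27 := by
  let f : Fin 3 × Fin 3 × Fin 3 → h.N := fun x => ⟨nf a b x.1.1 x.2.1.1 x.2.2.1, _, _, _, rfl⟩
  have hf : Function.Bijective f := by
    constructor
    · rintro ⟨i, j, k⟩ ⟨i', j', k'⟩ e
      obtain ⟨h1, h2, h3⟩ := h.eq hz (congrArg Subtype.val e)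
      simp only at h1 h2 h3
      refine Prod.ext (Fin.ext ?_) (Prod.ext (Fin.ext ?_) (Fin.ext ?_)) <;> simp only <;> omega
    · rintro ⟨_, i, j, k, rfl⟩
      refine ⟨⟨⟨(i % 3).toNat, by omega⟩, ⟨(j % 3).toNat, by omega⟩, ⟨(k % 3).toNat, by omega⟩⟩,
        Subtype.ext (h.congr ?_ ?_ ?_)⟩ <;> simp only <;> omega
  rw [← Nat.card_eq_of_bijective f hf]; simp

theorem mem_normalizer [Finite G] {g : G} (ha : g * a * g⁻¹ ∈ h.N) (hb : g * b * g⁻¹ ∈ h.N) :
    g ∈ normalizer (h.N : Set G) := by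
  refine mem_normalizer_fintype ?_
  rintro _ ⟨i, j, k, rfl⟩
  rw [conj_nf]; exact nf_mem ha hb ..

end Hz

structure Rl (a b c t : G) : Prop where
  hz : Hz a b
  ca : c * a * c⁻¹ = b
  cb : c * b * c⁻¹ = a⁻¹
  ta : t * a * t⁻¹ = a
  tb : t * b * t⁻¹ = a * b * ⁅a, b⁆
  t3 : t ^ 3 = 1
  rel : Rel c (t * c * t⁻¹) t

theorem Rl.of_mul {a b c t z w : G} (a3 : a * a * a = 1) (b3 : b * b * b = 1) (hz : a * b = z * b * a)
    (az : a * z = z * a) (bz : b * z = z * b) (ca : c * a = b * c) (cb : a * c * b = c)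
    (ta : t * a = a * t) (tb : t * b = a * b * z * t) (t3 : t * t * t = 1) (hw : t * c = w * t)
    (c4 : c * c * (c * c) = 1) (w2 : w * w = c * c) (wc : c * w * c = w) (tw : t * w = c * w * t) :
    Rl a b c t ∧ ⁅a, b⁆ = z := by
  have e : ⁅a, b⁆ = z := by rw [commutatorElement_def, hz]; group
  have e' : t * c * t⁻¹ = w := by rw [hw]; group
  refine ⟨⟨⟨by rw [pow_three', a3], by rw [pow_three', b3], e ▸ az, e ▸ bz⟩, by rw [ca]; group, ?_,
    by rw [ta]; group, by rw [tb, e]; group, by rw [pow_three', t3], ?_⟩, e⟩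
  · rw [eq_inv_iff_mul_eq_one, ← mul_left_inj a⁻¹, ← mul_right_inj a]
    calc _ = a * c * b * c⁻¹ := by group
      _ = _ := by rw [cb]; group
  · rw [e']
    refine ⟨by rw [← c4]; simp only [pow_succ, pow_zero, one_mul, mul_assoc], by rw [pow_two, pow_two, w2], ?_,
      e', by rw [tw]; group⟩
    calc _ = c⁻¹ * (c * w * c) * w⁻¹ := by group
      _ = _ := by rw [wc]; group

namespace Rl

variable {a b c t : G}

theorem of_inj {H : Type*} [Group H] (f : G →* H) (hf : Function.Injective f)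
    (h : Rl (f a) (f b) (f c) (f t)) : Rl a b c t :=
  ⟨⟨hf (by simpa using h.hz.a3), hf (by simpa using h.hz.b3),
    hf (by simpa [map_commutatorElement] using h.hz.az.eq),
    hf (by simpa [map_commutatorElement] using h.hz.bz.eq)⟩, hf (by simpa using h.ca),
    hf (by simpa using h.cb), hf (by simpa using h.ta), hf (by simpa [map_commutatorElement] using h.tb),
    hf (by simpa using h.t3), ⟨hf (by simpa using h.rel.c4),
      hf (by simpa only [map_pow, map_mul, map_inv] using h.rel.w2),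
      hf (by simpa only [map_pow, map_mul, map_inv] using h.rel.wc), rfl,
      hf (by simpa only [map_pow, map_mul, map_inv] using h.rel.tw)⟩⟩

theorem prod {H : Type*} [Group H] {a' b' c' t' : H} (h : Rl a b c t) (h' : Rl a' b' c' t') :
    Rl (a, a') (b, b') (c, c') (t, t') :=
  ⟨⟨Prod.ext h.hz.a3 h'.hz.a3, Prod.ext h.hz.b3 h'.hz.b3, Prod.ext h.hz.az.eq h'.hz.az.eq,
    Prod.ext h.hz.bz.eq h'.hz.bz.eq⟩, Prod.ext h.ca h'.ca, Prod.ext h.cb h'.cb, Prod.ext h.ta h'.ta,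
    Prod.ext h.tb h'.tb, Prod.ext h.t3 h'.t3, ⟨Prod.ext h.rel.c4 h'.rel.c4, Prod.ext h.rel.w2 h'.rel.w2,
      Prod.ext h.rel.wc h'.rel.wc, rfl, Prod.ext h.rel.tw h'.rel.tw⟩⟩

variable (h : Rl a b c t)
include h

theorem map {H : Type*} [Group H] (f : G →* H) : Rl (f a) (f b) (f c) (f t) :=
  ⟨⟨by rw [← map_pow, h.hz.a3, map_one], by rw [← map_pow, h.hz.b3, map_one],
    by simpa [map_commutatorElement] using h.hz.az.map f,
    by simpa [map_commutatorElement] using h.hz.bz.map f⟩, by simpa using congrArg f h.ca,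
    by simpa using congrArg f h.cb, by simpa using congrArg f h.ta,
    by simpa [map_commutatorElement] using congrArg f h.tb, by rw [← map_pow, h.t3, map_one],
    by simpa only [map_mul, map_inv] using h.rel.map f⟩

theorem card_of_gen [Finite G] (hz : ⁅a, b⁆ ≠ 1) (hgen : closure {a, b, c, t} = ⊤) : Nat.card G = 648 := by
  have ha := h.hz.a_mem
  have hb := h.hz.b_mem
  have hN : h.hz.N.Normal := by
    rw [← normalizer_eq_top_iff, eq_top_iff, ← hgen, closure_le]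
    rintro x (rfl | rfl | rfl | rfl)
    · exact le_normalizer ha
    · exact le_normalizer hb
    · exact h.hz.mem_normalizer (h.ca ▸ hb) (h.cb ▸ inv_mem ha)
    · refine h.hz.mem_normalizer (h.ta.symm ▸ ha) ?_
      rw [h.tb]; exact ⟨1, 1, 1, by simp [nf]⟩
  let π := QuotientGroup.mk' h.hz.N
  have hr := h.rel.map π
  have h2 : π c ^ 2 ≠ 1 := fun e => by
    rw [← map_pow, QuotientGroup.mk'_apply, QuotientGroup.eq_one_iff] at e
    have e1 : (c ^ 2) ^ 27 = 1 := by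
      have := congrArg Subtype.val (pow_card_eq_one' (x := (⟨_, e⟩ : h.hz.N)))
      rwa [h.hz.card_N hz] at this
    have e2 : c ^ 2 = 1 := by
      rw [← pow_mul, show 2 * 27 = 4 * 13 + 2 by norm_num, pow_add, pow_mul, h.rel.c4] at e1
      simpa using e1
    have e3 : a = a⁻¹ := by
      rw [← h.cb, ← h.ca, show c * (c * a * c⁻¹) * c⁻¹ = c ^ 2 * a * (c ^ 2)⁻¹ by rw [pow_two]; group, e2]
      group
    have e4 : a = 1 := by
      have := h.hz.a3
      rw [pow_three', show a * a = 1 by nth_rewrite 2 [e3]; simp, one_mul] at this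
      exact this
    exact hz (by rw [e4, commutatorElement_one_left])
  have ho : orderOf (π c) = 4 := by
    have : Fact (Nat.Prime 2) := ⟨by norm_num⟩
    exact orderOf_eq_prime_pow (p := 2) (n := 1) h2 hr.c4
  have hw : π (t * c * t⁻¹) ∉ zpowers (π c) := by
    rintro ⟨k, e⟩
    have e' := hr.wc
    simp only at e
    rw [← e, show π c ^ k * π c * (π c ^ k)⁻¹ = π c by group] at e'
    exact h2 (by rw [pow_two]; nth_rewrite 2 [e']; simp)
  have hc := hr.card_eq (by rw [← map_pow, h.t3, map_one]) ho hw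
  have ht : zpowers (π c) ⊔ zpowers (π (t * c * t⁻¹)) ⊔ zpowers (π t) = ⊤ := by
    refine eq_top_iff.2 fun q _ => ?_
    obtain ⟨g, rfl⟩ := QuotientGroup.mk'_surjective h.hz.N q
    have : closure {a, b, c, t} ≤ (zpowers (π c) ⊔ zpowers (π (t * c * t⁻¹)) ⊔ zpowers (π t)).comap π := by
      rw [closure_le]
      rintro x (rfl | rfl | rfl | rfl)
      · exact mem_comap.2 (by rw [show π x = 1 from (QuotientGroup.eq_one_iff _).2 ha]; exact one_mem _)
      · exact mem_comap.2 (by rw [show π x = 1 from (QuotientGroup.eq_one_iff _).2 hb]; exact one_mem _)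
      · exact mem_comap.2 (mem_sup_left (mem_sup_left (mem_zpowers _)))
      · exact mem_comap.2 (mem_sup_right (mem_zpowers _))
    exact this (hgen ▸ mem_top g)
  rw [ht, Subgroup.card_top] at hc
  rw [card_eq_card_quotient_mul_card_subgroup h.hz.N, hc, h.hz.card_N hz]

theorem card_closure [Finite G] (hz : ⁅a, b⁆ ≠ 1) : Nat.card (closure {a, b, c, t}) = 648 := by
  let H := closure {a, b, c, t}
  have ha : a ∈ H := subset_closure (by simp)
  have hb : b ∈ H := subset_closure (by simp)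
  have hc : c ∈ H := subset_closure (by simp)
  have ht : t ∈ H := subset_closure (by simp)
  have h' : Rl (⟨a, ha⟩ : H) ⟨b, hb⟩ ⟨c, hc⟩ ⟨t, ht⟩ := of_inj H.subtype H.subtype_injective (by exact h)
  refine h'.card_of_gen (fun e => hz (congrArg Subtype.val e)) (map_injective H.subtype_injective ?_)
  rw [MonoidHom.map_closure, ← MonoidHom.range_eq_map, range_subtype]
  simp [Set.image_insert_eq, H]

theorem gen [Finite G] (hz : ⁅a, b⁆ ≠ 1) (hG : Nat.card G ≤ 648) : closure {a, b, c, t} = ⊤ :=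
  eq_top_of_le_card _ (by rwa [h.card_closure hz])

theorem iso {H : Type*} [Group H] [Finite G] [Finite H] {a' b' c' t' : H} (h' : Rl a' b' c' t')
    (hz : ⁅a, b⁆ ≠ 1) (hz' : ⁅a', b'⁆ ≠ 1) (hG : Nat.card G ≤ 648) (hH : Nat.card H ≤ 648) :
    Nonempty (G ≃* H) := by
  have hc := (h.prod h').card_closure (fun e => hz (congrArg Prod.fst e))
  refine nonempty_equiv_of_card_le (closure {(a, a'), (b, b'), (c, c'), (t, t')}) ?_ ?_ ?_ ?_
  · rw [MonoidHom.map_closure, ← h.gen hz hG]; simp [Set.image_insert_eq]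
  · rw [MonoidHom.map_closure, ← h'.gen hz' hH]; simp [Set.image_insert_eq]
  · rw [hc, h.card_of_gen hz (h.gen hz hG)]
  · rw [hc, h'.card_of_gen hz' (h'.gen hz' hH)]

theorem cz : Commute c ⁅a, b⁆ := by
  have : c * ⁅a, b⁆ * c⁻¹ = ⁅a, b⁆ := by
    rw [conjugate_commutatorElement, h.ca, h.cb, ← commutatorElement_inv, comm_inv_left h.hz.az, inv_inv]
  rw [Commute, SemiconjBy, ← mul_inv_eq_iff_eq_mul, this]

theorem tz : Commute t ⁅a, b⁆ := by
  have : t * ⁅a, b⁆ * t⁻¹ = ⁅a, b⁆ := by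
    rw [conjugate_commutatorElement, h.ta, h.tb]
    calc ⁅a, a * b * ⁅a, b⁆⁆ = a * a * b * (⁅a, b⁆ * a⁻¹ * ⁅a, b⁆⁻¹) * b⁻¹ * a⁻¹ := by
          rw [commutatorElement_def a]; group
      _ = a * ⁅a, b⁆ * a⁻¹ := by
          rw [← h.hz.az.inv_left.eq, commutatorElement_def a b]; group
      _ = _ := by rw [h.hz.az.eq]; group
  rw [Commute, SemiconjBy, ← mul_inv_eq_iff_eq_mul, this]

end Rl

end CA.H6Heis
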