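import Cfsg.Agent.Lib.Loc.AmbM
import Cfsg.Agent.Lib.Grp.Coprime2
import Cfsg.Agent.Lib.Grp.PGFrattini
import Cfsg.Agent.Lib.Odd.BG4x3

/-! Isolated `p`-minimal subgroups. -/

set_option autoImplicit false

namespace CA.H6Iso

open Subgroup Cfsg CA.Amb CA.AmbSyl CA.AmbCore CA.AmbRes CA.AmbChar CA.AmbWC CA.AmbRed CA.AmbFs CA.AmbM CA.Comp
open scoped commutatorElement

variable {G : Type*} [Group G] [Finite G] {p : ℕ} [hp : Fact p.Prime]

structure Iso (p : ℕ) (S L A U : Subgroup G) : Prop where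
  syl : SylIn p S ⊤
  sL : S ≤ L
  aS : A ≤ S
  nA : L ≤ 𝐍 A
  dich : ∀ H, S ≤ H → H ≤ L ∨ U ≤ H
  nle : ¬ U ≤ L
  comm : U ≤ ⁅U, A⁆
  res : pResidualOf p U = U
  gen : ncl U ⊤ ⊔ L = ⊤
  sU : S ≤ 𝐍 U

theorem iso_of {S P L : Subgroup G} (hS : SylIn p S ⊤) (hSP : S ≤ P) (hP : IsPMinimal p P)
    (hL : L = 𝐍 S ⊔ ⨆ P' : {P' : Subgroup G // S ≤ P' ∧ IsPMinimal p P' ∧ P' ≠ P}, (P' : Subgroup G))
    (h : ¬ pCoreOf p L ≤ pCoreOf p P) : Iso p S L (pCoreOf p L) (pResidualOf p P) := by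
  have nL : 𝐍 S ≤ L := hL ▸ le_sup_left
  have sL := le_normalizer.trans nL
  have sP := hS.mono hSP le_top
  have aS := pCoreOf_le_syl (hS.mono sL le_top)
  have k : ∀ H D, S ≤ H → L ≤ D → (P ≤ H → P ≤ D) → H ≤ D := fun H D h1 h2 h3 => by
    have hH := hS.mono h1 le_top
    rw [← pec_sup_normalizer hH]
    refine sup_le (pec_le_of_minimal H hH (sL.trans h2) (inf_le_right.trans (nL.trans (h2.trans le_normalizer)))
      fun P' a b c => ?_) (inf_le_right.trans (nL.trans h2))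
    by_cases e : P' = P
    · exact e ▸ h3 (e ▸ b)
    · exact (hL ▸ le_sup_of_le_right (le_iSup_of_le ⟨P', a, c, e⟩ le_rfl) : P' ≤ L).trans h2
  obtain ⟨h1, M, um⟩ := (isPMinimal_iff sP).1 hP
  refine ⟨hS, sL, aS, norm_pCoreOf p L, fun H hH => ?_, fun e => h (pCoreOf_le_pCoreOf_of_le
    (le_of_syl_of_res sP sL e) (aS.trans hSP)), ((AmbRed.UMax.pirr um sP (AmbFs.UMax.ncl_eq um sP h1)).comm_res sP aS
      (sL.trans (norm_pCoreOf p L)) h).ge, res_res p P, top_le_iff.1 (k ⊤ _ le_top le_sup_right fun _ =>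
        le_of_syl_of_res sP (sL.trans le_sup_right) ((le_ncl _ _).trans le_sup_left)), hSP.trans (norm_res p P)⟩
  by_cases e : P ≤ H
  · exact .inr ((res_le p P).trans e)
  · exact .inl (k H L hH le_rfl fun e' => (e e').elim)

namespace Iso

variable {S L A U : Subgroup G} (h : Iso p S L A U)
include h

theorem map {G' : Type*} [Group G'] [Finite G'] {f : G →* G'} (hf : Function.Surjective f) (hk : f.ker ≤ S) :
    Iso p (S.map f) (L.map f) (A.map f) (U.map f) := by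
  have t := map_top_of_surjective f hf
  refine ⟨t ▸ h.syl.map f, map_mono h.sL, map_mono h.aS, norm_map f h.nA, fun H hH => ?_, fun e => h.nle ?_, ?_, ?_, ?_,
    norm_map f h.sU⟩
  · exact (h.dich (H.comap f) (map_le_iff_le_comap.1 hH)).imp
      (fun e => map_comap_eq_self_of_surjective hf H ▸ map_mono e) map_le_iff_le_comap.2
  · rwa [Subgroup.map_le_map_iff, sup_eq_left.2 (hk.trans h.sL)] at e
  · rw [← map_commutator]; exact map_mono h.comm
  · rw [← map_res, h.res]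
  · rw [← t, ← map_ncl, ← Subgroup.map_sup, h.gen]

theorem d {X : Subgroup G} (hX : S ≤ 𝐍 X) : X ≤ L ∨ U ≤ X :=
  (h.dich _ le_sup_left).imp le_sup_right.trans fun e => h.res ▸ res_le_of_le_sup h.syl.pg hX e

omit hp in
theorem cent {X : Subgroup G} (hX : S ≤ 𝐍 X) (h1 : X ≤ L) (h2 : pCoreOf p X = ⊥) : A ≤ 𝐂 X :=
  commutator_eq_bot_iff'.1 (le_bot_iff.1 (h2 ▸ le_pCoreOf (commutator_le_left_of_norm (h.aS.trans hX))
    ((h.syl.pg.to_le h.aS).to_le (commutator_le_right_of_norm (h1.trans h.nA))) (norm_comm_left _ _)))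

omit [Finite G] hp in
theorem comm_Y : ⁅ncl U ⊤, A⁆ = ncl U ⊤ :=
  le_antisymm (commutator_le_left_of_norm (le_top.trans (norm_ncl _ _))) (ncl_le
    (h.comm.trans (commutator_mono (le_ncl _ _) le_rfl)) (h.gen.ge.trans (sup_le (norm_comm_left _ _)
      (norm_commutator (le_top.trans (norm_ncl _ _)) h.nA))))

theorem res_Y : pResidualOf p (ncl U ⊤) = ncl U ⊤ :=
  le_antisymm (res_le _ _) (ncl_le (h.res.ge.trans (res_mono (le_ncl _ _))) (norm_res_of_norm (norm_ncl _ _)))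

variable (hO : pCore p G = ⊥)
include hO

theorem d' {X : Subgroup G} (hX : ⊤ ≤ 𝐍 X) : (X ≤ L ∧ ncl U ⊤ ≤ 𝐂 X) ∨ ncl U ⊤ ≤ X :=
  (h.d (le_top.trans hX)).imp (fun e => ⟨e, h.comm_Y.ge.trans ((commutator_mono le_top (h.cent (le_top.trans hX) e
    (AmbFs.SN.pCoreOf_eq_bot (SN.of_norm le_top hX) ((pCoreOf_top p G).trans hO)))).trans
      (commutator_le_right_of_norm (norm_centralizer hX)))⟩) fun e => ncl_le e hX

theorem le_FS : ncl U ⊤ ≤ FS ⊤ := (h.d' hO (norm_FS le_normalizer)).elim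
  (fun e => (le_inf le_top e.2).trans ((inf_cent_FS_le ⊤).trans (FL_le_FS ⊤))) id

theorem EL_or : EL (ncl U ⊤) = ncl U ⊤ ∨ FL (ncl U ⊤) = ncl U ⊤ := by
  have n := norm_ncl U ⊤
  rcases h.d' hO (norm_EL n) with a | a
  · rcases h.d' hO (norm_FL n) with b | b
    · refine (h.nle ((le_ncl U ⊤).trans ((FS_eq_self_of_sn (SN.of_norm le_top n) (h.le_FS hO)).ge.trans ?_))).elim
      rw [FS_eq]; exact sup_le a.1 b.1
    · exact .inr (le_antisymm (FL_le _) b)
  · exact .inl (le_antisymm (EL_le _) a)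

theorem cop (hc : (Nat.card (ncl U ⊤)).Coprime p) : U = ncl U ⊤ ∧ ⁅ncl U ⊤, ncl U ⊤⁆ ≤ 𝐂 (ncl U ⊤) ∧
    ∃ t, t.Prime ∧ t ≠ p ∧ IsPGroup t (ncl U ⊤) := by
  have n := norm_ncl U ⊤
  have cY := h.comm_Y
  have uY := le_ncl U ⊤
  have dd := fun X => h.d' hO (X := X)
  generalize ncl U ⊤ = Y at *
  have sY := le_top.trans (a := S) n
  have c1 := coprime_card_of_isPGroup h.syl.pg hc
  have s1 := isSolvable_of_isPGroup h.syl.pg
  have ce : ∀ X, X ≤ Y → S ≤ 𝐍 X → ¬ U ≤ X → A ≤ 𝐂 X := fun X a b c => h.cent b ((h.d b).resolve_right c)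
    (eq_bot_of_not_dvd (isPGroup_pCoreOf p X) ((pCoreOf_le p X).trans a) ((Nat.Prime.coprime_iff_not_dvd hp.out).1 hc.symm))
  have u1 : U ≠ ⊥ := fun e => h.nle (e ▸ bot_le)
  obtain ⟨t, ht, T, hT, nT, t1⟩ : ∃ t, ∃ _ : Fact t.Prime, ∃ T, SylIn.IsSylowIn t T Y ∧ S ≤ 𝐍 T ∧ U ≤ T := by
    by_contra e
    push Not at e
    exact h.nle (uY.trans (Coprime2.le_of_forall_invariant_sylow sY c1.symm (.inl s1) fun t _ T _ a b =>
      (h.d b).resolve_right (e t inferInstance T a b)))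
  have yT : Y ≤ T := by
    refine cY.ge.trans ((Coprime.commutator_le_of_mul_centralizer fun k hk => ?_).trans
      (commutator_le_left_of_norm (h.aS.trans nT)))
    have c : ((𝐂 A).relIndex Y).Coprime (T.relIndex Y) := Nat.coprime_of_dvd fun r hr h1 h2 => by
      haveI := Fact.mk hr
      obtain ⟨R, hR, nR⟩ := Coprime2.exists_isSylowIn sY c1.symm (.inl s1) r
      refine hR.2.2 (h1.trans (relIndex_dvd_of_le_left _ (cent_symm (ce R hR.1 nR fun e => u1 ?_))))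
      exact disjoint_self.1 ((IsPGroup.disjoint_of_ne r t (fun e => hT.2.2 (e ▸ h2)) R T hR.2.1 hT.2.1).mono e t1)
    obtain ⟨a, ha, e⟩ := Coprime2.exists_inv_mul_mem_of_relIndex_le (C := 𝐂 A) hT.1 (Nat.le_of_dvd
      (Nat.pos_of_ne_zero (relIndex_ne_zero _ _)) (c.dvd_of_dvd_mul_right (by
        rw [← inf_relIndex_right (𝐂 A) T, relIndex_mul_relIndex _ _ _ inf_le_right hT.1]
        exact relIndex_dvd_of_le_left _ inf_le_left))) hk
    exact ⟨a, ha, _, e, by simp⟩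
  have tY := hT.2.1.to_le yT
  have tp : t ≠ p := fun e => u1 (eq_bot_of_not_dvd (e ▸ tY.to_le uY) uY
    ((Nat.Prime.coprime_iff_not_dvd hp.out).1 hc.symm))
  have d1 := der_le_Phi tY.isNilpotent
  obtain ⟨f1, f2⟩ := (dd _ (norm_Phi n)).resolve_right fun e => u1 (le_bot_iff.1 (uY.trans
    (eq_of_le_sup_Phi bot_le (e.trans le_sup_right)).ge))
  refine ⟨?_, d1.trans (cent_symm f2), t, ht.out, tp, tY⟩
  obtain ⟨W, w1, w2, w3, w4, w5⟩ := BG4.maschke_quo (A := S) ht.out (Phi_le Y) d1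
    (fun x hx => ⟨_, PGFrattini.pow_mem_frattini tY ⟨x, hx⟩, rfl⟩) sY (norm_Phi sY)
    ((BG.isPi_compl_iff_coprime ht.out).2 (coprime_card_of_isPGroup h.syl.pg
      ((Nat.coprime_primes ht.out hp.out).2 tp)).symm) uY h.sU
  have m := norm_of_between (d1.trans le_sup_right) (sup_le uY (Phi_le Y))
  refine eq_of_le_sup_Phi uY (cY.ge.trans ((commutator_mono w5.ge le_rfl).trans (comm_sup_le (uY.trans m) (w2.trans m)
    ((commutator_le_left_of_norm (h.aS.trans h.sU)).trans le_sup_left)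
    ((comm_eq_bot_of_le' (ce W w2 w3 fun e => h.nle (((le_inf le_rfl e).trans w4).trans f1))).le.trans bot_le))))

theorem trans (e : EL (ncl U ⊤) = ncl U ⊤) {K K' : Subgroup G} (hK : Cp K (ncl U ⊤)) (hK' : Cp K' (ncl U ⊤)) :
    ∃ s ∈ S, K' = cj s K := by
  have n := norm_ncl U ⊤
  have cY := h.comm_Y
  have nl := @ncl_le_cent _ _ U ⊤
  have uY := le_ncl U ⊤
  generalize ncl U ⊤ = Y at *
  have cj' : ∀ {K} s, Cp K Y → Cp (cj s K) Y := fun s hK => hK.map_conj_of_mem (n (mem_top s))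
  have k1 : ∀ {K}, Cp K Y → U ≤ ncl K S := fun {K} hK => (h.d (norm_ncl K S)).resolve_left fun e' => by
    have c := (h.cent (norm_ncl K S) e' (AmbFs.SN.pCoreOf_eq_bot ((SN.of_norm le_top n).trans
      (sn_iSup fun s => sn_of_S (cj' _ hK).sn)) ((pCoreOf_top p G).trans hO))).trans (centralizer_anti (le_ncl K S))
    have c2 : ⁅⁅Y, A⁆, K⁆ ≤ ⊥ := three_subgroups norm_of_normal norm_of_normal norm_of_normal
      (by rw [comm_eq_bot_of_le c, commutator_bot_left]) ((commutator_mono (commutator_le_left_of_norm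
        (e.ge.trans hK.map_layer_le_normalizer)) le_rfl).trans (comm_eq_bot_of_le' c).le)
    rw [cY] at c2
    exact hK.ne_bot (le_bot_iff.1 (hK.perfect.ge.trans ((commutator_mono hK.le le_rfl).trans c2)))
  have k2 : ∀ {K K'}, Cp K Y → Cp K' Y → (∀ s ∈ S, K' ≠ cj s K) → K' ≤ 𝐂 U := fun hK hK' e =>
    (cent_symm (ncl_le_iff.2 fun s hs => (cj' s hK).le_centralizer_of_ne hK' (e s hs).symm)).trans
      (centralizer_anti (k1 hK))
  by_contra ne
  push Not at ne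
  have c : Y ≤ 𝐂 U := e.ge.trans (EL_le_iff.2 fun J hJ => by
    by_contra e'
    have a := mt (k2 hK hJ) e'
    have b := mt (k2 hK' hJ) e'
    push Not at a b
    obtain ⟨s, hs, rfl⟩ := a
    obtain ⟨r, hr, b⟩ := b
    exact ne _ (mul_mem (inv_mem hr) hs) (by rw [← cj_cj, b, cj_inv_cj]))
  exact hK.ne_bot (le_bot_iff.1 (hK.perfect.ge.trans ((commutator_mono hK.le hK.le).trans
    (comm_eq_bot_of_le (nl n (cent_symm c))).le)))

theorem dvd (hc : p ∣ Nat.card (ncl U ⊤)) : EL (ncl U ⊤) = ncl U ⊤ := (h.EL_or hO).resolve_right fun e =>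
  (Nat.Prime.coprime_iff_not_dvd hp.out).1 (coprime_FL (AmbFs.SN.pCoreOf_eq_bot (SN.of_norm le_top (norm_ncl U ⊤))
    ((pCoreOf_top p G).trans hO))).symm (by rwa [e])

omit hO

theorem quo : Iso p (S.map (QuotientGroup.mk' (pCore p G))) (L.map (QuotientGroup.mk' (pCore p G)))
    (A.map (QuotientGroup.mk' (pCore p G))) (U.map (QuotientGroup.mk' (pCore p G))) ∧
    ncl (U.map (QuotientGroup.mk' (pCore p G))) ⊤ = (ncl U ⊤).map (QuotientGroup.mk' (pCore p G)) :=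
  ⟨h.map (QuotientGroup.mk'_surjective _) ((QuotientGroup.ker_mk' _).le.trans
    ((pCoreOf_top p G).ge.trans (pCoreOf_le_syl h.syl))), by
      rw [map_ncl, map_top_of_surjective _ (QuotientGroup.mk'_surjective _)]⟩

theorem eq_of (e : U.map (QuotientGroup.mk' (pCore p G)) = (ncl U ⊤).map (QuotientGroup.mk' (pCore p G))) :
    U = ncl U ⊤ := by
  have := (Subgroup.map_le_map_iff.1 e.ge).trans (sup_comm _ _).le
  rw [QuotientGroup.ker_mk'] at this
  exact le_antisymm (le_ncl _ _) (h.res_Y.ge.trans (res_le_of_le_sup (isPGroup_pCore p G)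
    (((pCoreOf_top p G).ge.trans (pCoreOf_le_syl h.syl)).trans h.sU) this))

end Iso

omit [Finite G] hp in
theorem ker_eq {Y : Subgroup G} (n : ⊤ ≤ 𝐍 Y) : pCore p Y = (QuotientGroup.mk' (pCore p G)).ker.subgroupOf Y := by
  rw [QuotientGroup.ker_mk', ← subgroupOf_pCoreOf, pCoreOf_eq_inf_of_norm le_top n, pCoreOf_top, inf_subgroupOf_left]

end CA.H6Iso
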