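import Cfsg.Agent.Lib.Loc.H6DS
import Cfsg.Agent.Lib.Loc.H6Fin
import Cfsg.Agent.Lib.Grp.L0K4

/-!
Action of abelian subgroups of maximal order on abelian normal subgroups: cubic action on
chief factors.
-/

set_option autoImplicit false

namespace CA.H6JT

open Subgroup Cfsg CA.Amb CA.AmbSyl CA.AmbCore CA.AmbRes CA.H6Off
open CA.H6J hiding Z
open scoped commutatorElement

universe u

variable {G : Type*} [Group G] {p : ℕ} {S P V A B : Subgroup G}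

theorem mem_cent_cl (hA : IsMulCommutative A) {x c : G}
    (hM : IsMulCommutative (closure {g : G | ∃ a ∈ A, g = ⁅x, a⁆})) (hc : c ∈ A)
    (h : ⁅x, c⁆ ∈ 𝐂 A) : c ∈ 𝐂 (closure {g : G | ∃ a ∈ A, g = ⁅x, a⁆}) := by
  refine cent_symm (K := zpowers c) ?_ (mem_zpowers c)
  rw [closure_le, centralizer_zpowers]
  rintro _ ⟨d, hd, rfl⟩
  rw [SetLike.mem_coe, mem_centralizer_singleton_iff]
  have k1 := H6Basic.comm_of_isMulCommutative hA hc hd
  have k2 := h d hd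
  have k3 := H6Basic.comm_of_isMulCommutative hM (subset_closure ⟨c, hc, rfl⟩)
    (subset_closure ⟨d, hd, rfl⟩)
  have k4 : ⁅x, c⁆ * (c * ⁅x, d⁆ * c⁻¹) = ⁅x, c⁆ * ⁅x, d⁆ :=
    calc _ = ⁅x, c * d⁆ := by simp only [commutatorElement_def]; group
      _ = ⁅x, d⁆ * (d * ⁅x, c⁆) * d⁻¹ := by rw [k1]; simp only [commutatorElement_def]; group
      _ = _ := by rw [k2, k3]; group
  exact (mul_inv_eq_iff_eq_mul.1 (mul_left_cancel k4)).symm

theorem cl_le {x : G} {U : Subgroup G} (h : x ∈ U) :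
    closure {g : G | ∃ a ∈ A, g = ⁅x, a⁆} ≤ ⁅U, A⁆ := by
  rw [closure_le]; rintro _ ⟨d, hd, rfl⟩; exact commutator_mem_commutator h hd

theorem comm_swap (hV : IsMulCommutative V) {a b v : G} (ha : a ∈ 𝐍 V) (hb : b ∈ 𝐍 V)
    (hab : a * b = b * a) (hv : v ∈ V) : ⁅⁅v, a⁆, b⁆ = ⁅⁅v, b⁆, a⁆ := by
  have h1 := conj_mem_of_mem_normalizer ha (inv_mem hv)
  have h2 := conj_mem_of_mem_normalizer hb (inv_mem hv)
  have h3 := conj_mem_of_mem_normalizer (mul_mem ha hb) hv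
  have c := @H6Basic.comm_of_isMulCommutative _ _ _ hV
  calc _ = v * ((a * v⁻¹ * a⁻¹) * (b * a * v * (b * a)⁻¹) * (b * v⁻¹ * b⁻¹)) := by
        simp only [commutatorElement_def]; group
    _ = v * ((b * v⁻¹ * b⁻¹) * (a * b * v * (a * b)⁻¹) * (a * v⁻¹ * a⁻¹)) := by
        rw [← hab, c (mul_mem h1 h3) h2, c h1 h3, mul_assoc (b * v⁻¹ * b⁻¹)]
    _ = _ := by simp only [commutatorElement_def]; group

theorem comm_mul_cent {v c a : G} (h : a * c = c * a) : ⁅v * c, a⁆ = ⁅v, a⁆ := by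
  simp only [commutatorElement_def, mul_assoc v c a, ← h]; group

theorem comm_step {Y E W : Subgroup G} (hA : IsMulCommutative A) (hE : E ≤ A)
    (hY : Y ≤ 𝐂 ⁅W, A⁆) (h : ⁅Y, E⁆ ≤ W) : ⁅⁅Y, A⁆, E⁆ ≤ ⁅W, A⁆ :=
  three_subgroups (norm_of_centralizer hY) (norm_comm_right W A) (hE.trans (norm_comm_right W A))
    (by rw [comm_eq_bot_of_le' (hE.trans (isAb_zero_iff.2 hA).le_centralizer), commutator_bot_left]
        exact bot_le)
    (commutator_mono ((commutator_comm _ _).le.trans h) le_rfl)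

variable [Finite G]

theorem fm_le (hV : IsMulCommutative V) (hVS : V ≤ S) (hA : A ∈ mx 0 S) (hB : B ≤ A) :
    fm V B ≤ fm V A ∧ (fm V A ≤ fm V B → B ⊔ V ⊓ 𝐂 B ∈ mx 0 S) := by
  have h1 := card_sup_mul_card_inf (norm_of_centralizer (cent_symm inf_le_right) : B ≤ 𝐍 (V ⊓ 𝐂 B))
  have h2 : Nat.card ↥(B ⊓ (V ⊓ 𝐂 B)) ≤ Nat.card ↥(V ⊓ 𝐂 A) := card_le_of_le (le_inf
    (inf_le_right.trans inf_le_left) (inf_le_left.trans (hB.trans hA.2.1.le_centralizer)))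
  have h3 := sup_le (hB.trans hA.1) (inf_le_left.trans hVS : V ⊓ 𝐂 B ≤ S)
  have h4 := (hA.2.1.of_le hB).sup ((isAb_zero_iff.2 hV).of_le (inf_le_left : V ⊓ 𝐂 B ≤ V))
    (cent_symm inf_le_right)
  rw [fm, fm, ← h1]
  exact ⟨Nat.mul_le_mul (hA.2.2 _ h3 h4) h2, fun h => mem_mx_of_card_le hA h3 h4
    (Nat.le_of_mul_le_mul_right (h.trans (Nat.mul_le_mul_left _ h2)) Nat.card_pos)⟩

theorem surj (hV : IsMulCommutative V) (hA : IsMulCommutative A) (hAV : A ≤ 𝐍 V)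
    (hmax : ∀ B, B ≤ A → fm V B ≤ fm V A) {u : G} (hu : u ∈ V)
    (hB : B = A ⊓ 𝐂 (closure {g : G | ∃ a ∈ A, g = ⁅u, a⁆})) :
    fm V B = fm V A ∧ ∀ t ∈ V ⊓ 𝐂 B, ∃ a ∈ A, ⁅u, a⁆⁻¹ * t ∈ V ⊓ 𝐂 A := by
  have hBA : B ≤ A := hB ▸ inf_le_left
  have hM := (cl_le hu).trans (commutator_le_left_of_norm hAV)
  have hm : ∀ a ∈ A, ⁅u, a⁆ ∈ V ⊓ 𝐂 B := fun a ha =>
    le_inf hM (cent_symm (hB ▸ inf_le_right)) (subset_closure ⟨a, ha, rfl⟩)
  have hle : V ⊓ 𝐂 A ≤ V ⊓ 𝐂 B := inf_le_inf_left _ (centralizer_anti hBA)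
  let φ : (A ⧸ B.subgroupOf A) → (↥(V ⊓ 𝐂 B) ⧸ (V ⊓ 𝐂 A).subgroupOf (V ⊓ 𝐂 B)) := fun q =>
    QuotientGroup.mk ⟨⁅u, (q.out : G)⁆, hm _ q.out.2⟩
  have hi : Function.Injective φ := fun q r e => by
    rw [← q.out_eq, ← r.out_eq]
    refine QuotientGroup.eq.2 ?_
    have h1 := QuotientGroup.eq.1 e
    rw [mem_subgroupOf] at h1 ⊢
    generalize q.out = a at *
    generalize r.out = b at *
    obtain ⟨a, ha⟩ := a
    obtain ⟨b, hb⟩ := b
    simp only [coe_mul, coe_inv] at h1 ⊢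
    have hc := mul_mem (inv_mem ha) hb
    rw [show ⁅u, a⁆⁻¹ * ⁅u, b⁆ = a * ⁅u, a⁻¹ * b⁆ * a⁻¹ by
      simp only [commutatorElement_def]; group] at h1
    rw [hB]
    refine ⟨hc, mem_cent_cl hA (H6Basic.isMulCommutative_of_le hV hM) hc ?_⟩
    simpa [mul_assoc] using inv_conj_mem_of_mem_normalizer (norm_centralizer le_normalizer ha) h1.2
  have e1 : fm V A = Nat.card B * Nat.card ↥(V ⊓ 𝐂 A) * B.relIndex A := by
    rw [fm, ← card_mul_relIndex hBA]; ring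
  have e2 : fm V B = Nat.card B * Nat.card ↥(V ⊓ 𝐂 A) * (V ⊓ 𝐂 A).relIndex (V ⊓ 𝐂 B) := by
    rw [fm, ← card_mul_relIndex hle]; ring
  have h2 := hmax B hBA
  refine ⟨le_antisymm h2 ?_, fun t ht => ?_⟩
  · rw [e1, e2]; exact Nat.mul_le_mul_left _ (Nat.card_le_card_of_injective φ hi)
  · rw [e1, e2] at h2
    obtain ⟨q, hq⟩ := (hi.bijective_of_nat_card_le (Nat.le_of_mul_le_mul_left h2
      (Nat.mul_pos Nat.card_pos Nat.card_pos))).2 (QuotientGroup.mk ⟨t, ht⟩)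
    exact ⟨_, q.out.2, mem_subgroupOf.1 (QuotientGroup.eq.1 hq)⟩

variable [hp : Fact p.Prime]

section cubic
variable (hS : IsPGroup p S) (hV : IsMulCommutative V) (hVS : V ≤ S) (hA : A ∈ mx 0 S)
  (hAV : A ≤ 𝐍 V) (dich : ∀ B, B ≤ A → fm V B = fm V A → B = A ∨ B ≤ P)
include hS hV hVS hA hAV dich

theorem quad_of {E : Subgroup G} (hE : E ≤ A ⊓ P)
    (h : ∀ B, E ≤ B → B ≤ A ⊓ P → fm V B = fm V A → B ≤ E) : ⁅⁅V ⊓ 𝐂 E, A⁆, A⁆ = ⊥ := by
  have hEA := hE.trans inf_le_left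
  have hn : A ≤ 𝐍 (V ⊓ 𝐂 E) := norm_inf hAV (norm_centralizer (norm_of_centralizer
    (hA.2.1.le_centralizer.trans (centralizer_anti hEA))))
  have hc := commutator_le_left_of_norm hn
  obtain ⟨h1, h2⟩ := timmesfeld hV hAV (by rw [comm_eq_bot_of_le hA.2.1.le_centralizer]; exact bot_le)
    (fun B hB => (fm_le hV hVS hA hB).1) (inf_le_left : V ⊓ 𝐂 E ≤ V)
  rcases dich _ inf_le_left h1 with h3 | h3
  · exact comm_eq_bot_of_le' (h3.ge.trans inf_le_right)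
  · have h4 := le_inf hEA (cent_symm (hc.trans inf_le_right))
    rw [le_antisymm (h _ h4 (le_inf inf_le_left h3) h1) h4] at h2
    have h5 : ⁅V ⊓ 𝐂 E, A⁆ = ⊥ := eq_bot_of_le_commutator (hS.to_le hA.1)
      (hS.to_le (hc.trans (inf_le_left.trans hVS))) (norm_comm_right _ _)
      ((commutator_mono h2.le le_rfl).trans (comm_sup_le (norm_comm_left _ _) (norm_of_centralizer
        (inf_le_left.trans ((isAb_zero_iff.2 hV).le_centralizer.trans (centralizer_anti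
        ((commutator_le_left_of_norm (norm_comm_right _ _)).trans (hc.trans inf_le_left)))))) le_rfl
        ((comm_eq_bot_of_le inf_le_right).le.trans bot_le)))
    rw [h5, commutator_bot_left]

theorem cubic {x a b : G} (hx : x ∈ V) (ha : a ∈ A) (hb : b ∈ A) :
    ∃ d ∈ A ⊓ P, ⁅x, d⁆⁻¹ * ⁅⁅x, a⁆, b⁆ ∈ V ⊓ 𝐂 A := by
  have hmax := fun B hB => (fm_le hV hVS hA (B := B) hB).1
  obtain ⟨h1, h2⟩ := surj hV hA.2.1.1 hAV hmax hx rfl
  have hm : ⁅x, a⁆ ∈ closure {g : G | ∃ a ∈ A, g = ⁅x, a⁆} := subset_closure ⟨a, ha, rfl⟩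
  rcases dich _ inf_le_left h1 with h3 | h3
  · refine ⟨1, one_mem _, ?_⟩
    rw [commutatorElement_eq_one_iff_mul_comm.2 ((h3.ge hb).2 _ hm)]
    simp
  set B := A ⊓ 𝐂 (closure {g : G | ∃ a ∈ A, g = ⁅x, a⁆}) with hB
  obtain ⟨E, ⟨e1, e2, e3⟩, hE⟩ := Set.exists_max_image
    {E : Subgroup G | B ≤ E ∧ E ≤ A ⊓ P ∧ fm V E = fm V A} (fun E => Nat.card E) (Set.toFinite _)
    ⟨B, le_rfl, le_inf inf_le_left h3, h1⟩
  have h4 := quad_of hS hV hVS hA hAV dich e2 fun C c1 c2 c3 =>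
    (H6Basic.eq_of_le_of_card_le c1 (hE C ⟨e1.trans c1, c2, c3⟩)).ge
  have h5 : E = A ⊓ 𝐂 (V ⊓ 𝐂 E) := by
    have k := le_inf (e2.trans inf_le_left) (cent_symm (inf_le_right : V ⊓ 𝐂 E ≤ _))
    refine H6Basic.eq_of_le_of_card_le k (Nat.le_of_mul_le_mul_right (le_trans ?_
      ((hmax (A ⊓ 𝐂 (V ⊓ 𝐂 E)) inf_le_left).trans e3.ge)) (Nat.card_pos (α := ↥(V ⊓ 𝐂 E))))
    exact Nat.mul_le_mul_left _ (card_le_of_le (le_inf inf_le_left (cent_symm inf_le_right)))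
  have hn : A ≤ 𝐍 (V ⊓ 𝐂 B) := norm_inf hAV (norm_centralizer (norm_of_centralizer
    (hA.2.1.le_centralizer.trans (centralizer_anti inf_le_left))))
  obtain ⟨d, hd, h6⟩ := h2 _ (comm_mem_left ⟨comm_mem_left hx (hAV ha),
    cent_symm inf_le_right hm⟩ (hn hb))
  refine ⟨d, e2 (h5.ge ⟨hd, fun t ht => ?_⟩), h6⟩
  obtain ⟨e, he, h7⟩ := h2 t (inf_le_inf_left _ (centralizer_anti e1) ht)
  have k : ∀ {v w c : G}, v⁻¹ * w ∈ V ⊓ 𝐂 A → c ∈ A → ⁅w, c⁆ = ⁅v, c⁆ := fun {v w c} h hc => by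
    rw [← comm_mul_cent (v := v) (h.2 c hc), mul_inv_cancel_left]
  have sw : ∀ {v c c' : G}, v ∈ V → c ∈ A → c' ∈ A → ⁅⁅v, c⁆, c'⁆ = ⁅⁅v, c'⁆, c⁆ :=
    fun hv hc hc' => comm_swap hV (hAV hc) (hAV hc') (hA.2.1.comm hc hc') hv
  rw [← commutatorElement_eq_one_iff_mul_comm, k h7 hd, sw hx he hd, ← k h6 he,
    sw (comm_mem_left hx (hAV ha)) hb he, sw hx ha he, ← k h7 ha]
  exact h4.le (commutator_mem_commutator (commutator_mem_commutator ht ha) hb)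

theorem cubic_sub {U W : Subgroup G} (hU : U ≤ V) (hW : W ≤ V) (hn : A ≤ 𝐍 W) (h : ⁅U, P⁆ ≤ W) :
    ⁅⁅⁅U, A⁆, A⁆, A⁆ ≤ W := by
  have hc := (isAb_zero_iff.2 hV).le_centralizer
  have h1 : ⁅⁅U, A⁆, A⁆ ≤ W ⊔ V ⊓ 𝐂 A := by
    rw [commutator_def U A]
    refine comm_closure_le ?_ ?_
    · rintro _ ⟨x, hx, a, ha, rfl⟩
      exact norm_of_centralizer (hc.trans (centralizer_anti (sup_le hW inf_le_left)))
        (comm_mem_left (hU hx) (hAV ha))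
    · rintro _ ⟨x, hx, a, ha, rfl⟩ b hb
      obtain ⟨d, hd, h2⟩ := cubic hS hV hVS hA hAV dich (hU hx) ha hb
      have := mul_mem (mem_sup_left (h (commutator_mem_commutator hx hd.2))) (mem_sup_right h2)
      rwa [mul_inv_cancel_left] at this
  exact (commutator_mono h1 le_rfl).trans (comm_sup_le le_normalizer (norm_of_centralizer
    (inf_le_left.trans (hc.trans (centralizer_anti hW)))) (commutator_le_left_of_norm hn)
    ((comm_eq_bot_of_le inf_le_right).le.trans bot_le))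

end cubic

section two
variable {Q Z : Subgroup G}

omit [Finite G] hp in
theorem iter_norm (hAQ : A ≤ 𝐍 Q) : ∀ i, A ≤ 𝐍 (iterCommutator Q A i)
  | 0 => hAQ
  | _ + 1 => norm_comm_right _ _

omit [Finite G] hp in
theorem iter_anti (hAQ : A ≤ 𝐍 Q) : Antitone (iterCommutator Q A) :=
  antitone_nat_of_succ_le fun i => commutator_le_left_of_norm (iter_norm hAQ i)

theorem exists_iter (hS : IsPGroup p S) (hA : A ≤ S) (hQ : Q ≤ S) (hAQ : A ≤ 𝐍 Q) :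
    ∃ n, iterCommutator Q A n = ⊥ := by
  obtain ⟨n, h⟩ : ∃ n, ∀ m, Nat.card (iterCommutator Q A n) ≤ Nat.card (iterCommutator Q A m) :=
    ⟨_, fun m => Function.argmin_le (fun n => Nat.card (iterCommutator Q A n)) m⟩
  exact ⟨n, eq_bot_of_le_commutator (hS.to_le hA) (hS.to_le ((iter_anti hAQ (Nat.zero_le n)).trans hQ))
    (iter_norm hAQ n) (H6Basic.eq_of_le_of_card_le (iter_anti hAQ (Nat.le_succ n)) (h (n + 1))).ge⟩

omit [Finite G] hp in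
theorem four_le (hZ : IsMulCommutative Z) (hAZ : A ≤ 𝐍 Z) (hA : IsMulCommutative A)
    (hAQ : A ≤ 𝐍 Q) (hQZ : Q ≤ 𝐂 Z) (hQP : ⁅Q, P⁆ ≤ Z) (hB : A ⊓ 𝐂 ⁅Z, A⁆ ≤ P)
    (hq : ⁅⁅Z ⊓ 𝐂 (A ⊓ P), A⁆, A⁆ = ⊥) : iterCommutator Q A 3 ≤ 𝐂 (A ⊓ 𝐂 ⁅Z, A⁆) := by
  have hc := (isAb_zero_iff.2 hA).le_centralizer
  have hR : ∀ i, iterCommutator Q A i ≤ 𝐂 Z := fun i => (iter_anti hAQ (Nat.zero_le i)).trans hQZ
  have hZA := commutator_le_left_of_norm hAZ
  have h1 : ⁅⁅Q, A⁆, A ⊓ P⁆ ≤ ⁅Z, A⁆ := comm_step hA inf_le_left (hQZ.trans (centralizer_anti hZA))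
    ((commutator_mono le_rfl inf_le_right).trans hQP)
  have h2 : ⁅⁅Q, A⁆, A ⊓ 𝐂 ⁅Z, A⁆⁆ ≤ Z ⊓ 𝐂 (A ⊓ P) := by
    refine le_inf ((commutator_mono (commutator_le_left_of_norm hAQ) hB).trans hQP)
      (cent_symm (commutator_eq_bot_iff'.1 (eq_bot_iff.2 (three_subgroups norm_of_normal
        norm_of_normal norm_of_normal ?_ ?_))))
    · rw [comm_eq_bot_of_le (inf_le_left.trans (hc.trans (centralizer_anti inf_le_left))),
        commutator_bot_left]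
    · exact (comm_eq_bot_of_le' (inf_le_right.trans (centralizer_anti
        ((commutator_comm _ _).le.trans h1)))).le
  have hn : A ≤ 𝐍 (Z ⊓ 𝐂 (A ⊓ P)) := norm_inf hAZ (norm_centralizer (norm_of_centralizer
    (hc.trans (centralizer_anti inf_le_left))))
  have h3 := (commutator_le_left_of_norm hn).trans inf_le_left
  have h4 := comm_step hA inf_le_left ((hR 1).trans (centralizer_anti h3)) h2
  have h5 := comm_step hA inf_le_left ((hR 2).trans (centralizer_anti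
    ((commutator_le_left_of_norm (norm_comm_right _ _)).trans h3))) h4
  exact cent_symm (commutator_eq_bot_iff'.1 (eq_bot_iff.2 (h5.trans hq.le)))

section quad
variable (hAZ : A ≤ 𝐍 Z) (hAQ : A ≤ 𝐍 Q) (hQZ : Q ≤ 𝐂 Z) (hQQ : ⁅Q, Q⁆ ≤ Z)
  (hq : ⁅⁅Z, A⁆, A⁆ = ⊥)
include hAZ hAQ hQZ hQQ hq

omit [Finite G] hp in
theorem cc1 {n : ℕ} (hn : iterCommutator Q A n ≤ Z) (j : ℕ) : ∀ k, j + k = n →
    ⁅iterCommutator Q A j, iterCommutator Q A k⁆ ≤ Z ⊓ 𝐂 A := by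
  have hR : ∀ i, iterCommutator Q A i ≤ Q := fun i => iter_anti hAQ (Nat.zero_le i)
  have hN : ∀ i, iterCommutator Q A i ≤ 𝐍 (Z ⊓ 𝐂 A) := fun i =>
    norm_of_centralizer ((hR i).trans (hQZ.trans (centralizer_anti inf_le_left)))
  induction j with
  | zero =>
    intro k hk
    exact (comm_eq_bot_of_le (hQZ.trans (centralizer_anti ((iter_anti hAQ (by omega)).trans
      hn)))).le.trans bot_le
  | succ j ih =>
    intro k hk
    refine three_subgroups (hN j) (norm_inf hAZ (norm_centralizer le_normalizer)) (hN k) ?_ ?_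
    · rw [commutator_comm A, commutator_comm]; exact ih (k + 1) (by omega)
    · exact (commutator_mono ((commutator_mono (hR k) (hR j)).trans hQQ) le_rfl).trans
        (le_inf (commutator_le_left_of_norm hAZ) (cent_symm (commutator_eq_bot_iff'.1 hq)))

omit [Finite G] hp in
theorem cc0 {n : ℕ} (hn : iterCommutator Q A n ≤ Z) (j : ℕ) : ∀ k, j + k = n + 1 →
    ⁅iterCommutator Q A j, iterCommutator Q A k⁆ = ⊥ := by
  induction j with
  | zero =>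
    intro k hk
    exact comm_eq_bot_of_le (hQZ.trans (centralizer_anti ((iter_anti hAQ (by omega)).trans hn)))
  | succ j ih =>
    intro k hk
    refine eq_bot_iff.2 (three_subgroups norm_of_normal norm_of_normal norm_of_normal ?_ ?_)
    · rw [commutator_comm A, commutator_comm]; exact (ih (k + 1) (by omega)).le
    · exact (comm_eq_bot_of_le ((cc1 hAZ hAQ hQZ hQQ hq hn k j (by omega)).trans inf_le_right)).le

omit [Finite G] in
theorem anti (hp2 : p ≠ 2) (hZ : IsPGroup p Z) (hZQ : Z ≤ Q) (hA : IsMulCommutative A)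
    (hn : iterCommutator Q A 5 ≤ Z) {x a b c : G} (hx : x ∈ Q) (ha : a ∈ A) (hb : b ∈ A)
    (hc : c ∈ A) : ⁅⁅b, ⁅c, x⁆⁆, ⁅a, ⁅b, ⁅c, x⁆⁆⁆⁆ = 1 := by
  have hR : ∀ {i u}, u ∈ iterCommutator Q A i → u ∈ Q := fun h => iter_anti hAQ (Nat.zero_le _) h
  have hN : ∀ {i u a}, u ∈ iterCommutator Q A i → a ∈ A → ⁅a, u⁆ ∈ iterCommutator Q A (i + 1) :=
    fun h ha => (commutator_comm _ _).le (commutator_mem_commutator ha h)
  have hw : ∀ {u v}, u ∈ Q → v ∈ Q → ⁅u, v⁆ ∈ Z := fun h h' => hQQ (commutator_mem_commutator h h')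
  have cz : ∀ {u z}, u ∈ Q → z ∈ Z → z * u = u * z := fun h h' => hQZ h _ h'
  have ml : ∀ {u u' v}, u ∈ Q → u' ∈ Q → v ∈ Q → ⁅u * u', v⁆ = ⁅u', v⁆ * ⁅u, v⁆ :=
    fun h h' hv => by rw [commutatorElement_mul_left_eq_conj_mul, ← cz h (hw h' hv),
      mul_inv_cancel_right]
  have mr : ∀ {u v v'}, u ∈ Q → v ∈ Q → v' ∈ Q → ⁅u, v * v'⁆ = ⁅u, v⁆ * ⁅u, v'⁆ :=
    fun h hv hv' => by rw [commutatorElement_mul_right_eq_mul_conj, mul_assoc, mul_assoc,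
      ← mul_assoc _ ⁅_, _⁆, ← cz hv (hw h hv'), mul_inv_cancel_right]
  have z1 : ∀ {u z}, u ∈ Q → z ∈ Z → ⁅u, z⁆ = 1 := fun h h' =>
    commutatorElement_eq_one_iff_mul_comm.2 (cz h h').symm
  have id1 : ∀ {u v a}, u ∈ Q → v ∈ Q → a ∈ A →
      ⁅a, ⁅u, v⁆⁆ = ⁅u, ⁅a, v⁆⁆ * ⁅⁅a, u⁆, ⁅a, v⁆⁆ * ⁅⁅a, u⁆, v⁆ := fun {u v a} hu hv ha => by
    have h1 := comm_mem_right hu (hAQ ha)
    have h2 := comm_mem_right hv (hAQ ha)
    have : a * ⁅u, v⁆ * a⁻¹ = ⁅⁅a, u⁆ * u, ⁅a, v⁆ * v⁆ := by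
      simp only [commutatorElement_def]; group
    rw [commutatorElement_def a, this, mr (mul_mem h1 hu) h2 hv, ml h1 hu h2, ml h1 hu hv,
      cz (hZQ (hw h1 hv)) (hw hu hv), ← mul_assoc, mul_inv_cancel_right]
  have hom : ∀ {e z z'}, e ∈ A → z ∈ Z → z' ∈ Z → ⁅e, z * z'⁆ = ⁅e, z⁆ * ⁅e, z'⁆ :=
    fun he hz hz' => by rw [commutatorElement_mul_right_eq_mul_conj, mul_assoc, mul_assoc,
      ← mul_assoc _ ⁅_, _⁆, ← cz (hZQ hz) (comm_mem_right hz' (hAZ he)), mul_inv_cancel_right]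
  have fix : ∀ {e z}, e ∈ A → z ∈ 𝐂 A → ⁅e, z⁆ = 1 := fun he hz =>
    commutatorElement_eq_one_iff_mul_comm.2 (hz _ he)
  have mv : ∀ {e a u v j k}, e ∈ A → a ∈ A → u ∈ iterCommutator Q A j → v ∈ iterCommutator Q A k →
      j + k = 3 → ⁅e, ⁅u, ⁅a, v⁆⁆⁆ * ⁅e, ⁅⁅a, u⁆, v⁆⁆ = 1 := fun {e a u v j k} he ha hu hv h => by
    have h1 := hR (hN hu ha)
    have h2 := hR (hN hv ha)
    have := congrArg (fun z => ⁅e, z⁆) (id1 (hR hu) (hR hv) ha)
    rw [hom he (mul_mem (hw (hR hu) h2) (hw h1 h2)) (hw h1 (hR hv)), hom he (hw (hR hu) h2) (hw h1 h2),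
      fix he (cc1 hAZ hAQ hQZ hQQ hq hn (j + 1) (k + 1) (by omega)
        (commutator_mem_commutator (hN hu ha) (hN hv ha))).2, mul_one,
      fix he (cent_symm (commutator_eq_bot_iff'.1 hq) ((commutator_comm _ _).le
        (commutator_mem_commutator ha (hw (hR hu) (hR hv)))))] at this
    exact this.symm
  have sw : ∀ {a b u}, a ∈ A → b ∈ A → u ∈ Q → ∃ z ∈ Z, ⁅a, ⁅b, u⁆⁆ = ⁅b, ⁅a, u⁆⁆ * z :=
    fun {a b u} ha hb hu => by
    have h1 := conj_mem_of_mem_normalizer (hAQ ha) (inv_mem hu)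
    have h2 := conj_mem_of_mem_normalizer (hAQ hb) (inv_mem hu)
    refine ⟨_, mul_mem (hw (inv_mem h1) (inv_mem (mul_mem h2 hu))) (hw (inv_mem hu) (inv_mem h2)), ?_⟩
    calc _ = a * b * u * (a * b)⁻¹ * (a * u⁻¹ * a⁻¹) * u * (b * u⁻¹ * b⁻¹) := by
          simp only [commutatorElement_def]; group
      _ = _ := by
          rw [H6Basic.comm_of_isMulCommutative hA ha hb]; simp only [commutatorElement_def]; group
  have T0 : ∀ {e a b y}, e ∈ A → a ∈ A → b ∈ A → y ∈ iterCommutator Q A 1 →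
      ⁅e, ⁅y, ⁅a, ⁅b, y⁆⁆⁆⁆ = 1 := fun {e a b y} he ha hb hy => by
    have h1 := mv he ha hy (hN hy hb) rfl
    have h2 := mv he hb (hN hy ha) hy rfl
    obtain ⟨z, hz, h3⟩ := sw hb ha (hR hy)
    have h4 := hR (hN (hN hy hb) ha)
    have h5 := hw (hR hy) h4
    rw [h3, ml h4 (hZQ hz) (hR hy), ← commutatorElement_inv _ z, z1 (hR hy) hz, inv_one, one_mul,
      ← eq_inv_iff_mul_eq_one] at h2
    have h6 := hom he h5 (inv_mem h5)
    rw [mul_inv_cancel, commutatorElement_one_right, commutatorElement_inv] at h6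
    rw [h2, ← eq_inv_iff_mul_eq_one, inv_inv] at h1
    rw [← h1, ← pow_two] at h6
    obtain ⟨k, hk⟩ := isPGroup_iff_mem.1 hZ _ (comm_mem_right h5 (hAZ he))
    exact orderOf_eq_one_iff.1 (Nat.eq_one_of_dvd_coprimes (((Nat.coprime_primes Nat.prime_two
      hp.out).2 hp2.symm).pow_right k) (orderOf_dvd_of_pow_eq_one h6.symm)
      (orderOf_dvd_of_pow_eq_one hk))
  have hx0 : x ∈ iterCommutator Q A 0 := hx
  have hy := hN hx0 hc
  have hv := hN (hN hy hb) ha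
  have h1 := id1 (hR hy) (hR hv) hb
  have h2 := id1 hx (hR (hN hv hb)) hc
  have h3 := mv hc hb hx0 hv rfl
  obtain ⟨z, hz, h4⟩ := sw hb hc hx
  have h5 := hR (hN (hN hx0 hb) hc)
  have h6 : ⁅⁅b, x⁆, ⁅a, ⁅b, ⁅c, x⁆⁆⁆⁆ = ⁅⁅b, x⁆, ⁅a, ⁅c, ⁅b, x⁆⁆⁆⁆ := by
    have k1 := comm_mem_right hz (hAZ ha)
    have k2 := comm_mem_right h5 (hAQ ha)
    rw [h4, commutatorElement_mul_right_eq_mul_conj a, mul_assoc _ _ ⁅a, z⁆, ← cz h5 k1, mul_assoc,
      mul_inv_cancel_right, mr (hR (hN hx0 hb)) k2 (hZQ k1), z1 (hR (hN hx0 hb)) k1, mul_one]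
  rw [h6, T0 hc ha hc (hN hx0 hb), mul_one] at h3
  rw [h3, z1 hx (hn (hN (hN hv hb) hc)), z1 (hR hy) (hn (hN (hN hv hb) hc)), one_mul, one_mul] at h2
  have h7 : ⁅⁅b, ⁅c, x⁆⁆, ⁅b, ⁅a, ⁅b, ⁅c, x⁆⁆⁆⁆⁆ = 1 :=
    (cc0 hAZ hAQ hQZ hQQ hq hn 2 4 rfl).le (commutator_mem_commutator (hN hy hb) (hN hv hb))
  rw [T0 hb ha hb hy, ← h2, h7, one_mul, one_mul] at h1
  exact h1.symm

variable (hS : IsPGroup p S) (hA : A ∈ mx 0 S) (hAP : ¬ A ≤ P) (hPS : P ≤ S) (hQP : Q ≤ P)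
  (hZQ : Z ≤ Q) (hQP' : ⁅Q, P⁆ ≤ Z)
  (hmax : ∀ B ∈ mx 0 S, ¬ B ≤ P → ⁅⁅Z, B⁆, B⁆ = ⊥ → Nat.card ↥(B ⊓ P) ≤ Nat.card ↥(A ⊓ P))
include hS hA hAP hPS hQP hZQ hQP' hmax

omit hQQ in
theorem repl {x : G} (hx : x ∈ iterCommutator Q A 2)
    (hM : IsMulCommutative (closure {g : G | ∃ a ∈ A, g = ⁅x, a⁆}))
    (hxM : x ∈ 𝐂 (closure {g : G | ∃ a ∈ A, g = ⁅x, a⁆})) : x ∈ 𝐍 A := by
  have hR : ∀ i, iterCommutator Q A i ≤ Q := fun i => iter_anti hAQ (Nat.zero_le i)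
  have hZA := commutator_le_left_of_norm hAZ
  have h1 := comm_step hA.2.1.1 (inf_le_left : A ⊓ P ≤ A) (hQZ.trans (centralizer_anti hZA))
    ((commutator_mono le_rfl inf_le_right).trans hQP')
  have h2 := commutator_eq_bot_iff'.1 (eq_bot_iff.2 ((comm_step hA.2.1.1 inf_le_left ((hR 1).trans
    (hQZ.trans (centralizer_anti ((commutator_le_left_of_norm (norm_comm_right _ _)).trans hZA))))
    h1).trans hq.le))
  have h3 := H6DS.thompson hA (hPS (hQP (hR 2 hx))) hM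
  have hm : ∀ a ∈ A, ⁅x, a⁆ ∈ closure {g : G | ∃ a ∈ A, g = ⁅x, a⁆} := fun a ha =>
    subset_closure ⟨a, ha, rfl⟩
  have h4 := (cl_le (A := A) hx).trans (iter_anti hAQ (Nat.le_succ 2))
  have hn : A ≤ 𝐍 (closure {g : G | ∃ a ∈ A, g = ⁅x, a⁆}) := fun a ha =>
    mem_normalizer_of_cj_le (by
      rw [cj_closure, closure_le]
      rintro _ ⟨_, ⟨b, hb, rfl⟩, rfl⟩
      have := mul_mem (inv_mem (hm a ha)) (hm _ (mul_mem ha hb))
      rwa [show ⁅x, a⁆⁻¹ * ⁅x, a * b⁆ = a * ⁅x, b⁆ * a⁻¹ by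
        simp only [commutatorElement_def]; group] at this)
  generalize hY : closure {g : G | ∃ a ∈ A, g = ⁅x, a⁆} = M at *
  have hMZ := h4.trans ((hR 2).trans hQZ)
  have h5 : ¬ A ⊓ 𝐂 M ≤ P := fun h => by
    have k1 : x ∈ M ⊔ A ⊓ 𝐂 M := mem_of_mem_centralizer h3 (hPS (hQP (hR 2 hx))) (pow_zero x) (by
      rw [centralizer_sup]
      exact ⟨hxM, centralizer_anti (le_inf inf_le_left h) (cent_symm h2 hx)⟩)
    have k2 : ⁅M ⊔ A ⊓ 𝐂 M, A⁆ ≤ ⁅M, A⁆ := comm_sup_le (norm_comm_left _ _) (inf_le_left.trans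
      (norm_comm_right _ _)) le_rfl ((comm_eq_bot_of_le (inf_le_left.trans
        hA.2.1.le_centralizer)).le.trans bot_le)
    have k3 : M = ⊥ := eq_bot_of_le_commutator (hS.to_le hA.1) (hS.to_le (h4.trans ((hR 2).trans
      (hQP.trans hPS)))) hn (hY.ge.trans ((cl_le k1).trans k2))
    rw [k3, centralizer_bot, inf_top_eq] at h
    exact hAP h
  have h6 : A ⊓ P = (M ⊔ A ⊓ 𝐂 M) ⊓ P := H6Basic.eq_of_le_of_card_le (le_inf (le_sup_of_le_right
    (le_inf inf_le_left (h2.trans (centralizer_anti h4)))) inf_le_right)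
    (hmax _ h3 (fun h => h5 (le_sup_right.trans h)) (by
      rw [sup_comm M, comm_sup_cent (inf_le_left.trans hAZ) hMZ]
      exact comm_eq_bot_of_le' ((sup_le (inf_le_left.trans (commutator_eq_bot_iff'.1 hq))
        (hMZ.trans (centralizer_anti hZA))).trans (centralizer_anti
          (commutator_mono le_rfl inf_le_left)))))
  refine mem_normalizer_of_cj_le (cj_le_iff'.2 fun a ha => ?_)
  simpa [commutatorElement_def] using mul_mem
    (h6.ge ⟨mem_sup_left (hm a ha), hQP (hR 2 (h4 (hm a ha)))⟩).1 ha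

theorem four_quad (hp2 : p ≠ 2) : iterCommutator Q A 4 = ⊥ := by
  have hR : ∀ i, iterCommutator Q A i ≤ Q := fun i => iter_anti hAQ (Nat.zero_le i)
  have fin : ∀ j, iterCommutator Q A j ≤ 𝐍 A → iterCommutator Q A (j + 2) = ⊥ := fun j h =>
    comm_eq_bot_of_le ((commutator_le_right_of_norm h).trans hA.2.1.le_centralizer)
  have ab : ∀ {j x}, x ∈ iterCommutator Q A j → ⁅iterCommutator Q A j, iterCommutator Q A (j + 1)⁆ = ⊥
      → 2 ≤ j → x ∈ 𝐍 A := fun {j x} hx h hj => by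
    have k := cent_symm (commutator_eq_bot_iff'.1 h)
    exact repl hAZ hAQ hQZ hq hS hA hAP hPS hQP hZQ hQP' hmax (iter_anti hAQ hj hx)
      (le_centralizer_iff_isMulCommutative.1 (((cl_le hx).trans (iter_anti hAQ (Nat.le_succ j))).trans
        (k.trans (centralizer_anti (cl_le hx))))) (centralizer_anti (cl_le hx) (k hx))
  have h1 : ∀ j, iterCommutator Q A (2 * (j + 3)) ≤ Z → iterCommutator Q A 5 = ⊥ := fun j => by
    induction j with
    | zero => exact fun h => fin 3 fun x hx => ab hx (cc0 hAZ hAQ hQZ hQQ hq h 3 4 rfl) (by omega)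
    | succ j ih =>
      refine fun h => ih ((iter_anti hAQ (by omega)).trans ((fin (j + 4) fun x hx =>
        ab hx (cc0 hAZ hAQ hQZ hQQ hq h _ _ (by omega)) (by omega)).le.trans bot_le))
  obtain ⟨n, hn⟩ := exists_iter hS hA.1 (hQP.trans hPS) hAQ
  have h2 := (h1 n ((iter_anti hAQ (by omega)).trans (hn.le.trans bot_le))).le.trans (bot_le (a := Z))
  have h3 := commutator_eq_bot_iff'.1 (cc0 hAZ hAQ hQZ hQQ hq h2 3 3 rfl)
  have hZA : Z ≤ Q ⊓ 𝐍 A := le_inf hZQ (norm_of_commutator_le ((commutator_comm _ _).le.trans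
    (le_of_le_centralizer hA ((commutator_le_left_of_norm hAZ).trans (hZQ.trans (hQP.trans hPS)))
      (fun x _ => pow_zero x) (cent_symm (commutator_eq_bot_iff'.1 hq)))))
  have hQ : Q ≤ 𝐍 (Q ⊓ 𝐍 A) := norm_of_commutator_le ((commutator_mono inf_le_left le_rfl).trans
    (hQQ.trans hZA))
  refine fin 2 (le_trans ?_ (inf_le_right : Q ⊓ 𝐍 A ≤ _))
  change ⁅⁅Q, A⁆, A⁆ ≤ _
  rw [commutator_comm Q, commutator_comm, commutator_def A Q]
  refine comm_closure_le' ?_ ?_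
  · rintro _ ⟨c, hc, x, hx, rfl⟩
    exact hQ (comm_mem_right hx (hAQ hc))
  · rintro _ ⟨c, hc, x, hx, rfl⟩ b hb
    have k : ⁅b, ⁅c, x⁆⁆ ∈ iterCommutator Q A 2 := (commutator_comm _ _).le
      (commutator_mem_commutator hb ((commutator_comm _ _).le (commutator_mem_commutator hc hx)))
    refine ⟨hR 2 k, repl hAZ hAQ hQZ hq hS hA hAP hPS hQP hZQ hQP' hmax k
      (le_centralizer_iff_isMulCommutative.1 ((cl_le k).trans (h3.trans (centralizer_anti (cl_le k)))))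
      (cent_symm (K := zpowers _) ?_ (mem_zpowers _))⟩
    rw [closure_le, centralizer_zpowers]
    rintro _ ⟨a, ha, rfl⟩
    rw [← commutatorElement_inv a]
    exact inv_mem (mem_centralizer_singleton_iff.2 (commutatorElement_eq_one_iff_mul_comm.1
      (anti hAZ hAQ hQZ hQQ hq hp2 (hS.to_le (hZQ.trans (hQP.trans hPS))) hZQ hA.2.1.1 h2 hx ha hb
        hc)).symm)

end quad

theorem core (hp2 : p ≠ 2) (hS : IsPGroup p S) (hPS : P ≤ S) (hQP : Q ≤ P) (hZQ : Z ≤ Q)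
    (hnQ : S ≤ 𝐍 Q) (hnZ : S ≤ 𝐍 Z) (hQZ : Q ≤ 𝐂 Z) (hQP' : ⁅Q, P⁆ ≤ Z) (hJ : ¬ J 0 S ≤ P) :
    ∃ A ∈ mx 0 S, ¬ A ≤ P ∧ iterCommutator Q A 4 ≤ Z ∧
      ∀ U W, U ≤ Z → W ≤ Z → S ≤ 𝐍 W → ⁅U, P⁆ ≤ W → iterCommutator U A 3 ≤ W := by
  by_cases h : ∃ A, A ∈ mx 0 S ∧ ¬ A ≤ P ∧ ⁅⁅Z, A⁆, A⁆ = ⊥
  · obtain ⟨A, ⟨h1, h2, h3⟩, hmax⟩ := Set.exists_max_image
      {A | A ∈ mx 0 S ∧ ¬ A ≤ P ∧ ⁅⁅Z, A⁆, A⁆ = ⊥} (fun A => Nat.card ↥(A ⊓ P)) (Set.toFinite _) h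
    refine ⟨A, h1, h2, (four_quad (h1.1.trans hnZ) (h1.1.trans hnQ) hQZ ((commutator_mono le_rfl
      hQP).trans hQP') h3 hS h1 h2 hPS hQP hZQ hQP' (fun B b1 b2 b3 => hmax B ⟨b1, b2, b3⟩)
      hp2).le.trans bot_le, fun U W hU _ _ _ => ?_⟩
    refine (commutator_mono ((commutator_mono (commutator_mono hU le_rfl) le_rfl).trans h3.le)
      le_rfl).trans (by rw [commutator_bot_left]; exact bot_le)
  have hZ := le_centralizer_iff_isMulCommutative.1 (hZQ.trans hQZ)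
  have hZS := hZQ.trans (hQP.trans hPS)
  obtain ⟨A, ⟨h1, h2⟩, hmax⟩ := Set.exists_max_image {A | A ∈ mx 0 S ∧ ¬ A ≤ P}
    (fun A => Nat.card ↥(A ⊓ Z)) (Set.toFinite _) (by
      by_contra k
      exact hJ (J_le_iff.2 fun A hA => by_contra fun k' => k ⟨A, hA, k'⟩))
  have hAZ := h1.1.trans hnZ
  have dich : ∀ B, B ≤ A → fm Z B = fm Z A → B = A ∨ B ≤ P := fun B hB e => by
    refine or_iff_not_imp_right.2 fun k => H6Basic.eq_of_le_of_card_le hB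
      (Nat.le_of_mul_le_mul_right (e.ge.trans (Nat.mul_le_mul_left _ ?_))
        (Nat.card_pos (α := ↥(Z ⊓ 𝐂 A))))
    rw [inf_cent_of_mx (isAb_zero_iff.2 hZ) hZS h1, inf_comm Z A]
    exact (card_le_of_le (le_inf le_sup_right inf_le_left)).trans
      (hmax _ ⟨(fm_le hZ hZS h1 hB).2 e.ge, fun k' => k (le_sup_left.trans k')⟩)
  refine ⟨A, h1, h2, ?_, fun U W hU hW hn hc =>
    cubic_sub hS hZ hZS h1 hAZ dich hU hW (h1.1.trans hn) hc⟩
  have h3 := (fm_le hZ hZS h1 inf_le_left).2 (timmesfeld hZ hAZ (by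
    rw [comm_eq_bot_of_le h1.2.1.le_centralizer]; exact bot_le)
    (fun B hB => (fm_le hZ hZS h1 hB).1) le_rfl).1.ge
  have hc := hZQ.trans hQZ
  have h4 : A ⊓ 𝐂 ⁅Z, A⁆ ≤ P := by_contra fun k => h ⟨_, h3, fun k' => k (le_sup_left.trans k'), by
    rw [comm_sup_cent (inf_le_left.trans hAZ) (inf_le_left.trans hc)]
    exact comm_eq_bot_of_le' ((sup_le inf_le_right (inf_le_left.trans (hc.trans (centralizer_anti
      (commutator_le_left_of_norm hAZ))))).trans (centralizer_anti (commutator_mono le_rfl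
        inf_le_left)))⟩
  have hR := iter_anti (h1.1.trans hnQ) (Nat.zero_le 3)
  have h5 := le_of_le_centralizer h3 (hR.trans (hQP.trans hPS)) (fun x _ => pow_zero x) (by
    rw [centralizer_sup]
    exact le_inf (four_le hZ hAZ h1.2.1.1 (h1.1.trans hnQ) hQZ hQP' h4 (quad_of hS hZ hZS h1 hAZ
      dich le_rfl fun B _ k _ => k)) (hR.trans (hQZ.trans (centralizer_anti inf_le_left))))
  exact (commutator_mono (h5.trans (sup_le_sup inf_le_left inf_le_left)) le_rfl).trans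
    (comm_sup_le hAZ le_normalizer ((comm_eq_bot_of_le h1.2.1.le_centralizer).le.trans bot_le)
      (commutator_le_left_of_norm hAZ))

end two

theorem iter_mono_right {U H K : Subgroup G} (h : H ≤ K) :
    ∀ i, iterCommutator U H i ≤ iterCommutator U K i
  | 0 => le_rfl
  | i + 1 => commutator_mono (iter_mono_right h i) h

theorem chief (hp2 : p ≠ 2) (hS : IsPGroup p S) (hPS : pCore p G ≤ S) (hJ : ¬ (J 0 S).Normal)
    {Q : Subgroup G} [Q.Normal] (hQ : Q ≤ pCore p G) (hQP : ⁅Q, pCore p G⁆ ≤ H6J.Z Q) :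
    ∃ A, A ≤ S ∧ ¬ A ≤ pCore p G ∧
      (∀ U W, IsChiefFactor U W → U ≤ Q → iterCommutator U A 4 ≤ W) ∧
      ∀ U W, IsChiefFactor U W → U ≤ H6J.Z Q → iterCommutator U A 3 ≤ W := by
  haveI := L0K.Z_normal Q
  obtain ⟨A, h1, h2, h3, h4⟩ := core hp2 hS hPS hQ inf_le_left norm_of_normal norm_of_normal
    (cent_symm inf_le_right) hQP fun h => hJ (by
      rw [← J_eq_of_J_le h hPS]
      exact normal_iff_top_le.2 (norm_of_normal.trans (normalizer_le_normalizer_J 0 _)))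
  have h5 : ∀ U W, IsChiefFactor U W → U ≤ H6J.Z Q → iterCommutator U A 3 ≤ W := fun U W h hU =>
    haveI := h.2.2.1
    h4 U W hU (h.1.le.trans hU) norm_of_normal (L0K.chief_comm_le h (isPGroup_pCore p G).isNilpotent
      (hU.trans (inf_le_left.trans hQ)))
  refine ⟨A, h1.1, h2, fun U W h hU => ?_, h5⟩
  haveI := h.2.1
  haveI := h.2.2.1
  by_cases k : U ⊓ H6J.Z Q ≤ W
  · exact (le_inf (L0K.iter_le_self norm_of_normal 4) ((L0K.iter_mono hU 4).trans h3)).trans k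
  · exact L0K.chief_iter_le h k (L0K.iter_le_of_le norm_of_normal
      ((h5 _ _ (L0K.chief_inf h _ k) inf_le_right).trans inf_le_left) (by omega))

theorem loc_of_seven (h7 : 7 ≤ p) (T : Sylow p G) (h : ¬ (J 0 (T : Subgroup G)).Normal) :
    ∃ g : G, g ∈ (T : Subgroup G) ∧ g ∉ pCore p G ∧ ∀ U V : Subgroup G, IsChiefFactor U V →
      U ≤ pCore p G → iterCommutator U (zpowers g) (p - 1) ≤ V := by
  obtain ⟨Q, _, q1, q2, q3, -⟩ := L0K.exists_crit (G := G) (p := p)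
  obtain ⟨A, h1, h2, h3, h4⟩ := chief (by omega) T.isPGroup' (pCore_le_sylow T) h q1 q2
  obtain ⟨g, hg, hg'⟩ := SetLike.not_le_iff_exists.1 h2
  refine ⟨g, h1 hg, hg', fun U V k hU => ?_⟩
  haveI := k.2.2.1
  exact (iter_mono_right (zpowers_le.2 hg) _).trans (L0K.iter_le_of_le norm_of_normal
    (L0K.iter_crit (isPGroup_pCore p G).isNilpotent q1 ((commutator_comm _ _).le.trans q2) q3
      (by omega) h3 h4 k hU) (by omega))

theorem J_normal_of_coatom (h5 : 5 ≤ p) (hS : SylIn p S ⊤) (hc : AmbChar.CharP p (⊤ : Subgroup G))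
    (hq : HasNormalPComplement p (G ⧸ pCore p G)) (hm : IsCoatom S) : (J 0 S).Normal := by
  by_contra h
  obtain ⟨Q, _, q1, q2, -, q3⟩ := L0K.exists_crit (G := G) (p := p)
  obtain ⟨A, h1, h2, h3, -⟩ := chief (by omega) hS.pg (pCoreOf_top p G ▸ pCoreOf_le_syl hS) h q1 q2
  obtain ⟨X, Y, k1, k2, k3, -⟩ := L0K.exists_nontriv q1
    (L0K.a5_of_aut q3 (AmbChar.charP_top_iff.1 hc)) h2
  haveI := k1.2.2.1
  exact k3 (commutator_le.2 fun x hx a ha => H6Fin.comm_le_of_chief hq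
    (fun r _ hr => H6NPC.abSyl_of_coatom hS hm hq hr) k1 ((isPGroup_pCore p G).to_le (k2.trans q1))
    ((iter_mono_right (zpowers_le.2 ha) _).trans (L0K.iter_le_of_le norm_of_normal (h3 X Y k1 k2)
      (by omega))) (commutator_mem_commutator hx (mem_zpowers a)))

theorem npc_norm {W : Subgroup G} (hS : SylIn p S ⊤) (hn : S ≤ 𝐍 W) (hc : S ⊓ 𝐂 W ≤ W)
    (h : ∀ g ∈ 𝐍 W, (orderOf g).Coprime p → g ∈ 𝐂 W) : HasNormalPComplement p (𝐍 W) := by
  have h1 := (hS.mono hn le_top).inf_norm (centralizer_le_normalizer _)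
    (normalizer_le_normalizer_centralizer W)
  rw [H6NPC.hasNPC_iff_res, ← res_eq_of_le (res_le_iff.2 h) (centralizer_le_normalizer _),
    ← H6NPC.hasNPC_iff_res]
  exact Hyperfocal.hasNPC_of_forall_le_in (sylIn_iff.1 h1) fun Q hQ _ g hg _ _ =>
    centralizer_anti (hQ.trans hc) hg

theorem fn_KL : H6NPC.Fn.{u} p (fun X => L0K.KL X) := by
  have h := H6NPC.fn_induced (L0K.charP_KL.{u} p)
  simpa only [L0K.induced_KL] using h

theorem KL_normal_of_coatom (hp2 : p ≠ 2) (hS : SylIn p S ⊤) (hc : AmbChar.CharP p (⊤ : Subgroup G))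
    (hq : HasNormalPComplement p (G ⧸ pCore p G)) (hm : IsCoatom S) : (L0K.KL S).Normal := by
  by_contra h
  obtain ⟨-, -, -, -, -, h⟩ := L0K.main (pCoreOf_top p G ▸ pCoreOf_le_syl hS) (Or.inl h)
  obtain ⟨N, _, hN⟩ := h (AmbChar.charP_top_iff.1 hc)
  refine hN (H6Op.isNormalizerPStable_iff.2 fun V hV => H6Stab.stab_of_abSyl hp2 hV le_rfl
    (H6Stab.AbSyl.mono ?_ le_top))
  have := (H6NPC.abSyl_of_coatom hS hm hq hp2.symm).map (QuotientGroup.mk' N)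
  rwa [← MonoidHom.range_eq_map, QuotientGroup.range_mk'] at this

theorem charP_J : IsCharPFunctor.{u} p (fun Q _ => thompsonSubgroupA Q) := by
  refine ⟨fun Q _ _ hQ _ => ?_, fun Q R _ _ _ _ φ => ?_⟩
  · simp only [thompsonSubgroupA_eq]
    exact J_ne_bot (dvd_zero p) (dvd_card_of_isPGroup (hQ.to_subgroup ⊤) top_ne_bot)
  · simp only [thompsonSubgroupA_eq]
    rw [← J_map φ.injective, L0K.map_top_equiv]

end CA.H6JT
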