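import Cfsg.Agent.Lib.Grp.PGFrattini
import Cfsg.Agent.Lib.Grp.PGClassTwo
import Cfsg.Agent.Lib.Grp.PGDihedral
import Cfsg.Agent.Lib.Grp.PGNormalCyclic

/-! 2-groups of type `2^{3+8}.D₈`. -/

set_option autoImplicit false
set_option linter.unusedVariables false
set_option linter.unusedSimpArgs false
set_option linter.style.haveILetI false

namespace CA.H6Ru
open Subgroup
open scoped commutatorElement

def HD (X : Type*) [Group X] : Prop := ∀ U : Subgroup X, U.index ≤ 16 → frattini X ≤ U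

theorem HD.map {X Y : Type*} [Group X] [Group Y] (h : HD X) (e : X ≃* Y) : HD Y := by
  intro U hU
  rw [← PGFrattini.map_frattini_equiv e, map_le_iff_le_comap]
  apply h
  rwa [index_comap_of_surjective _ e.surjective]

theorem key {G : Type*} [Group G] [Finite G] {W U : Subgroup G} (hW : IsPGroup 2 W) (h : HD W)
    (hU : U ≤ W) (hi : U.relIndex W ≤ 8) :
    (frattini W).map W.subtype ≤ (frattini U).map U.subtype := by
  haveI : Fact (Nat.Prime 2) := ⟨Nat.prime_two⟩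
  rintro _ ⟨z, hz, rfl⟩
  have hzU : (z : G) ∈ U := h (U.subgroupOf W) (by unfold relIndex at hi; omega) hz
  refine ⟨⟨z, hzU⟩, PGFrattini.mem_frattini_iff.2 fun M hM => ?_, rfl⟩
  have h1 := PGBasic.index_eq_of_isCoatom (hW.to_le hU) hM
  have h2 : (M.map U.subtype).relIndex U = 2 := by
    rw [← h1, relIndex, subgroupOf, comap_map_eq_self_of_injective (subtype_injective U)]
  have h3 := relIndex_mul_relIndex (M.map U.subtype) U W (map_subtype_le M) hU
  have h4 := h ((M.map U.subtype).subgroupOf W) (by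
    rw [h2] at h3; unfold relIndex at h3 hi; omega) hz
  obtain ⟨y, hy, e⟩ := h4
  have : y = ⟨z, hzU⟩ := Subtype.ext e
  exact this ▸ hy

theorem calc1 {X : Type*} [Group X] {W : Subgroup X} [hn : W.Normal]
    (hc : ∀ a ∈ W, ∀ b ∈ W, ⁅a, b⁆ ∈ center X) {w x c : X} (hw : w ∈ W) (hx : x ∈ W)
    (h : x * (c⁻¹ * x * c) ∈ center X) : Commute x (w * (c * w * c⁻¹)) := by
  have hx' : c⁻¹ * x * c ∈ W := by simpa using hn.conj_mem x hx c⁻¹
  have e1 : ⁅x, c * w * c⁻¹⁆ = ⁅c⁻¹ * x * c, w⁆ := by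
    have := mem_center_iff.1 (hc _ hx' _ hw) c
    rw [← mul_inv_eq_iff_eq_mul] at this
    rw [← this]
    simp only [commutatorElement_def]; group
  rw [← commutatorElement_eq_one_iff_commute, PGClassTwo.comm_mul_right
    (PGClassTwo.commute_of_mem_center (hc _ hx _ (hn.conj_mem w hw c)) w), e1,
    (PGClassTwo.commute_of_mem_center (hc _ hx' _ hw) _).eq, ← PGClassTwo.comm_mul_left
    (PGClassTwo.commute_of_mem_center (hc _ hx' _ hw) x), commutatorElement_eq_one_iff_commute]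
  exact (PGClassTwo.commute_of_mem_center h w).symm

theorem fix_of_odd {X : Type*} [Group X] (hX : IsPGroup 2 X) {α : MulAut X} {m : ℕ} (hm : Odd m)
    (hα : α ^ m = 1) {x : X} (h : α (x⁻¹ * α x) = x⁻¹ * α x) : α x = x := by
  have h1 : ∀ k : ℕ, (α ^ k) x = x * (x⁻¹ * α x) ^ k := by
    intro k
    induction k with
    | zero => simp
    | succ k ih =>
      rw [pow_succ', MulAut.mul_apply, ih, map_mul, map_pow, h, pow_succ', ← mul_assoc,
        mul_inv_cancel_left]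
  have h2 := h1 m
  rw [hα, MulAut.one_apply, eq_comm, mul_eq_left] at h2
  obtain ⟨k, hk⟩ := hX (x⁻¹ * α x)
  have h3 : orderOf (x⁻¹ * α x) ∣ Nat.gcd m (2 ^ k) :=
    Nat.dvd_gcd (orderOf_dvd_of_pow_eq_one h2) (orderOf_dvd_of_pow_eq_one hk)
  rw [Nat.Coprime.gcd_eq_one (Nat.Coprime.pow_right k (Nat.coprime_two_right.2 hm)),
    Nat.dvd_one, orderOf_eq_one_iff, inv_mul_eq_one] at h3
  exact h3.symm

variable {T : Type*} [Group T] [Finite T]

set_option hygiene false in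
local notation "Z" => Subgroup.upperCentralSeries T

structure Hyp (T : Type*) [Group T] (W : Subgroup T) : Prop where
  p : IsPGroup 2 T
  a : 2 ^ 14 ≤ Nat.card T
  b : Nat.card (Subgroup.upperCentralSeries T 4) = 16
  w : W = centralizer (Subgroup.upperCentralSeries T 3 : Set T)
  c : Nat.card (frattini W) ≤ 8
  d : HD W

variable {W : Subgroup T}

omit [Finite T] in
theorem zle (i : ℕ) : Z i ≤ Z (i + 1) := Subgroup.upperCentralSeries_mono T (Nat.le_succ i)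

theorem Hyp.card (h : Hyp T W) : ∀ i ≤ 4, Nat.card (Z i) = 2 ^ i := by
  haveI : Fact (Nat.Prime 2) := ⟨Nat.prime_two⟩
  haveI := h.p.isNilpotent
  have s : ∀ i ≤ 3, Nat.card (Z i) * 2 ≤ Nat.card (Z (i + 1)) := by
    intro i hi
    apply PGBasic.card_mul_le_of_lt (h.p.to_subgroup _)
    have : ¬ (⊤ : Subgroup T) ≤ Z i := by
      intro hh
      have h1 := card_le_of_le (hh.trans (Subgroup.upperCentralSeries_mono T (show i ≤ 4 by omega)))
      have := h.a
      rw [card_top, h.b] at h1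
      omega
    obtain ⟨x, -, h2, h3⟩ := PGBasic.exists_layer_top this
    exact lt_of_le_not_ge (zle i) fun hh => h2 (hh (Subgroup.mem_upperCentralSeries_succ_iff.2 h3))
  have s0 := s 0 (by omega)
  have s1 := s 1 (by omega)
  have s2 := s 2 (by omega)
  have s3 := s 3 (by omega)
  have b := h.b
  have z0 : Nat.card (Z 0) = 1 := by rw [Subgroup.upperCentralSeries_zero, card_bot]
  intro i hi
  interval_cases i <;> simp only [Nat.reduceAdd, Nat.zero_add] at * <;> omega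

theorem Hyp.rel (h : Hyp T W) {i : ℕ} (hi : i ≤ 3) : (Z i).relIndex (Z (i + 1)) = 2 := by
  have := PGBasic.card_mul_relIndex (zle (T := T) i)
  rw [h.card i (by omega), h.card (i + 1) (by omega), pow_succ] at this
  exact Nat.eq_of_mul_eq_mul_left (by positivity) this

theorem Hyp.sup (h : Hyp T W) {i : ℕ} (hi : i ≤ 3) {x : T} (h1 : x ∈ Z (i + 1)) (h2 : x ∉ Z i) :
    Z i ⊔ zpowers x = Z (i + 1) :=
  PGBasic.sup_zpowers_eq_of_relIndex_prime Nat.prime_two (h.rel hi) (zle i) h1 h2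

theorem Hyp.ex (h : Hyp T W) {i : ℕ} (hi : i ≤ 3) : ∃ x ∈ Z (i + 1), x ∉ Z i := by
  by_contra hh
  push Not at hh
  have := h.rel hi
  rw [relIndex_eq_one.2 hh] at this
  omega

theorem Hyp.mul (h : Hyp T W) {i : ℕ} (hi : i ≤ 3) {x y : T} (h1 : x ∈ Z (i + 1)) (h2 : x ∉ Z i)
    (h3 : y ∈ Z (i + 1)) (h4 : y ∉ Z i) : x * y ∈ Z i :=
  (mul_mem_iff_of_index_two (H := (Z i).subgroupOf (Z (i + 1))) (h.rel hi) (a := ⟨x, h1⟩)
    (b := ⟨y, h3⟩)).2 (iff_of_false h2 h4)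

theorem Hyp.cmp (h : Hyp T W) (N : Subgroup T) [N.Normal] :
    ∀ i ≤ 4, Z i ≤ N ∨ ∃ k < i, N = Z k := by
  haveI : Fact (Nat.Prime 2) := ⟨Nat.prime_two⟩
  haveI := h.p.isNilpotent
  intro i
  induction i with
  | zero => intro _; left; rw [Subgroup.upperCentralSeries_zero]; exact bot_le
  | succ i ih =>
    intro hi
    rcases ih (by omega) with h1 | ⟨k, h1, h2⟩
    · by_cases h2 : N ≤ Z i
      · exact Or.inr ⟨i, by omega, le_antisymm h2 h1⟩
      · obtain ⟨x, x1, x2, x3⟩ := PGBasic.exists_layer_top h2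
        left
        rw [← h.sup (by omega) (Subgroup.mem_upperCentralSeries_succ_iff.2 x3) x2, sup_le_iff, zpowers_le]
        exact ⟨h1, x1⟩
    · exact Or.inr ⟨k, by omega, h2⟩

theorem Hyp.cmp' (h : Hyp T W) {N : Subgroup T} [N.Normal] {i : ℕ} (hi : i ≤ 3) (h1 : Z i ≤ N)
    (h2 : ¬ Z (i + 1) ≤ N) : N = Z i := by
  rcases h.cmp N (i + 1) (by omega) with h3 | ⟨k, h3, h4⟩
  · exact absurd h3 h2
  · exact le_antisymm (h4 ▸ Subgroup.upperCentralSeries_mono T (by omega)) h1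

omit [Finite T] in
theorem Hyp.normal (h : Hyp T W) : W.Normal := by rw [h.w]; infer_instance

theorem Hyp.memW (h : Hyp T W) {z2 z3 : T} (a2 : z2 ∈ Z 2) (b2 : z2 ∉ Z 1) (a3 : z3 ∈ Z 3)
    (b3 : z3 ∉ Z 2) {t : T} (c2 : t * z2 * t⁻¹ = z2) (c3 : t * z3 * t⁻¹ = z3) : t ∈ W := by
  have : Z 3 ≤ centralizer {t} := by
    rw [← h.sup (by omega) a3 b3, ← h.sup (by omega) a2 b2, Subgroup.upperCentralSeries_one, sup_le_iff,
      sup_le_iff, zpowers_le, zpowers_le]
    exact ⟨⟨center_le_centralizer _, mem_centralizer_singleton_iff.2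
      (mul_inv_eq_iff_eq_mul.1 c2).symm⟩,
      mem_centralizer_singleton_iff.2 (mul_inv_eq_iff_eq_mul.1 c3).symm⟩
  rw [h.w]
  exact fun z hz => mem_centralizer_singleton_iff.1 (this hz)

theorem Hyp.idx (h : Hyp T W) {z2 z3 : T} (a2 : z2 ∈ Z 2) (b2 : z2 ∉ Z 1) (a3 : z3 ∈ Z 3)
    (b3 : z3 ∉ Z 2) : W.index ≤ 8 ∧ (W.index = 8 → ∀ y1 ∈ Z 1, ∀ y2 ∈ Z 2,
      ∃ t, t * z2 * t⁻¹ = y1 * z2 ∧ t * z3 * t⁻¹ = y2 * z3) := by
  have m : ∀ (i : ℕ) (z : T), z ∈ Z (i + 1) → ∀ t : T, ⁅t, z⁆ ∈ Z i := fun i z hz t => by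
    rw [← commutatorElement_inv]
    exact inv_mem (Subgroup.mem_upperCentralSeries_succ_iff.1 hz t)
  let f : T ⧸ W → Z 1 × Z 2 := fun q => (⟨⁅q.out, z2⁆, m 1 z2 a2 _⟩, ⟨⁅q.out, z3⁆, m 2 z3 a3 _⟩)
  have hf : Function.Injective f := by
    intro q q' e
    have e1 : ⁅q.out, z2⁆ = ⁅q'.out, z2⁆ := congrArg (fun x => (x.1 : T)) e
    have e2 : ⁅q.out, z3⁆ = ⁅q'.out, z3⁆ := congrArg (fun x => (x.2 : T)) e
    rw [← q.out_eq, ← q'.out_eq]
    apply QuotientGroup.eq.2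
    have k : ∀ a b z : T, ⁅a, z⁆ = ⁅b, z⁆ → a⁻¹ * b * z * (a⁻¹ * b)⁻¹ = z := by
      intro a b z e
      have : b * z * b⁻¹ = a * z * a⁻¹ := by
        rw [PGClassTwo.conj_eq_comm_mul, PGClassTwo.conj_eq_comm_mul, e]
      calc a⁻¹ * b * z * (a⁻¹ * b)⁻¹ = a⁻¹ * (b * z * b⁻¹) * a := by group
        _ = z := by rw [this]; group
    exact h.memW a2 b2 a3 b3 (k _ _ _ e1) (k _ _ _ e2)
  have hc : Nat.card (Z 1 × Z 2) = 8 := by
    rw [Nat.card_prod, h.card 1 (by omega), h.card 2 (by omega)]; norm_num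
  refine ⟨hc ▸ Nat.card_le_card_of_injective f hf, fun h8 y1 m1 y2 m2 => ?_⟩
  obtain ⟨q, hq⟩ := (hf.bijective_of_nat_card_le (by rw [hc, ← h8]; rfl)).2 (⟨y1, m1⟩, ⟨y2, m2⟩)
  have e1 : ⁅q.out, z2⁆ = y1 := congrArg (fun x => (x.1 : T)) hq
  have e2 : ⁅q.out, z3⁆ = y2 := congrArg (fun x => (x.2 : T)) hq
  exact ⟨q.out, by rw [PGClassTwo.conj_eq_comm_mul, e1], by rw [PGClassTwo.conj_eq_comm_mul, e2]⟩

theorem Hyp.reg (h : Hyp T W) : W.index = 8 ∧ Nat.card W = 2 ^ 11 ∧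
    (frattini W).map W.subtype = Z 3 ∧ ∃ F : T → T → ZMod 2,
      (∀ a ∈ W, ∀ b ∈ W, ∀ t, F (a * b) t = F a t + F b t) ∧
      (∀ a s t, F (s * a * s⁻¹) t = F a (s⁻¹ * t)) ∧
      (∀ a ∈ W, ∀ t, ∀ c ∈ W, F a (t * c) = F a t) ∧
      (∀ a ∈ W, (∀ t, F a t = 0) ↔ a ∈ Z 3) ∧
      (∀ f : T ⧸ W → ZMod 2, ∃ a ∈ W, ∀ t, F a t = f t) := by
  classical
  haveI : Fact (Nat.Prime 2) := ⟨Nat.prime_two⟩
  haveI := h.p.isNilpotent
  haveI hn := h.normal
  obtain ⟨z2, a2, b2⟩ := h.ex (i := 1) (by omega)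
  obtain ⟨z3, a3, b3⟩ := h.ex (i := 2) (by omega)
  have i8 := (h.idx a2 b2 a3 b3).1
  have cW := W.card_mul_index
  have ha := h.a
  have cΦ : Nat.card ((frattini W).map W.subtype) ≤ 8 := by
    rw [card_map_of_injective (subtype_injective W)]; exact h.c
  obtain ⟨k, hk, hΦ⟩ : ∃ k < 4, (frattini W).map W.subtype = Z k := by
    refine (h.cmp _ 4 le_rfl).resolve_left fun hh => ?_
    have := card_le_of_le hh
    rw [h.b] at this
    omega
  have hW : ¬ W ≤ Z k := by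
    intro hh
    have h1 := card_le_of_le hh
    rw [← hΦ] at h1
    have : Nat.card W * W.index ≤ 8 * 8 := Nat.mul_le_mul (by omega) i8
    omega
  obtain ⟨v, v1, v2, v3⟩ := PGBasic.exists_layer_top hW
  obtain ⟨M, hM, hvM⟩ : ∃ M : Subgroup W, IsCoatom M ∧ (⟨v, v1⟩ : W) ∉ M := by
    by_contra hh
    push Not at hh
    exact v2 (hΦ ▸ ⟨_, PGFrattini.mem_frattini_iff.2 hh, rfl⟩)
  have iM := PGBasic.index_eq_of_isCoatom (h.p.to_subgroup W) hM
  let lam : T → ZMod 2 := fun x => if x ∈ M.map W.subtype then 0 else 1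
  have mm : ∀ x (hx : x ∈ W), x ∈ M.map W.subtype ↔ (⟨x, hx⟩ : W) ∈ M := fun x hx =>
    ⟨fun ⟨y, hy, e⟩ => (Subtype.ext e : y = ⟨x, hx⟩) ▸ hy, fun hh => ⟨_, hh, rfl⟩⟩
  have ladd : ∀ a ∈ W, ∀ b ∈ W, lam (a * b) = lam a + lam b := by
    intro a ha b hb
    have := mul_mem_iff_of_index_two iM (a := ⟨a, ha⟩) (b := ⟨b, hb⟩)
    rw [← mm a ha, ← mm b hb] at this
    have e := (mm _ (W.mul_mem ha hb)).trans this
    simp only [lam]
    by_cases h1 : a ∈ M.map W.subtype <;> by_cases h2 : b ∈ M.map W.subtype <;>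
      simp only [e, h1, h2, iff_true, iff_false, not_true, not_false_iff, if_true, if_false] <;>
      rfl
  have l1 : lam 1 = 0 := if_pos (one_mem _)
  have l0 : ∀ x, lam x = 0 ↔ x ∈ M.map W.subtype := fun x => by
    simp only [lam]
    split_ifs with hh
    · simp [hh]
    · simp [hh]
  have cw : ∀ a ∈ W, ∀ t : T, t⁻¹ * a * t ∈ W := fun a ha t => by simpa using hn.conj_mem a ha t⁻¹
  let F : T → T → ZMod 2 := fun a t => lam (t⁻¹ * a * t)
  have F1 : ∀ a ∈ W, ∀ b ∈ W, ∀ t, F (a * b) t = F a t + F b t := fun a ha b hb t => by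
    simp only [F]
    rw [← ladd _ (cw a ha t) _ (cw b hb t)]
    congr 1; group
  have F3 : ∀ a ∈ W, ∀ t, ∀ c ∈ W, F a (t * c) = F a t := fun a ha t c hc => by
    simp only [F]
    have e : (t * c)⁻¹ * a * (t * c) = c⁻¹ * ((t⁻¹ * a * t) * c) := by group
    have e2 := ladd _ (W.inv_mem hc) _ hc
    rw [inv_mul_cancel, l1] at e2
    rw [e, ladd _ (W.inv_mem hc) _ (W.mul_mem (cw a ha t) hc), ladd _ (cw a ha t) _ hc]
    linear_combination -e2
  have F4 : ∀ a ∈ W, (∀ t, F a t = 0) ↔ a ∈ Z k := by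
    have hle : Z k ≤ (M.map W.subtype).normalCore := by
      rw [normal_le_normalCore, ← hΦ]
      exact map_mono (frattini_le_coatom hM)
    have e := h.cmp' (i := k) (by omega) hle fun hh =>
      hvM ((mm v v1).1 (normalCore_le _ (hh (Subgroup.mem_upperCentralSeries_succ_iff.2 v3))))
    intro a ha
    rw [← e]
    constructor
    · intro hh t
      have := (l0 _).1 (hh t⁻¹)
      rwa [inv_inv] at this
    · intro hh t
      have := hh t⁻¹
      rw [inv_inv] at this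
      exact (l0 _).2 this
  let Ψ : W →* Multiplicative (T ⧸ W → ZMod 2) := MonoidHom.mk'
    (fun a => Multiplicative.ofAdd fun q => F a q.out) fun a b => by
      rw [← ofAdd_add]
      congr 1
      funext q
      exact F1 _ a.2 _ b.2 _
  have Fo : ∀ a ∈ W, ∀ t : T, F a (t : T ⧸ W).out = F a t := fun a ha t => by
    obtain ⟨c, hc⟩ := QuotientGroup.mk_out_eq_mul W t
    rw [hc, F3 a ha t c c.2]
  have hker : Ψ.ker = (Z k).subgroupOf W := by
    ext a
    rw [mem_subgroupOf, ← F4 a a.2, MonoidHom.mem_ker]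
    constructor
    · intro hh t
      rw [← Fo a a.2]
      exact congrFun (congrArg Multiplicative.toAdd hh) t
    · intro hh
      exact congrArg Multiplicative.ofAdd (funext fun q => hh _)
  have c1 : Nat.card Ψ.ker = 2 ^ k := by
    rw [hker, Nat.card_congr (subgroupOfEquivOfLe (hΦ ▸ map_subtype_le _)).toEquiv,
      h.card k (by omega)]
  have c2 := Ψ.ker.card_mul_index
  rw [index_ker, c1] at c2
  have c3 : Nat.card (Multiplicative (T ⧸ W → ZMod 2)) = 2 ^ W.index := by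
    rw [Nat.card_congr Multiplicative.toAdd, Nat.card_fun, Nat.card_zmod]; rfl
  have c4 : Nat.card Ψ.range ≤ 2 ^ W.index := c3 ▸ card_le_card_group _
  have c5 : W.index = 8 ∧ k = 3 ∧ Nat.card Ψ.range = 2 ^ 8 := by
    rw [← cW, ← c2] at ha
    generalize Nat.card Ψ.range = r at *
    generalize W.index = m at *
    interval_cases m <;> interval_cases k <;> omega
  obtain ⟨c6, rfl, c7⟩ := c5
  refine ⟨c6, by rw [← c2, c7]; norm_num, hΦ, F, F1, fun a s t => ?_, F3, F4, fun f => ?_⟩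
  · simp only [F]
    congr 1; group
  · have : Ψ.range = ⊤ := eq_top_of_card_eq _ (by rw [c7, c3, c6])
    obtain ⟨a, e⟩ : Multiplicative.ofAdd f ∈ Ψ.range := this ▸ mem_top _
    refine ⟨a, a.2, fun t => ?_⟩
    rw [← Fo a a.2]
    exact congrFun (congrArg Multiplicative.toAdd e) t

theorem Hyp.z3le (h : Hyp T W) : Z 3 ≤ W := h.reg.2.2.1 ▸ map_subtype_le _

theorem Hyp.sqm (h : Hyp T W) {a : T} (ha : a ∈ W) : a ^ 2 ∈ Z 3 :=
  haveI : Fact (Nat.Prime 2) := ⟨Nat.prime_two⟩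
  h.reg.2.2.1 ▸ PGFrattini.pow_mem_map_frattini (h.p.to_subgroup W) ha

theorem Hyp.cm (h : Hyp T W) {a b : T} (ha : a ∈ W) (hb : b ∈ W) : ⁅a, b⁆ ∈ Z 3 :=
  haveI : Fact (Nat.Prime 2) := ⟨Nat.prime_two⟩
  h.reg.2.2.1 ▸ PGFrattini.commutator_le_map_frattini (h.p.to_subgroup W)
    (commutator_mem_commutator ha hb)

omit [Finite T] in
theorem Hyp.cen (h : Hyp T W) {a z : T} (ha : a ∈ W) (hz : z ∈ Z 3) : Commute a z := by
  rw [h.w] at ha
  exact (ha z hz).symm

theorem Hyp.der (h : Hyp T W) : ⁅W, W⁆ = Z 3 := by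
  haveI : Fact (Nat.Prime 2) := ⟨Nat.prime_two⟩
  haveI hn := h.normal
  apply le_antisymm (commutator_le.2 fun a ha b hb => h.cm ha hb)
  by_contra hh
  have h2 : ⁅W, W⁆ ≤ Z 2 := by
    obtain ⟨k, h1, h2⟩ := (h.cmp ⁅W, W⁆ 3 (by omega)).resolve_left hh
    exact h2 ▸ Subgroup.upperCentralSeries_mono T (by omega)
  have sq : ∀ a ∈ W, ∀ b ∈ W, ((a * b) ^ 2 ∈ Z 2 ↔ a ^ 2 * b ^ 2 ∈ Z 2) := by
    intro a ha b hb
    rw [PGClassTwo.mul_pow_eq (h.cen ha (h.cm hb ha)) (h.cen hb (h.cm hb ha))]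
    exact mul_mem_cancel_right (pow_mem (h2 (commutator_mem_commutator hb ha)) _)
  let Ω : Subgroup T :=
    { carrier := {w | w ∈ W ∧ w ^ 2 ∈ Z 2}
      one_mem' := ⟨one_mem _, by simp⟩
      mul_mem' := fun {a b} ha hb => ⟨mul_mem ha.1 hb.1, (sq a ha.1 b hb.1).2 (mul_mem ha.2 hb.2)⟩
      inv_mem' := fun {a} ha => ⟨inv_mem ha.1, by rw [inv_pow]; exact inv_mem ha.2⟩ }
  have i2 : Ω.relIndex W ∣ 2 := by
    by_cases hw : W ≤ Ω
    · rw [relIndex_eq_one.2 hw]; exact one_dvd _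
    obtain ⟨a, ha, ha'⟩ := SetLike.not_le_iff_exists.1 hw
    refine relIindex_dvd_two_iff'.2 ⟨a, ha, fun b hb => ?_⟩
    by_cases hb' : b ∈ Ω
    · exact Or.inr hb'
    · exact Or.inl ⟨mul_mem ha hb, (sq a ha b hb).2 (h.mul (by omega) (h.sqm ha)
        (fun hh => ha' ⟨ha, hh⟩) (h.sqm hb) fun hh => hb' ⟨hb, hh⟩)⟩
  have hΩ : Ω ≤ W := fun x hx => hx.1
  have k1 := key (h.p.to_subgroup W) h.d hΩ
    ((Nat.le_of_dvd (by norm_num) i2).trans (by norm_num))
  have k2 : (frattini Ω).map Ω.subtype ≤ Z 2 := PGFrattini.map_frattini_le Nat.prime_two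
    ((commutator_mono hΩ hΩ).trans h2) fun x hx => hx.2
  rw [h.reg.2.2.1] at k1
  obtain ⟨z, z1, z2⟩ := h.ex (i := 2) (by omega)
  exact z2 (k2 (k1 z1))

theorem Hyp.elem (h : Hyp T W) : ∀ z ∈ Z 3, z ^ 2 = 1 := by
  haveI : IsMulCommutative (Z 3) := PGBasic.isMulCommutative_iff.2
    fun a ha b hb => h.cen (h.z3le ha) hb
  have : ⁅W, W⁆ ≤ PGNormalCyclic.omegaAb (Z 3) 2 := commutator_le.2 fun a ha b hb =>
    ⟨h.cm ha hb, by
      rw [← PGClassTwo.comm_pow_left (h.cen ha (h.cm ha hb)), commutatorElement_eq_one_iff_commute]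
      exact (h.cen hb (h.sqm ha)).symm⟩
  rw [h.der] at this
  exact fun z hz => (this hz).2

theorem Hyp.dih (h : Hyp T W) [W.Normal] : Nonempty (T ⧸ W ≃* DihedralGroup 4) := by
  haveI : Fact (Nat.Prime 2) := ⟨Nat.prime_two⟩
  obtain ⟨z1, a1, b1⟩ := h.ex (i := 0) (by omega)
  obtain ⟨z2, a2, b2⟩ := h.ex (i := 1) (by omega)
  obtain ⟨z3, a3, b3⟩ := h.ex (i := 2) (by omega)
  have hs := (h.idx a2 b2 a3 b3).2 h.reg.1
  obtain ⟨s, s2, s3⟩ := hs z1 a1 1 (one_mem _)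
  obtain ⟨r, r2, r3⟩ := hs 1 (one_mem _) z2 a2
  rw [one_mul] at s3 r2
  have q1 : z1 * z1 = 1 := by rw [← sq]; exact h.elem _ (zle 2 (zle 1 a1))
  have q2 : z2 * z2 = 1 := by rw [← sq]; exact h.elem _ (zle 2 a2)
  rw [Nat.zero_add, Subgroup.upperCentralSeries_one] at a1
  have c1 : ∀ t : T, t * z1 * t⁻¹ = z1 := fun t => by rw [mem_center_iff.1 a1 t]; group
  have cj : ∀ t a b : T, t * (a * b) * t⁻¹ = t * a * t⁻¹ * (t * b * t⁻¹) := fun t a b => by group
  have cc : ∀ t u a : T, t * u * a * (t * u)⁻¹ = t * (u * a * u⁻¹) * t⁻¹ := fun t u a => by group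
  have ss : s * s ∈ W := h.memW a2 b2 a3 b3
    (by rw [cc, s2, cj, c1, s2, ← mul_assoc, q1, one_mul]) (by rw [cc, s3, s3])
  have rr : r * r ∈ W := h.memW a2 b2 a3 b3
    (by rw [cc, r2, r2]) (by rw [cc, r3, cj, r2, r3, ← mul_assoc, q2, one_mul])
  have e2 : s * r * z2 * (s * r)⁻¹ = z1 * z2 := by rw [cc, r2, s2]
  have e3 : s * r * z3 * (s * r)⁻¹ = z1 * z2 * z3 := by rw [cc, r3, cj, s2, s3]
  have f2 : s * r * (s * r) * z2 * (s * r * (s * r))⁻¹ = z2 := by
    rw [cc, e2, cj, c1, e2, ← mul_assoc, q1, one_mul]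
  have f3 : s * r * (s * r) * z3 * (s * r * (s * r))⁻¹ = z1 * z3 := by
    rw [cc, e3, cj, cj, c1, e2, e3, ← mul_assoc z1 z1, q1, one_mul, ← mul_assoc, ← mul_assoc,
      mem_center_iff.1 a1 z2, mul_assoc z1, q2, mul_one]
  have n2 : s * r * (s * r) ∉ W := by
    intro hh
    rw [(h.cen hh a3).eq, mul_inv_cancel_right, eq_comm, mul_eq_right] at f3
    exact b1 (f3 ▸ one_mem _)
  have m4 : s * r * (s * r) * (s * r * (s * r)) ∈ W := h.memW a2 b2 a3 b3
    (by rw [cc, f2, f2]) (by rw [cc, f3, cj, c1, f3, ← mul_assoc, q1, one_mul])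
  set a : T ⧸ W := ((s * r : T) : T ⧸ W) with ha
  set x : T ⧸ W := (s : T ⧸ W) with hx
  have x2 : x * x = 1 := (QuotientGroup.eq_one_iff _).2 ss
  have y2 : (r : T ⧸ W) * r = 1 := (QuotientGroup.eq_one_iff _).2 rr
  have aa : a * a ≠ 1 := fun hh => n2 ((QuotientGroup.eq_one_iff _).1 hh)
  have ho : orderOf a = 4 := by
    refine orderOf_eq_prime_pow (p := 2) (n := 1) (by rw [pow_one, sq]; exact aa) ?_
    rw [show 2 ^ (1 + 1) = 2 * 2 by norm_num, pow_mul, sq, sq]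
    exact (QuotientGroup.eq_one_iff _).2 m4
  have hxa : x * a * x⁻¹ = a⁻¹ := by
    have : a = x * r := rfl
    rw [this, ← mul_assoc, x2, one_mul, mul_inv_rev, inv_eq_of_mul_eq_one_left y2]
  have hn : x ∉ zpowers a := by
    rintro ⟨k, hk⟩
    have : Commute x a := hk ▸ (Commute.refl a).zpow_left k
    rw [this.eq, mul_inv_cancel_right] at hxa
    exact aa (by nth_rw 2 [hxa]; exact mul_inv_cancel a)
  refine PGDihedral.nonempty_mulEquiv_dihedral ho hn (by rw [sq, x2]) hxa ?_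
  apply eq_top_of_card_eq
  obtain ⟨e⟩ := PGDihedral.nonempty_subgroup_mulEquiv_dihedral ho hn (by rw [sq, x2]) hxa
  rw [Nat.card_congr e.toEquiv, DihedralGroup.nat_card]
  exact h.reg.1.symm

theorem dec1 : ∀ (i : ZMod 4) (x : DihedralGroup 4),
    let f : DihedralGroup 4 → ZMod 2 := fun x => if x = .r 0 ∨ x = .r 1 then 1 else 0
    f x + f ((DihedralGroup.r 2)⁻¹ * x) + (f ((DihedralGroup.sr i)⁻¹ * x) +
      f ((DihedralGroup.r 2)⁻¹ * ((DihedralGroup.sr i)⁻¹ * x))) = 1 ∧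
    f ((DihedralGroup.sr i)⁻¹ * x) + f ((DihedralGroup.r 2)⁻¹ * ((DihedralGroup.sr i)⁻¹ * x)) +
      (f ((DihedralGroup.sr i)⁻¹ * ((DihedralGroup.r 2)⁻¹⁻¹ * x)) + f ((DihedralGroup.r 2)⁻¹ *
        ((DihedralGroup.sr i)⁻¹ * ((DihedralGroup.r 2)⁻¹⁻¹ * x)))) = 0 := by
  decide

theorem Hyp.zw (h : Hyp T W) : (center W).map W.subtype = Z 3 := by
  haveI hn := h.normal
  have hle : Z 3 ≤ (Subgroup.center W).map W.subtype := fun z hz =>
    ⟨⟨z, h.z3le hz⟩, mem_center_iff.2 fun a => Subtype.ext (h.cen a.2 hz), rfl⟩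
  refine h.cmp' (by omega) hle fun h4 => ?_
  obtain ⟨v, v1, v2⟩ := h.ex (i := 3) le_rfl
  obtain ⟨⟨v, vW⟩, vc, rfl⟩ := h4 v1
  simp only [coe_subtype] at v1 v2
  have vc' : ∀ a ∈ W, Commute a v := fun a ha =>
    congrArg Subtype.val (mem_center_iff.1 vc ⟨a, ha⟩)
  obtain ⟨e⟩ := h.dih
  obtain ⟨-, -, -, F, F1, F2, F3, F4, F5⟩ := h.reg
  let φ : T →* DihedralGroup 4 := e.toMonoidHom.comp (QuotientGroup.mk' W)
  have φs : Function.Surjective φ := e.surjective.comp (QuotientGroup.mk'_surjective W)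
  have φk : ∀ t, φ t = 1 ↔ t ∈ W := fun t => by
    rw [← QuotientGroup.eq_one_iff]; exact e.map_eq_one_iff
  have F5' : ∀ f : DihedralGroup 4 → ZMod 2, ∃ a ∈ W, ∀ t, F a t = f (φ t) :=
    fun f => F5 fun q => f (e q)
  have F0 : ∀ a ∈ W, ∀ t, F a⁻¹ t = F a t := fun a ha t => by
    have h1 := F1 _ (inv_mem ha) _ ha t
    rw [inv_mul_cancel, (F4 1 (one_mem _)).2 (one_mem _)] at h1
    have : ∀ x y : ZMod 2, 0 = x + y → x = y := by decide
    exact this _ _ h1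
  have Fv : ∀ t, F v t = 1 := by
    have c : ∀ t, F v t = F v 1 := fun t => by
      have m : ⁅t⁻¹, v⁆ ∈ Z 3 := by
        rw [← commutatorElement_inv]; exact inv_mem (Subgroup.mem_upperCentralSeries_succ_iff.1 v1 _)
      have := F2 v t⁻¹ 1
      rw [PGClassTwo.conj_eq_comm_mul, inv_inv, mul_one] at this
      rw [← this, F1 _ (h.z3le m) _ vW, (F4 _ (h.z3le m)).2 m, zero_add]
    intro t
    rw [c]
    by_contra hh
    have : ∀ x : ZMod 2, x ≠ 1 → x = 0 := by decide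
    exact v2 ((F4 v vW).1 fun t => by rw [c, this _ hh])
  let π := QuotientGroup.mk' (Z 2)
  have πc : ∀ z ∈ Z 3, π z ∈ Subgroup.center (T ⧸ Z 2) := by
    intro z hz
    rw [mem_center_iff]
    intro g
    obtain ⟨g, rfl⟩ := QuotientGroup.mk'_surjective _ g
    symm
    rw [← commutatorElement_eq_one_iff_mul_comm, ← map_commutatorElement]
    exact (QuotientGroup.eq_one_iff _).2 (Subgroup.mem_upperCentralSeries_succ_iff.1 hz g)
  haveI : (W.map π).Normal := hn.map _ (QuotientGroup.mk'_surjective _)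
  have refl : ∀ (i : ZMod 4) (s : T), φ s = .sr i → Commute (π s) (π v) := by
    intro i s hs
    obtain ⟨c, hc⟩ := φs (.r 2)
    obtain ⟨w, hw, Fw⟩ := F5' fun x => if x = .r 0 ∨ x = .r 1 then 1 else 0
    have uW : w * (c * w * c⁻¹) ∈ W := mul_mem hw (hn.conj_mem w hw c)
    set u := w * (c * w * c⁻¹) with hu
    have Fu : ∀ t, F u t = F w t + F w (c⁻¹ * t) := fun t => by
      rw [hu, F1 _ hw _ (hn.conj_mem w hw c), F2]
    have sW : s * s ∈ W := (φk _).1 (by rw [map_mul, hs, DihedralGroup.sr_mul_self])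
    have D1 : ∀ s' t, φ s' = .sr i → F u t + F u (s'⁻¹ * t) = 1 := fun s' t hs' => by
      rw [Fu, Fu, Fw, Fw, Fw, Fw]
      simp only [map_mul, map_inv, hs', hc]
      exact (dec1 i (φ t)).1
    obtain ⟨b, hb, Fb⟩ := F5 fun q => F u q.out * F (s * s) q.out
    have Fb' : ∀ t, F b t = F u t * F (s * s) t := fun t => by
      obtain ⟨c, hc⟩ := QuotientGroup.mk_out_eq_mul W t
      rw [Fb, hc, F3 _ uW t c c.2, F3 _ sW t c c.2]
    have t2 : (b * s) * (b * s) ∈ Z 3 := by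
      have e1 : (b * s) * (b * s) = b * (s * b * s⁻¹) * (s * s) := by group
      have m1 := mul_mem hb (hn.conj_mem b hb s)
      rw [e1]
      refine (F4 _ (mul_mem m1 sW)).1 fun t => ?_
      have e2 : F (s * s) (s⁻¹ * t) = F (s * s) t := by
        rw [← F2]; congr 1; group
      rw [F1 _ m1 _ sW, F1 _ hb _ (hn.conj_mem b hb s), F2, Fb', Fb', e2, ← add_mul, D1 s t hs,
        one_mul]
      have : ∀ x : ZMod 2, x + x = 0 := by decide
      exact this _
    set t := b * s with ht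
    have hφt : φ t = .sr i := by rw [ht, map_mul, (φk b).2 hb, one_mul, hs]
    have xW := hn.conj_mem u uW t
    have y3 : (u * (t * u * t⁻¹))⁻¹ * v ∈ Z 3 := by
      have m1 := mul_mem uW xW
      refine (F4 _ (mul_mem (inv_mem m1) vW)).1 fun x => ?_
      rw [F1 _ (inv_mem m1) _ vW, F0 _ m1, F1 _ uW _ xW, F2, D1 t x hφt, Fv]
      decide
    have x3 : (t * u * t⁻¹) * (c⁻¹ * (t * u * t⁻¹) * c⁻¹⁻¹) ∈ Z 3 := by
      have m1 := hn.conj_mem _ xW c⁻¹
      refine (F4 _ (mul_mem xW m1)).1 fun x => ?_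
      rw [F1 _ xW _ m1, F2, F2, F2, Fu, Fu, Fw, Fw, Fw, Fw]
      simp only [map_mul, map_inv, hφt, hc]
      exact (dec1 i (φ x)).2
    have k1 : Commute (π (t * u * t⁻¹)) (π u) := by
      have := calc1 (W := W.map π) (by
        rintro _ ⟨a, ha, rfl⟩ _ ⟨b, hb, rfl⟩
        rw [← map_commutatorElement]
        exact πc _ (h.cm ha hb)) (w := π w) (x := π (t * u * t⁻¹)) (c := π c) ⟨w, hw, rfl⟩
        ⟨_, xW, rfl⟩ (by simpa using πc _ x3)
      have e : π u = π w * (π c * π w * (π c)⁻¹) := by rw [hu]; simp only [map_mul, map_inv]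
      rw [e]
      exact this
    have k2 : Commute (π t) (π (u * (t * u * t⁻¹))) := by
      have c2 := mem_center_iff.1 (πc _ t2) (π u)
      simp only [map_mul, map_inv] at *
      show π t * (π u * (π t * π u * (π t)⁻¹)) = π u * (π t * π u * (π t)⁻¹) * π t
      rw [← k1.eq]
      calc π t * (π t * π u * (π t)⁻¹ * π u) = (π t * π t * π u) * (π t)⁻¹ * π u := by group
        _ = π u * (π t * π t) * (π t)⁻¹ * π u := by rw [c2]
        _ = π u * (π t * π u * (π t)⁻¹) * π t := by group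
        _ = _ := by rw [k1.eq]
    have k3 : Commute (π t) (π v) := by
      have := k2.mul_right (PGClassTwo.commute_of_mem_center (πc _ y3) (π t))
      rwa [← map_mul, mul_inv_cancel_left] at this
    have := ((vc' b hb).map π).inv_left.mul_left k3
    rwa [ht, map_mul, inv_mul_cancel_left] at this
  apply v2
  rw [Subgroup.mem_upperCentralSeries_succ_iff]
  intro t
  have : Commute (π t) (π v) := by
    rcases ht : φ t with i | i
    · obtain ⟨s, hs⟩ := φs (.sr 0)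
      have := (refl 0 s hs).mul_left (refl i (s⁻¹ * t) (by rw [map_mul, map_inv, hs, ht]; simp))
      rwa [← map_mul, mul_inv_cancel_left] at this
    · exact refl i t ht
  rw [← QuotientGroup.eq_one_iff]
  show π _ = 1
  rw [map_commutatorElement, commutatorElement_eq_one_iff_commute]
  exact this.symm

theorem Hyp.aut (h : Hyp T W) {α : MulAut T} {m : ℕ} (hm : Odd m) (hα : α ^ m = 1) (x : T) :
    α x = x := by
  haveI hn := h.normal
  have zα : ∀ i, ∀ z, α z ∈ Z i ↔ z ∈ Z i := fun i z => by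
    have := characteristic_iff_comap_eq.1 (inferInstance : (Z i).Characteristic) α
    conv_rhs => rw [← this]
    rfl
  have f1 : ∀ i ≤ 4, ∀ z ∈ Z i, α z = z := by
    intro i
    induction i with
    | zero => intro _ z hz; rw [Subgroup.upperCentralSeries_zero, mem_bot] at hz; rw [hz, map_one]
    | succ i ih =>
      intro hi z hz
      by_cases h1 : z ∈ Z i
      · exact ih (by omega) z h1
      · exact fix_of_odd h.p hm hα (ih (by omega) _ (h.mul (by omega) (inv_mem hz)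
          (fun hh => h1 (inv_mem_iff.1 hh)) ((zα _ _).2 hz) fun hh => h1 ((zα _ _).1 hh)))
  have f2 : ∀ t, t⁻¹ * α t ∈ W := by
    intro t
    rw [h.w]
    intro z hz
    have h1 := f1 3 (by omega) _ ((inferInstance : (Z 3).Normal).conj_mem z hz t)
    rw [map_mul, map_mul, map_inv, f1 3 (by omega) z hz] at h1
    calc z * (t⁻¹ * α t) = t⁻¹ * (t * z * t⁻¹) * α t := by group
      _ = _ := by rw [← h1]; group
  have wα : ∀ w ∈ W, α w ∈ W := fun w hw => by simpa using mul_mem hw (f2 w)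
  let π := QuotientGroup.mk' (Z 3)
  have cm : ∀ a ∈ W, ∀ b ∈ W, π a * π b = π b * π a := fun a ha b hb => by
    rw [← commutatorElement_eq_one_iff_mul_comm, ← map_commutatorElement]
    exact (QuotientGroup.eq_one_iff _).2 (h.cm ha hb)
  let R : Subgroup T :=
    { carrier := {x | ∃ w ∈ W, π x = π (w⁻¹ * α w)}
      one_mem' := ⟨1, one_mem _, by simp⟩
      mul_mem' := by
        rintro a b ⟨w, hw, e⟩ ⟨w', hw', e'⟩
        refine ⟨w * w', mul_mem hw hw', ?_⟩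
        rw [map_mul, e, e', map_mul π w'⁻¹, ← mul_assoc, cm _ (f2 w) _ (inv_mem hw')]
        simp only [map_mul, mul_inv_rev, mul_assoc]
      inv_mem' := by
        rintro a ⟨w, hw, e⟩
        refine ⟨w⁻¹, inv_mem hw, ?_⟩
        rw [map_inv, e, inv_inv, map_mul π w, cm _ hw _ (wα _ (inv_mem hw))]
        simp only [map_mul, mul_inv_rev, map_inv, inv_inv] }
  haveI : R.Normal := ⟨by
    rintro a ⟨w, hw, e⟩ t
    refine ⟨t * w * t⁻¹, hn.conj_mem w hw t, ?_⟩
    have := cm _ (f2 t) _ (wα w hw)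
    simp only [map_mul, map_inv] at *
    rw [e]
    calc π t * ((π w)⁻¹ * π (α w)) * (π t)⁻¹ = π t * (π w)⁻¹ *
        (π (α w) * ((π t)⁻¹ * π (α t))) * (π (α t))⁻¹ := by group
      _ = _ := by rw [← this]; group⟩
  have hR : R = Z 3 := by
    refine h.cmp' le_rfl (fun z hz => ⟨1, one_mem _, ?_⟩) fun h4 => ?_
    · rw [inv_one, map_one, one_mul, map_one]
      exact (QuotientGroup.eq_one_iff _).2 hz
    · obtain ⟨v, v1, v2⟩ := h.ex (i := 3) le_rfl
      obtain ⟨w, hw, e⟩ := h4 v1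
      have e1 : v⁻¹ * (w⁻¹ * α w) ∈ Z 3 := QuotientGroup.eq.1 e
      have e2 : w⁻¹ * α w ∈ Z 4 := by simpa using mul_mem v1 (zle 3 e1)
      rw [fix_of_odd h.p hm hα (f1 4 le_rfl _ e2)] at e1
      exact v2 (by simpa using e1)
  have f3 : ∀ w ∈ W, α w = w := fun w hw =>
    fix_of_odd h.p hm hα (f1 3 (by omega) _ (hR ▸ ⟨w, hw, rfl⟩))
  exact fix_of_odd h.p hm hα (f3 _ (f2 x))

end CA.H6Ru
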