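import Cfsg.Agent.Lib.Loc.AmbIso
import Cfsg.Agent.Lib.Grp.H13Z2
import Cfsg.Agent.S0205

/-!
A consequence of the `Z*`-theorem: `C_N(Q) = C_N(t)` for `t ∈ Z(Q) ∩ Q'` forces `[N, Q] ≤ O(G)`.
-/

set_option autoImplicit false
set_option linter.unusedVariables false

namespace CA.H6Zs

open Subgroup Cfsg CA.Amb CA.AmbSyl CA.AmbCore CA.AmbRes CA.AmbChar CA.AmbWC CA.AmbSpe CA.AmbIso
open scoped commutatorElement

variable {G : Type*} [Group G] [Finite G]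

theorem cent_two {N Q : Subgroup G} (hn : Q ≤ 𝐍 N) (hQ : IsPGroup 2 Q) {t : G} (htQ : t ∈ ⁅Q, Q⁆)
    (hC : N ⊓ centralizer ({t} : Set G) ≤ 𝐂 Q) :
    ∀ (n : ℕ) (Y : Subgroup G), Nat.card Y = n → Y ≤ N → IsPGroup 2 Y → Q ≤ 𝐍 Y → Y ≤ 𝐂 Q := by
  haveI : Fact (Nat.Prime 2) := ⟨Nat.prime_two⟩
  intro n
  induction n using Nat.strong_induction_on with
  | _ n ih =>
    intro Y hc hYN hY hQY
    by_cases h0 : Y = ⊥
    · rw [h0]; exact bot_le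
    have hlt := commutator_lt hQ hY hQY h0
    have h1 : ⁅Y, Q⁆ ≤ 𝐂 Q := ih _ (hc ▸ card_lt_of_lt hlt) _ rfl (hlt.le.trans hYN)
      (hY.to_le hlt.le) (norm_comm_right _ _)
    have h2 : ⁅⁅Q, Q⁆, Y⁆ ≤ ⊥ := by
      refine three_subgroups norm_of_normal norm_of_normal norm_of_normal ?_ ?_
      · rw [commutator_comm Q Y]; exact (comm_eq_bot_of_le h1).le
      · exact (comm_eq_bot_of_le h1).le
    have h3 : Y ≤ 𝐂 ⁅Q, Q⁆ := commutator_eq_bot_iff'.1 (le_bot_iff.1 h2)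
    refine le_trans (le_inf hYN ?_) hC
    intro y hy
    rw [mem_centralizer_singleton_iff]
    exact ((mem_centralizer_sub.1 (h3 hy)) t htQ).symm

theorem conj_eq {N Q : Subgroup G} [N.Normal] (hQ : IsPGroup 2 Q) {t : G} (htZ : t ∈ 𝐂 Q)
    (htQ : t ∈ ⁅Q, Q⁆) (hC : N ⊓ centralizer ({t} : Set G) ≤ 𝐂 Q) {n : G} (hn : n ∈ N)
    (h : n * t * n⁻¹ ∈ 𝐂 Q) : n * t * n⁻¹ = t := by
  have ht : ∀ q ∈ Q, q * t = t * q := mem_centralizer_sub.1 htZ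
  have ht' : ∀ q ∈ Q, q * (n * t * n⁻¹) = n * t * n⁻¹ * q := mem_centralizer_sub.1 h
  have hN : ∀ q ∈ Q, q * (n * q * n⁻¹)⁻¹ ∈ N := by
    intro q hq
    have : q * (n * q * n⁻¹)⁻¹ = (q * n * q⁻¹) * n⁻¹ := by group
    rw [this]
    exact N.mul_mem (‹N.Normal›.conj_mem n hn q) (N.inv_mem hn)
  have key : ∀ q ∈ Q, ∀ r ∈ Q, (n * r * n⁻¹) * (q * (n * q * n⁻¹)⁻¹) =
      (q * (n * q * n⁻¹)⁻¹) * (n * r * n⁻¹) := by
    intro q hq r hr
    have h1 : n⁻¹ * (q * (n * q * n⁻¹)⁻¹) * n ∈ N ⊓ centralizer ({t} : Set G) := by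
      refine mem_inf.2 ⟨by simpa using ‹N.Normal›.conj_mem _ (hN q hq) n⁻¹, ?_⟩
      rw [mem_centralizer_singleton_iff]
      have a := ht' q hq
      have b := ht q⁻¹ (Q.inv_mem hq)
      calc n⁻¹ * (q * (n * q * n⁻¹)⁻¹) * n * t = n⁻¹ * q * n * (q⁻¹ * t) := by group
        _ = n⁻¹ * (q * (n * t * n⁻¹)) * n * q⁻¹ := by rw [b]; group
        _ = t * (n⁻¹ * (q * (n * q * n⁻¹)⁻¹) * n) := by rw [a]; group
    have h2 := mem_centralizer_sub.1 (hC h1) r hr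
    calc (n * r * n⁻¹) * (q * (n * q * n⁻¹)⁻¹) = n * (r * (n⁻¹ * (q * (n * q * n⁻¹)⁻¹) * n)) * n⁻¹ := by
          group
      _ = _ := by rw [h2]; group
  let c : Q →* G := MonoidHom.mk' (fun q => (q : G) * (n * q * n⁻¹)⁻¹) (by
    intro a b
    have := key b b.2 a⁻¹ (Q.inv_mem a.2)
    simp only [Subgroup.coe_mul]
    calc (a : G) * b * (n * (a * b) * n⁻¹)⁻¹ = a * ((b * (n * b * n⁻¹)⁻¹) * (n * (a : G)⁻¹ * n⁻¹)) := by
          group
      _ = _ := by rw [← this]; group)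
  have hc : ∀ q : Q, c q = (q : G) * (n * q * n⁻¹)⁻¹ := fun _ => rfl
  have hY : IsPGroup 2 c.range := hQ.of_surjective c.rangeRestrict c.rangeRestrict_surjective
  have hYN : c.range ≤ N := by
    rintro _ ⟨q, rfl⟩; exact hN q q.2
  have hconj : ∀ q r : Q, (r : G) * c q * (r : G)⁻¹ = c r * c q * (c r)⁻¹ := by
    intro q r
    have := key q q.2 r r.2
    rw [hc, hc]
    calc (r : G) * (q * (n * q * n⁻¹)⁻¹) * (r : G)⁻¹ =
        (r * (n * r * n⁻¹)⁻¹) * ((n * r * n⁻¹) * (q * (n * q * n⁻¹)⁻¹)) * (r : G)⁻¹ := by group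
      _ = _ := by rw [this]; group
  have hQY : Q ≤ 𝐍 c.range := by
    rw [le_normalizer_iff_cj]
    intro r hr
    rw [cj_le_iff']
    rintro _ ⟨q, rfl⟩
    rw [hconj q ⟨r, hr⟩]
    exact ⟨⟨r, hr⟩ * q * ⟨r, hr⟩⁻¹, by simp only [map_mul, map_inv]⟩
  have hYc := cent_two (N := N) norm_of_normal hQ htQ hC _ _ rfl hYN hY hQY
  have hcomm : ⁅Q, Q⁆ ≤ centralizer ({n} : Set G) := by
    rw [Subgroup.commutator_le]
    intro a ha b hb
    have h1 : c ⁅(⟨a, ha⟩ : Q), (⟨b, hb⟩ : Q)⁆ = 1 := by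
      rw [map_commutatorElement, commutatorElement_def, ← hconj]
      have := mem_centralizer_sub.1 (hYc ⟨⟨b, hb⟩, rfl⟩) a ha
      simp only [] at this ⊢
      rw [this]; group
    rw [hc] at h1
    have h2 : ((⁅(⟨a, ha⟩ : Q), (⟨b, hb⟩ : Q)⁆ : Q) : G) = ⁅a, b⁆ := rfl
    rw [h2, mul_inv_eq_one] at h1
    rw [mem_centralizer_singleton_iff]
    calc ⁅a, b⁆ * n = n * ⁅a, b⁆ * n⁻¹ * n := by rw [← h1]
      _ = _ := by group
  have := mem_centralizer_singleton_iff.1 (hcomm htQ)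
  rw [← this]; group

theorem comm_le_core {N Q : Subgroup G} [N.Normal] (hG : Q ⊔ N = ⊤) (hQ : IsPGroup 2 Q) {t : G}
    (htZ : t ∈ 𝐂 Q) (htQ : t ∈ ⁅Q, Q⁆) (hC : N ⊓ centralizer ({t} : Set G) ≤ 𝐂 Q) :
    ⁅N, Q⁆ ≤ pPrimeCore 2 G := by
  haveI : Fact (Nat.Prime 2) := ⟨Nat.prime_two⟩
  have htq : t ∈ Q := comm_le_of_le le_rfl le_rfl htQ
  obtain ⟨P, hP⟩ := hQ.exists_le_sylow
  have hS : (P : Subgroup G) ⊓ N ≤ 𝐂 Q := cent_two norm_of_normal hQ htQ hC _ _ rfl inf_le_right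
    (P.isPGroup'.to_le inf_le_left) (norm_inf (norm_of_le hP) norm_of_normal)
  have hdec : ∀ g : G, ∃ n ∈ N, ∃ q ∈ Q, n * q = g := fun g =>
    (mem_sup_of_norm' (H := Q) (N := N) norm_of_normal).1 (by rw [sup_comm, hG]; trivial)
  have hw : ∀ g : G, g * t * g⁻¹ ∈ (P : Subgroup G) → g * t * g⁻¹ = t := by
    intro g hg
    obtain ⟨n, hn, q, hq, rfl⟩ := hdec g
    have e : n * q * t * (n * q)⁻¹ = n * t * n⁻¹ := by
      have := mem_centralizer_sub.1 htZ q hq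
      calc n * q * t * (n * q)⁻¹ = n * (q * t) * q⁻¹ * n⁻¹ := by group
        _ = _ := by rw [this]; group
    rw [e] at hg ⊢
    refine conj_eq hQ htZ htQ hC hn ?_
    have h1 : n * t * n⁻¹ * t⁻¹ ∈ (P : Subgroup G) ⊓ N := by
      refine mem_inf.2 ⟨(P : Subgroup G).mul_mem hg ((P : Subgroup G).inv_mem (hP htq)), ?_⟩
      have : n * t * n⁻¹ * t⁻¹ = n * (t * n⁻¹ * t⁻¹) := by group
      rw [this]
      exact N.mul_mem hn (‹N.Normal›.conj_mem _ (N.inv_mem hn) t)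
    simpa using (𝐂 Q).mul_mem (hS h1) htZ
  have hz := CA.H13Z2.zstar_wcl P (hP htq) hw
  have hiso : IsIsolated t := iso_of_sylow (sylIn_top P) (hP htq) hw
  obtain ⟨k, hk⟩ := isPGroup_iff_mem.1 hQ t htq
  have hON : pPrimeCore 2 G ≤ N := by
    intro x hx
    obtain ⟨j, hj⟩ := pow_mem_of_sup hQ (N := N) norm_of_normal (x := x) (by rw [hG]; trivial)
    refine mem_of_pow_mem_of_coprime (Nat.Coprime.pow_right j ?_) hj
    exact Nat.Coprime.coprime_dvd_left ((pPrimeCore 2 G).orderOf_dvd_natCard hx)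
      CA.Core.coprime_pPrimeCore
  rw [Subgroup.commutator_le]
  intro n hn q hq
  obtain ⟨c, hc, h1⟩ := Iso.exists_conj hiso hk (H := zpowers t ⊔ pPrimeCore 2 G)
    (mem_sup_left (mem_zpowers t)) (g := n) (by
      have : n * t * n⁻¹ = (n * t * n⁻¹ * t⁻¹) * t := by group
      rw [this]
      exact mul_mem (mem_sup_right (hz n)) (mem_sup_left (mem_zpowers t)))
  obtain ⟨y, hy, z, hz', rfl⟩ := (mem_sup_of_norm norm_of_normal).1 hc
  have h2 : z * n ∈ N ⊓ centralizer ({t} : Set G) := by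
    refine mem_inf.2 ⟨N.mul_mem (hON hz') hn, ?_⟩
    have : y ∈ centralizer ({t} : Set G) := zpowers_le_of_mem (self_mem_cent t) hy
    simpa [mul_assoc] using (centralizer ({t} : Set G)).mul_mem (inv_mem this) h1
  have h3 := mem_centralizer_sub.1 (hC h2) q hq
  have : ⁅n, q⁆ = z⁻¹ * (q * z * q⁻¹) := by
    rw [commutatorElement_def]
    calc n * q * n⁻¹ * q⁻¹ = z⁻¹ * (z * n * q) * n⁻¹ * q⁻¹ := by group
      _ = _ := by rw [← h3]; group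
  rw [this]
  exact mul_mem (inv_mem hz') ((inferInstance : (pPrimeCore 2 G).Normal).conj_mem _ hz' q)

theorem odd_comm {N Q : Subgroup G} [N.Normal] (hG : Q ⊔ N = ⊤) (hQ : IsPGroup 2 Q) {t : G}
    (htZ : t ∈ 𝐂 Q) (htQ : t ∈ ⁅Q, Q⁆) (hC : N ⊓ centralizer ({t} : Set G) ≤ 𝐂 Q) :
    Group.IsSolvable ↥⁅N, Q⁆ ∧ Odd (Nat.card ↥⁅N, Q⁆) := by
  have h := CA.Core.coprime_of_le_pPrimeCore (comm_le_core hG hQ htZ htQ hC)
  have ho : Odd (Nat.card ↥⁅N, Q⁆) := by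
    rw [← Nat.coprime_two_right]; exact h
  exact ⟨Cfsg.Agent.S0205.result ho, ho⟩

end CA.H6Zs
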