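import Mathlib

/-! Abstract lemmas for exceptional blocks. -/

set_option autoImplicit false

namespace CA.H8Exc

open Matrix
open scoped MatrixGroups

section abs

variable {A G : Type*} [AddCommGroup A] [Finite A] [Group G]

theorem card_ker_of {Z : Subgroup G} [Finite Z] (f : A → G) (hm : ∀ y y', f (y + y') = f y * f y')
    (hz : ∀ y, f y ∈ Z) (hs : ∀ z ∈ Z, ∃ y, f y = z) (hc : Nat.card A = Nat.card Z ^ 2) :
    ∃ K : AddSubgroup A, (∀ y, y ∈ K ↔ f y = 1) ∧ Nat.card K = Nat.card Z := by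
  let φ : A →+ Additive Z := AddMonoidHom.mk' (fun y => Additive.ofMul ⟨f y, hz y⟩) fun a b =>
    congrArg Additive.ofMul (Subtype.ext (hm a b))
  have hsurj : Function.Surjective φ := fun z => by
    obtain ⟨y, hy⟩ := hs _ (Additive.toMul z).2
    exact ⟨y, congrArg Additive.ofMul (Subtype.ext hy)⟩
  refine ⟨φ.ker, fun y => ?_, ?_⟩
  · rw [AddMonoidHom.mem_ker]
    exact ⟨fun h => congrArg (fun z => ((Additive.toMul z : Z) : G)) h,
      fun h => congrArg Additive.ofMul (Subtype.ext h)⟩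
  · have h1 := φ.ker.card_mul_index
    rw [AddSubgroup.index_ker, AddMonoidHom.range_eq_top.2 hsurj, AddSubgroup.card_top, hc, pow_two] at h1
    exact Nat.eq_of_mul_eq_mul_right (Nat.card_pos (α := Z)) h1

theorem fpf_abs {Z : Subgroup G} [Finite Z] (f : A → A → G)
    (hm : ∀ x y y', f x (y + y') = f x y * f x y') (hz : ∀ x y, f x y ∈ Z)
    (hs : ∀ x, x ≠ 0 → ∀ z ∈ Z, ∃ y, f x y = z) (halt : ∀ x, f x x = 1)
    (hanti : ∀ x y, f x y = 1 → f y x = 1) (hc : Nat.card A = Nat.card Z ^ 2) (θ : A →+ A)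
    (hp : ∀ y, θ y = 0 → ∀ x, f y (θ x) = 1) (hd : ∀ x, θ (θ x) = 0 → θ x = 0) :
    (∀ x, θ x = 0) ∨ ∀ y, θ y = 0 → y = 0 := by
  by_contra h
  push Not at h
  obtain ⟨⟨x, hx⟩, y, hy, hy0⟩ := h
  obtain ⟨K1, k1, c1⟩ := card_ker_of (f y) (hm y) (hz y) (hs y hy0) hc
  obtain ⟨K2, k2, c2⟩ := card_ker_of (f (θ x)) (hm _) (hz _) (hs _ hx) hc
  have l1 : θ.range < K1 := by
    refine lt_of_le_of_ne (by rintro _ ⟨u, rfl⟩; exact (k1 _).2 (hp y hy u)) fun e => ?_
    obtain ⟨u, rfl⟩ : y ∈ θ.range := e ▸ (k1 y).2 (halt y)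
    exact hy0 (hd u hy)
  have l2 : θ.ker ≤ K2 := fun u hu => (k2 u).2 (hanti _ _ (hp u hu x))
  have h1 := θ.ker.card_mul_index
  rw [AddSubgroup.index_ker] at h1
  have a1 : Nat.card θ.range < Nat.card K1 := by
    refine lt_of_le_of_ne (AddSubgroup.card_le_of_le l1.le) fun e => l1.ne ?_
    exact AddSubgroup.eq_of_le_of_card_ge l1.le e.ge
  have a2 := AddSubgroup.card_le_of_le l2
  rw [c1] at a1; rw [c2] at a2
  have : 0 < Nat.card θ.ker := Nat.card_pos
  nlinarith

theorem lam_abs {Z : Subgroup G} [Finite Z] (hZ : ∀ a ∈ Z, ∀ b ∈ Z, a * b = b * a) (f : A → A → G)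
    (hm : ∀ x y y', f x (y + y') = f x y * f x y') (hm' : ∀ x x' y, f (x + x') y = f x y * f x' y)
    (hz : ∀ x y, f x y ∈ Z) (hs : ∀ x, x ≠ 0 → ∀ z ∈ Z, ∃ y, f x y = z) (γ : A → G)
    (gm : ∀ y y', γ (y + y') = γ y * γ y') (gz : ∀ y, γ y ∈ Z)
    (gs : ∀ x, x ≠ 0 → ∀ z ∈ Z, ∃ y, f x y * γ y = z) (y₀ : A) : γ y₀ = 1 := by
  by_contra h
  letI : CommGroup Z := { (inferInstance : Group Z) with
    mul_comm := fun a b => Subtype.ext (hZ _ a.2 _ b.2) }
  have hne : (Additive.ofMul ⟨γ y₀, gz y₀⟩ : Additive Z) ≠ 0 := fun e =>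
    h (congrArg (fun z => ((Additive.toMul z : Z) : G)) e)
  obtain ⟨lam, hl⟩ := (AddChar.exists_apply_ne_zero (α := Additive Z)).2 hne
  let φ : A → A →+ Additive Z := fun x =>
    AddMonoidHom.mk' (fun y => Additive.ofMul ⟨f x y, hz x y⟩) fun a b =>
      congrArg Additive.ofMul (Subtype.ext (hm x a b))
  let g : A →+ Additive Z := AddMonoidHom.mk' (fun y => Additive.ofMul ⟨γ y, gz y⟩) fun a b =>
      congrArg Additive.ofMul (Subtype.ext (gm a b))
  have hadd : ∀ x x' y, φ (x + x') y = φ x y + φ x' y := fun x x' y =>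
    congrArg Additive.ofMul (Subtype.ext (hm' x x' y))
  have key : ∀ ψ : A → Additive Z, (∀ z ∈ Z, ∃ y, ((Additive.toMul (ψ y) : Z) : G) = z) →
      (∀ y, lam (ψ y) = 1) → False := fun ψ h1 h2 => by
    obtain ⟨y, hy⟩ := h1 _ (gz y₀)
    have : ψ y = Additive.ofMul ⟨γ y₀, gz y₀⟩ := congrArg Additive.ofMul (Subtype.ext hy)
    exact hl (this ▸ h2 y)
  let Φ : A → AddChar A ℂ := fun x => lam.compAddMonoidHom (φ x)
  have hinj : Function.Injective Φ := fun x x' e => by
    by_contra hx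
    refine key (φ (x - x')) (hs _ (sub_ne_zero.2 hx)) fun y => ?_
    have e1 : lam (φ x y) = lam (φ x' y) := congrArg (fun c : AddChar A ℂ => c y) e
    have e2 : φ x y = φ (x - x') y + φ x' y := by rw [← hadd, sub_add_cancel]
    rw [e2, AddChar.map_add_eq_mul] at e1
    exact (mul_eq_right₀ (fun e0 => by
      have := lam.map_add_eq_mul (φ x' y) (-φ x' y)
      rw [add_neg_cancel, AddChar.map_zero_eq_one, e0, zero_mul] at this
      exact one_ne_zero this)).1 e1
  haveI := Fintype.ofFinite A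
  have hb := (Fintype.bijective_iff_injective_and_card Φ).2 ⟨hinj, (AddChar.card_eq (α := A)).symm⟩
  obtain ⟨x, hx⟩ := hb.2 (lam.compAddMonoidHom (-g))
  have hx' : ∀ y, lam (φ x y + g y) = 1 := fun y => by
    have e1 : lam (φ x y) = lam (-g y) := congrArg (fun c : AddChar A ℂ => c y) hx
    rw [AddChar.map_add_eq_mul, e1, ← AddChar.map_add_eq_mul, neg_add_cancel, AddChar.map_zero_eq_one]
  by_cases h0 : x = 0
  · subst h0
    have : φ 0 y₀ = 0 := by
      have := hadd 0 0 y₀
      rw [add_zero] at this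
      exact left_eq_add.1 this
    have h2 := hx' y₀
    rw [this, zero_add] at h2
    exact hl h2
  · exact key (fun y => φ x y + g y) (gs x h0) hx'

end abs

section lin

variable {F : Type*} [Field F]

theorem scalar_of_comm (β : (Fin 2 → F) → (Fin 2 → F)) (ha : ∀ x y, β (x + y) = β x + β y)
    (h : ∀ m : SL(2, F), ∀ x, β (m.1 *ᵥ x) = m.1 *ᵥ β x) : ∃ μ : F, ∀ x, β x = μ • x := by
  have hu : ∀ (s : F) (x : Fin 2 → F), β ![x 0 + s * x 1, x 1] = ![β x 0 + s * β x 1, β x 1] := by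
    intro s x
    have := h ⟨!![1, s; 0, 1], by simp⟩ x
    convert this using 2 <;> (try ext i; fin_cases i) <;> simp [mulVec, dotProduct]
  have hl : ∀ (s : F) (x : Fin 2 → F), β ![x 0, x 1 + s * x 0] = ![β x 0, β x 1 + s * β x 0] := by
    intro s x
    have := h ⟨!![1, 0; s, 1], by simp⟩ x
    convert this using 2 <;> (try ext i; fin_cases i) <;> simp [mulVec, dotProduct, add_comm]
  have a1 : ∀ c : F, β ![c, 0] 1 = 0 := fun c => by
    have := congrFun (hu 1 ![c, 0]) 0
    simpa using this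
  have a2 : ∀ c : F, β ![0, c] 0 = 0 := fun c => by
    have := congrFun (hl 1 ![0, c]) 1
    simpa using this
  have sp : ∀ a b : F, β ![a, b] = β ![a, 0] + β ![0, b] := fun a b => by
    rw [← ha]; congr 1; ext i; fin_cases i <;> simp
  have a3 : ∀ s c : F, β ![s * c, 0] 0 = s * β ![0, c] 1 := fun s c => by
    have := congrFun (hu s ![0, c]) 0
    simp only [cons_val_zero, cons_val_one, zero_add, a2] at this
    rw [sp] at this
    simpa [a2] using this
  refine ⟨β ![0, 1] 1, fun x => ?_⟩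
  have hx : x = ![x 0, x 1] := by ext i; fin_cases i <;> rfl
  rw [hx, sp]
  have b1 := a3 (x 0) 1
  have b2 := a3 1 (x 1)
  have b3 := a3 (x 1) 1
  rw [mul_one] at b1 b3
  rw [one_mul, one_mul, b3] at b2
  ext i; fin_cases i
  · simp [a2, b1, mul_comm]
  · simp [a1, ← b2, mul_comm]

theorem sl_of_quad (h2 : (2 : F) ≠ 0) (α : (Fin 2 → F) →+ (Fin 2 → F))
    (hq : ∀ x, α (α x) = 2 • α x - x)
    (h : ∀ m : SL(2, F), ∃ m' : SL(2, F), ∀ x, m.1 *ᵥ α x = α (m'.1 *ᵥ x)) :
    ∃ m : SL(2, F), ∀ x, α x = m.1 *ᵥ x := by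
  have i1 : ∀ x, α (2 • x - α x) = x := fun x => by rw [map_sub, map_nsmul, hq]; abel
  have i2 : ∀ x, 2 • α x - α (α x) = x := fun x => by rw [hq]; abel
  have s1 : ∀ c : F, ∃ μ : F, ∀ x, α (c • x) = μ • α x := fun c => by
    obtain ⟨μ, hμ⟩ := scalar_of_comm (fun y => α (c • (2 • y - α y)))
      (fun x y => by rw [← map_add, ← smul_add, map_add, smul_add]; congr 2; abel) fun m y => by
        obtain ⟨m', hm⟩ := h m
        conv_lhs => rw [← i1 y, hm, i2]
        rw [← mulVec_smul, ← hm]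
    exact ⟨μ, fun x => by rw [← hμ, i2]⟩
  choose σ hσ using s1
  have hne : α ![1, 0] ≠ 0 := fun e => by
    have := i2 ![1, 0]
    rw [e, map_zero] at this
    simpa using congrFun this 0
  have s2 : ∀ c, σ c = c := fun c => by
    have e : ∀ x, (2 * (σ (σ c) - σ c)) • α x = (σ (σ c) - c) • x := fun x => by
      have := hq (c • x)
      rw [hσ, hσ, hq, two_nsmul, two_nsmul] at this
      linear_combination (norm := module) this
    by_cases hc : σ (σ c) = σ c
    · have := congrFun (e ![1, 0]) 0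
      rw [hc] at this
      simp at this
      exact sub_eq_zero.1 this.symm
    · exfalso
      have hk : 2 * (σ (σ c) - σ c) ≠ 0 := mul_ne_zero h2 (sub_ne_zero.2 hc)
      have e1 := e (c • ![1, 0])
      rw [hσ, smul_comm (σ (σ c) - c), ← e, smul_smul, smul_smul, ← sub_eq_zero, ← sub_smul] at e1
      have e2 := (smul_eq_zero.1 e1).resolve_right hne
      have : σ c = c := by
        apply mul_left_cancel₀ hk
        linear_combination e2
      exact hc (by rw [this, this])
  have lin : ∀ x, α x = x 0 • α ![1, 0] + x 1 • α ![0, 1] := fun x => by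
    rw [← s2 (x 0), ← s2 (x 1), ← hσ, ← hσ, ← map_add]
    congr 1; ext i; fin_cases i <;> simp
  set a := α ![1, 0] with ha
  set b := α ![0, 1] with hb
  have q1 := hq ![1, 0]
  have q2 := hq ![0, 1]
  rw [← ha, lin] at q1
  rw [← hb, lin] at q2
  have r1 := congrFun q1 0
  have r2 := congrFun q1 1
  have r3 := congrFun q2 0
  have r4 := congrFun q2 1
  simp at r1 r2 r3 r4
  have tr : a 0 + b 1 = 2 := by
    by_contra ht
    have ht' : a 0 + b 1 - 2 ≠ 0 := sub_ne_zero.2 ht
    have z1 : a 1 = 0 := (mul_eq_zero.1 (show a 1 * (a 0 + b 1 - 2) = 0 by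
      linear_combination r2)).resolve_right ht'
    have z2 : a 0 - 1 = 0 := pow_eq_zero_iff (n := 2) two_ne_zero |>.1 (by
      rw [z1] at r1; linear_combination r1)
    have z3 : b 1 - 1 = 0 := pow_eq_zero_iff (n := 2) two_ne_zero |>.1 (by
      rw [z1] at r4; linear_combination r4)
    exact ht (by linear_combination z2 + z3)
  refine ⟨⟨!![a 0, b 0; a 1, b 1], ?_⟩, fun x => ?_⟩
  · rw [det_fin_two_of]
    linear_combination (a 0) * tr - r1
  · rw [lin]; ext i; fin_cases i <;> simp [mulVec, dotProduct, mul_comm]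

theorem quad_of_lin [CharP F 3] (α : (Fin 2 → F) →+ (Fin 2 → F)) (hl : ∀ (c : F) x, α (c • x) = c • α x)
    {k : ℕ} (hk : ∀ x, α^[3 ^ k] x = x) (x : Fin 2 → F) : α (α x) = 2 • α x - x := by
  let L : Module.End F (Fin 2 → F) := { α with map_smul' := hl }
  haveI : Fact (Nat.Prime 3) := ⟨Nat.prime_three⟩
  haveI : CharP (Module.End F (Fin 2 → F)) 3 := charP_of_injective_algebraMap' F 3
  have h1 : L ^ 3 ^ k = 1 := by
    refine LinearMap.ext fun y => ?_
    rw [Module.End.pow_apply]; exact hk y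
  have h2 : IsNilpotent (L - 1) := ⟨3 ^ k, by
    rw [sub_pow_char_pow_of_commute _ _ (Commute.one_right L), h1, one_pow, sub_self]⟩
  have h3 := (L - 1).aeval_self_charpoly
  rw [h2.charpoly_eq_X_pow_finrank] at h3
  simp only [Module.finrank_fin_fun, map_pow, Polynomial.aeval_X] at h3
  have h4 := LinearMap.congr_fun h3 x
  simp only [pow_two, Module.End.mul_apply, LinearMap.sub_apply, Module.End.one_apply, map_sub,
    LinearMap.zero_apply] at h4
  have h5 : α (α x) - α x - (α x - x) = 0 := h4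
  rw [two_nsmul]; linear_combination (exp := 1) h5

theorem lin_of_three [Fintype F] (h : Fintype.card F = 3) (α : (Fin 2 → F) →+ (Fin 2 → F)) (c : F)
    (x : Fin 2 → F) : α (c • x) = c • α x := by
  have := FiniteField.pow_card c
  rw [h] at this
  have h2 : c * ((c - 1) * (c + 1)) = 0 := by linear_combination this
  rcases mul_eq_zero.1 h2 with rfl | h2
  · simp
  rcases mul_eq_zero.1 h2 with h2 | h2
  · rw [sub_eq_zero.1 h2]; simp
  · rw [eq_neg_of_add_eq_zero_left h2]; simp

theorem sl_invol (h2 : (2 : F) ≠ 0) {m : SL(2, F)} (h : m * m = 1) (h1 : m ≠ 1) (x : Fin 2 → F) :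
    m.1 *ᵥ x = -x := by
  have hd := m.det_coe
  rw [det_fin_two] at hd
  have e : m.1 * m.1 = 1 := congrArg Subtype.val h
  have e00 := congrFun (congrFun e 0) 0
  have e01 := congrFun (congrFun e 0) 1
  have e10 := congrFun (congrFun e 1) 0
  have e11 := congrFun (congrFun e 1) 1
  simp [Matrix.mul_apply] at e00 e01 e10 e11
  set a := m.1 0 0; set b := m.1 0 1; set c := m.1 1 0; set d := m.1 1 1
  have ht : a + d ≠ 0 := fun e => h2 (by linear_combination a * e - hd - e00)
  have hb : b = 0 := (mul_eq_zero.1 (show b * (a + d) = 0 by linear_combination e01)).resolve_right ht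
  have hc : c = 0 := (mul_eq_zero.1 (show c * (a + d) = 0 by linear_combination e10)).resolve_right ht
  have had : d = a := by
    rw [hb] at hd e00; linear_combination a * hd - d * e00
  have ha : a = -1 := by
    refine (mul_eq_zero.1 (show (a - 1) * (a + 1) = 0 by rw [hb] at e00; linear_combination e00)).elim
      (fun e => absurd ?_ h1) eq_neg_of_add_eq_zero_left
    ext i j; fin_cases i <;> fin_cases j
    · exact sub_eq_zero.1 e
    · exact hb
    · exact hc
    · exact had.trans (sub_eq_zero.1 e)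
  ext i; fin_cases i
  · show (m.1 *ᵥ x) 0 = -x 0
    simp only [mulVec, dotProduct, Fin.sum_univ_two]
    linear_combination x 0 * ha + x 1 * hb
  · show (m.1 *ᵥ x) 1 = -x 1
    simp only [mulVec, dotProduct, Fin.sum_univ_two]
    linear_combination x 0 * hc + x 1 * (had.trans ha)

end lin

end CA.H8Exc
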