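import Cfsg.Agent.Lib.Loc.H8Exc9

/-! Subnormal blocks are equal or commute. -/

set_option autoImplicit false
set_option linter.unusedSectionVars false

namespace CA.H8Exc

open Subgroup Cfsg CA.Amb CA.AmbSyl CA.AmbCore CA.AmbRes CA.AmbSpe CA.H6Nat CA.H6Nat2 CA.H6J CA.H6Bau
open CA.H6Am1 CA.H6Am2 CA.H6Blk CA.H6TV2 CA.H6PD
open scoped commutatorElement MatrixGroups Matrix

universe u

variable {G : Type u} [Group G] [Finite G]

section sec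

variable {A : Type*} [AddCommGroup A] {W : Subgroup G} {ψ : G → A} (s : Sec W ⊥ ψ)
include s

theorem sec_inj {u v : G} (hu : u ∈ W) (hv : v ∈ W) (h : ψ u = ψ v) : u = v :=
  eq_of_mul_inv_eq_one (mem_bot.1 ((s.eq_iff hu hv).1 h))

theorem card_sec : Nat.card W = Nat.card A :=
  Nat.card_congr (Equiv.ofBijective (fun w : W => ψ w) ⟨fun a b e => Subtype.ext (sec_inj s a.2 b.2 e),
    fun x => by obtain ⟨u, hu, e⟩ := s.surj x; exact ⟨⟨u, hu⟩, e⟩⟩)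

theorem sec_fin {E : Subgroup G} {f g : G} (hf : f ∈ 𝐍 W) (hg : g ∈ 𝐍 W) (hE : g ∈ E)
    (h : ∀ x ∈ W, ψ (f * x * f⁻¹) = ψ (g * x * g⁻¹)) : f ∈ E ⊔ 𝐂 W := by
  have : g⁻¹ * f ∈ 𝐂 W := mem_centralizer_sub.2 fun x hx => by
    have e := sec_inj s (conj_mem_of_mem_normalizer hf hx) (conj_mem_of_mem_normalizer hg hx) (h x hx)
    calc x * (g⁻¹ * f) = g⁻¹ * (g * x * g⁻¹) * f := by group
      _ = _ := by rw [← e]; group
  have := mul_mem_sup hE this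
  rwa [mul_inv_cancel_left] at this

end sec

theorem nrm {V U S F : Subgroup G} [V.Normal] (hU : U ≤ V) (h1 : S ≤ 𝐍 U) (h2 : F ≤ 𝐍 U)
    (h : ⁅S, F⁆ ≤ 𝐂 V) : F ≤ 𝐍 ⁅U, S⁆ := by
  rw [← comm_sup_cent h1 (centralizer_anti hU : 𝐂 V ≤ _)]
  exact norm_commutator h2 (norm_of_commutator_le (le_trans (comm_sup_le norm_of_normal norm_of_normal h
    (commutator_le_left_of_norm norm_of_normal)) le_sup_right))

variable {p : ℕ} [hp : Fact p.Prime]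

instance nVv : (Vv p G).Normal := normalizer_eq_top_iff.1 (top_le_iff.1 nV)

theorem pow_idx {E : Subgroup G} {e : G} (he : e ∈ E) : e ^ (pCoreOf p E).relIndex E ∈ pCoreOf p E := by
  haveI := normal_subgroupOf_of_norm (norm_pCoreOf p E)
  exact mem_subgroupOf.1 (((pCoreOf p E).subgroupOf E).pow_index_mem ⟨e, he⟩)

theorem W0 (E : Subgroup G) : Wb p E ≤ Zo p E := commutator_le_left_of_norm (norm_Zo p E)

theorem secW {T E : Subgroup G} (h : Blk p T E) (zb : Wb p E ⊓ 𝐂 E = ⊥) {A : Type*} [AddCommGroup A]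
    {ψ : G → A} (s : Sec (Zo p E) (Zo p E ⊓ 𝐂 E) ψ) : Sec (Wb p E) ⊥ ψ := by
  refine ⟨fun hu hv => s.mul (W0 E hu) (W0 E hv), fun x => ?_, fun {u} hu => ?_⟩
  · obtain ⟨u, hu, rfl⟩ := s.surj x
    obtain ⟨w, hw, z, hz, rfl⟩ := (mem_sup_of_norm ((W0 E).trans h.irr.normU)).1 (h.Zo_le hu)
    exact ⟨w, hw, by rw [s.mul (W0 E hw) hz.1, (s.zero hz.1).2 hz, add_zero]⟩
  · rw [s.zero (W0 E hu), ← zb]
    exact ⟨fun k => ⟨hu, k.2⟩, fun k => ⟨W0 E hu, k.2⟩⟩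

theorem s2_le {T E F : Subgroup G} (h : Blk 2 T E) {A : Type} [AddCommGroup A] {ψ : G → A}
    (hA : Nat.card A = 4) (s : Sec (Wb 2 E) ⊥ ψ) (i1 : (pCoreOf 2 E).relIndex E = 3)
    (i2 : (pCoreOf 2 F).relIndex F = 3) (eW : Wb 2 E = Wb 2 F) : F ≤ E ⊔ 𝐂 (Wb 2 E) := by
  haveI : Finite A := Nat.finite_of_card_ne_zero (by rw [hA]; norm_num)
  intro f hf
  obtain ⟨w, hw, hw'⟩ := SetLike.not_le_iff_exists.1 h.W_not_le
  obtain ⟨e, he, hew⟩ : ∃ e ∈ E, ¬ e * w = w * e := by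
    by_contra k
    push Not at k
    exact hw' (mem_centralizer_sub.2 k)
  have nE : ∀ {e}, e ∈ E → e ∈ 𝐍 (Wb 2 E) := fun he => nW_of (le_normalizer he)
  have nf : f ∈ 𝐍 (Wb 2 E) := eW ▸ nW_of (le_normalizer hf)
  have cu : ∀ {g}, g ∈ 𝐍 (Wb 2 E) → g ^ 3 ∈ 𝐂 (Wb 2 E) → ∀ γ : A →+ A,
      (∀ x ∈ Wb 2 E, γ (ψ x) = ψ (g * x * g⁻¹)) → ∀ x, γ (γ (γ x)) = x := fun {g} h1 h2 γ k x => by
    obtain ⟨u, hu, rfl⟩ := s.surj x
    have c := fun {u} (hu : u ∈ Wb 2 E) => conj_mem_of_mem_normalizer h1 hu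
    rw [k u hu, k _ (c hu), k _ (c (c hu))]
    congr 1
    calc _ = g ^ 3 * u * (g ^ 3)⁻¹ := by simp only [pow_succ, pow_zero]; group
      _ = u := by rw [← mem_centralizer_sub.1 h2 u hu, mul_inv_cancel_right]
  obtain ⟨α, hα⟩ := s.act (nE he) (norm_of_normal (L := ⊤) trivial)
  obtain ⟨β, hβ⟩ := s.act nf (norm_of_normal (L := ⊤) trivial)
  have e3 := centralizer_anti (W0 E) (Q_cent 2 E (i1 ▸ pow_idx he))
  have f3 : f ^ 3 ∈ 𝐂 (Wb 2 E) := eW ▸ centralizer_anti (W0 F) (Q_cent 2 F (i2 ▸ pow_idx hf))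
  have h2 : ∀ x : A, x + x = 0 := fun x => by
    obtain ⟨u, hu, rfl⟩ := s.surj x
    rw [← s.mul hu hu, ← pow_two, (mem_OZ.1 (W0 E hu)).2.2, s.one]
  rcases klein hA h2 (cu (nE he) e3 α hα) (cu nf f3 β hβ) (w := ψ w) (fun k => hew (by
    rw [hα w hw] at k
    exact eq_mul_of_mul_inv_eq (sec_inj s (conj_mem_of_mem_normalizer (nE he) hw) hw k))) with k | k | k
  · exact sec_fin s nf (one_mem _) (one_mem _) fun x hx => by rw [← hβ x hx, k]; simp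
  · exact sec_fin s nf (nE he) he fun x hx => by rw [← hβ x hx, k, hα x hx]
  · refine sec_fin s nf (nE (mul_mem he he)) (mul_mem he he) fun x hx => ?_
    rw [← hβ x hx, k, hα x hx, hα _ (conj_mem_of_mem_normalizer (nE he) hx)]
    congr 1; group

theorem s3_le {E F : Subgroup G} {K K' : Type} [Field K] [Finite K] [Field K'] [Finite K']
    (c : Nat.card K = 3) (c' : Nat.card K' = 3) (d : ND K E (Zo 3 E) (Zo 3 E ⊓ 𝐂 E))
    (d' : ND K' F (Zo 3 F) (Zo 3 F ⊓ 𝐂 F)) (r : d.rim E = _root_.commutator SL(2, K))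
    (s : Sec (Wb 3 E) ⊥ d.ψ) (s' : Sec (Wb 3 F) ⊥ d'.ψ)
    (i2 : (pCoreOf 3 F).relIndex F = 8) (eW : Wb 3 E = Wb 3 F) : F ≤ E ⊔ 𝐂 (Wb 3 E) := by
  haveI : Fact (Nat.Prime 3) := ⟨Nat.prime_three⟩
  haveI : CharP K 3 := charP_of_card (n := 1) (by rw [c]; rfl)
  haveI : CharP K' 3 := charP_of_card (n := 1) (by rw [c']; rfl)
  have h3 : ∀ {L : Type} [Field L] [Finite L], Nat.card L = 3 → ∀ a : L, a = 0 ∨ a ^ 2 = 1 := by
    intro L _ _ c a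
    haveI := Fintype.ofFinite L
    refine or_iff_not_imp_left.2 fun k => ?_
    have := FiniteField.pow_card_sub_one_eq_one a k
    rwa [← Nat.card_eq_fintype_card, c] at this
  intro f hf
  have nF : ∀ {g}, g ∈ F → g ∈ 𝐍 (Wb 3 F) := fun hg => nW_of (le_normalizer hg)
  have nf : f ∈ 𝐍 (Wb 3 E) := eW ▸ nF hf
  have r8 := (d'.mem_Kn (pow_mem hf 8)).1 (le_Kn_iff.2 ⟨(pCoreOf_le _ _).trans d'.norm₀,
    comm_bot_le' (Q_cent 3 F)⟩ (i2 ▸ pow_idx hf))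
  rw [d'.r_pow hf] at r8
  have r4 := four_of_eight (h3 c') r8
  have iv : ∀ g ∈ F, d'.r g * d'.r g = 1 → d'.r g ≠ 1 → ∀ w ∈ Wb 3 E, g * w * g⁻¹ = w⁻¹ :=
    fun g hg k1 k2 w hw => by
      rw [eW] at hw
      refine sec_inj s' (conj_mem_of_mem_normalizer (nF hg) hw) (inv_mem hw) ?_
      rw [d'.act hg (W0 F hw), sl_invol two_ne k1 k2, s'.inv hw]
  have ng : ∀ x : Fin 2 → K, (-1 : SL(2, K)).1 *ᵥ x = -x := fun x => by simp [Matrix.neg_mulVec]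
  obtain ⟨m, hm, k⟩ : ∃ m : SL(2, K), m ^ 4 = 1 ∧ ∀ w ∈ Wb 3 E, d.ψ (f * w * f⁻¹) = m.1 *ᵥ d.ψ w := by
    by_cases k1 : d'.r f = 1
    · refine ⟨1, one_pow _, fun w hw => ?_⟩
      rw [eW] at hw
      rw [sec_inj s' (conj_mem_of_mem_normalizer (nF hf) hw) hw (by rw [d'.act hf (W0 F hw), k1]; simp)]
      simp
    by_cases k2 : d'.r f * d'.r f = 1
    · exact ⟨-1, by rw [show 4 = 2 * 2 from rfl, pow_mul]; simp, fun w hw => by
        rw [iv f hf k2 k1 w hw, s.inv hw, ng]⟩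
    obtain ⟨α, hα⟩ := s.act nf (norm_of_normal (L := ⊤) trivial)
    have hq : ∀ x, α (α x) = -x := fun x => by
      obtain ⟨u, hu, rfl⟩ := s.surj x
      rw [hα u hu, hα _ (conj_mem_of_mem_normalizer nf hu), ← s.inv hu, ← iv (f * f) (mul_mem hf hf) (by
        rw [d'.r_mul hf hf, ← r4]; simp only [pow_succ, pow_zero, one_mul, mul_assoc])
        (by rwa [d'.r_mul hf hf]) u hu]
      congr 1; group
    obtain ⟨m, hm⟩ := sl_of_sq (h3 c) α hq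
    have : m * m = -1 := sl_mulVec_ext fun x => by rw [sl_mul_mulVec, ← hm, ← hm, hq, ng]
    exact ⟨m, by rw [show 4 = 2 * 2 from rfl, pow_mul, pow_two m, this]; simp, fun w hw => by
      rw [← hα w hw, hm]⟩
  obtain ⟨e, he, rfl⟩ := (d.mem_rim le_rfl).1 (r.ge (four_mem hm))
  exact sec_fin s nf (nW_of (le_normalizer he)) he fun x hx => by rw [k x hx, d.act he (W0 E hx)]

structure SB (p : ℕ) (T E : Subgroup G) : Prop where
  hT : SylIn p T ⊤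
  hc : AmbChar.CharP p (⊤ : Subgroup G)
  hE : IsBaumannBlock p T E
  sn : SN ⊤ E

namespace SB

variable {T E T' F : Subgroup G} (x : SB p T E)
include x

theorem h : Blk p T E := blk_of x.hE

theorem eW : ⁅Vv p G, E⁆ = Wb p E := WV x.h x.hT x.hc

theorem WV : Wb p E ≤ Vv p G := x.h.W_le x.hT x.hc

theorem QV : pCoreOf p E ≤ 𝐂 (Vv p G) := x.sn.pCoreOf_le.trans (le_cent_OZ _ _)

theorem zb (hn : ¬ p ∣ (pCoreOf p E).relIndex E) : Wb p E ⊓ 𝐂 E = ⊥ := by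
  rw [← x.eW]
  exact comm_inf_cent (ea_le_cent (ea_OZ _ _)) (isPGroup_OZ _ _) nV (norm_pCoreOf _ _) (cent_symm x.QV) hn

theorem sm (hn : ¬ p ∣ (pCoreOf p E).relIndex E) (h3 : 2 < (pCoreOf p E).relIndex E) {n : ℕ}
    (hW : Nat.card (Wb p E) = n) : Sm (Vv p G) n E := by
  refine ⟨fun Y h1 h2 => ?_, by rw [x.eW, hW], by rw [x.eW, x.zb hn], ?_⟩
  · rw [x.eW] at h1 ⊢
    by_cases k : Y ≤ 𝐂 E
    · exact Or.inl (eq_bot_iff.2 (x.zb hn ▸ le_inf h1 k))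
    · exact Or.inr (le_antisymm h1 (irrW x.h h1 h2 k))
  · rw [x.eW]
    haveI := Fintype.ofFinite (E ⧸ (pCoreOf p E).subgroupOf E)
    obtain ⟨a, b, c, ab, ac, bc⟩ := (Fintype.two_lt_card_iff (α := E ⧸ (pCoreOf p E).subgroupOf E)).1
      (by rw [← Nat.card_eq_fintype_card]; exact h3)
    obtain ⟨a, rfl⟩ := QuotientGroup.mk_surjective a
    obtain ⟨b, rfl⟩ := QuotientGroup.mk_surjective b
    obtain ⟨c, rfl⟩ := QuotientGroup.mk_surjective c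
    have nc : ∀ {a b : E}, (a : E ⧸ (pCoreOf p E).subgroupOf E) ≠ b → (a : G)⁻¹ * b ∉ 𝐂 (Wb p E) :=
      fun {a b} n k => n (QuotientGroup.eq.2 (mem_subgroupOf.2 (x.h.inf_cent (mem_inf.2 ⟨(a⁻¹ * b).2, k⟩))))
    refine ⟨_, (a⁻¹ * b).2, _, (a⁻¹ * c).2, nc ab, nc ac, fun k => nc bc ?_⟩
    convert k using 1
    simp only [coe_mul, coe_inv]; group

theorem quot : Nonempty (E ⧸ pCore p E ≃* E.map (QuotientGroup.mk' (𝐂 (Vv p G)))) := by
  refine ⟨(QuotientGroup.quotientMulEquivOfEq ?_).trans (QuotientGroup.quotientKerEquivOfSurjective _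
    (MonoidHom.subgroupMap_surjective (QuotientGroup.mk' (𝐂 (Vv p G))) E))⟩
  ext a
  rw [← subgroupOf_pCoreOf, mem_subgroupOf, MonoidHom.mem_ker, Subtype.ext_iff]
  exact ⟨fun k => (QuotientGroup.eq_one_iff _).2 (x.QV k), fun k => x.h.inf_cent
    (mem_inf.2 ⟨a.2, centralizer_anti x.WV ((QuotientGroup.eq_one_iff _).1 k)⟩)⟩

variable (y : SB p T' F)
include y

theorem half (h : ⁅E, F⁆ ≤ 𝐂 (Vv p G)) : F ≤ 𝐂 (Wb p E) ∨ Wb p E ≤ Wb p F := by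
  have n1 : F ≤ 𝐍 (Wb p E) := x.eW ▸ nrm le_rfl nV nV h
  have n2 : E ≤ 𝐍 ⁅Wb p E, F⁆ := nrm x.WV n1 (le_normalizer.trans nW_of) (comm_swap h)
  by_cases k : ⁅Wb p E, F⁆ ≤ 𝐂 E
  · exact Or.inl (cent_symm ((WW x.h).ge.trans (three_bot (h.trans (centralizer_anti x.WV)) (comm_swap k))))
  · exact Or.inr ((irrW x.h (commutator_le_left_of_norm n1) n2 k).trans
      ((commutator_mono x.WV le_rfl).trans y.eW.le))

theorem cent_of (h : ⁅E, F⁆ ≤ 𝐂 (Vv p G)) (hd : p ∣ (pCoreOf p E).relIndex E) :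
    F ≤ 𝐂 (Wb p E) ∧ E ≤ 𝐂 (Wb p F) := by
  rcases x.half y h with a | a <;> rcases y.half x (comm_swap h) with b | b
  · exact ⟨a, b⟩
  · exact absurd (b.trans (cent_symm a)) y.h.W_not_le
  · exact absurd (a.trans (cent_symm b)) x.h.W_not_le
  exfalso
  have e := le_antisymm a b
  obtain ⟨S, hS, hQ⟩ := exists_sylIn_ge (isPGroup_pCoreOf p E) (pCoreOf_le p E)
  have nS : S ≤ 𝐍 (Wb p E) := hS.le.trans (le_normalizer.trans nW_of)
  have c := (commutator_mono hS.le le_rfl).trans h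
  have lt := commutator_lt hS.pg ((isPGroup_OZ _ _).to_le (W0 (p := p) E)) nS
    fun k => x.h.W_not_le (k.le.trans bot_le)
  have k : ⁅Wb p E, S⁆ ≤ 𝐂 F := by
    by_contra k
    exact lt.not_ge (a.trans (irrW y.h (lt.le.trans a)
      (nrm x.WV nS (e ▸ le_normalizer.trans nW_of) c) k))
  have k2 : Wb p E ≤ 𝐂 S := by
    have := three_bot ((comm_swap c).trans (centralizer_anti x.WV)) (comm_swap k)
    rwa [e, WW y.h, ← e] at this
  exact hS.not_dvd (le_antisymm ((le_inf hS.le (cent_symm k2)).trans x.h.inf_cent) hQ ▸ hd)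

theorem step (b : Big p E) : (E ≤ F ⊔ 𝐂 (Vv p G) ∧ p ∣ (pCoreOf p F).relIndex F) ∨
    ⁅E, F⁆ ≤ 𝐂 (Vv p G) := by
  obtain ⟨e⟩ := x.quot
  obtain ⟨e'⟩ := y.quot
  rcases CA.Comp.comp_le_or_commutator ⟨(sn_top_iff.1 x.sn).quotient, CA.Quasi.qs_of_equiv b.1 e⟩
    ((sn_top_iff.1 y.sn).quotient (K := 𝐂 (Vv p G))) with k | k
  · refine Or.inl ⟨by rwa [Subgroup.map_le_map_iff, QuotientGroup.ker_mk'] at k, b.2.trans ?_⟩
    rw [← card_quot, ← card_quot, Nat.card_congr e.toEquiv, Nat.card_congr e'.toEquiv]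
    exact card_dvd_of_le k
  · rw [← map_commutator, Subgroup.map_eq_bot_iff, QuotientGroup.ker_mk'] at k
    exact Or.inr k

theorem Wle (h : E ≤ F ⊔ 𝐂 (Vv p G)) : Wb p E ≤ Wb p F := by
  rw [← x.eW, ← y.eW, ← comm_sup_cent (A := F) nV le_rfl]
  exact commutator_mono le_rfl h

theorem big (b : Big p E) : (F ≤ 𝐂 (Wb p E) ∧ E ≤ 𝐂 (Wb p F)) ∨
    (Wb p E = Wb p F ∧ F ≤ E ⊔ 𝐂 (Wb p E) ∧ E ≤ F ⊔ 𝐂 (Wb p F)) := by
  rcases x.step y b with ⟨k, k'⟩ | k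
  · rcases kind y.hE with b' | ⟨rfl, i, -⟩ | ⟨rfl, i, -⟩
    · rcases y.step x b' with ⟨l, -⟩ | l
      · exact Or.inr ⟨le_antisymm (x.Wle y k) (y.Wle x l), l.trans (sup_le_sup_left (centralizer_anti x.WV) _),
          k.trans (sup_le_sup_left (centralizer_anti y.WV) _)⟩
      · exact Or.inl (x.cent_of y (comm_swap l) b.2)
    · rw [i] at k'; exact absurd k' (by norm_num)
    · rw [i] at k'; exact absurd k' (by norm_num)
  · exact Or.inl (x.cent_of y k b.2)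

theorem key : (F ≤ 𝐂 (Wb p E) ∧ E ≤ 𝐂 (Wb p F)) ∨
    (Wb p E = Wb p F ∧ F ≤ E ⊔ 𝐂 (Wb p E) ∧ E ≤ F ⊔ 𝐂 (Wb p F)) := by
  rcases kind x.hE with b | a
  · exact x.big y b
  rcases kind y.hE with b | a'
  · exact (y.big x b).imp And.symm fun k => ⟨k.1.symm, k.2.2, k.2.1⟩
  rcases a with ⟨rfl, i, A, _, ψ, hA, s⟩ | ⟨rfl, i, K, _, _, c, d, r⟩ <;>
    rcases a' with ⟨e, i', A', _, ψ', hA', s'⟩ | ⟨e, i', K', _, _, c', d', r'⟩
  · have n : ¬ 2 ∣ (pCoreOf 2 E).relIndex E := by rw [i]; norm_num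
    have n' : ¬ 2 ∣ (pCoreOf 2 F).relIndex F := by rw [i']; norm_num
    have t := secW x.h (x.zb n) s
    have t' := secW y.h (y.zb n') s'
    rcases small_rel ⊤ E F (x.sm n (by rw [i]; norm_num) ((card_sec t).trans hA))
      (y.sm n' (by rw [i']; norm_num) ((card_sec t').trans hA')) x.sn y.sn with k | k <;>
      rw [x.eW, y.eW] at k
    · exact Or.inr ⟨k, s2_le x.h hA t i i' k, s2_le y.h hA' t' i' i k.symm⟩
    · exact Or.inl k
  · exact absurd e (by norm_num)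
  · exact absurd e (by norm_num)
  · have n : ¬ 3 ∣ (pCoreOf 3 E).relIndex E := by rw [i]; norm_num
    have n' : ¬ 3 ∣ (pCoreOf 3 F).relIndex F := by rw [i']; norm_num
    have t := secW x.h (x.zb n) (nd_sec d)
    have t' := secW y.h (y.zb n') (nd_sec d')
    rcases small_rel ⊤ E F (x.sm n (by rw [i]; norm_num) (n := 9) (by rw [card_sec t, Nat.card_fun, c]; simp))
      (y.sm n' (by rw [i']; norm_num) (by rw [card_sec t', Nat.card_fun, c']; simp)) x.sn y.sn with k | k <;>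
      rw [x.eW, y.eW] at k
    · exact Or.inr ⟨k, s3_le c c' d d' r t t' i' k, s3_le c' c d' d r' t' t i k.symm⟩
    · exact Or.inl k

theorem le_of (h0 : Wb p E = Wb p F) (h1 : F ≤ E ⊔ 𝐂 (Wb p E)) (h2 : E ≤ F ⊔ 𝐂 (Wb p F)) : F ≤ E :=
  same_blk x.hT y.hT x.hc x.hE y.hE x.sn.pCoreOf_le h0.ge h1 fun e _ =>
    ⟨h2.trans (sup_le le_normalizer (cent_norm y.hT y.hc y.hE)),
      nA_of y.h y.hT (y.sn.pCoreOf_le.trans (OP y.h y.hT y.hc)) le_sup_left e⟩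

theorem main : E = F ∨ ⁅E, F⁆ = ⊥ := by
  rcases x.key y with ⟨a, b⟩ | ⟨e, a, b⟩
  · exact Or.inr (comm_blk x.hT y.hT x.hc x.hE y.hE x.sn.pCoreOf_le a b)
  · exact Or.inl (le_antisymm (y.le_of x e.symm b a) (x.le_of y e a b))

end SB

end CA.H8Exc
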