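import Cfsg.Agent.Lib.Loc.H8Exc10
import Cfsg.Agent.Lib.Grp.PGFrattini

/-! Subnormal blocks are normalized by the Baumann subgroups. -/

set_option autoImplicit false
set_option linter.unusedSectionVars false

namespace CA.H8Exc

open Subgroup Cfsg CA.Amb CA.AmbSyl CA.AmbCore CA.AmbRes CA.AmbSpe CA.H6Nat CA.H6Nat2 CA.H6J CA.H6Bau
open CA.H6Am1 CA.H6Am2 CA.H6Blk CA.H6TV2 CA.H6PD
open scoped commutatorElement MatrixGroups Matrix

universe u

variable {G : Type u} [Group G] [Finite G] {p : ℕ} [hp : Fact p.Prime]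

def pdConj {ι : Type*} [Fintype ι] {E U U₀ : Subgroup G} (d : PD ι E U U₀) (g : G) :
    PD ι (cj g E) (cj g U) (cj g U₀) where
  norm := by rw [← cj_normalizer]; exact cj_mono g d.norm
  le := cj_mono g d.le
  r x := d.r (g⁻¹ * x * g)
  ψ x := d.ψ (g⁻¹ * x * g)
  r_mul ha hb := by rw [← d.r_mul (mem_cj.1 ha) (mem_cj.1 hb)]; congr 1; group
  ψ_mul ha hb := by rw [← d.ψ_mul (mem_cj.1 ha) (mem_cj.1 hb)]; congr 1; group
  ψ_sum ha := d.ψ_sum (mem_cj.1 ha)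
  ψ_surj x hx := by
    obtain ⟨u, hu, rfl⟩ := d.ψ_surj x hx
    exact ⟨_, conj_mem_cj.2 hu, by congr 1; group⟩
  ψ_zero ha := (d.ψ_zero (mem_cj.1 ha)).trans mem_cj.symm
  act ha hb i := by rw [← d.act (mem_cj.1 ha) (mem_cj.1 hb) i]; congr 1; group

theorem acts_conj {F : Type*} [Field F] {R : Subgroup SL(2, F)} {E U U₀ : Subgroup G}
    (h : ActsAsSL2OnSection F R E U U₀) (g : G) : ActsAsSL2OnSection F R (cj g E) (cj g U) (cj g U₀) := by
  obtain ⟨d, rfl⟩ := H6Nat.acts_iff.1 h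
  have k : U ⊓ (MulAut.conj g).toMonoidHom.ker ≤ U₀ := by
    rw [(MonoidHom.ker_eq_bot_iff _).2 (conj_injective g)]; exact inf_le_right.trans bot_le
  exact H6Nat.acts_iff.2 ⟨d.map _ k, d.rim_map _ k le_rfl⟩

theorem blk_conj {T E : Subgroup G} (h : IsBaumannBlock p T E) (g : G) :
    IsBaumannBlock p (cj g T) (cj g E) := by
  obtain ⟨h1, h2, h3, h4, h5⟩ := h
  have o : ∀ X : Subgroup G, omegaOneCenter p (cj g X) = cj g (omegaOneCenter p X) := fun X => (cj_OZ g X).symm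
  have q : (cj g E ⧸ pCore p (cj g E)) ≃* (E ⧸ pCore p E) :=
    (QuotientGroup.congr _ _ (cjEquiv g E) (map_pCore_equiv (cjEquiv g E))).symm
  have ph : ∀ X : Subgroup G, (frattini (cj g X)).map (cj g X).subtype = cj g ((frattini X).map X.subtype) :=
    fun X => by
      rw [← PGFrattini.map_frattini_equiv (cjEquiv g X), map_map]
      exact (map_map (frattini X) (MulAut.conj g).toMonoidHom X.subtype).symm
  rw [bau_eq] at h2 h5
  unfold IsBaumannBlock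
  rw [bau_eq, Bm_cj, ← cj_pCoreOf, o, o, ← cj_res, h1, ← cj_commutator, h2, ← cj_commutator, h3,
    ← cj_commutator, ← cj_centralizer, ← cj_inf, ← cj_inf, ← cj_commutator, ph, card_cj]
  refine ⟨rfl, rfl, rfl, fun e => h4 (cj_eq_bot.1 e), h5.imp ?_ ?_⟩
  · rintro ⟨F, _, _, n, hF, ⟨e⟩, a, h5⟩
    refine ⟨F, inferInstance, inferInstance, n, hF, ⟨q.trans e⟩, acts_conj a g, h5.imp (congrArg _) ?_⟩
    rintro ⟨e3, a', b1, b2, b3, b4, b5⟩
    refine ⟨e3, acts_conj a' g, congrArg _ b1, congrArg _ b2, congrArg _ b3, b4, fun b hb hb' k => ?_⟩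
    obtain ⟨b, hb0, rfl⟩ := mem_cj'.1 hb
    rw [← cj_centralizer, conj_mem_cj] at hb'
    rw [← cj_zpowers, ← cj_commutator, ← cj_commutator, cj_le_cj] at k
    exact b5 b hb0 hb' k
  · rintro ⟨e2, m, ⟨e⟩, a, b⟩
    obtain ⟨d, hd⟩ := H6PD.acts_iff.1 a
    refine ⟨e2, m, ⟨q.trans e⟩, H6PD.acts_iff.2 ⟨pdConj d g, hd ▸ ?_⟩, congrArg _ b⟩
    ext σ
    rw [PD.mem_rim _ le_rfl, PD.mem_rim _ le_rfl]
    exact ⟨fun ⟨t, ht, e⟩ => ⟨_, mem_cj.1 ht, e⟩, fun ⟨t, ht, e⟩ =>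
      ⟨_, conj_mem_cj.2 ht, by rw [← e]; show d.r _ = _; congr 1; group⟩⟩

theorem kn_cent {T E B : Subgroup G} (h : Blk p T E) (n : B ≤ 𝐍 E) (k : ⁅Wb p E, B⁆ ≤ 𝐂 E) :
    B ≤ 𝐂 (Wb p E) := by
  have n0 : B ≤ 𝐍 (Zo p E) := norm_OZ (norm_pCoreOf_of_norm n)
  have nZ : B ≤ 𝐍 (Zo p E ⊓ 𝐂 E) := norm_inf n0 (norm_centralizer n)
  have k1 : B ≤ Kn (Zo p E) (Zo p E ⊓ 𝐂 E) := le_Kn_iff.2 ⟨nZ, (commutator_mono h.Zo_le le_rfl).trans
    (comm_sup_le ((W0 E).trans h.irr.normU) le_normalizer (le_inf ((commutator_mono (W0 E) le_rfl).trans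
      (commutator_le_left_of_norm n0)) k) (commutator_le_left_of_norm nZ))⟩
  have k2 : ⁅E, B⁆ ≤ pCoreOf p E := le_trans (le_inf (commutator_le_left_of_norm n)
    ((commutator_mono le_rfl k1).trans (commutator_le_right_of_norm (norm_Kn h.irr.norm h.irr.norm₀)))) h.kn
  exact cent_symm ((WW h).ge.trans (three_bot (k2.trans ((Q_cent p E).trans (centralizer_anti (W0 E))))
    (comm_swap k)))

theorem idx2 {T E : Subgroup G} (h : Blk p T E) : ¬ (𝐂 E).relIndex (Wb p E) ≤ 2 := fun k => by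
  have k0 := relIndex_ne_zero (𝐂 E) (Wb p E)
  rcases (show (𝐂 E).relIndex (Wb p E) = 1 ∨ (𝐂 E).relIndex (Wb p E) = 2 by omega) with e | e
  · exact h.W_not_le (relIndex_eq_one.1 e)
  refine h.W_not_le ((WW h).ge.trans (commutator_le.2 fun w hw a ha => ?_))
  have m : a * w⁻¹ * a⁻¹ ∈ Wb p E := conj_mem_of_mem_normalizer (nW_of (le_normalizer ha)) (inv_mem hw)
  have := (mul_mem_iff_of_index_two e (a := ⟨w, hw⟩) (b := ⟨_, m⟩)).2 (by
    simp only [mem_subgroupOf]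
    exact ⟨fun k => conj_mem_of_mem_normalizer (norm_centralizer le_normalizer ha) (inv_mem k),
      fun k => inv_mem_iff.1 (by
        have := inv_conj_mem_of_mem_normalizer (norm_centralizer le_normalizer ha) k
        convert this using 1; group)⟩)
  have := mem_subgroupOf.1 this
  convert this using 1
  simp only [commutatorElement_def, coe_mul]; group

theorem cnt {X A A0 W Y : Subgroup G} (hA : A ∈ mx p X) (hW : IsAb p W) (hX : W ≤ X) (h0 : A0 ≤ A)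
    (hc : A0 ≤ 𝐂 W) (i : A0.relIndex A = 2) (hY : A0 ⊓ W ≤ Y) : Y.relIndex W ≤ 2 := by
  have k1 := hA.2.2 _ (sup_le (h0.trans hA.1) hX) ((hA.2.1.of_le h0).sup hW hc)
  have k2 := card_sup_mul_card_inf (H := A0) (N := W) (norm_of_centralizer hc)
  have k3 := card_mul_relIndex h0
  have k4 := card_inf_mul_relIndex Y W
  have k5 : Nat.card ↥(A0 ⊓ W) ≤ Nat.card ↥(Y ⊓ W) := card_le_of_le (le_inf hY inf_le_right)
  have k6 : 0 < Nat.card ↥(Y ⊓ W) := Nat.card_pos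
  have k7 : 0 < Nat.card A0 := Nat.card_pos
  rw [i] at k3
  refine Nat.le_of_mul_le_mul_left (Nat.le_of_mul_le_mul_left ?_ k7) k6
  rw [k4, ← k2]
  calc _ ≤ Nat.card A0 * 2 * Nat.card ↥(Y ⊓ W) := Nat.mul_le_mul (k3 ▸ k1) k5
    _ = _ := by ring

theorem tr_one {V L S K : Subgroup G} (hV : V ≤ 𝐂 V) (hL : L ≤ 𝐍 V) {w : G} (hw : w ∈ V) (hS : w ∈ 𝐂 S)
    (hK : ∀ l ∈ L, l ∉ S → l * w * l⁻¹ ∈ K) : ∃ z ∈ V, z ∈ 𝐂 L ∧ w⁻¹ * z ∈ K := by
  classical
  letI : CommGroup V := { (inferInstance : Group V) with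
    mul_comm := fun a b => Subtype.ext (mem_centralizer_sub.1 (hV b.2) a a.2) }
  haveI := Fintype.ofFinite L
  let c : L → V ≃* V := fun l => V.normalizerMonoidHom ⟨l, hL l.2⟩
  have hc : ∀ l v, ((c l v : V) : G) = l * v * (l : G)⁻¹ := fun l v => rfl
  let O : Finset V := Finset.univ.image fun l => c l ⟨w, hw⟩
  have mO : ∀ {x}, x ∈ O ↔ ∃ l, c l ⟨w, hw⟩ = x := by simp [O]
  have w0 : (⟨w, hw⟩ : V) ∈ O := mO.2 ⟨1, Subtype.ext (by rw [hc]; simp)⟩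
  refine ⟨_, (∏ x ∈ O, x).2, mem_centralizer_sub.2 fun l hl => ?_, ?_⟩
  · have : c ⟨l, hl⟩ (∏ x ∈ O, x) = ∏ x ∈ O, x := by
      rw [map_prod]
      refine Finset.prod_nbij (c ⟨l, hl⟩) (fun x hx => ?_) (c ⟨l, hl⟩).injective.injOn (fun x hx => ?_)
        fun _ _ => rfl
      · obtain ⟨m, rfl⟩ := mO.1 hx
        exact mO.2 ⟨⟨l, hl⟩ * m, Subtype.ext (by simp only [hc, coe_mul]; group)⟩
      · obtain ⟨m, rfl⟩ := mO.1 hx
        exact ⟨c ((⟨l, hl⟩ : L)⁻¹ * m) ⟨w, hw⟩, mO.2 ⟨_, rfl⟩,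
          Subtype.ext (by simp only [hc, coe_mul, coe_inv]; group)⟩
    exact eq_mul_of_mul_inv_eq (congrArg Subtype.val this)
  · rw [← Finset.mul_prod_erase O _ w0, coe_mul, inv_mul_cancel_left]
    refine mem_subgroupOf.1 (prod_mem fun x hx => mem_subgroupOf.2 ?_)
    obtain ⟨x1, hx⟩ := Finset.mem_erase.1 hx
    obtain ⟨m, rfl⟩ := mO.1 hx
    exact hK m m.2 fun k => x1 (Subtype.ext (cc hS k))

namespace SB

variable {T E T' : Subgroup G} (x : SB p T E)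
include x

theorem conj (g : G) : SB p (cj g T) (cj g E) :=
  ⟨x.hT.conj_mem trivial, x.hc, blk_conj x.hE g, x.sn.conj_norm (norm_of_normal (L := ⊤) trivial)⟩

theorem mv {g w : G} (hg : g ∉ 𝐍 E) (hw : w ∈ Wb p E) : g * w * g⁻¹ ∈ 𝐂 E :=
  commutator_eq_bot_iff'.1 ((x.main (x.conj g)).resolve_left fun e => hg (cj_eq_self_iff.1 e.symm))
    (conj_mem_cj.2 (((W0 E).trans ((Zo_le p E).trans (pCoreOf_le _ _))) hw))

theorem VT (hT' : SylIn p T' ⊤) : Vv p G ≤ T' := (OZ_le _ _).trans (pCoreOf_le_syl hT')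

theorem mx_norm (hT' : SylIn p T' ⊤) {A : Subgroup G} (hA : A ∈ mx p T') : A ≤ 𝐍 E := by
  by_contra hn
  obtain ⟨a, ha, ha'⟩ := SetLike.not_le_iff_exists.1 hn
  have hV : IsAb p (Vv p G) := isAb_iff_isElementaryAbelian.2 (ea_OZ _ _)
  have UV : Wb p E ⊔ ⁅Wb p E, A⁆ ≤ Vv p G :=
    sup_le x.WV ((commutator_mono x.WV le_rfl).trans (commutator_le_left_of_norm nV))
  have hU := hV.of_le UV
  have AU : A ≤ 𝐍 (Wb p E ⊔ ⁅Wb p E, A⁆) := by rw [← ncl_eq_sup]; exact norm_ncl _ _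
  set U := Wb p E ⊔ ⁅Wb p E, A⁆ with hUd
  have h3 := (H6Off.repl_mx hU (UV.trans (x.VT hT')) AU hA).2.2 fun e =>
    hn (((commutator_eq_bot_iff'.1 e).trans (centralizer_anti le_sup_left)).trans (cent_norm x.hT x.hc x.hE))
  set A' := A ⊓ 𝐂 ⁅U, A⁆ with hA'
  have cA : A ≤ 𝐂 A := hA.2.1.le_centralizer
  have h4 : ¬ A' ≤ 𝐂 (Wb p E) := fun e => h3 (comm_eq_bot_of_le' (sup_le
    ((commutator_le_left_of_norm AU).trans hU.le_centralizer) (cent_symm (sup_le (cent_symm e)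
      ((commutator_mono (cent_symm e) le_rfl).trans (commutator_le_left_of_norm (norm_centralizer
        (norm_of_centralizer (cA.trans (centralizer_anti inf_le_left))))))))))
  have h5 : ⁅U, A'⁆ ≤ 𝐂 A := three_bot (comm_bot_le (inf_le_left.trans cA)) (comm_swap (cent_symm inf_le_right))
  have h6 : ∀ w ∈ Wb p E, ∀ c ∈ A', ∀ b ∈ A, b * ⁅w, c⁆ * b⁻¹ = ⁅w, c⁆ := fun w hw c hc b hb =>
    cc (h5 (commutator_mem_commutator (mem_sup_left hw) hc)) hb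
  have h7 : A' ⊓ 𝐍 E ≤ 𝐂 (Wb p E) := kn_cent x.h inf_le_right (commutator_le.2 fun w hw c hc => by
    rw [← h6 w hw c hc.1 a ha]
    exact x.mv ha' (commutator_le_left_of_norm (inf_le_right.trans nW_of) (commutator_mem_commutator hw hc)))
  obtain ⟨c, hc, hc'⟩ := SetLike.not_le_iff_exists.1 h4
  have cn : c ∉ 𝐍 E := fun k => hc' (h7 ⟨hc, k⟩)
  have h8 : A ⊓ 𝐍 E ≤ 𝐂 (Wb p E) := kn_cent x.h inf_le_right (commutator_le.2 fun w hw b hb => by
    have e := h6 w⁻¹ (inv_mem hw) c hc b hb.1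
    have m := x.mv cn hw
    have := mul_mem (inv_mem m) (conj_mem_of_mem_normalizer (norm_centralizer le_rfl hb.2) m)
    have e' : ⁅w, b⁆ = ((c * w * c⁻¹)⁻¹ * (b * (c * w * c⁻¹) * b⁻¹))⁻¹ := by
      calc ⁅w, b⁆ = w * (b * ⁅w⁻¹, c⁆ * b⁻¹) * (b * (c * w * c⁻¹) * b⁻¹)⁻¹ := by
            simp only [commutatorElement_def]; group
        _ = (c * w * c⁻¹) * (b * (c * w * c⁻¹) * b⁻¹)⁻¹ := by
            rw [e]; simp only [commutatorElement_def]; group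
        _ = _ := by
            have k1 := x.WV hw
            have k2 := conj_mem_of_mem_normalizer (nV (L := ⊤) (mem_top c)) k1
            have k3 := conj_mem_of_mem_normalizer (nV (L := ⊤) (mem_top b)) k2
            rw [hV.comm k2 (inv_mem k3)]; group
    rw [e']; exact inv_mem this)
  have h9 : (A ⊓ 𝐍 E).relIndex A = 2 := by
    rw [inf_relIndex_left, relIndex_eq_two_iff]
    refine ⟨c, hc.1, fun b hb => ?_⟩
    by_cases k : b ∈ 𝐍 E
    · exact Or.inr ⟨k, fun k' => cn ((Subgroup.mul_mem_cancel_left _ k).1 k')⟩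
    refine Or.inl ⟨by_contra fun k' => x.h.W_not_le fun w hw => ?_, k⟩
    have := mul_mem (mul_mem (x.mv k hw) (x.mv k' (inv_mem hw))) (x.mv cn hw)
    rw [show b * w * b⁻¹ * (b * c * w⁻¹ * (b * c)⁻¹) = b * ⁅w, c⁆ * b⁻¹ by
      simp only [commutatorElement_def]; group, h6 w hw c hc b hb] at this
    convert this using 1; simp only [commutatorElement_def]; group
  refine idx2 x.h (cnt hA (hV.of_le x.WV) (x.WV.trans (x.VT hT')) inf_le_left h8 h9 fun w hw => ?_)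
  rw [← cc (cA hw.1.1) ha]; exact x.mv ha' hw.2

theorem fixw (hT' : SylIn p T' ⊤) : ∃ w ∈ Wb p E, w ∈ 𝐂 (T' ⊓ 𝐍 E) ∧ w ∉ 𝐂 E := by
  have s := x.sn.sylIn_inf x.hT
  have s' := x.sn.sylIn_inf hT'
  rw [← x.eW]
  refine tr_fix (S := T' ⊓ E) (ea_le_cent (ea_OZ _ _)) (isPGroup_OZ _ _) nV s'.le s'.not_dvd
    (hT'.pg.to_le inf_le_left) nV inf_le_right
    (norm_inf (inf_le_left.trans le_normalizer) inf_le_right) fun k => x.h.nz (cent_symm ?_)
  obtain ⟨e, he, ee⟩ := s.exists_conj s'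
  rw [← ee, ← cj_centralizer, ← cj_eq_self_of_normal e (Vv p G), ← cj_inf, cj_le_iff,
    cj_eq_self (norm_centralizer le_normalizer (inv_mem he))] at k
  have c := (OZ_le_cent p T).trans (centralizer_anti (pCoreOf_le_syl x.hT))
  exact le_trans (le_inf (le_OZ' (ea_OZ _ _) (x.hc.le_of_cent le_top c) c)
    ((OZ_le_cent p T).trans (centralizer_anti inf_le_left))) k

theorem Bm_norm (hT' : SylIn p T' ⊤) : Bm p T' ≤ 𝐍 E := fun b hb => by
  obtain ⟨w, hw, h1, h2⟩ := x.fixw hT'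
  obtain ⟨A, hA⟩ := mx_nonempty p T'
  have c : w ∈ 𝐂 (J p T') :=
    centralizer_anti (le_inf (J_le _ _) (J_le_iff.2 fun A hA => x.mx_norm hT' hA)) h1
  have e := (mem_OZ.1 (x.WV hw)).2.2
  have m : w ∈ OZ p (J p T') :=
    mem_OZ.2 ⟨le_J hA (mem_mx_of_mem_centralizer_J hA (x.VT hT' (x.WV hw)) c e), c, e⟩
  by_contra k
  have := x.mv k hw
  rw [cc (cent_symm inf_le_right m) hb] at this
  exact h2 this

theorem nz' (hT' : SylIn p T' ⊤) : ⁅E, OZ p T'⁆ ≠ ⊥ := fun k => by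
  obtain ⟨w, hw, h1, h2⟩ := x.fixw hT'
  obtain ⟨z, hz, z1, z2⟩ := tr_one (L := T') (K := 𝐂 E) (ea_le_cent (ea_OZ _ _)) nV (x.WV hw) h1
    fun l hl hl' => x.mv (fun k => hl' ⟨hl, k⟩) hw
  have := commutator_eq_bot_iff'.1 k (mem_OZ.2 ⟨x.VT hT' hz, z1, (mem_OZ.1 hz).2.2⟩)
  exact h2 (inv_mem_iff.1 ((Subgroup.mul_mem_cancel_right _ this).1 z2))

end SB

theorem Bm_le {T : Subgroup G} (hT : SylIn p T ⊤) : Bm p T ≤ baumannSubgroup p G := by
  obtain ⟨S, rfl⟩ := sylIn_top_iff.1 hT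
  rw [← bau_eq]; exact le_iSup (fun S : Sylow p G => baumannSubgroupOf p (S : Subgroup G)) S

theorem nBG : (⊤ : Subgroup G) ≤ 𝐍 (baumannSubgroup p G) :=
  le_normalizer_iff_cj.2 fun g _ => cj_le_iff.2 (iSup_le fun S => cj_le_iff.1 (by
    rw [bau_eq, ← Bm_cj]; exact Bm_le ((sylIn_top S).conj_mem trivial)))

theorem blk_le {T E : Subgroup G} (hT : SylIn p T ⊤) (h : Blk p T E) : E ≤ baumannSubgroup p G :=
  h.cB.ge.trans ((commutator_mono le_rfl (Bm_le hT)).trans (commutator_le_right_of_norm (le_top.trans nBG)))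

namespace SB

variable {T E T' : Subgroup G} (x : SB p T E)
include x

theorem BG_norm : baumannSubgroup p G ≤ 𝐍 E :=
  iSup_le fun S => by rw [bau_eq]; exact x.Bm_norm (sylIn_top S)

theorem all (hT' : SylIn p T' ⊤) : IsBaumannBlock p T' E := by
  obtain ⟨g, hg, e⟩ := (x.hT.inf_norm le_top (nBG (p := p))).exists_conj (hT'.inf_norm le_top (nBG (p := p)))
  have k : Bm p T' = Bm p (cj g T) := Bm_eq_syl (x.hT.conj_mem trivial) hT' (by
    rw [Bm_cj]; exact (cj_mono g (le_inf inf_le_left (Bm_le x.hT))).trans (e.le.trans inf_le_left))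
  have := blk_conj x.hE g
  rw [cj_eq_self (x.BG_norm hg)] at this
  obtain ⟨h1, h2, h3, -, h5⟩ := this
  rw [bau_eq, ← k, ← bau_eq] at h2 h5
  exact ⟨h1, h2, h3, x.nz' hT', h5⟩

end SB

end CA.H8Exc
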