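import Cfsg.Agent.Lib.Loc.H8Exc11
import Cfsg.Agent.Lib.Perm.AutAn

/-! Squares of elements normalizing a block with alternating quotient. -/

set_option autoImplicit false
set_option linter.unusedSectionVars false

namespace CA.H8Exc

open Subgroup Cfsg CA.Amb CA.AmbSyl CA.AmbCore CA.AmbRes CA.AmbSpe CA.H6Nat CA.H6Nat2 CA.H6J CA.H6Bau
open CA.H6Am1 CA.H6Am2 CA.H6Blk CA.H6TV2 CA.H6PD
open scoped commutatorElement MatrixGroups Matrix

universe u

variable {G : Type u} [Group G] [Finite G] {p : ℕ} [hp : Fact p.Prime] {T E : Subgroup G}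

theorem nW0 : 𝐍 E ≤ 𝐍 (Zo p E) := norm_OZ (normalizer_le_pCoreOf p E)

theorem nZ0 : 𝐍 E ≤ 𝐍 (Zo p E ⊓ 𝐂 E) := norm_inf nW0 (norm_centralizer le_rfl)

theorem knC (h : Blk p T E) : 𝐍 E ⊓ Kn (Zo p E) (Zo p E ⊓ 𝐂 E) ≤ 𝐂 (Wb p E) :=
  kn_cent h inf_le_left (((commutator_mono (W0 E) inf_le_right).trans (comm_Kn_le _ _)).trans inf_le_right)

theorem finM (h : Blk p T E) {g e : G} (hg : g ∈ 𝐍 E) (he : e ∈ E)
    (k : ∀ w ∈ Zo p E, g * w * g⁻¹ * (e * w * e⁻¹)⁻¹ ∈ Zo p E ⊓ 𝐂 E) : g ∈ E ⊔ 𝐂 (Wb p E) := by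
  have c := mul_mem (inv_mem (le_normalizer he)) hg
  have := mul_mem_sup he (knC h (mem_inf.2 ⟨c, mem_Kn'.2 ⟨nZ0 c, fun y hy => by
    have := inv_conj_mem_of_mem_normalizer (nZ0 (p := p) (le_normalizer he)) (k y hy)
    convert this using 1; simp only [commutatorElement_def]; group⟩⟩))
  rwa [mul_inv_cancel_left] at this

theorem pow6 {W : Subgroup G} (hW : Nat.card W = 4) {g : G} (hg : g ∈ 𝐍 W) : g ^ 6 ∈ 𝐂 W := by
  classical
  let φ : 𝐍 W →* Equiv.Perm W := (MulAut.toPerm W).comp W.normalizerMonoidHom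
  have hφ : ∀ a w, ((φ a w : W) : G) = a * w * (a : G)⁻¹ := fun _ _ => rfl
  have k : ∀ w : W, φ ⟨g, hg⟩ w ≠ 1 ↔ w ≠ 1 := fun w => by
    simp only [ne_eq, Subtype.ext_iff, hφ, coe_one, conj_eq_one_iff]
  have c : Nat.card (Equiv.Perm {w : W // w ≠ 1}) = 6 := by
    haveI := Fintype.ofFinite W
    rw [Nat.card_perm, Nat.card_eq_fintype_card, Fintype.card_subtype_compl, ← Nat.card_eq_fintype_card, hW]
    simp [Nat.factorial]
  have e := pow_card_eq_one' (x := (φ ⟨g, hg⟩).subtypePerm (p := fun w => w ≠ 1) k)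
  rw [c, Equiv.Perm.subtypePerm_pow] at e
  refine mem_centralizer_sub.2 fun w hw => ?_
  by_cases w1 : (⟨w, hw⟩ : W) = 1
  · rw [show w = 1 from congrArg Subtype.val w1]; simp
  have := congrArg (fun σ : Equiv.Perm {w : W // w ≠ 1} => ((σ ⟨_, w1⟩).1 : G)) e
  simp only [Equiv.Perm.subtypePerm_apply, ← map_pow, hφ, Equiv.Perm.one_apply] at this
  exact (eq_mul_of_mul_inv_eq this).symm

theorem s2_sq (h : Blk 2 T E) {A : Type} [AddCommGroup A] {ψ : G → A}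
    (hA : Nat.card A = 4) (s : Sec (Wb 2 E) ⊥ ψ) (i1 : (pCoreOf 2 E).relIndex E = 3) {g : G}
    (hg : g ∈ 𝐍 E) : g ^ 2 ∈ E ⊔ 𝐂 (Wb 2 E) := by
  haveI : Finite A := Nat.finite_of_card_ne_zero (by rw [hA]; norm_num)
  have f3 : (g ^ 2) ^ 3 ∈ 𝐂 (Wb 2 E) := by
    rw [← pow_mul]; exact pow6 ((card_sec s).trans hA) (nW_of hg)
  have nf : g ^ 2 ∈ 𝐍 (Wb 2 E) := nW_of (pow_mem hg 2)
  generalize g ^ 2 = f at *
  obtain ⟨w, hw, hw'⟩ := SetLike.not_le_iff_exists.1 h.W_not_le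
  obtain ⟨e, he, hew⟩ : ∃ e ∈ E, ¬ e * w = w * e := by
    by_contra k
    push Not at k
    exact hw' (mem_centralizer_sub.2 k)
  have nE : ∀ {e}, e ∈ E → e ∈ 𝐍 (Wb 2 E) := fun he => nW_of (le_normalizer he)
  have cu : ∀ {g}, g ∈ 𝐍 (Wb 2 E) → g ^ 3 ∈ 𝐂 (Wb 2 E) → ∀ γ : A →+ A,
      (∀ x ∈ Wb 2 E, γ (ψ x) = ψ (g * x * g⁻¹)) → ∀ x, γ (γ (γ x)) = x := fun {g} h1 h2 γ k x => by
    obtain ⟨u, hu, rfl⟩ := s.surj x
    have c := fun {u} (hu : u ∈ Wb 2 E) => conj_mem_of_mem_normalizer h1 hu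
    rw [k u hu, k _ (c hu), k _ (c (c hu))]
    congr 1
    calc _ = g ^ 3 * u * (g ^ 3)⁻¹ := by simp only [pow_succ, pow_zero]; group
      _ = u := by rw [← mem_centralizer_sub.1 h2 u hu, mul_inv_cancel_right]
  obtain ⟨α, hα⟩ := s.act (nE he) (norm_of_normal (L := ⊤) trivial)
  obtain ⟨β, hβ⟩ := s.act nf (norm_of_normal (L := ⊤) trivial)
  have e3 := centralizer_anti (W0 E) (Q_cent 2 E (i1 ▸ pow_idx he))
  have h2 : ∀ x : A, x + x = 0 := fun x => by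
    obtain ⟨u, hu, rfl⟩ := s.surj x
    rw [← s.mul hu hu, ← pow_two, (mem_OZ.1 (W0 E hu)).2.2, s.one]
  rcases klein hA h2 (cu (nE he) e3 α hα) (cu nf f3 β hβ) (w := ψ w) (fun k => hew (by
    rw [hα w hw] at k
    exact eq_mul_of_mul_inv_eq (sec_inj s (conj_mem_of_mem_normalizer (nE he) hw) hw k))) with k | k | k
  · exact sec_fin s nf (one_mem _) (one_mem _) fun x hx => by rw [← hβ x hx, k]; simp
  · exact sec_fin s nf (nE he) he fun x hx => by rw [← hβ x hx, k, hα x hx]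
  · refine sec_fin s nf (nE (mul_mem he he)) (mul_mem he he) fun x hx => ?_
    rw [← hβ x hx, k, hα x hx, hα _ (conj_mem_of_mem_normalizer (nE he) hx)]
    congr 1; group

open Equiv Equiv.Perm in
theorem fix_ee {ι : Type*} [Fintype ι] [DecidableEq ι] (h5 : 5 ≤ Fintype.card ι) (ho : Odd (Fintype.card ι))
    {i j : ι} (ij : i ≠ j) {v : ι → ZMod 2} (v0 : v ≠ 0) (vs : ∑ k, v k = 0)
    (hv : ∀ σ ∈ alternatingGroup ι, (∀ k, ee i j (σ k) = ee i j k) → ∀ k, v (σ k) = v k) : v = ee i j := by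
  have th : ∀ a b c d : ι, ∃ e, e ≠ a ∧ e ≠ b ∧ e ≠ c ∧ e ≠ d := fun a b c d => by
    by_contra k
    push Not at k
    have : (Finset.univ : Finset ι) ⊆ {a, b, c, d} := fun e _ => by
      simp only [Finset.mem_insert, Finset.mem_singleton]
      by_contra k'
      push Not at k'
      exact k'.2.2.2 (k e k'.1 k'.2.1 k'.2.2.1)
    have := (Finset.card_le_card this).trans Finset.card_le_four
    rw [Finset.card_univ] at this; omega
  have ev : ∀ {a b c d : ι}, a ≠ b → c ≠ d → swap a b * swap c d ∈ alternatingGroup ι := fun h1 h2 => by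
    rw [mem_alternatingGroup, map_mul, sign_swap h1, sign_swap h2]; simp
  have sw : ∀ {a b : ι}, ee i j a = ee i j b → ∀ k, ee i j (swap a b k) = ee i j k := fun {a b} e k =>
    apply_swap_eq_self e k
  have o0 : ∀ {a}, a ≠ i → a ≠ j → ee i j a = 0 := fun h1 h2 => by simp [ee_apply, h1, h2]
  have ei : ee i j i = 1 := by simp [ee_apply, ij]
  have ej : ee i j j = 1 := by simp [ee_apply, ij.symm]
  have c1 : ∀ a b, a ≠ i → a ≠ j → b ≠ i → b ≠ j → v a = v b := fun a b a1 a2 b1 b2 => by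
    by_cases ab : a = b
    · rw [ab]
    obtain ⟨c, c1, c2, c3, c4⟩ := th i j a b
    have := hv _ (ev ab c3) (fun k => by
      rw [mul_apply, sw ((o0 a1 a2).trans (o0 b1 b2).symm), sw ((o0 c1 c2).trans (o0 a1 a2).symm)]) b
    rwa [mul_apply, swap_apply_of_ne_of_ne c4.symm (Ne.symm ab), swap_apply_right] at this
  obtain ⟨a, a1, a2, -, -⟩ := th i j i j
  obtain ⟨b, b1, b2, b3, -⟩ := th i j a a
  have c2 : v i = v j := by
    have := hv _ (ev ij b3) (fun k => by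
      rw [mul_apply, sw (ei.trans ej.symm), sw ((o0 b1 b2).trans (o0 a1 a2).symm)]) j
    rwa [mul_apply, swap_apply_of_ne_of_ne b2.symm a2.symm, swap_apply_right] at this
  have c3 : ∀ k, v k = v a + (v i + v a) * ee i j k := fun k => by
    by_cases k1 : k = i
    · rw [k1, ei, mul_one, add_comm (v i), ← add_assoc, z2, zero_add]
    by_cases k2 : k = j
    · rw [k2, ej, mul_one, add_comm (v i), ← add_assoc, z2, zero_add, c2]
    · rw [o0 k1 k2, mul_zero, add_zero, c1 k a k1 k2 a1 a2]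
  have c4 : v a = 0 := by
    rw [Finset.sum_congr rfl fun k _ => c3 k, Finset.sum_add_distrib, ← Finset.mul_sum, sum_ee, mul_zero,
      add_zero, Finset.sum_const, Finset.card_univ] at vs
    obtain ⟨n, hn⟩ := ho
    rwa [hn, add_nsmul, mul_nsmul, two_nsmul, z2, nsmul_zero, zero_add, one_nsmul] at vs
  rw [c4, add_zero] at c3
  rcases z2' (v i) with e | e
  · exact absurd (funext fun k => by rw [c3, e]; simp) v0
  · exact funext fun k => by rw [c3, e]; simp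

theorem pd_sq {ι : Type} [Fintype ι] [DecidableEq ι] (h5 : 5 ≤ Fintype.card ι) (ho : Odd (Fintype.card ι))
    (h : Blk p T E) (d : PD ι E (Zo p E) (Zo p E ⊓ 𝐂 E)) (r : d.rim E = alternatingGroup ι) {g : G}
    (hg : g ∈ 𝐍 E) : g ^ 2 ∈ E ⊔ 𝐂 (Wb p E) := by
  have h3 : 3 ≤ Fintype.card ι := by omega
  have cE : ∀ {c e}, c ∈ 𝐍 E → e ∈ E → c * e * c⁻¹ ∈ E := fun hc he => conj_mem_of_mem_normalizer hc he
  have ra : ∀ {e}, e ∈ E → d.r e ∈ alternatingGroup ι := fun he => r ▸ d.r_mem_rim le_rfl he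
  have wd : ∀ {c e e'}, c ∈ 𝐍 E → e ∈ E → e' ∈ E → d.r e = d.r e' →
      d.r (c * e * c⁻¹) = d.r (c * e' * c⁻¹) := fun {c e e'} hc he he' k => by
    have m := mul_mem he (inv_mem he')
    have := (d.mem_Kn h3 (cE hc m)).1 (conj_mem_of_mem_normalizer (norm_Kn nW0 nZ0 hc)
      ((d.mem_Kn h3 m).2 (by rw [d.r_mul he (inv_mem he'), d.r_inv he', k, mul_inv_cancel])))
    rwa [show c * (e * e'⁻¹) * c⁻¹ = c * e * c⁻¹ * (c * e' * c⁻¹)⁻¹ by group,
      d.r_mul (cE hc he) (inv_mem (cE hc he')), d.r_inv (cE hc he'), mul_inv_eq_one] at this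
  have ex : ∀ σ : alternatingGroup ι, ∃ e ∈ E, d.r e = σ := fun σ => (d.mem_rim le_rfl).1 (r.ge σ.2)
  choose l hl hl' using ex
  let φ : alternatingGroup ι →* alternatingGroup ι := MonoidHom.mk'
    (fun σ => ⟨d.r (g * l σ * g⁻¹), ra (cE hg (hl σ))⟩) fun a b => Subtype.ext (by
      show d.r _ = d.r _ * d.r _
      rw [← d.r_mul (cE hg (hl a)) (cE hg (hl b)), wd hg (hl _) (mul_mem (hl a) (hl b))
        (by rw [d.r_mul (hl a) (hl b), hl', hl', hl']; rfl)]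
      congr 1; group)
  have inj : Function.Injective φ := fun a b k => by
    have := wd (inv_mem hg) (cE hg (hl a)) (cE hg (hl b)) (congrArg Subtype.val k)
    simp only [inv_inv, ← mul_assoc, inv_mul_cancel, one_mul, inv_mul_cancel_right, hl'] at this
    exact Subtype.ext this
  obtain ⟨π, hπ⟩ := CA.AutAn.exists_conj (by omega) (fun e => by rw [e] at ho; exact absurd ho (by decide))
    (MulEquiv.ofBijective φ (Finite.injective_iff_bijective.1 inj))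
  have k1 : ∀ e ∈ E, d.r (g * e * g⁻¹) = π * d.r e * π⁻¹ := fun e he => by
    have := congrArg (fun β : MulAut (alternatingGroup ι) => ((β ⟨_, ra he⟩ : alternatingGroup ι) :
      Equiv.Perm ι)) hπ
    exact (wd hg he (hl ⟨_, ra he⟩) (hl' ⟨_, ra he⟩).symm).trans this.symm
  obtain ⟨e0, he0, r0⟩ := (d.mem_rim le_rfl).1 (r.ge (show π * π ∈ alternatingGroup ι by
    rw [Equiv.Perm.mem_alternatingGroup, map_mul, Int.units_mul_self]))
  have hc : e0⁻¹ * g ^ 2 ∈ 𝐍 E := mul_mem (inv_mem (le_normalizer he0)) (pow_mem hg 2)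
  have k2 : ∀ e ∈ E, d.r ((e0⁻¹ * g ^ 2) * e * (e0⁻¹ * g ^ 2)⁻¹) = d.r e := fun e he => by
    rw [show (e0⁻¹ * g ^ 2) * e * (e0⁻¹ * g ^ 2)⁻¹ = e0⁻¹ * (g * (g * e * g⁻¹) * g⁻¹) * e0⁻¹⁻¹ by
      simp only [pow_two]; group, d.r_conj (inv_mem he0) (cE hg (cE hg he)), k1 _ (cE hg he), k1 _ he,
      d.r_inv he0, r0]
    group
  suffices e0⁻¹ * g ^ 2 ∈ 𝐂 (Wb p E) by
    have := mul_mem_sup he0 this
    rwa [mul_inv_cancel_left] at this
  generalize e0⁻¹ * g ^ 2 = c at *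
  have cW : ∀ {w}, w ∈ Zo p E → c * w * c⁻¹ ∈ Zo p E := fun hw => conj_mem_of_mem_normalizer (nW0 hc) hw
  have cq : ∀ {w w'}, w ∈ Zo p E → w' ∈ Zo p E → d.ψ w = d.ψ w' → d.ψ (c * w * c⁻¹) = d.ψ (c * w' * c⁻¹) :=
    fun hw hw' k => (d.ψ_eq_iff (cW hw) (cW hw')).2 (by
      have := conj_mem_of_mem_normalizer (nZ0 hc) ((d.ψ_eq_iff hw hw').1 k)
      convert this using 1; group)
  have k3 : ∀ e ∈ E, ∀ w ∈ Zo p E, ∀ k, d.ψ (c * (e * w * e⁻¹) * c⁻¹) (d.r e k) = d.ψ (c * w * c⁻¹) k :=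
    fun e he w hw k => by
      rw [← d.act (cE hc he) (cW hw) k, k2 e he]; congr 1; group
  obtain ⟨o⟩ : Nonempty ι := Fintype.card_pos_iff.1 (by omega)
  let Y : Subgroup G :=
    { carrier := {w | w ∈ Zo p E ∧ d.ψ (c * w * c⁻¹) = d.ψ w}
      mul_mem' := fun {a b} ha hb => ⟨mul_mem ha.1 hb.1, by
        rw [d.ψ_mul ha.1 hb.1, ← ha.2, ← hb.2, ← d.ψ_mul (cW ha.1) (cW hb.1)]; congr 1; group⟩
      one_mem' := ⟨one_mem _, by simp⟩
      inv_mem' := fun {a} ha => ⟨inv_mem ha.1, by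
        rw [d.ψ_inv ha.1, ← ha.2, ← d.ψ_inv (cW ha.1)]; congr 1; group⟩ }
  have hY := d.le_of_ee (W := Y) (fun _ hw => hw.1) o fun i hi => by
    obtain ⟨w, hw, e⟩ := d.ψ_surj _ (sum_ee o i)
    refine ⟨w, ⟨hw, e ▸ e ▸ fix_ee h5 ho hi.symm (fun k => ?_) (d.ψ_sum (cW hw)) fun σ hσ k x => ?_⟩, e⟩
    · have := inv_conj_mem_of_mem_normalizer (nZ0 hc) ((d.ψ_zero (cW hw)).1 k)
      rw [show c⁻¹ * (c * w * c⁻¹) * c = w by group, ← d.ψ_zero hw, e] at this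
      simpa [ee_apply, hi.symm] using congrFun this o
    · obtain ⟨t, ht, rfl⟩ := (d.mem_rim le_rfl).1 (r.ge hσ)
      rw [← k3 t ht w hw x, cq (d.conj_mem ht hw) hw (funext fun y => ?_)]
      rw [d.act' ht hw, e, ← k, ap_inv]
  have hZ : Zo p E ⊓ 𝐂 E ≤ Y := fun z hz => ⟨hz.1, by
    rw [(d.ψ_zero hz.1).2 hz, d.ψ_zero (cW hz.1)]; exact conj_mem_of_mem_normalizer (nZ0 hc) hz⟩
  exact knC h (mem_inf.2 ⟨hc, mem_Kn'.2 ⟨nZ0 hc, fun y hy =>
    (d.ψ_eq_iff (cW hy) hy).1 (sup_le le_rfl hZ (hY hy)).2⟩⟩)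

end CA.H8Exc
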