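import Cfsg.Agent.Lib.Loc.H8Exc12

/-! The normalizer of a linear block acts semilinearly. -/

set_option autoImplicit false
set_option linter.unusedSectionVars false

namespace CA.H8Exc

open Subgroup Cfsg CA.Amb CA.AmbSyl CA.AmbCore CA.AmbRes CA.AmbSpe CA.H6Nat CA.H6Nat2 CA.H6J CA.H6Bau
open CA.H6Am1 CA.H6Am2 CA.H6Blk CA.H6TV2 CA.H6PD
open scoped commutatorElement MatrixGroups Matrix

universe u

variable {G : Type u} [Group G] [Finite G] {p : ℕ} [hp : Fact p.Prime] {T E : Subgroup G}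
  {K : Type} [Field K] [Finite K]

theorem mz_comm (σ τ : K →*₀ K) (c : K) : σ (τ c) = τ (σ c) := by
  obtain ⟨γ, hγ⟩ := IsCyclic.exists_monoid_generator (α := Kˣ)
  have pw : ∀ a : K, a ≠ 0 → ∃ n : ℕ, (γ : K) ^ n = a := fun a ha => by
    obtain ⟨n, hn⟩ := hγ (Units.mk0 a ha)
    exact ⟨n, by simpa using congrArg Units.val hn⟩
  by_cases c0 : c = 0
  · simp [c0]
  obtain ⟨n, rfl⟩ := pw c c0
  obtain ⟨k, hk⟩ := pw (σ γ) ((map_ne_zero σ).2 γ.ne_zero)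
  obtain ⟨l, hl⟩ := pw (τ γ) ((map_ne_zero τ).2 γ.ne_zero)
  simp only [map_pow, ← hk, ← hl]
  rw [← pow_mul _ k l, ← pow_mul _ l k, mul_comm k l]

theorem top_of (h4 : 4 ≤ Nat.card K) : _root_.commutator SL(2, K) = ⊤ := by
  obtain ⟨x, hx⟩ : IsCyclic Kˣ := by infer_instance
  refine Matrix.SL2.commutator_eq_top (Units.ne_zero x) fun h ↦ ?_
  have k := orderOf_le_of_pow_eq_one (x := x) zero_lt_two (Units.ext <| by simpa using h)
  rw [Nat.card_eq_card_units_add_one K, ← orderOf_eq_card_of_forall_mem_zpowers hx] at h4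
  omega

theorem sq3 (c : Nat.card K = 3) (a : K) : a = 0 ∨ a ^ 2 = 1 := by
  haveI := Fintype.ofFinite K
  refine or_iff_not_imp_left.2 fun k => ?_
  have := FiniteField.pow_card_sub_one_eq_one a k
  rwa [← Nat.card_eq_fintype_card, c] at this

section nd

variable (d : ND K E (Zo p E) (Zo p E ⊓ 𝐂 E))

theorem cW0 {c w : G} (hc : c ∈ 𝐍 E) (hw : w ∈ Zo p E) : c * w * c⁻¹ ∈ Zo p E :=
  conj_mem_of_mem_normalizer (nW0 hc) hw

def Ac (g : G) (m : Matrix (Fin 2) (Fin 2) K) : Prop := ∀ w ∈ Zo p E, d.ψ (g * w * g⁻¹) = m *ᵥ d.ψ w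

variable {d}

theorem Ac.mul {g h : G} {m m' : Matrix (Fin 2) (Fin 2) K} (a : Ac d g m) (b : Ac d h m') (hh : h ∈ 𝐍 E) :
    Ac d (g * h) (m * m') := fun w hw => by
  rw [← Matrix.mulVec_mulVec, ← b w hw, ← a _ (cW0 hh hw)]; congr 1; group

theorem Ac.one : Ac d 1 1 := fun w hw => by simp

theorem Ac.pow {g : G} {m : Matrix (Fin 2) (Fin 2) K} (a : Ac d g m) (hg : g ∈ 𝐍 E) (n : ℕ) :
    Ac d (g ^ n) (m ^ n) := by
  induction n with
  | zero => simpa using Ac.one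
  | succ n ih => rw [pow_succ, pow_succ]; exact ih.mul a hg

theorem Ac.uniq {g : G} {m m' : Matrix (Fin 2) (Fin 2) K} (a : Ac d g m) (b : Ac d g m') : m = m' :=
  Matrix.toLin'.injective (LinearMap.ext fun x => by
    obtain ⟨w, hw, rfl⟩ := d.ψ_surj x
    exact (a w hw).symm.trans (b w hw))

variable (d)

def GG : Subgroup G where
  carrier := {g | g ∈ 𝐍 E ∧ ∃ m, Ac d g m}
  mul_mem' := fun ⟨a, _, h⟩ ⟨b, _, k⟩ => ⟨mul_mem a b, _, h.mul k b⟩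
  one_mem' := ⟨one_mem _, _, Ac.one⟩
  inv_mem' := fun {g} ⟨a, _, h⟩ => by
    rw [show g⁻¹ = g ^ (orderOf g - 1) from inv_eq_of_mul_eq_one_right (by
      rw [← pow_succ', Nat.sub_add_cancel (orderOf_pos g), pow_orderOf_eq_one])]
    exact ⟨pow_mem a _, _, h.pow a _⟩

def SS : Subgroup G where
  carrier := {g | g ∈ 𝐍 E ∧ ∃ m : SL(2, K), Ac d g m.1}
  mul_mem' := fun ⟨a, m, h⟩ ⟨b, m', k⟩ => ⟨mul_mem a b, m * m', h.mul k b⟩
  one_mem' := ⟨one_mem _, 1, Ac.one⟩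
  inv_mem' := fun {g} ⟨a, m, h⟩ => by
    rw [show g⁻¹ = g ^ (orderOf g - 1) from inv_eq_of_mul_eq_one_right (by
      rw [← pow_succ', Nat.sub_add_cancel (orderOf_pos g), pow_orderOf_eq_one])]
    exact ⟨pow_mem a _, m ^ _, by rw [Matrix.SpecialLinearGroup.coe_pow]; exact h.pow a _⟩

theorem comm_GG : ⁅GG d, GG d⁆ ≤ SS d := commutator_le.2 fun g hg h hh => by
  obtain ⟨g', a', ha'⟩ := inv_mem hg
  obtain ⟨h', b', hb'⟩ := inv_mem hh
  obtain ⟨g1, a, ha⟩ := hg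
  obtain ⟨h1, b, hb⟩ := hh
  have e1 := congrArg Matrix.det ((ha.mul ha' g').uniq (by rw [mul_inv_cancel]; exact Ac.one))
  have e2 := congrArg Matrix.det ((hb.mul hb' h').uniq (by rw [mul_inv_cancel]; exact Ac.one))
  rw [Matrix.det_mul, Matrix.det_one] at e1 e2
  refine ⟨mul_mem (mul_mem (mul_mem g1 h1) g') h', ⟨a * b * a' * b', ?_⟩, ((ha.mul hb h1).mul ha' g').mul hb' h'⟩
  simp only [Matrix.det_mul]
  linear_combination (b.det * b'.det) * e1 + e2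

def SLn (g : G) (α : (Fin 2 → K) →+ (Fin 2 → K)) (σ : K → K) : Prop :=
  (∀ w ∈ Zo p E, α (d.ψ w) = d.ψ (g * w * g⁻¹)) ∧ ∀ c x, α (c • x) = σ c • α x

variable {d}

theorem SLn.mul {g h : G} {α β : (Fin 2 → K) →+ (Fin 2 → K)} {σ τ : K → K} (a : SLn d g α σ)
    (b : SLn d h β τ) (hh : h ∈ 𝐍 E) : SLn d (g * h) (α.comp β) (σ ∘ τ) :=
  ⟨fun w hw => by
    rw [AddMonoidHom.comp_apply, b.1 w hw, a.1 _ (cW0 hh hw)]; congr 1; group,
    fun c x => by simp only [AddMonoidHom.comp_apply, b.2, a.2, Function.comp]⟩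

theorem SLn.fix {g : G} {α : (Fin 2 → K) →+ (Fin 2 → K)} {σ : K → K} (a : SLn d g α σ) {c : K}
    {x : Fin 2 → K} (x0 : x ≠ 0) (h1 : α x = x) (h2 : α (c • x) = c • x) : σ c = c := by
  rw [a.2, h1] at h2
  exact smul_left_injective K x0 h2

theorem SLn.one {g : G} {α : (Fin 2 → K) →+ (Fin 2 → K)} {σ : K → K} (a : SLn d g α σ) (hg : g = 1)
    (c : K) : σ c = c := by
  have : ∀ x, α x = x := fun x => by
    obtain ⟨w, hw, rfl⟩ := d.ψ_surj x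
    rw [a.1 w hw, hg]; simp
  exact a.fix (x := ![1, 0]) (fun e => by simpa using congrFun e 0) (this _) (this _)

theorem SLn.mem {g : G} {α : (Fin 2 → K) →+ (Fin 2 → K)} {σ : K → K} (a : SLn d g α σ) (hg : g ∈ 𝐍 E)
    (h : ∀ c, σ c = c) : g ∈ GG d :=
  ⟨hg, LinearMap.toMatrix' { α with map_smul' := fun c x => by simpa [h] using a.2 c x }, fun w hw => by
    rw [← a.1 w hw, ← Matrix.toLin'_apply, Matrix.toLin'_toMatrix']; rfl⟩

variable (d)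

theorem GG_three (c : Nat.card K = 3) : 𝐍 E ≤ GG d := fun g hg => by
  haveI : Fact (Nat.Prime 3) := ⟨Nat.prime_three⟩
  haveI : CharP K 3 := charP_of_card (n := 1) (by rw [c]; rfl)
  obtain ⟨α, hα⟩ := (nd_sec d).act (nW0 hg) (nZ0 hg)
  exact SLn.mem (σ := id) ⟨hα, lin_of_sq (sq3 c) α⟩ hg fun _ => rfl

theorem semi (r : d.rim E = ⊤) {g : G} (hg : g ∈ 𝐍 E) : ∃ α, ∃ σ : K →*₀ K, SLn d g α σ := by
  obtain ⟨α, hα⟩ := (nd_sec d).act (nW0 hg) (nZ0 hg)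
  obtain ⟨β, hβ⟩ := (nd_sec d).act (nW0 (inv_mem hg)) (nZ0 (inv_mem hg))
  have i1 : ∀ x, β (α x) = x := fun x => by
    obtain ⟨w, hw, rfl⟩ := d.ψ_surj x
    rw [hα w hw, hβ _ (cW0 hg hw)]; congr 1; group
  have i2 : ∀ x, α (β x) = x := fun x => by
    obtain ⟨w, hw, rfl⟩ := d.ψ_surj x
    rw [hβ w hw, hα _ (cW0 (inv_mem hg) hw)]; congr 1; group
  have s1 : ∀ c : K, ∃ μ : K, ∀ x, α (c • x) = μ • α x := fun c => by
    obtain ⟨μ, hμ⟩ := scalar_of_comm (fun y => α (c • β y))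
      (fun x y => by rw [map_add, smul_add, map_add]) fun m y => by
        obtain ⟨e, he, rfl⟩ := (d.mem_rim le_rfl).1 (r.ge (mem_top m))
        have e' := inv_conj_mem_of_mem_normalizer hg he
        have k : ∀ x, α ((d.r (g⁻¹ * e * g)).1 *ᵥ x) = (d.r e).1 *ᵥ α x := fun x => by
          obtain ⟨w, hw, rfl⟩ := d.ψ_surj x
          rw [← d.act e' hw, hα _ (d.conj_mem e' hw), hα w hw, ← d.act he (cW0 hg hw)]; congr 1; group
        conv_lhs => rw [← i2 y, ← k, i1]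
        rw [← Matrix.mulVec_smul, k]
    exact ⟨μ, fun x => by rw [← hμ, i1]⟩
  choose σ hσ using s1
  have x0 : α ![1, 0] ≠ 0 := fun e => by
    have := i1 ![1, 0]
    rw [e, map_zero] at this
    simpa using congrFun this 0
  have inj := smul_left_injective K x0
  exact ⟨α, { toFun := σ
              map_zero' := inj (by simp only [← hσ]; simp)
              map_one' := inj (by simp only [← hσ]; simp)
              map_mul' := fun a b => inj (by simp only [mul_smul, ← hσ]) }, hα, hσ⟩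

theorem commN (r : d.rim E = ⊤) : ⁅𝐍 E, 𝐍 E⁆ ≤ GG d := commutator_le.2 fun g hg h hh => by
  obtain ⟨α, σ, a⟩ := semi d r hg
  obtain ⟨α', σ', a'⟩ := semi d r (inv_mem hg)
  obtain ⟨β, τ, b⟩ := semi d r hh
  obtain ⟨β', τ', b'⟩ := semi d r (inv_mem hh)
  have e1 := (a.mul a' (inv_mem hg)).one (mul_inv_cancel g)
  have e2 := (b.mul b' (inv_mem hh)).one (mul_inv_cancel h)
  refine (((a.mul b hh).mul a' (inv_mem hg)).mul b' (inv_mem hh)).mem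
    (mul_mem (mul_mem (mul_mem hg hh) (inv_mem hg)) (inv_mem hh)) fun c => ?_
  simp only [Function.comp] at e1 e2 ⊢
  rw [mz_comm τ σ', e1, e2]

theorem SS_mem (h : Blk p T E) {g : G} (hg : g ∈ 𝐍 E) {m : SL(2, K)} (a : Ac d g m.1) (hm : m ∈ d.rim E) :
    g ∈ E ⊔ 𝐂 (Wb p E) := by
  obtain ⟨e, he, rfl⟩ := (d.mem_rim le_rfl).1 hm
  exact finM h hg he fun w hw => (d.ψ_eq_iff (cW0 hg hw) (d.conj_mem he hw)).1 (by
    rw [a w hw, d.act he hw])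

theorem SS_top (h : Blk p T E) (r : d.rim E = ⊤) : SS d ≤ E ⊔ 𝐂 (Wb p E) :=
  fun _ ⟨hg, _, a⟩ => SS_mem d h hg a (r.ge trivial)

end nd

theorem SS_three (h : Blk 3 T E) (d : ND K E (Zo 3 E) (Zo 3 E ⊓ 𝐂 E)) (c : Nat.card K = 3)
    (r : d.rim E = _root_.commutator SL(2, K)) {g : G} (hg : g ∈ SS d) (ho : (orderOf g).Coprime 3) :
    g ∈ E ⊔ 𝐂 (Wb 3 E) := by
  haveI : Fact (Nat.Prime 3) := ⟨Nat.prime_three⟩
  haveI : CharP K 3 := charP_of_card (n := 1) (by rw [c]; rfl)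
  obtain ⟨hg, m, a⟩ := hg
  refine SS_mem d h hg a (r.ge (four_mem (four_of_eight (sq3 c) (orderOf_dvd_iff_pow_eq_one.1 ?_))))
  have e1 : m ^ orderOf g = 1 := Subtype.ext (by
    rw [Matrix.SpecialLinearGroup.coe_pow]
    exact (a.pow hg _).uniq (by rw [pow_orderOf_eq_one]; exact Ac.one))
  have e2 : orderOf m ∣ 3 * 8 := by
    have := orderOf_dvd_natCard m
    rwa [CA.SLnCard.card_SL2, c] at this
  exact (Nat.Coprime.coprime_dvd_left (orderOf_dvd_of_pow_eq_one e1) ho).dvd_of_dvd_mul_left e2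

theorem t3 [CharP K 3] (h : Blk 3 T E) (d : ND K E (Zo 3 E) (Zo 3 E ⊓ 𝐂 E))
    (r : d.rim E = _root_.commutator SL(2, K)) : ∃ τ ∈ ⁅E, E⁆, ∀ w ∈ Wb 3 E, τ * w * τ⁻¹ = w⁻¹ := by
  haveI : Fact (Nat.Prime 3) := ⟨Nat.prime_three⟩
  obtain ⟨m, hm, m', hm', q⟩ := q8 (F := K)
  obtain ⟨f₁, hf₁, rfl⟩ := (d.mem_rim le_rfl).1 (r.ge hm)
  obtain ⟨f₂, hf₂, rfl⟩ := (d.mem_rim le_rfl).1 (r.ge hm')
  have hτ := commutator_mem_commutator hf₁ hf₂
  have r1 : d.r ⁅f₁, f₂⁆ = -1 := by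
    rw [commutatorElement_def, d.r_mul (mul_mem (mul_mem hf₁ hf₂) (inv_mem hf₁)) (inv_mem hf₂),
      d.r_conj hf₁ hf₂, d.r_inv hf₂, ← commutatorElement_def, q]
  generalize ⁅f₁, f₂⁆ = τ at *
  have τE : τ ∈ E := comm_le_of_le le_rfl le_rfl hτ
  have c : ∀ {e}, e ∈ E → d.r e = 1 → ∀ w ∈ Zo 3 E, e * w * e⁻¹ = w := fun he k w hw =>
    cc (cent_symm (Q_cent 3 E) hw) (h.kn ⟨he, (d.mem_Kn he).2 k⟩)
  have nW : ∀ {e w}, e ∈ E → w ∈ Wb 3 E → e * w * e⁻¹ ∈ Wb 3 E := fun he hw =>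
    conj_mem_of_mem_normalizer (nW_of (le_normalizer he)) hw
  let Y : Subgroup G :=
    { carrier := {w | w ∈ Wb 3 E ∧ τ * w * τ⁻¹ = w⁻¹}
      mul_mem' := fun {a b} ha hb => ⟨mul_mem ha.1 hb.1, by
        rw [mem_centralizer_sub.1 (ea_le_cent (ea_OZ _ _) (W0 E hb.1)) a (W0 E ha.1), mul_inv_rev, ← ha.2,
          ← hb.2, ← mem_centralizer_sub.1 (ea_le_cent (ea_OZ _ _) (W0 E hb.1)) a (W0 E ha.1)]; group⟩
      one_mem' := ⟨one_mem _, by simp⟩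
      inv_mem' := fun {a} ha => ⟨inv_mem ha.1, by nth_rewrite 2 [← ha.2]; group⟩ }
  have nY : E ≤ 𝐍 Y := le_normalizer_iff_cj.2 fun f hf => cj_le_iff'.2 fun w hw => ⟨nW hf hw.1, by
    have m := mul_mem (mul_mem (mul_mem (inv_mem hf) τE) hf) (inv_mem τE)
    have := c m (by rw [d.r_mul (mul_mem (mul_mem (inv_mem hf) τE) hf) (inv_mem τE),
      d.r_mul (mul_mem (inv_mem hf) τE) hf, d.r_mul (inv_mem hf) τE, d.r_inv hf, d.r_inv τE, r1]; simp)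
      _ (W0 E (nW τE hw.1))
    calc _ = f * (f⁻¹ * τ * f * τ⁻¹ * (τ * w * τ⁻¹) * (f⁻¹ * τ * f * τ⁻¹)⁻¹) * f⁻¹ := by group
      _ = _ := by rw [this, hw.2]; group⟩
  refine ⟨τ, hτ, fun w hw => (irrW h (Y := Y) (fun _ k => k.1) nY (fun k => ?_) hw).2⟩
  obtain ⟨w, hw, hw'⟩ := SetLike.not_le_iff_exists.1 h.W_not_le
  have m := mul_mem (inv_mem hw) (nW τE hw)
  have := (d.ψ_zero (W0 E m)).2 ⟨W0 E m, k ⟨m, by
    have := c (mul_mem τE τE) (by rw [d.r_mul τE τE, r1]; simp) w (W0 E hw)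
    calc _ = τ * w⁻¹ * τ⁻¹ * (τ * τ * w * (τ * τ)⁻¹) := by group
      _ = _ := by rw [this]; group⟩⟩
  rw [d.ψ_mul (inv_mem (W0 E hw)) (W0 E (nW τE hw)), d.act τE (W0 E hw), r1, d.ψ_inv (W0 E hw)] at this
  refine hw' ((d.ψ_zero (W0 E hw)).1 ((smul_eq_zero.1 ?_).resolve_left (two_ne (F := K)))).2
  simp only [Matrix.SpecialLinearGroup.coe_neg, Matrix.SpecialLinearGroup.coe_one, Matrix.neg_mulVec,
    Matrix.one_mulVec] at this
  rw [two_smul]; linear_combination (exp := 1) -this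

theorem zb3 [CharP K 3] (h : Blk 3 T E) (d : ND K E (Zo 3 E) (Zo 3 E ⊓ 𝐂 E))
    (r : d.rim E = _root_.commutator SL(2, K)) : Wb 3 E ⊓ 𝐂 E = ⊥ := by
  haveI : Fact (Nat.Prime 3) := ⟨Nat.prime_three⟩
  obtain ⟨τ, hτ, k⟩ := t3 h d r
  refine eq_bot_iff.2 fun w hw => mem_bot.2 (eq_one_of_23 ?_ (mem_OZ.1 (W0 E hw.1)).2.2)
  have := k w hw.1
  rw [cc hw.2 (comm_le_of_le le_rfl le_rfl hτ)] at this
  nth_rewrite 1 [this]; simp

theorem card3 [CharP K 3] (h : Blk 3 T E) (d : ND K E (Zo 3 E) (Zo 3 E ⊓ 𝐂 E))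
    (r : d.rim E = _root_.commutator SL(2, K)) : Nat.card (Wb 3 E) = Nat.card K ^ 2 := by
  haveI : Fact (Nat.Prime 3) := ⟨Nat.prime_three⟩
  rw [card_sec (secW h (zb3 h d r) (nd_sec d)), Nat.card_fun]; simp

theorem t3' {T' F : Subgroup G} {K' : Type} [Field K'] [Finite K'] [CharP K 3] [CharP K' 3] (h : Blk 3 T E)
    (d : ND K E (Zo 3 E) (Zo 3 E ⊓ 𝐂 E)) (r : d.rim E = _root_.commutator SL(2, K)) (h' : Blk 3 T' F)
    (d' : ND K' F (Zo 3 F) (Zo 3 F ⊓ 𝐂 F)) (r' : d'.rim F = _root_.commutator SL(2, K'))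
    (hG : F ≤ GG d) (h0 : Wb 3 F ≤ Wb 3 E) (h1 : ⁅Wb 3 E, F⁆ ≤ Wb 3 F) :
    Wb 3 E = Wb 3 F ∧ Nat.card K = Nat.card K' := by
  haveI : Fact (Nat.Prime 3) := ⟨Nat.prime_three⟩
  obtain ⟨τ, hτ, k⟩ := t3 h' d' r'
  have τF : τ ∈ F := comm_le_of_le le_rfl le_rfl hτ
  obtain ⟨τN, m, a⟩ := comm_GG d (commutator_mono hG hG hτ)
  have s := secW h (zb3 h d r) (nd_sec d)
  have y : ∀ w ∈ Wb 3 E, τ * w * τ⁻¹ * w⁻¹ ∈ Wb 3 F := fun w hw =>
    comm_swap h1 (commutator_mem_commutator τF hw)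
  have cw : ∀ {w}, w ∈ Wb 3 E → τ * w * τ⁻¹ ∈ Wb 3 E := fun hw => conj_mem_of_mem_normalizer (nW_of τN) hw
  have m2 : m * m = 1 := sl_mulVec_ext fun x => by
    obtain ⟨w, hw, rfl⟩ := s.surj x
    have := a _ (W0 E (h0 (y w hw)))
    rw [k _ (y w hw), s.inv (h0 (y w hw)), s.div (cw hw) hw, a w (W0 E hw), Matrix.mulVec_sub] at this
    rw [sl_mul_mulVec, Matrix.SpecialLinearGroup.coe_one, Matrix.one_mulVec]
    linear_combination (exp := 1) -this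
  have m1 : m ≠ 1 := fun e => h'.W_not_le fun w hw => by
    have := a w (W0 E (h0 hw))
    rw [k w hw, e, Matrix.SpecialLinearGroup.coe_one, Matrix.one_mulVec] at this
    have e2 := sec_inj s (inv_mem (h0 hw)) (h0 hw) this
    rw [eq_one_of_23 (z := w) (by nth_rewrite 1 [← e2]; simp) (mem_OZ.1 (W0 F hw)).2.2]
    exact one_mem _
  have e : Wb 3 E = Wb 3 F := le_antisymm (fun w hw => by
    have := y w hw
    rw [sec_inj s (cw hw) (inv_mem hw) (by rw [a w (W0 E hw), sl_invol two_ne m2 m1, s.inv hw]),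
      ← mul_inv_rev, inv_mem_iff] at this
    exact mem_of_23 this (by rw [(mem_OZ.1 (W0 E hw)).2.2]; exact one_mem _)) h0
  refine ⟨e, Nat.pow_left_injective two_ne_zero ?_⟩
  show _ ^ 2 = _ ^ 2
  rw [← card3 h d r, ← card3 h' d' r', e]

end CA.H8Exc
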