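import Cfsg.Agent.Lib.Loc.H8Exc13

/-! A small block acting on a large linear block in characteristic two. -/

set_option autoImplicit false
set_option linter.unusedSectionVars false

namespace CA.H8Exc

open Subgroup Cfsg CA.Amb CA.AmbSyl CA.AmbCore CA.AmbRes CA.AmbSpe CA.H6Nat CA.H6Nat2 CA.H6J CA.H6Bau
open CA.H6Am1 CA.H6Am2 CA.H6Blk CA.H6TV2 CA.H6PD
open scoped commutatorElement MatrixGroups Matrix

universe u

variable {G : Type u} [Group G] [Finite G] {T E F : Subgroup G} {K : Type} [Field K] [Finite K]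

theorem two_le {H L : Subgroup G} (e : H.relIndex L ≤ 2) {u v : G} (hu : u ∈ L) (hv : v ∈ L)
    (h : u ∈ H ↔ v ∈ H) : u * v⁻¹ ∈ H := by
  have k0 := relIndex_ne_zero H L
  rcases (show H.relIndex L = 1 ∨ H.relIndex L = 2 by omega) with e | e
  · exact relIndex_eq_one.1 e (mul_mem hu (inv_mem hv))
  · exact mem_subgroupOf.1 ((mul_mem_iff_of_index_two e (a := ⟨u, hu⟩) (b := ⟨v, hv⟩⁻¹)).2 (by
      simpa only [mem_subgroupOf, inv_mem_iff] using h))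

theorem two_dim {x : Fin 2 → K} (hx : x ≠ 0) (z : Fin 2 → K) :
    (∃ c : K, z = c • x) ∨ ∀ y, ∃ s t : K, y = s • x + t • z := by
  by_cases D : x 0 * z 1 - x 1 * z 0 = 0
  · left
    by_cases h0 : x 0 = 0
    · have h1 : x 1 ≠ 0 := fun h1 => hx (by ext i; fin_cases i; exacts [h0, h1])
      have z0 : z 0 = 0 := by
        rw [h0, zero_mul, zero_sub, neg_eq_zero] at D
        exact (mul_eq_zero.1 D).resolve_left h1
      refine ⟨z 1 / x 1, ?_⟩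
      ext i; fin_cases i
      · simp [h0, z0]
      · simp [h1]
    · refine ⟨z 0 / x 0, ?_⟩
      ext i; fin_cases i
      · simp [h0]
      · show z 1 = z 0 / x 0 * x 1
        field_simp
        linear_combination D
  · refine Or.inr fun y => ⟨(y 0 * z 1 - y 1 * z 0) / (x 0 * z 1 - x 1 * z 0),
      (x 0 * y 1 - x 1 * y 0) / (x 0 * z 1 - x 1 * z 0), ?_⟩
    ext i; fin_cases i
    · show y 0 = _ * x 0 + _ * z 0
      rw [div_mul_eq_mul_div, div_mul_eq_mul_div, ← add_div, eq_div_iff D]; ring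
    · show y 1 = _ * x 1 + _ * z 1
      rw [div_mul_eq_mul_div, div_mul_eq_mul_div, ← add_div, eq_div_iff D]; ring

theorem idx_four {A W : Subgroup G} (hA : IsPGroup 2 A) (hW : IsAb 2 W) (c : Nat.card W = 4) (n : A ≤ 𝐍 W)
    (h : ¬ W ≤ 𝐂 A) : (A ⊓ 𝐂 W).relIndex A = 2 := by
  haveI : Fact (Nat.Prime 2) := ⟨Nat.prime_two⟩
  have k1 := inf_centralizer_ne_bot hA hW.isPGroup n fun e => h (e.le.trans bot_le)
  have k2 := card_inf_mul_relIndex (𝐂 A) W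
  have k3 : Nat.card ↥(𝐂 A ⊓ W) ≠ 1 := fun e => k1 (by rw [inf_comm]; exact card_eq_one.1 e)
  have k4 : (𝐂 A).relIndex W ≠ 1 := fun e => h (relIndex_eq_one.1 e)
  rw [c] at k2
  obtain ⟨k5, k6⟩ : Nat.card ↥(𝐂 A ⊓ W) = 2 ∧ (𝐂 A).relIndex W = 2 := by
    have := Nat.le_of_dvd (by norm_num) (Dvd.intro _ k2)
    generalize Nat.card ↥(𝐂 A ⊓ W) = a at *
    interval_cases a <;> omega
  obtain ⟨w, hw, hw'⟩ := SetLike.not_le_iff_exists.1 h
  have cm : ∀ a ∈ A, a * w * a⁻¹ * w⁻¹ ∈ 𝐂 A ⊓ W := fun a ha => by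
    have m := conj_mem_of_mem_normalizer (n ha) hw
    refine mem_inf.2 ⟨two_le k6.le m hw ⟨fun k => absurd ?_ hw', fun k => absurd k hw'⟩, mul_mem m (inv_mem hw)⟩
    have := inv_conj_mem_of_mem_normalizer (norm_centralizer le_normalizer ha) k
    convert this using 1; group
  have fx : ∀ a ∈ A, a * w * a⁻¹ * w⁻¹ = 1 → a ∈ 𝐂 W := fun a ha e => mem_centralizer_sub.2 fun v hv => by
    by_cases k : v ∈ 𝐂 A
    · exact (mem_centralizer_sub.1 k a ha).symm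
    have := mem_centralizer_sub.1 (two_le k6.le hv hw ⟨fun k' => absurd k' k, fun k' => absurd k' hw'⟩) a ha
    calc v * a = v * w⁻¹ * ((a * w * a⁻¹ * w⁻¹)⁻¹ * a * w) := by group
      _ = v * w⁻¹ * a * w := by rw [e]; group
      _ = a * v := by rw [← this]; group
  obtain ⟨y, -, hy⟩ := (Nat.card_eq_two_iff' (1 : ↥(𝐂 A ⊓ W))).1 k5
  obtain ⟨a, ha, ha'⟩ := SetLike.not_le_iff_exists.1 fun k : A ≤ 𝐂 W => h (cent_symm k)
  rw [inf_relIndex_left, relIndex_eq_two_iff]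
  refine ⟨a, ha, fun b hb => ?_⟩
  by_cases k : b ∈ 𝐂 W
  · exact Or.inr ⟨k, fun k' => ha' ((Subgroup.mul_mem_cancel_left _ k).1 k')⟩
  refine Or.inl ⟨fx _ (mul_mem hb ha) ?_, k⟩
  have e1 := hy ⟨_, cm a ha⟩ fun e => ha' (fx a ha (congrArg Subtype.val e))
  have e2 := hy ⟨_, cm b hb⟩ fun e => k (fx b hb (congrArg Subtype.val e))
  have e3 : a * w * a⁻¹ * w⁻¹ = b * w * b⁻¹ * w⁻¹ := congrArg Subtype.val (e1.trans e2.symm)
  calc _ = b * (a * w * a⁻¹ * w⁻¹) * b⁻¹ * (b * w * b⁻¹ * w⁻¹) := by group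
    _ = 1 := by rw [cc (cm a ha).1 hb, e3, ← pow_two, hW.2 _ (cm b hb).2]

theorem off [CharP K 2] (x : SB 2 T E) (h' : Blk 2 T F) (d : ND K E (Zo 2 E) (Zo 2 E ⊓ 𝐂 E))
    (r : d.rim E = ⊤) (h4 : 4 ≤ Nat.card K) (QF : pCoreOf 2 F = Zo 2 F) (i : (pCoreOf 2 F).relIndex F = 3)
    {B : Type} [AddCommGroup B] {ψ : G → B} (hB : Nat.card B = 4) (s : Sec (Zo 2 F) (Zo 2 F ⊓ 𝐂 F) ψ)
    (n : F ≤ 𝐍 E) (nc : ¬ F ≤ 𝐂 (Wb 2 E)) (hG : F ≤ GG d) (h0 : Wb 2 F ≤ Wb 2 E)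
    (h1 : ⁅Wb 2 E, F⁆ ≤ Wb 2 F) (zE : Wb 2 F ⊓ 𝐂 E ≤ 𝐂 F) : F ≤ E ⊔ 𝐂 (Wb 2 E) := by
  haveI : Fact (Nat.Prime 2) := ⟨Nat.prime_two⟩
  by_contra hM
  have hV : IsAb 2 (Vv 2 G) := isAb_iff_isElementaryAbelian.2 (ea_OZ _ _)
  have FV := h0.trans x.WV
  have QC : pCoreOf 2 F ≤ 𝐂 (Vv 2 G) := W_eq_Q h' QF ▸ FV.trans hV.le_centralizer
  have zb : Wb 2 F ⊓ 𝐂 F = ⊥ := by
    rw [← WV h' x.hT x.hc]
    exact comm_inf_cent hV.le_centralizer hV.isPGroup nV (norm_pCoreOf _ _) (cent_symm QC) (by rw [i]; norm_num)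
  have c4 := (card_sec (secW h' zb s)).trans hB
  have FM : F ⊓ (E ⊔ 𝐂 (Wb 2 E)) ≤ pCoreOf 2 F := by
    have := relIndex_mul_relIndex (pCoreOf 2 F) (F ⊓ (E ⊔ 𝐂 (Wb 2 E))) F (le_inf (pCoreOf_le _ _)
      ((QC.trans (centralizer_anti x.WV)).trans le_sup_right)) inf_le_left
    rw [i] at this
    rcases (Nat.dvd_prime Nat.prime_three).1 (Dvd.intro_left _ this) with e | e
    · exact absurd ((relIndex_eq_one.1 e).trans inf_le_right) hM
    · rw [e] at this; exact relIndex_eq_one.1 (by omega)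
  obtain ⟨A, hA, hA'⟩ : ∃ A ∈ mx 2 T, ¬ Wb 2 F ≤ 𝐂 A := by
    by_contra k
    push Not at k
    exact h'.J_not_cent x.hT (cent_symm (J_le_iff.2 fun A hA => cent_symm (k A hA)))
  have AE := x.mx_norm x.hT hA
  have AF : A ≤ 𝐍 F := (le_J hA).trans ((J_le_Bm _ _).trans h'.B_norm)
  have AW : A ≤ 𝐍 (Wb 2 F) := AF.trans nW_of
  have nF : F ≤ 𝐍 (Wb 2 F) := le_normalizer.trans nW_of
  have sj : ∀ y, ∃ w ∈ Wb 2 E, d.ψ w = y := fun y => by
    obtain ⟨u, hu, rfl⟩ := d.ψ_surj y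
    obtain ⟨w, hw, z, hz, rfl⟩ := (mem_sup_of_norm ((W0 E).trans x.h.irr.normU)).1 (x.h.Zo_le hu)
    exact ⟨w, hw, by rw [d.ψ_mul (W0 E hw) hz.1, (d.ψ_zero hz.1).2 hz, add_zero]⟩
  have be : A ⊓ 𝐂 (Wb 2 F) ≤ 𝐂 (Wb 2 E) := by
    have c0 : ⁅A ⊓ 𝐂 (Wb 2 F), F⁆ ≤ 𝐂 (Wb 2 E) := le_trans (le_inf (commutator_le_right_of_norm
      (inf_le_left.trans AF)) ((commutator_mono inf_le_right le_rfl).trans (commutator_le_left_of_norm
        (norm_centralizer nF)))) (h'.inf_cent.trans (QC.trans (centralizer_anti x.WV)))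
    have c1 := three_bot c0 ((comm_swap h1).trans (cent_symm inf_le_right))
    refine kn_cent x.h (inf_le_left.trans AE) (commutator_le.2 fun u hu a ha => by_contra fun hk => ?_)
    obtain ⟨f, hf, w, hw, fw⟩ : ∃ f ∈ F, ∃ w ∈ Wb 2 E, f * w * f⁻¹ * w⁻¹ ∉ 𝐂 E := by
      by_contra k
      push Not at k
      exact nc (kn_cent x.h n (comm_swap (commutator_le.2 k)))
    obtain ⟨-, m, af⟩ := hG hf
    have mF : ∀ {v}, v ∈ Wb 2 E → f * v * f⁻¹ * v⁻¹ ∈ Wb 2 F := fun hv =>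
      comm_swap h1 (commutator_mem_commutator hf hv)
    have pf : ∀ {v}, v ∈ Wb 2 E → d.ψ (f * v * f⁻¹ * v⁻¹) = m *ᵥ d.ψ v - d.ψ v := fun hv => by
      rw [d.ψ_div (cW0 (n hf) (W0 E hv)) (W0 E hv), af _ (W0 E hv)]
    have x0 : d.ψ (f * w * f⁻¹ * w⁻¹) ≠ 0 := fun e => fw ((d.ψ_zero (W0 E (h0 (mF hw)))).1 e).2
    have line : ∀ c : K, ∃ y ∈ Wb 2 F, d.ψ y = c • d.ψ (f * w * f⁻¹ * w⁻¹) := fun c => by
      obtain ⟨v, hv, e⟩ := sj (c • d.ψ w)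
      exact ⟨_, mF hv, by rw [pf hv, pf hw, e, Matrix.mulVec_smul, smul_sub]⟩
    obtain ⟨α, σ, sl⟩ := semi d r (AE ha.1)
    have fx : ∀ y ∈ Wb 2 F, α (d.ψ y) = d.ψ y := fun y hy => by
      rw [sl.1 y (W0 E (h0 hy)), ← mem_centralizer_sub.1 ha.2 y hy, mul_inv_cancel_right]
    have sid : ∀ c, σ c = c := fun c => by
      obtain ⟨y, hy, e⟩ := line c
      exact sl.fix x0 (fx _ (mF hw)) (by rw [← e, fx y hy])
    have κW : ⁅u, a⁆ ∈ Wb 2 E :=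
      commutator_le_left_of_norm ((inf_le_left.trans AE).trans nW_of) (commutator_mem_commutator hu ha)
    have κF := c1 (commutator_mem_commutator hu ha)
    have z0 : d.ψ ⁅u, a⁆ ≠ 0 := fun e => hk ((d.ψ_zero (W0 E κW)).1 e).2
    rcases two_dim x0 (d.ψ ⁅u, a⁆) with ⟨c, e⟩ | e
    · obtain ⟨y, hy, e'⟩ := line c
      have ζ := (d.ψ_eq_iff (W0 E (h0 hy)) (W0 E κW)).1 (e'.trans e.symm)
      have : y ∈ 𝐂 F := mem_centralizer_sub.2 fun g hg => by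
        have m1 := mul_mem (conj_mem_of_mem_normalizer (nF hg) hy) (inv_mem hy)
        have m2 : g * y * g⁻¹ * y⁻¹ ∈ 𝐂 E := by
          have := (mem_inf.1 (mul_mem (conj_mem_of_mem_normalizer (nZ0 (n hg)) ζ) (inv_mem ζ))).2
          convert this using 1
          calc _ = g * (y * ⁅u, a⁆⁻¹) * g⁻¹ * (g * ⁅u, a⁆ * g⁻¹) * y⁻¹ := by group
            _ = _ := by rw [cc κF hg]; group
        have := mem_bot.1 (zb.le (mem_inf.2 ⟨m1, zE ⟨m1, m2⟩⟩))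
        exact eq_mul_of_mul_inv_eq (eq_of_mul_inv_eq_one this)
      rw [mem_bot.1 (zb.le (mem_inf.2 ⟨hy, this⟩)), (nd_sec d).one] at e'
      exact z0 (e.trans e'.symm)
    · have a2 : a⁻¹ = a := inv_eq_of_mul_eq_one_right (by rw [← pow_two, hA.2.1.2 a ha.1])
      have k2 : ⁅u, a⁆⁻¹ = ⁅u, a⁆ := inv_eq_of_mul_eq_one_right (by rw [← pow_two, hV.2 _ (x.WV κW)])
      have αz : α (d.ψ ⁅u, a⁆) = d.ψ ⁅u, a⁆ := by
        rw [sl.1 _ (W0 E κW)]
        congr 1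
        nth_rewrite 2 [← k2]
        simp only [commutatorElement_def, mul_inv_rev, inv_inv]
        calc _ = a * u * a * u⁻¹ * (a⁻¹ * a⁻¹) := by group
          _ = _ := by nth_rewrite 1 [a2]; rw [mul_inv_cancel, a2]; group
      obtain ⟨s, t, e⟩ := e (d.ψ u⁻¹)
      have : α (d.ψ u⁻¹) = d.ψ u⁻¹ := by rw [e, map_add, sl.2, sl.2, sid, sid, αz, fx _ (mF hw)]
      rw [sl.1 _ (inv_mem (W0 E hu))] at this
      refine z0 ?_
      rw [show ⁅u, a⁆ = u * (a * u⁻¹ * a⁻¹) by simp only [commutatorElement_def]; group,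
        d.ψ_mul (W0 E hu) (cW0 (AE ha.1) (inv_mem (W0 E hu))), this, d.ψ_inv (W0 E hu), add_neg_cancel]
  have ix : (𝐂 A).relIndex (Wb 2 E) ≤ 2 := cnt hA (hV.of_le x.WV) (x.WV.trans (x.VT x.hT)) inf_le_left be
    (idx_four hA.2.1.isPGroup (hV.of_le FV) c4 AW hA') fun w hw => hA.2.1.le_centralizer hw.1.1
  have AM : A ≤ E ⊔ 𝐂 (Wb 2 E) := fun a ha => by
    classical
    obtain ⟨α, σ, sl⟩ := semi d r (AE ha)
    choose l hl hl' using sj
    have fx : ∀ y z, (l y ∈ 𝐂 A ↔ l z ∈ 𝐂 A) → α (y - z) = y - z := fun y z k => by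
      have m := W0 E (mul_mem (hl y) (inv_mem (hl z)))
      have := sl.1 _ m
      rwa [cc (two_le ix (hl y) (hl z) k) ha, d.ψ_div (W0 E (hl y)) (W0 E (hl z)), hl', hl'] at this
    obtain ⟨-, m, am⟩ := sl.mem (AE ha) fun c => by
      haveI := Fintype.ofFinite K
      obtain ⟨y, z, yz, e⟩ := Fintype.exists_ne_map_eq_of_card_lt
        (fun y : Fin 2 → K => (l y ∈ 𝐂 A, l (c • y) ∈ 𝐂 A)) (by
          rw [Fintype.card_prod, Fintype.card_prop, Fintype.card_fun, Fintype.card_fin,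
            ← Nat.card_eq_fintype_card]
          nlinarith)
      simp only [Prod.mk.injEq, eq_iff_iff] at e
      exact sl.fix (sub_ne_zero.2 yz) (fx _ _ e.1) (by rw [smul_sub]; exact fx _ _ e.2)
    have e := congrArg Matrix.det ((am.mul am (AE ha)).uniq (by
      rw [← pow_two, hA.2.1.2 a ha]; exact Ac.one))
    rw [Matrix.det_mul, Matrix.det_one] at e
    refine SS_top d x.h r ⟨AE ha, ⟨m, sub_eq_zero.1 (pow_eq_zero_iff (n := 2) two_ne_zero |>.1 ?_)⟩, am⟩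
    linear_combination e + (1 - m.det) * CharTwo.two_eq_zero (R := K)
  have c : ⁅A, F⁆ ≤ 𝐂 (Vv 2 G) := le_trans (le_inf (commutator_le_right_of_norm AF)
    ((commutator_mono AM le_rfl).trans (commutator_le_left_of_norm
      (norm_sup n (norm_centralizer (n.trans nW_of)))))) (FM.trans QC)
  have lt := commutator_lt hA.2.1.isPGroup (hV.of_le FV).isPGroup AW fun k => hA' (k.le.trans bot_le)
  have k : ⁅Wb 2 F, A⁆ ≤ 𝐂 F := by
    by_contra k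
    exact lt.not_ge (irrW h' lt.le (nrm FV AW nF c) k)
  exact hA' ((WW h').ge.trans (three_bot ((comm_swap c).trans (centralizer_anti FV)) (comm_swap k)))

end CA.H8Exc
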