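import Cfsg.Agent.Lib.Loc.H8Exc14

/-! Blocks against a subnormal block. -/

set_option autoImplicit false
set_option linter.unusedSectionVars false

namespace CA.H8Exc

open Subgroup Cfsg CA.Amb CA.AmbSyl CA.AmbCore CA.AmbRes CA.AmbSpe CA.H6Nat CA.H6Nat2 CA.H6J CA.H6Bau
open CA.H6Am1 CA.H6Am2 CA.H6Blk CA.H6TV2 CA.H6PD
open scoped commutatorElement MatrixGroups Matrix

universe u

variable {G : Type u} [Group G] [Finite G] {p : ℕ} [hp : Fact p.Prime] {T E F : Subgroup G}

theorem kind2 (hE : IsBaumannBlock p T E) : S2 p E ∨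
    (∃ (K : Type) (_ : Field K) (_ : Finite K), 3 ≤ Nat.card K ∧ CharP K p ∧
      ∃ d : ND K E (Zo p E) (Zo p E ⊓ 𝐂 E), d.rim E = _root_.commutator SL(2, K) ∧
        (pCoreOf p E).relIndex E = Nat.card (_root_.commutator SL(2, K))) ∨
    (p = 2 ∧ ∃ m, 2 ≤ m ∧ ∃ d : PD (Fin (2 * m + 1)) E (Zo p E) (Zo p E ⊓ 𝐂 E),
      d.rim E = alternatingGroup (Fin (2 * m + 1))) := by
  have k : p = 2 → ¬ 2 ∣ (pCoreOf p E).relIndex E → S2 p E := fun e n => by
    rcases kind hE with b | b | b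
    · exact absurd (e ▸ b.2) n
    · exact b
    · exact absurd (e.symm.trans b.1) (by norm_num)
  obtain ⟨-, -, -, -, h5⟩ := hE
  rcases h5 with ⟨F, _, _, n, hF, ⟨e⟩, a, -⟩ | ⟨e2, m, ⟨e⟩, a, -⟩
  · obtain ⟨d, hd⟩ := H6Nat.acts_iff.1 a
    rw [← Nat.card_eq_fintype_card] at hF
    have h2 : 1 < Nat.card F := Finite.one_lt_card
    have hc := Nat.card_congr e.toEquiv
    rw [card_quot] at hc
    by_cases h3 : 3 ≤ Nat.card F
    · exact Or.inr (Or.inl ⟨F, inferInstance, inferInstance, h3, charP_of_card hF, d, hd, hc⟩)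
    have c2 : Nat.card F = 2 := by omega
    have hn : p ∣ Nat.card F := by
      rw [hF] at h2 ⊢
      exact dvd_pow_self p fun e => by simp [e] at h2
    rw [card_der (Or.inl c2), c2] at hc
    exact Or.inl (k ((Nat.prime_dvd_prime_iff_eq hp.out Nat.prime_two).1 (c2 ▸ hn)) (by rw [hc]; norm_num))
  · obtain ⟨d, hd⟩ := H6PD.acts_iff.1 a
    have hc := Nat.card_congr e.toEquiv
    rw [card_quot] at hc
    rcases (show m = 0 ∨ m = 1 ∨ 2 ≤ m by omega) with rfl | rfl | hm
    · haveI : Subsingleton (alternatingGroup (Fin (2 * 0 + 1))) :=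
        ⟨fun a b => Subtype.ext (Equiv.ext fun i => Subsingleton.elim (α := Fin 1) _ _)⟩
      rw [Nat.card_unique] at hc
      exact Or.inl (k e2 (by rw [hc]; norm_num))
    · have h3 := two_mul_nat_card_alternatingGroup (α := Fin (2 * 1 + 1))
      rw [← hc, Nat.card_perm, Nat.card_fin] at h3
      exact Or.inl (k e2 (by simp [Nat.factorial] at h3; omega))
    · exact Or.inr (Or.inr ⟨e2, m, hm, d, hd⟩)

theorem perf (h : Blk p T F) (b : Big p F) : F ≤ ⁅F, F⁆ := fun f hf => by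
  have e : _root_.commutator (F ⧸ pCore p F) = ⊤ := b.1.1.commutator_eq_top
  have e2 := map_commutator_eq F (QuotientGroup.mk' (pCore p F))
  rw [MonoidHom.range_eq_top.2 (QuotientGroup.mk'_surjective _), ← commutator_def, e] at e2
  obtain ⟨y, hy, k⟩ := e2.ge (mem_top (QuotientGroup.mk' (pCore p F) ⟨f, hf⟩))
  have k1 : (y : G) ∈ ⁅F, F⁆ := by
    have := map_commutator_eq F F.subtype
    rw [range_subtype] at this
    exact this.le ⟨y, hy, rfl⟩
  have k2 : y⁻¹ * ⟨f, hf⟩ ∈ pCore p F := QuotientGroup.eq.1 k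
  rw [← subgroupOf_pCoreOf, mem_subgroupOf] at k2
  have := mul_mem k1 ((h.cQ.ge.trans (commutator_mono (pCoreOf_le _ _) le_rfl)) k2)
  simpa using this

theorem idxC (h : Blk p T E) : (𝐂 (Wb p E)).relIndex E = (pCoreOf p E).relIndex E := by
  rw [← inf_relIndex_left, le_antisymm h.inf_cent
    (le_inf (pCoreOf_le _ _) ((Q_cent p E).trans (centralizer_anti (W0 E))))]

theorem card_der_eq {K K' : Type} [Field K] [Finite K] [Field K'] [Finite K'] (h3 : 3 ≤ Nat.card K)
    (c : Nat.card K = Nat.card K') :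
    Nat.card (_root_.commutator SL(2, K)) = Nat.card (_root_.commutator SL(2, K')) := by
  by_cases e : Nat.card K = 3
  · rw [card_der (Or.inr e), card_der (Or.inr (c ▸ e)), c]
  · rw [top_of (K := K) (by omega), top_of (K := K') (by omega), card_top, card_top, CA.SLnCard.card_SL2,
      CA.SLnCard.card_SL2, c]

theorem SB.last (x : SB p T E) (hF : IsBaumannBlock p T F) : F ≤ E ∨ ⁅F, E⁆ = ⊥ := by
  have h' := blk_of hF
  have n : F ≤ 𝐍 E := (blk_le x.hT h').trans x.BG_norm
  have nW : F ≤ 𝐍 (Wb p E) := n.trans nW_of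
  have eF := H8Exc.WV h' x.hT x.hc
  have FV : Wb p F ≤ Vv p G := h'.W_le x.hT x.hc
  have h1 : ⁅Wb p E, F⁆ ≤ Wb p F := (commutator_mono x.WV le_rfl).trans eF.le
  by_cases nc : F ≤ 𝐂 (Wb p E)
  · right
    have c : ⁅F, E⁆ ≤ 𝐂 (Vv p G) := le_trans (le_inf (commutator_le_right_of_norm n)
      ((commutator_mono nc le_rfl).trans (commutator_le_left_of_norm
        (norm_centralizer (le_normalizer.trans nW_of))))) (x.h.inf_cent.trans x.QV)
    have n1 : E ≤ 𝐍 (Wb p F) := eF ▸ nrm le_rfl nV nV c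
    rw [Subgroup.commutator_comm]
    refine comm_blk x.hT x.hT x.hc x.hE hF x.sn.pCoreOf_le nc ?_
    by_cases k : ⁅Wb p F, E⁆ ≤ 𝐂 F
    · exact cent_symm ((WW h').ge.trans (three_bot (c.trans (centralizer_anti FV)) (comm_swap k)))
    · exact absurd (((irrW h' (commutator_le_left_of_norm n1) (nrm FV n1 (le_normalizer.trans nW_of)
        (comm_swap c)) k).trans ((commutator_mono FV le_rfl).trans x.eW.le)).trans (cent_symm nc)) h'.W_not_le
  left
  have h0 : Wb p F ≤ Wb p E := (irrW h' h1 (norm_comm_right _ _) fun k => nc (h'.res.ge.trans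
    (AmbChar.res_le_cent_of_comm_le ((isPGroup_OZ _ _).to_le x.WV) nW (by rwa [h'.res])))).trans
      (commutator_le_left_of_norm nW)
  have zE : Wb p F ⊓ 𝐂 E ≤ 𝐂 F := by
    by_contra k
    exact nc (kn_cent x.h n (h1.trans ((irrW h' inf_le_left (norm_inf (le_normalizer.trans nW_of)
      (norm_centralizer n)) k).trans inf_le_right)))
  have two : p = 2 → (∀ g ∈ 𝐍 E, g ^ 2 ∈ E ⊔ 𝐂 (Wb p E)) → F ≤ E := fun e k =>
    same_blk x.hT x.hT x.hc x.hE hF x.sn.pCoreOf_le h0 (h'.res.ge.trans (res_le_iff.2 fun f hf ho =>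
      mem_of_pow_mem_of_coprime (e ▸ ho) (k f (n hf)))) fun e' _ =>
        absurd (e.symm.trans (three_of hF e')) (by norm_num)
  rcases kind2 x.hE with ⟨rfl, i, A, _, ψ, hA, s⟩ | ⟨K, _, _, h3, _, d, r, i⟩ | ⟨e, m, hm, d, r⟩
  · exact two rfl fun g hg => s2_sq x.h hA (secW x.h (x.zb (by rw [i]; norm_num)) s) i hg
  swap
  · exact two e fun g hg => pd_sq (by rw [Fintype.card_fin]; omega) (by simp) x.h d r hg
  have nB : Bm p T ≤ 𝐍 E := x.h.B_norm
  have hG : F ≤ GG d := by
    by_cases c : Nat.card K = 3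
    · exact n.trans (GG_three d c)
    · exact h'.cB.ge.trans ((commutator_mono n nB).trans (commN d (r.trans (top_of (by omega)))))
  have FM : F ≤ E ⊔ 𝐂 (Wb p E) := by
    by_cases c : Nat.card K = 3
    · haveI : Fact (Nat.Prime 3) := ⟨Nat.prime_three⟩
      obtain rfl : p = 3 := CharP.eq K inferInstance (charP_of_card (n := 1) (by rw [c]; rfl))
      have := h'.cB.ge.trans ((commutator_mono hG (nB.trans (GG_three d c))).trans (comm_GG d))
      exact h'.res.ge.trans (res_le_iff.2 fun f hf ho => SS_three x.h d c r (this hf) ho)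
    have h4 : 4 ≤ Nat.card K := by omega
    have r' := r.trans (top_of h4)
    rcases kind hF with b | ⟨rfl, i', B, _, ψ, hB, s⟩ | ⟨rfl, -, K', _, _, c', d', r''⟩
    · exact (perf h' b).trans ((commutator_mono hG hG).trans ((comm_GG d).trans (SS_top d x.h r')))
    · exact off x h' d r' h4 (by_contra fun e => absurd (three_of hF e) (by norm_num)) i' hB s n nc hG h0 h1 zE
    · haveI : CharP K' 3 := charP_of_card (n := 1) (by rw [c']; rfl)
      exact absurd ((t3' x.h d r h' d' r'' hG h0 h1).2.trans c') c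
  refine same_blk x.hT x.hT x.hc x.hE hF x.sn.pCoreOf_le h0 FM fun e a => ?_
  obtain rfl := three_of hF e
  rcases kind2 hF with ⟨e2, -⟩ | ⟨K', _, _, -, _, d', r', i'⟩ | ⟨e2, -⟩
  · exact absurd e2 (by norm_num)
  swap
  · exact absurd e2 (by norm_num)
  obtain ⟨eW, eK⟩ := t3' x.h d r h' d' r' hG h0 h1
  have nC : E ≤ 𝐍 (𝐂 (Wb 3 E)) := norm_centralizer (le_normalizer.trans nW_of)
  have EF : E ≤ F ⊔ 𝐂 (Wb 3 F) := by
    have := H6Core2.le_sup_of_relIndex FM (sup_le nC le_normalizer) (by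
      rw [relIndex_sup_of_norm nC, idxC x.h, i, card_der_eq h3 eK, ← i', eW, idxC h'])
    exact le_sup_left.trans (this.trans (sup_le_sup_left (inf_le_right.trans (by rw [eW])) _))
  refine ⟨EF.trans (sup_le le_normalizer (cent_norm x.hT x.hc hF)), ?_⟩
  have : Hb 3 T F = Hb 3 T E := le_antisymm
    (sup_le (by rw [← eW]; exact le_sup_left) (sup_le (FM.trans (sup_le EH le_sup_left))
      (le_sup_right.trans le_sup_right)))
    (sup_le (by rw [eW]; exact le_sup_left) (sup_le (EF.trans (sup_le EH le_sup_left))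
      (le_sup_right.trans le_sup_right)))
  rwa [show Pb 3 T F = Pb 3 T E from congrArg (pCoreOf 3) this]

end CA.H8Exc
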