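import Cfsg.Agent.Lib.Loc.H6Blk
import Cfsg.Agent.Lib.Loc.H8Exc1

/-! Exceptional blocks: sections and the basic data. -/

set_option autoImplicit false
set_option linter.unusedSectionVars false

namespace CA.H8Exc

open Subgroup Cfsg CA.Amb CA.AmbCore CA.AmbRes CA.H6Nat
open scoped commutatorElement

universe u

variable {G : Type u} [Group G]

structure Sec {A : Type*} [AddCommGroup A] (U N : Subgroup G) (ψ : G → A) : Prop where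
  mul : ∀ {u v}, u ∈ U → v ∈ U → ψ (u * v) = ψ u + ψ v
  surj : ∀ x, ∃ u ∈ U, ψ u = x
  zero : ∀ {u}, u ∈ U → (ψ u = 0 ↔ u ∈ N)

namespace Sec

variable {A : Type*} [AddCommGroup A] {U N : Subgroup G} {ψ : G → A} (s : Sec U N ψ)
include s

theorem one : ψ 1 = 0 := (s.zero U.one_mem).2 N.one_mem

theorem inv {u : G} (hu : u ∈ U) : ψ u⁻¹ = -ψ u := by
  have := s.mul hu (U.inv_mem hu)
  rw [mul_inv_cancel, s.one] at this
  exact (neg_eq_of_add_eq_zero_right this.symm).symm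

theorem div {u v : G} (hu : u ∈ U) (hv : v ∈ U) : ψ (u * v⁻¹) = ψ u - ψ v := by
  rw [s.mul hu (U.inv_mem hv), s.inv hv, sub_eq_add_neg]

theorem eq_iff {u v : G} (hu : u ∈ U) (hv : v ∈ U) : ψ u = ψ v ↔ u * v⁻¹ ∈ N := by
  rw [← s.zero (U.mul_mem hu (U.inv_mem hv)), s.div hu hv, sub_eq_zero]

theorem lift {B : Type*} [AddCommGroup B] (φ : G → B)
    (hm : ∀ u ∈ U, ∀ v ∈ U, φ (u * v) = φ u + φ v) (hz : ∀ u ∈ U, u ∈ N → φ u = 0) :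
    ∃ φ' : A →+ B, ∀ x ∈ U, φ' (ψ x) = φ x := by
  choose σ hσ hσ' using s.surj
  have key : ∀ u ∈ U, ∀ v ∈ U, ψ u = ψ v → φ u = φ v := fun u hu v hv e => by
    have h1 := hm _ (U.mul_mem hu (U.inv_mem hv)) _ hv
    rwa [inv_mul_cancel_right, hz _ (U.mul_mem hu (U.inv_mem hv)) ((s.eq_iff hu hv).1 e), zero_add] at h1
  refine ⟨AddMonoidHom.mk' (fun a => φ (σ a)) fun a b => ?_, fun x hx => key _ (hσ _) _ hx (hσ' _)⟩
  rw [← hm _ (hσ a) _ (hσ b)]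
  exact key _ (hσ _) _ (U.mul_mem (hσ a) (hσ b)) (by rw [s.mul (hσ a) (hσ b), hσ', hσ', hσ'])

theorem act {g : G} (h1 : g ∈ 𝐍 U) (h2 : g ∈ 𝐍 N) :
    ∃ α : A →+ A, ∀ x ∈ U, α (ψ x) = ψ (g * x * g⁻¹) :=
  s.lift (fun x => ψ (g * x * g⁻¹)) (fun u hu v hv => by
    rw [← s.mul (conj_mem_of_mem_normalizer h1 hu) (conj_mem_of_mem_normalizer h1 hv)]
    congr 1; group) fun u hu hn =>
      (s.zero (conj_mem_of_mem_normalizer h1 hu)).2 (conj_mem_of_mem_normalizer h2 hn)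

theorem conj (g : G) : Sec (cj g U) (cj g N) fun x => ψ (g⁻¹ * x * g) where
  mul := fun hu hv => by rw [← s.mul (mem_cj.1 hu) (mem_cj.1 hv)]; congr 1; group
  surj := fun x => by
    obtain ⟨u, hu, rfl⟩ := s.surj x
    exact ⟨g * u * g⁻¹, conj_mem_cj.2 hu, by congr 1; group⟩
  zero := fun hu => (s.zero (mem_cj.1 hu)).trans mem_cj.symm

end Sec

theorem exists_sec {U N : Subgroup G} (hn : U ≤ 𝐍 N) (hc : ∀ x ∈ U, ∀ y ∈ U, ⁅x, y⁆ ∈ N) :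
    ∃ (B : Type u) (_ : AddCommGroup B) (ψ : G → B), Sec U N ψ := by
  classical
  haveI := normal_subgroupOf_of_norm hn
  letI : CommGroup (U ⧸ N.subgroupOf U) := { (inferInstance : Group (U ⧸ N.subgroupOf U)) with
    mul_comm := fun a b => by
      obtain ⟨a, rfl⟩ := QuotientGroup.mk_surjective a
      obtain ⟨b, rfl⟩ := QuotientGroup.mk_surjective b
      rw [← QuotientGroup.mk_mul, ← QuotientGroup.mk_mul, QuotientGroup.eq, mem_subgroupOf]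
      have := hc _ (U.inv_mem b.2) _ (U.inv_mem a.2)
      convert this using 1
      simp only [commutatorElement_def, coe_mul, coe_inv]; group }
  refine ⟨Additive (U ⧸ N.subgroupOf U), inferInstance,
    fun x => if h : x ∈ U then Additive.ofMul (QuotientGroup.mk ⟨x, h⟩) else 0, ?_, ?_, ?_⟩
  · intro u v hu hv
    rw [dif_pos hu, dif_pos hv, dif_pos (U.mul_mem hu hv)]; rfl
  · intro x
    obtain ⟨a, ha⟩ := QuotientGroup.mk_surjective (Additive.toMul x)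
    exact ⟨a, a.2, by rw [dif_pos a.2]; exact congrArg Additive.ofMul ha⟩
  · intro u hu
    rw [dif_pos hu]
    exact (QuotientGroup.eq_one_iff (⟨u, hu⟩ : U)).trans mem_subgroupOf

section cm

variable {P : Subgroup G}

theorem cc {c y : G} (hc : c ∈ 𝐂 P) (hy : y ∈ P) : y * c * y⁻¹ = c := by
  rw [mem_centralizer_sub.1 hc y hy, mul_inv_cancel_right]

theorem cm_l {x x' y : G} (hx : x ∈ P) (hc : ⁅x', y⁆ ∈ 𝐂 P) : ⁅x * x', y⁆ = ⁅x', y⁆ * ⁅x, y⁆ := by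
  conv_rhs => rw [← cc hc hx]
  simp only [commutatorElement_def]; group

theorem cm_r {x y y' : G} (hy : y ∈ P) (hc : ⁅x, y'⁆ ∈ 𝐂 P) : ⁅x, y * y'⁆ = ⁅x, y⁆ * ⁅x, y'⁆ := by
  conv_rhs => rw [← cc hc hy]
  simp only [commutatorElement_def]; group

theorem cm_c {c y : G} (hc : c ∈ 𝐂 P) (hy : y ∈ P) : ⁅c, y⁆ = 1 :=
  commutatorElement_eq_one_iff_mul_comm.2 (mem_centralizer_sub.1 hc y hy).symm

theorem cm_c' {c y : G} (hc : c ∈ 𝐂 P) (hy : y ∈ P) : ⁅y, c⁆ = 1 :=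
  commutatorElement_eq_one_iff_mul_comm.2 (mem_centralizer_sub.1 hc y hy)

theorem cm_eq_l {x x' y : G} (hx' : x' ∈ P) (hy : y ∈ P) (hc : x * x'⁻¹ ∈ 𝐂 P) : ⁅x, y⁆ = ⁅x', y⁆ := by
  have e : x = x' * (x * x'⁻¹) := by rw [mem_centralizer_sub.1 hc x' hx']; group
  rw [e, cm_l hx' (by rw [cm_c hc hy]; exact one_mem _), cm_c hc hy, one_mul]

theorem cm_eq_r {x y y' : G} (hx : x ∈ P) (hy : y' ∈ P) (hc : y * y'⁻¹ ∈ 𝐂 P) : ⁅x, y⁆ = ⁅x, y'⁆ := by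
  rw [← commutatorElement_inv, cm_eq_l hy hx hc, commutatorElement_inv]

theorem cm_swap {K : Subgroup G} {x y : G} (h : ⁅x, y⁆ ∈ K) : ⁅y, x⁆ ∈ K := by
  rw [← commutatorElement_inv]; exact K.inv_mem h

theorem cjC {g c : G} (hg : g ∈ 𝐍 P) (hc : c ∈ 𝐂 P) : g * c * g⁻¹ ∈ 𝐂 P :=
  conj_mem_of_mem_normalizer (normalizer_le_normalizer_centralizer P hg) hc

theorem cm_conj (g x y : G) : g * ⁅x, y⁆ * g⁻¹ = ⁅g * x * g⁻¹, g * y * g⁻¹⁆ := by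
  simp only [commutatorElement_def]; group

theorem eq_one_of_23 {z : G} (h2 : z * z = 1) (h3 : z ^ 3 = 1) : z = 1 := by
  rw [pow_succ, pow_two, h2, one_mul] at h3; exact h3

theorem mem_of_23 {K : Subgroup G} {z : G} (h2 : z * z ∈ K) (h3 : z ^ 3 ∈ K) : z ∈ K := by
  rw [pow_succ, pow_two] at h3; exact (K.mul_mem_cancel_left h2).1 h3

theorem odd_root {u : G} {k : ℕ} (h : u ^ 3 ^ k = 1) : ∃ j : ℕ, u ^ (2 * j + 1) = 1 := by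
  obtain ⟨j, hj⟩ : Odd (3 ^ k) := Odd.pow (by decide)
  exact ⟨j, hj ▸ h⟩

end cm

/-- stabilizer of a chain -/
def St (P N1 N2 N3 : Subgroup G) : Subgroup G := 𝐍 P ⊓ Kn P N1 ⊓ Kn N1 N2 ⊓ Kn N2 N3 ⊓ 𝐂 N3

theorem st_pg [Finite G] {p : ℕ} [Fact p.Prime] {P N1 N2 N3 : Subgroup G} (hP : IsPGroup p P)
    (hC : 𝐂 P ≤ P) : IsPGroup p (St P N1 N2 N3) := by
  have hr := res_le p (St P N1 N2 N3)
  have n : St P N1 N2 N3 ≤ 𝐍 P := fun x hx => hx.1.1.1.1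
  have h1 := AmbChar.comm_res_le_of_le hP n ((commutator_mono le_rfl
    (hr.trans fun x hx => hx.1.1.1.2)).trans (comm_Kn_le P N1))
  have h2 := AmbChar.comm_res_le_of_le hP n (h1.trans ((commutator_mono le_rfl
    (hr.trans fun x hx => hx.1.1.2)).trans (comm_Kn_le N1 N2)))
  have h3 := AmbChar.comm_res_le_of_le hP n (h2.trans ((commutator_mono le_rfl
    (hr.trans fun x hx => hx.1.2)).trans (comm_Kn_le N2 N3)))
  rw [comm_eq_bot_of_le' (hr.trans fun x hx => hx.2), le_bot_iff, commutator_eq_bot_iff'] at h3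
  exact isPGroup_of_res_le hP (h3.trans hC)

theorem norm_St {L P N1 N2 N3 : Subgroup G} (h : L ≤ 𝐍 P) (h1 : L ≤ 𝐍 N1) (h2 : L ≤ 𝐍 N2)
    (h3 : L ≤ 𝐍 N3) : L ≤ 𝐍 (St P N1 N2 N3) :=
  norm_inf (norm_inf (norm_inf (norm_inf (norm_normalizer h) (norm_Kn h h1)) (norm_Kn h1 h2))
    (norm_Kn h2 h3)) (norm_centralizer h3)

structure Dat (A : Type) [AddCommGroup A] (n : ℕ) (P W Q Z : Subgroup G) (t : G) : Prop where
  tt : t * t = 1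
  tP : t ∈ 𝐍 P
  QP : Q ≤ P
  WQ : W ≤ Q
  WC : W ≤ 𝐂 P
  ZQ : Z ≤ Q
  ZC : Z ≤ 𝐂 P
  tW : ∀ w ∈ W, t * w * t⁻¹ = w⁻¹
  tZ : ∀ z ∈ Z, t * z * t⁻¹ = z
  v3 : ∀ v ∈ Q, v ∈ 𝐂 P → v ^ 3 = 1
  dec0 : ∀ v ∈ Q, v ∈ 𝐂 P → ∃ z ∈ Z, ∃ w ∈ W, v = z * w
  Pt : ∀ y ∈ P, ⁅y, t⁆ ∈ Q
  tQ : ∀ x ∈ Q, x * (t * x * t⁻¹) ∈ 𝐂 P
  QQ : ∀ x ∈ Q, ∀ y ∈ Q, ⁅x, y⁆ ∈ Z
  QPc : ∀ x ∈ Q, ∀ y ∈ P, ⁅x, y⁆ ∈ Q ⊓ 𝐂 P
  onto : ∀ x ∈ Q, x ∉ 𝐂 P → ∀ z ∈ Z, ∃ y ∈ Q, ⁅x, y⁆ = z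
  cube : ∀ x ∈ Q, x ^ 3 ∈ 𝐂 P
  ex : ∃ x ∈ Q, x ∉ 𝐂 P
  Zne : ∃ z ∈ Z, z ≠ 1
  c0 : Nat.card ↥(Q ⊓ 𝐂 P) = n
  cA : Nat.card A = Nat.card Z ^ 2
  sec : ∃ ψ : G → A, Sec Q (Q ⊓ 𝐂 P) ψ

namespace Dat

variable {A : Type} [AddCommGroup A] {n : ℕ} {P W Q Z : Subgroup G} {t : G} (h : Dat A n P W Q Z t)
include h

theorem conj {g : G} (hP : g ∈ 𝐍 P) (hW : g ∈ 𝐍 W) : Dat A n P W (cj g Q) (cj g Z) (g * t * g⁻¹) := by
  have iP : ∀ {y}, y ∈ P → g⁻¹ * y * g ∈ P := fun hy => inv_conj_mem_of_mem_normalizer hP hy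
  have hC := normalizer_le_normalizer_centralizer P hP
  have iC : ∀ {y}, y ∈ 𝐂 P ↔ g⁻¹ * y * g ∈ 𝐂 P := by
    intro y; rw [← mem_cj, cj_eq_self hC]
  have eC : cj g (Q ⊓ 𝐂 P) = cj g Q ⊓ 𝐂 P := by rw [cj_inf, cj_eq_self hC]
  refine ⟨?_, mul_mem (mul_mem hP h.tP) (inv_mem hP), cj_le_of_le h.QP hP,
    (cj_eq_self hW).ge.trans (cj_mono g h.WQ), h.WC, cj_mono g h.ZQ, cj_le_of_le h.ZC hC,
    fun w hw => ?_, fun z hz => ?_, fun v hv hc => ?_, fun v hv hc => ?_, fun y hy => ?_,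
    fun x hx => ?_, fun x hx y hy => ?_, fun x hx y hy => ?_, fun x hx hc z hz => ?_, fun x hx => ?_,
    ?_, ?_, ?_, ?_, ?_⟩
  · calc _ = g * (t * t) * g⁻¹ := by group
      _ = 1 := by rw [h.tt]; group
  · have := h.tW _ (inv_conj_mem_of_mem_normalizer hW hw)
    calc _ = g * (t * (g⁻¹ * w * g) * t⁻¹) * g⁻¹ := by group
      _ = _ := by rw [this]; group
  · have := h.tZ _ (mem_cj.1 hz)
    calc _ = g * (t * (g⁻¹ * z * g) * t⁻¹) * g⁻¹ := by group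
      _ = _ := by rw [this]; group
  · have := h.v3 _ (mem_cj.1 hv) (iC.1 hc)
    calc _ = g * (g⁻¹ * v * g) ^ 3 * g⁻¹ := by rw [← conj_pow]; group
      _ = _ := by rw [this]; group
  · obtain ⟨z, hz, w, hw, e⟩ := h.dec0 _ (mem_cj.1 hv) (iC.1 hc)
    refine ⟨_, conj_mem_cj.2 hz, _, conj_mem_of_mem_normalizer hW hw, ?_⟩
    calc v = g * (g⁻¹ * v * g) * g⁻¹ := by group
      _ = _ := by rw [e]; group
  · have := h.Pt _ (iP hy)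
    rw [mem_cj]; convert this using 1; simp only [commutatorElement_def]; group
  · have := h.tQ _ (mem_cj.1 hx)
    rw [iC]; convert this using 1; group
  · have := h.QQ _ (mem_cj.1 hx) _ (mem_cj.1 hy)
    rw [mem_cj]; convert this using 1; simp only [commutatorElement_def]; group
  · have := h.QPc _ (mem_cj.1 hx) _ (iP hy)
    rw [← eC, mem_cj]; convert this using 1; simp only [commutatorElement_def]; group
  · obtain ⟨y, hy, e⟩ := h.onto _ (mem_cj.1 hx) (fun e => hc (iC.2 e)) _ (mem_cj.1 hz)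
    refine ⟨_, conj_mem_cj.2 hy, ?_⟩
    calc _ = g * ⁅g⁻¹ * x * g, y⁆ * g⁻¹ := by simp only [commutatorElement_def]; group
      _ = _ := by rw [e]; group
  · have := h.cube _ (mem_cj.1 hx)
    rw [iC]; convert this using 1; simp only [pow_succ, pow_zero]; group
  · obtain ⟨x, hx, hc⟩ := h.ex
    exact ⟨_, conj_mem_cj.2 hx, fun e => hc (by simpa [mul_assoc] using iC.1 e)⟩
  · obtain ⟨z, hz, hc⟩ := h.Zne
    exact ⟨_, conj_mem_cj.2 hz, fun e => hc (by simpa using e)⟩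
  · rw [← eC, card_cj, h.c0]
  · rw [card_cj, h.cA]
  · obtain ⟨ψ, s⟩ := h.sec
    exact ⟨_, eC ▸ s.conj g⟩

theorem ti : t⁻¹ = t := inv_eq_of_mul_eq_one_right h.tt

theorem ZW {z : G} (hz : z ∈ Z) (hw : z ∈ W) : z = 1 :=
  eq_one_of_23 (by nth_rewrite 1 [← h.tZ z hz]; rw [h.tW z hw, inv_mul_cancel])
    (h.v3 z (h.ZQ hz) (h.ZC hz))

theorem tzw {z w : G} (hz : z ∈ Z) (hw : w ∈ W) : t * (z * w) * t⁻¹ = z * w⁻¹ := by
  rw [← h.tW w hw]; nth_rewrite 2 [← h.tZ z hz]; group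

theorem inW {v : G} (hv : v ∈ Q ⊓ 𝐂 P) (e : t * v * t⁻¹ = v⁻¹) : v ∈ W := by
  obtain ⟨z, hz, w, hw, rfl⟩ := h.dec0 v hv.1 hv.2
  rw [h.tzw hz hw, mul_inv_rev, mem_centralizer_sub.1 (inv_mem (h.ZC hz)) _ (inv_mem (h.QP (h.WQ hw))),
    mul_left_inj] at e
  rw [eq_one_of_23 (z := z) (by nth_rewrite 1 [e]; rw [inv_mul_cancel]) (h.v3 z (h.ZQ hz) (h.ZC hz)),
    one_mul]
  exact hw

theorem inZ {v : G} (hv : v ∈ Q ⊓ 𝐂 P) (e : t * v * t⁻¹ = v) : v ∈ Z := by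
  obtain ⟨z, hz, w, hw, rfl⟩ := h.dec0 v hv.1 hv.2
  rw [h.tzw hz hw, mul_right_inj] at e
  rw [eq_one_of_23 (z := w) (by nth_rewrite 1 [← e]; rw [inv_mul_cancel]) (h.v3 w (h.WQ hw) (h.WC hw)),
    mul_one]
  exact hz

theorem vt {v : G} (hv : v ∈ Q ⊓ 𝐂 P) : ⁅v, t⁆ ∈ W := by
  obtain ⟨z, hz, w, hw, rfl⟩ := h.dec0 v hv.1 hv.2
  have : ⁅z * w, t⁆ = z * (w * w) * z⁻¹ := by
    rw [show ⁅z * w, t⁆ = z * w * (t * (z * w) * t⁻¹)⁻¹ by simp only [commutatorElement_def]; group,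
      h.tzw hz hw]; group
  rw [this, cc (mul_mem (h.WC hw) (h.WC hw)) (h.QP (h.ZQ hz))]
  exact mul_mem hw hw

theorem tx {x : G} (hx : x ∈ Q) : t * x * t⁻¹ ∈ Q := by
  have := mul_mem (inv_mem (h.Pt x (h.QP hx))) hx
  convert this using 1; simp only [commutatorElement_def]; group

theorem dec (hP : IsPGroup 3 P) {y : G} (hy : y ∈ P) :
    ∃ x ∈ Q, ∃ d ∈ P, t * d * t⁻¹ = d ∧ y = x * d := by
  have hu := h.Pt y hy
  obtain ⟨k, hk⟩ := hP ⟨_, h.QP hu⟩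
  obtain ⟨j, hj⟩ := odd_root (u := ⁅y, t⁆) (k := k) (congrArg Subtype.val hk)
  have e : t * ⁅y, t⁆ * t⁻¹ = ⁅y, t⁆⁻¹ := by
    simp only [commutatorElement_def, h.ti, mul_inv_rev, inv_inv]
    calc _ = t * y * t * y⁻¹ * (t * t) := by group
      _ = _ := by rw [h.tt]; group
  refine ⟨⁅y, t⁆ ^ (j + 1), pow_mem hu _, (⁅y, t⁆ ^ (j + 1))⁻¹ * y,
    mul_mem (inv_mem (h.QP (pow_mem hu _))) hy, ?_, by group⟩
  have e2 : t * y * t⁻¹ = ⁅y, t⁆⁻¹ * y := by simp only [commutatorElement_def]; group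
  generalize ⁅y, t⁆ = u at *
  calc _ = ((t * u * t⁻¹) ^ (j + 1))⁻¹ * (t * y * t⁻¹) := by rw [conj_pow]; group
    _ = (u ^ (j + 1))⁻¹ * u ^ (2 * j + 1) * y := by rw [e, e2]; group
    _ = _ := by rw [hj, mul_one]

theorem cD {x d : G} (hx : x ∈ Q) (hd : d ∈ P) (e : t * d * t⁻¹ = d) : ⁅x, d⁆ ∈ W := by
  refine h.inW (h.QPc x hx d hd) ?_
  rw [cm_conj, e, cm_eq_l (x' := x⁻¹) (inv_mem (h.QP hx)) hd]
  · have := cm_l (y := d) (h.QP hx) (h.QPc _ (inv_mem hx) d hd).2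
    rw [mul_inv_cancel, commutatorElement_one_left] at this
    exact eq_inv_of_mul_eq_one_left this.symm
  · have := cjC (le_normalizer (inv_mem (h.QP hx))) (h.tQ x hx)
    convert this using 1; group

theorem xt {x : G} (hx : x ∈ Q) (e : ⁅x, t⁆ ∈ 𝐂 P) : x ∈ 𝐂 P := by
  refine mem_of_23 ?_ (h.cube x hx)
  have := mul_mem e (cjC (le_normalizer (inv_mem (h.QP hx))) (h.tQ x hx))
  convert this using 1; simp only [commutatorElement_def]; group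

theorem cmd {x d : G} (e : t * d * t⁻¹ = d) : ⁅x * d, t⁆ = ⁅x, t⁆ := by
  calc _ = x * d * (t * d * t⁻¹)⁻¹ * (t * x⁻¹ * t⁻¹) := by simp only [commutatorElement_def]; group
    _ = _ := by rw [e]; simp only [commutatorElement_def]; group

theorem sq {x : G} (hx : x ∈ Q) : x * (⁅x, t⁆ * ⁅x, t⁆)⁻¹ ∈ 𝐂 P := by
  obtain ⟨ψ, s⟩ := h.sec
  have h1 := h.Pt x (h.QP hx)
  refine ((s.eq_iff hx (mul_mem h1 h1)).1 ?_).2
  have h2 := (s.zero (mul_mem hx (h.tx hx))).2 ⟨mul_mem hx (h.tx hx), h.tQ x hx⟩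
  have h3 := (s.zero (pow_mem hx 3)).2 ⟨pow_mem hx 3, h.cube x hx⟩
  rw [s.mul hx (h.tx hx)] at h2
  rw [pow_succ, pow_two, s.mul (mul_mem hx hx) hx, s.mul hx hx] at h3
  rw [s.mul h1 h1, show ⁅x, t⁆ = x * (t * x * t⁻¹)⁻¹ by simp only [commutatorElement_def]; group,
    s.div hx (h.tx hx), eq_neg_of_add_eq_zero_right h2]
  linear_combination (norm := abel) -h3

theorem le_of {R : Subgroup G} (hR : ∀ x ∈ Q, ⁅x, t⁆ ∈ R) : Q ≤ R := by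
  have hW : W ≤ R := fun w hw => by
    have h1 := hR w (h.WQ hw)
    rw [show ⁅w, t⁆ = w * (t * w * t⁻¹)⁻¹ by simp only [commutatorElement_def]; group, h.tW w hw,
      inv_inv] at h1
    exact mem_of_23 h1 (by rw [h.v3 w (h.WQ hw) (h.WC hw)]; exact one_mem _)
  have hZ : Z ≤ R := fun z hz => by
    obtain ⟨x, hx, hc⟩ := h.ex
    obtain ⟨y, hy, rfl⟩ := h.onto x hx hc z hz
    have a := h.QP (h.Pt x (h.QP hx))
    have b := h.QP (h.Pt y (h.QP hy))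
    rw [cm_eq_l (mul_mem a a) (h.QP hy) (h.sq hx), cm_eq_r (mul_mem a a) (mul_mem b b) (h.sq hy)]
    have a := mul_mem (hR x hx) (hR x hx)
    have b := mul_mem (hR y hy) (hR y hy)
    exact mul_mem (mul_mem (mul_mem a b) (inv_mem a)) (inv_mem b)
  intro x hx
  have a := h.Pt x (h.QP hx)
  obtain ⟨z, hz, w, hw, e⟩ := h.dec0 _ (mul_mem hx (inv_mem (mul_mem a a))) (h.sq hx)
  rw [eq_mul_of_mul_inv_eq e]
  exact mul_mem (mul_mem (hZ hz) (hW hw)) (mul_mem (hR x hx) (hR x hx))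

theorem normQ [Finite G] {g : G} (hg : g ∈ 𝐍 P) (e : g * t * g⁻¹ = t) : g ∈ 𝐍 Q := by
  refine mem_normalizer_of_cj_le (cj_le_iff.2 (h.le_of fun x hx => mem_cj_inv.2 ?_))
  rw [cm_conj, e]
  exact h.Pt _ (conj_mem_of_mem_normalizer hg (h.QP hx))

theorem form {ψ : G → A} (s : Sec Q (Q ⊓ 𝐂 P) ψ) :
    ∃ f : A → A → G, ∀ x ∈ Q, ∀ y ∈ Q, f (ψ x) (ψ y) = ⁅x, y⁆ := by
  choose σ hσ hσ' using s.surj
  refine ⟨fun a b => ⁅σ a, σ b⁆, fun x hx y hy => ?_⟩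
  show ⁅σ (ψ x), σ (ψ y)⁆ = _
  rw [cm_eq_l (h.QP hx) (h.QP (hσ _)) ((s.eq_iff (hσ _) hx).1 (hσ' _)).2,
    cm_eq_r (h.QP hx) (h.QP hy) ((s.eq_iff (hσ _) hy).1 (hσ' _)).2]

theorem rad {x : G} (hx : x ∈ Q) (e : ∀ u ∈ Q, ⁅x, u⁆ ∈ W) : x ∈ 𝐂 P := by
  by_contra hc
  obtain ⟨z, hz, h1⟩ := h.Zne
  obtain ⟨u, hu, rfl⟩ := h.onto x hx hc z hz
  exact h1 (h.ZW hz (e u hu))

end Dat

end CA.H8Exc
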