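import Cfsg.Agent.Lib.Loc.H8Exc2

/-! Exceptional blocks: conjugates of the central involution. -/

set_option autoImplicit false
set_option linter.unusedSectionVars false

namespace CA.H8Exc

open Subgroup Cfsg CA.Amb CA.AmbCore CA.AmbRes CA.H6Nat
open scoped commutatorElement

universe u

variable {G : Type u} [Group G] [Finite G] {A : Type} [AddCommGroup A] [Finite A] {n : ℕ}
  {P W Q Z : Subgroup G} {t : G}

theorem mem_St {N1 N2 N3 : Subgroup G} {g : G} (h0 : g ∈ 𝐍 P) (h1 : g ∈ 𝐍 N1) (h2 : g ∈ 𝐍 N2)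
    (h3 : g ∈ 𝐂 N3) (k1 : ∀ y ∈ P, ⁅g, y⁆ ∈ N1) (k2 : ∀ y ∈ N1, ⁅g, y⁆ ∈ N2)
    (k3 : ∀ y ∈ N2, ⁅g, y⁆ ∈ N3) : g ∈ St P N1 N2 N3 :=
  ⟨⟨⟨⟨h0, mem_Kn'.2 ⟨h1, k1⟩⟩, mem_Kn'.2 ⟨h2, k2⟩⟩,
    mem_Kn'.2 ⟨norm_of_centralizer le_rfl h3, k3⟩⟩, h3⟩

theorem eq_one_of_pg {X : Subgroup G} (hX : IsPGroup 3 X) {z : G} (hz : z ∈ X) {k : ℕ} (hk : k.Coprime 3)
    (h : z ^ k = 1) : z = 1 := by
  obtain ⟨j, hj⟩ := hX ⟨z, hz⟩
  have h1 : z ^ 3 ^ j = 1 := congrArg Subtype.val hj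
  rw [← orderOf_dvd_iff_pow_eq_one] at h h1
  exact orderOf_eq_one_iff.1 (Nat.eq_one_of_dvd_coprimes (hk.pow_right j) h h1)

theorem inv_inv_cent {s s' : G} (h : ∀ w ∈ W, s * w * s⁻¹ = w⁻¹) (h' : ∀ w ∈ W, s' * w * s'⁻¹ = w⁻¹) :
    s * s' ∈ 𝐂 W := mem_centralizer_sub.2 fun w hw => by
  have e : s * s' * w * (s * s')⁻¹ = w := by
    calc _ = s * (s' * w * s'⁻¹) * s⁻¹ := by group
      _ = w := by rw [h' w hw, h _ (inv_mem hw), inv_inv]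
  nth_rewrite 1 [← e]; group

/-- two elements inverting a section -/
theorem inv_inv_sec {N R : Subgroup G} {s s' : G} (hN : N ≤ 𝐍 R) (hs : s ∈ 𝐍 R)
    (h : ∀ y ∈ N, y * (s * y * s⁻¹) ∈ R) (h' : ∀ y ∈ N, y * (s' * y * s'⁻¹) ∈ R) {y : G} (hy : y ∈ N) :
    ⁅s * s', y⁆ ∈ R := by
  have := mul_mem (inv_mem (h y hy)) (conj_mem_of_mem_normalizer (hN hy)
    (conj_mem_of_mem_normalizer hs (h' y hy)))
  convert this using 1; simp only [commutatorElement_def]; group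

namespace Dat

variable (h : Dat A n P W Q Z t)
include h

theorem tN : t ∈ 𝐍 W := mem_normalizer_of_cj_le (cj_le_iff'.2 fun w hw => by
  rw [h.tW w hw]; exact inv_mem hw)

theorem PQ : P ≤ 𝐍 Q := norm_of_commutator_le (commutator_le.2 fun x hx y hy => (h.QPc x hx y hy).1)

theorem L0 {Q₁ Z₁ : Subgroup G} {t₁ : G} (h₁ : Dat A n P W Q₁ Z₁ t₁) {x d : G} (hx : x ∈ Q)
    (hc : x ∉ 𝐂 P) (hd : ∀ u ∈ Q, ⁅u, d⁆ ∈ W) (hy : x * d ∈ Q₁) : Q ⊓ 𝐂 P = Q₁ ⊓ 𝐂 P := by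
  refine eq_of_le_of_card_ge (fun v hv => ⟨?_, hv.2⟩) (by rw [h.c0, h₁.c0])
  obtain ⟨z, hz, w, hw, rfl⟩ := h.dec0 v hv.1 hv.2
  refine mul_mem ?_ (h₁.WQ hw)
  obtain ⟨u, hu, rfl⟩ := h.onto x hx hc z hz
  have := (h₁.QPc _ hy u (h.QP hu)).1
  rw [cm_l (h.QP hx) (h.WC (cm_swap (hd u hu)))] at this
  exact (Q₁.mul_mem_cancel_left (h₁.WQ (cm_swap (hd u hu)))).1 this

theorem fpf {ρ : G} (hP : ρ ∈ 𝐍 P) (hQ : ρ ∈ 𝐍 Q) (hZ : ∀ z ∈ Z, ρ * z * ρ⁻¹ = z) {k : ℕ}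
    (hk : k.Coprime 3) (e : ρ ^ k = 1) :
    (∀ x ∈ Q, ⁅ρ, x⁆ ∈ 𝐂 P) ∨ ∀ y ∈ Q, ⁅ρ, y⁆ ∈ 𝐂 P → y ∈ 𝐂 P := by
  obtain ⟨ψ, s⟩ := h.sec
  obtain ⟨f, hf⟩ := h.form s
  have hN : ρ ∈ 𝐍 (Q ⊓ 𝐂 P) := norm_inf (L := zpowers ρ) (zpowers_le_of_mem hQ)
    (norm_centralizer (zpowers_le_of_mem hP)) (mem_zpowers ρ)
  obtain ⟨α, hα⟩ := s.act hQ hN
  have cq : ∀ {x}, x ∈ Q → ρ * x * ρ⁻¹ ∈ Q := fun hx => conj_mem_of_mem_normalizer hQ hx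
  have mq : ∀ {x}, x ∈ Q → ⁅ρ, x⁆ ∈ Q := fun hx => mul_mem (cq hx) (inv_mem hx)
  have hθ : ∀ x ∈ Q, (α - AddMonoidHom.id A) (ψ x) = ψ ⁅ρ, x⁆ := fun x hx => by
    rw [AddMonoidHom.sub_apply, hα x hx, AddMonoidHom.id_apply, ← s.div (cq hx) hx]; rfl
  have z0 : ∀ x ∈ Q, ψ x = 0 ↔ x ∈ 𝐂 P := fun x hx => (s.zero hx).trans ⟨fun h => h.2, fun h => ⟨hx, h⟩⟩
  have := fpf_abs (Z := Z) f ?_ ?_ ?_ ?_ ?_ h.cA (α - AddMonoidHom.id A) ?_ ?_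
  · refine this.imp (fun H x hx => (z0 _ (mq hx)).1 (hθ x hx ▸ H _)) fun H y hy hc =>
      (z0 y hy).1 (H _ (by rw [hθ y hy]; exact (z0 _ (mq hy)).2 hc))
  · intro a b c
    obtain ⟨a, ha, rfl⟩ := s.surj a
    obtain ⟨b, hb, rfl⟩ := s.surj b
    obtain ⟨c, hc, rfl⟩ := s.surj c
    rw [← s.mul hb hc, hf a ha _ (mul_mem hb hc), hf a ha b hb, hf a ha c hc,
      cm_r (h.QP hb) (h.ZC (h.QQ a ha c hc))]
  · intro a b
    obtain ⟨a, ha, rfl⟩ := s.surj a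
    obtain ⟨b, hb, rfl⟩ := s.surj b
    rw [hf a ha b hb]; exact h.QQ a ha b hb
  · intro a ha0 z hz
    obtain ⟨a, ha, rfl⟩ := s.surj a
    obtain ⟨y, hy, e⟩ := h.onto a ha (fun e => ha0 ((z0 a ha).2 e)) z hz
    exact ⟨ψ y, by rw [hf a ha y hy, e]⟩
  · intro a
    obtain ⟨a, ha, rfl⟩ := s.surj a
    rw [hf a ha a ha, commutatorElement_self]
  · intro a b
    obtain ⟨a, ha, rfl⟩ := s.surj a
    obtain ⟨b, hb, rfl⟩ := s.surj b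
    rw [hf a ha b hb, hf b hb a ha]
    intro e; rw [← commutatorElement_inv, e, inv_one]
  · intro y hy x
    obtain ⟨y, hy', rfl⟩ := s.surj y
    obtain ⟨x, hx, rfl⟩ := s.surj x
    rw [hθ y hy', z0 _ (mq hy')] at hy
    rw [hθ x hx, hf y hy' _ (mq hx)]
    have e1 := hZ _ (h.QQ y hy' x hx)
    rw [cm_conj, cm_eq_l (h.QP hy') (h.QP (cq hx)) hy] at e1
    have e2 := cm_r (x := y) (h.QP (mq hx)) (h.ZC (h.QQ y hy' x hx))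
    rw [show ⁅ρ, x⁆ * x = ρ * x * ρ⁻¹ by simp only [commutatorElement_def]; group, e1] at e2
    exact (mul_eq_right.1 e2.symm)
  · intro a ha
    obtain ⟨x, hx, rfl⟩ := s.surj a
    set u := (α - AddMonoidHom.id A) (ψ x) with hu
    have a1 : α u = u := sub_eq_zero.1 ha
    have a2 : ∀ j : ℕ, ρ ^ j * x * (ρ ^ j)⁻¹ ∈ Q ∧ ψ (ρ ^ j * x * (ρ ^ j)⁻¹) = ψ x + j • u := by
      intro j
      induction j with
      | zero => simpa using hx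
      | succ j ih =>
        rw [show ρ ^ (j + 1) * x * (ρ ^ (j + 1))⁻¹ = ρ * (ρ ^ j * x * (ρ ^ j)⁻¹) * ρ⁻¹ by group]
        refine ⟨cq ih.1, ?_⟩
        rw [← hα _ ih.1, ih.2, map_add, map_nsmul, a1, succ_nsmul, hu, AddMonoidHom.sub_apply,
          AddMonoidHom.id_apply]
        abel
    have a3 := (a2 k).2
    rw [e, one_mul, inv_one, mul_one, left_eq_add] at a3
    have a4 : 3 • u = 0 := by
      obtain ⟨y, hy, e⟩ := s.surj u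
      have h3 := (z0 _ (pow_mem hy 3)).2 (h.cube y hy)
      rw [pow_succ, pow_two, s.mul (mul_mem hy hy) hy, s.mul hy hy, e] at h3
      rw [← h3]; abel
    rw [← addOrderOf_dvd_iff_nsmul_eq_zero] at a3 a4
    exact AddMonoid.addOrderOf_eq_one_iff.1 (Nat.eq_one_of_dvd_coprimes hk a3 a4)

/-- an involution acting without fixed points inverts -/
theorem inv_of_fpf {s : G} (hQ : s ∈ 𝐍 Q) (ss : s * s = 1) (H : ∀ y ∈ Q, ⁅s, y⁆ ∈ 𝐂 P → y ∈ 𝐂 P)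
    {x : G} (hx : x ∈ Q) : x * (s * x * s⁻¹) ∈ 𝐂 P := by
  have c := conj_mem_of_mem_normalizer hQ hx
  refine H _ (mul_mem hx c) ?_
  have e : ⁅s, x * (s * x * s⁻¹)⁆ = ⁅s * x * s⁻¹, x⁆ := by
    calc _ = s * x * (s * x * s⁻¹) * s⁻¹ * (s * x * s⁻¹)⁻¹ * x⁻¹ := by
            simp only [commutatorElement_def]; group
      _ = s * x * s⁻¹ * ((s * s) * x * (s * s)⁻¹) * (s * x * s⁻¹)⁻¹ * x⁻¹ := by group
      _ = _ := by rw [ss]; simp only [commutatorElement_def]; group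
  rw [e]; exact h.ZC (h.QQ _ c _ hx)

theorem L3 (hP : IsPGroup 3 P) (hC : 𝐂 P ≤ P) {Q₂ Z₂ : Subgroup G} {t₂ : G}
    (h₂ : Dat A n P W Q₂ Z₂ t₂) (hq : Nat.card Q₂ = Nat.card Q) (hc : t₂ * t * t₂⁻¹ = t) (hne : t ≠ t₂)
    {x : G} (hx : x ∈ Q) : ⁅t₂, x⁆ ∈ 𝐂 P := by
  by_contra hn
  have nQ := h.normQ h₂.tP hc
  have mq : ∀ {x}, x ∈ Q → ⁅t₂, x⁆ ∈ Q := fun hx =>
    mul_mem (conj_mem_of_mem_normalizer nQ hx) (inv_mem hx)
  have e0 := h.L0 h₂ (d := 1) (mq hx) hn (fun u _ => by rw [commutatorElement_one_right]; exact one_mem _)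
    (by rw [mul_one]; exact cm_swap (h₂.Pt x (h.QP hx)))
  have hZ : ∀ z ∈ Z, t₂ * z * t₂⁻¹ = z := fun z hz => by
    have a1 : ⁅z, t₂⁆ ∈ W := h₂.vt (e0 ▸ ⟨h.ZQ hz, h.ZC hz⟩)
    have a2 : t₂ * z * t₂⁻¹ ∈ Z := by
      refine h.inZ ⟨conj_mem_of_mem_normalizer nQ (h.ZQ hz), cjC h₂.tP (h.ZC hz)⟩ ?_
      nth_rewrite 2 [← h.tZ z hz]
      nth_rewrite 1 2 [← hc]
      group
    have a3 := h.ZW (mul_mem hz (inv_mem a2)) (by convert a1 using 1; simp only [commutatorElement_def]; group)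
    exact (eq_of_mul_inv_eq_one a3).symm
  have H := (h.fpf h₂.tP nQ hZ (k := 2) (by decide) (by rw [pow_two, h₂.tt])).resolve_left
    fun H => hn (H x hx)
  have iv := fun y hy => h.inv_of_fpf nQ h₂.tt H (x := y) hy
  have hle : Q ≤ Q₂ := fun y hy => by
    have a := h₂.Pt y (h.QP hy)
    have b : y * y * ⁅y, t₂⁆⁻¹ ∈ Q ⊓ 𝐂 P := mem_inf.2 ⟨mul_mem (mul_mem hy hy) (inv_mem (cm_swap (mq hy))), by
      have := cjC (le_normalizer (h.QP hy)) (iv y hy)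
      convert this using 1; simp only [commutatorElement_def]; group⟩
    rw [e0] at b
    refine mem_of_23 ((Q₂.mul_mem_cancel_right (inv_mem a)).1 b.1) ?_
    have c : y ^ 3 ∈ Q ⊓ 𝐂 P := ⟨pow_mem hy 3, h.cube y hy⟩
    rw [e0] at c; exact c.1
  have eQ := eq_of_le_of_card_ge hle hq.le
  have nt := h.normQ h.tP (by group)
  have n0 : ∀ {g}, g ∈ 𝐍 P → g ∈ 𝐍 Q → g ∈ 𝐍 (Q ⊓ 𝐂 P) := fun {g} a b => norm_inf (L := zpowers g)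
    (zpowers_le_of_mem b) (norm_centralizer (zpowers_le_of_mem a)) (mem_zpowers g)
  have hm : t * t₂ ∈ St P Q (Q ⊓ 𝐂 P) W := by
    refine mem_St (mul_mem h.tP h₂.tP) (mul_mem nt nQ) (mul_mem (n0 h.tP nt) (n0 h₂.tP nQ))
      (inv_inv_cent h.tW h₂.tW) (fun y hy => (mem_Kn'.1 (mul_mem (mem_Kn'.2 ⟨nt, fun y hy =>
        cm_swap (h.Pt y hy)⟩) (mem_Kn'.2 ⟨nQ, fun y hy => eQ ▸ cm_swap (h₂.Pt y hy)⟩))).2 y hy)
      (fun y hy => inv_inv_sec (fun u hu => n0 (le_normalizer (h.QP hu)) (le_normalizer hu)) (n0 h.tP nt)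
        (fun y hy => ⟨mul_mem hy (h.tx hy), h.tQ y hy⟩)
        (fun y hy => ⟨mul_mem hy (conj_mem_of_mem_normalizer nQ hy), iv y hy⟩) hy)
      fun y hy => (mem_Kn'.1 (mul_mem (mem_Kn'.2 ⟨h.tN, fun y hy => cm_swap (h.vt hy)⟩)
        (mem_Kn'.2 ⟨h₂.tN, fun y hy => cm_swap (h₂.vt (e0 ▸ hy))⟩))).2 y hy
  have := eq_one_of_pg (st_pg hP hC) hm (k := 2) (by decide) (by
    calc (t * t₂) ^ 2 = t * (t₂ * t * t₂⁻¹) * (t₂ * t₂) := by rw [pow_two]; group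
      _ = 1 := by rw [hc, h.tt, h₂.tt, mul_one])
  exact hne (by rw [← h₂.ti]; exact eq_inv_of_mul_eq_one_left this)

end Dat

structure Ctx (A : Type) [AddCommGroup A] (n : ℕ) (H P W Q Z : Subgroup G) (t : G) : Prop where
  d : Dat A n P W Q Z t
  hP : IsPGroup 3 P
  hC : 𝐂 P ≤ P
  tH : t ∈ H
  PH : P ≤ H
  HP : H ≤ 𝐍 P
  HW : H ≤ 𝐍 W
  mx : ∀ X ≤ H, IsPGroup 3 X → H ≤ 𝐍 X → X ≤ P
  nc : ∀ g ∈ H, (∀ x ∈ Q, ⁅g * t * g⁻¹, x⁆ ∈ 𝐂 P) → (∀ x ∈ cj g Q, ⁅t, x⁆ ∈ 𝐂 P) → False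
  tr : ∀ x ∈ Q, x ∉ 𝐂 P → ∀ x' ∈ Q, x' ∉ 𝐂 P → ∀ d ∈ P, t * d * t⁻¹ = d →
    ∃ e ∈ H, e * (x * d) * e⁻¹ * (x' * d)⁻¹ ∈ 𝐂 P

namespace Ctx

variable {H : Subgroup G} (c : Ctx A n H P W Q Z t)
include c

theorem D {g : G} (hg : g ∈ H) : Dat A n P W (cj g Q) (cj g Z) (g * t * g⁻¹) :=
  c.d.conj (c.HP hg) (c.HW hg)

theorem TR1 {g y : G} (hg : g ∈ H) (hy : y ∈ cj g Q) (e : ⁅y, t⁆ ∈ 𝐂 P) : y ∈ 𝐂 P := by
  by_contra hn
  have h := c.d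
  have h₁ := c.D hg
  set s := g * t * g⁻¹ with hs
  have yP := h₁.QP hy
  have sH : s ∈ H := mul_mem (mul_mem hg c.tH) (inv_mem hg)
  have aH : t * s ∈ H := mul_mem c.tH sH
  have nC : ∀ {g v}, g ∈ H → v ∈ 𝐂 P → g * v * g⁻¹ ∈ 𝐂 P := fun hg hv => cjC (c.HP hg) hv
  have i1 : y * (t * s * y * (t * s)⁻¹) ∈ 𝐂 P := by
    have k5 := mul_mem e (nC c.tH (h₁.tQ y hy))
    convert k5 using 1; simp only [commutatorElement_def]; group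
  have i2 : ∀ j : ℕ, y⁻¹ * ((t * s) ^ (2 * j) * y * ((t * s) ^ (2 * j))⁻¹) ∈ 𝐂 P := by
    intro j
    induction j with
    | zero => simpa using one_mem _
    | succ j ih =>
      have k1 := nC aH (nC aH ih)
      have k5 : y⁻¹ * ((t * s) * (t * s) * y * ((t * s) * (t * s))⁻¹) ∈ 𝐂 P := by
        have := mul_mem (inv_mem (nC (inv_mem (c.PH yP)) i1)) (nC aH i1)
        convert this using 1; group
      have := mul_mem k5 k1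
      convert this using 1; rw [Nat.mul_succ, pow_add, pow_two]; generalize t * s = a; group
  obtain ⟨k, hk | hk⟩ := Nat.even_or_odd' (orderOf (t * s))
  swap
  · have k1 := mul_mem i1 (nC aH (i2 k))
    have : y * y ∈ 𝐂 P := by
      convert k1 using 1
      calc y * y = y * ((t * s) ^ (2 * k + 1) * y * ((t * s) ^ (2 * k + 1))⁻¹) := by
            rw [← hk, pow_orderOf_eq_one]; group
        _ = _ := by rw [pow_succ']; generalize t * s = a; group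
    exact hn (mem_of_23 this (h₁.cube y hy))
  have k0 : 0 < k := by have := orderOf_pos (t * s); omega
  have z1 : (t * s) ^ k ≠ 1 := pow_ne_one_of_lt_orderOf k0.ne' (by omega)
  have z2 : (t * s) ^ k * (t * s) ^ k = 1 := by rw [← pow_add, ← two_mul, ← hk, pow_orderOf_eq_one]
  have ta : ∀ j : ℕ, t * (t * s) ^ j = ((t * s) ^ j)⁻¹ * t := fun j => by
    have : t * (t * s) * t⁻¹ = (t * s)⁻¹ := by rw [mul_inv_rev, h.ti, h₁.ti, ← mul_assoc, h.tt, one_mul]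
    rw [← inv_pow, ← this, conj_pow]; group
  obtain ⟨g', hg', e'⟩ : ∃ g' ∈ H, g' * t * g'⁻¹ = t * (t * s) ^ k := by
    obtain ⟨j, rfl | rfl⟩ := Nat.even_or_odd' k
    · refine ⟨((t * s) ^ j)⁻¹, inv_mem (pow_mem aH j), ?_⟩
      rw [← ta, two_mul, pow_add]; group
    · refine ⟨((t * s) ^ j)⁻¹ * g, mul_mem (inv_mem (pow_mem aH j)) hg, ?_⟩
      calc _ = ((t * s) ^ j)⁻¹ * (t * t) * s * (t * s) ^ j := by rw [h.tt, hs]; group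
        _ = (((t * s) ^ j)⁻¹ * t) * (t * s) * (t * s) ^ j := by group
        _ = _ := by rw [← ta]; generalize t * s = a; group
  have h₂ := c.D hg'
  have zi : ((t * s) ^ k)⁻¹ = (t * s) ^ k := inv_eq_of_mul_eq_one_right z2
  have cmm : t * (t * s) ^ k = (t * s) ^ k * t := by rw [ta, zi]
  have ne : t ≠ g' * t * g'⁻¹ := by rw [e']; exact fun e => z1 (left_eq_mul.1 e)
  refine c.nc g' hg' (fun x hx => h.L3 c.hP c.hC h₂ (card_cj _ _) ?_ ne hx)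
    fun x hx => h₂.L3 c.hP c.hC h (card_cj _ _).symm ?_ ne.symm hx
  · rw [e', mul_assoc t, ← cmm]; group
  · rw [e']; conv_lhs => rw [cmm]
    group

theorem TR {g g' y : G} (hg : g ∈ H) (hg' : g' ∈ H) (hy : y ∈ cj g Q) (e : ⁅y, g' * t * g'⁻¹⁆ ∈ 𝐂 P) :
    y ∈ 𝐂 P := by
  have := c.TR1 (y := g'⁻¹ * y * g') (mul_mem (inv_mem hg') hg) (by
    rw [mem_cj] at hy ⊢; convert hy using 1; group) (by
    have := cjC (c.HP (inv_mem hg')) e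
    convert this using 1; simp only [commutatorElement_def]; group)
  have := cjC (c.HP hg') this
  convert this using 1; group

theorem W0 {g : G} (hg : g ∈ H) : Q ⊓ 𝐂 P = cj g Q ⊓ 𝐂 P := by
  obtain ⟨y, hy, hn⟩ := (c.D hg).ex
  obtain ⟨x, hx, d, hd, e, rfl⟩ := c.d.dec c.hP ((c.D hg).QP hy)
  refine c.d.L0 (c.D hg) hx (fun hc => hn (c.TR1 hg hy ?_)) (fun u hu => c.d.cD hu hd e) hy
  rw [c.d.cmd e]; exact c.d.WC (c.d.vt ⟨hx, hc⟩)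

end Ctx

end CA.H8Exc
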