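import Cfsg.Agent.Lib.Loc.H8Exc3

/-! Exceptional blocks: `O₃(E)` is normalized, and the invariant complement. -/

set_option autoImplicit false
set_option linter.unusedSectionVars false

namespace CA.H8Exc

open Subgroup Cfsg CA.Amb CA.AmbCore CA.AmbRes CA.H6Nat
open scoped commutatorElement

universe u

variable {G : Type u} [Group G] [Finite G] {A : Type} [AddCommGroup A] [Finite A] {n : ℕ}
  {P W Q Z : Subgroup G} {t : G}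

def zeta (t v : G) : G := (v * (t * v * t⁻¹)) ^ 2

namespace Dat

variable (h : Dat A n P W Q Z t)
include h

theorem zeta_eq {z w : G} (hz : z ∈ Z) (hw : w ∈ W) : zeta t (z * w) = z := by
  have e : z * w * (z * w⁻¹) = z * z := by
    rw [← cc (h.ZC hz) (h.QP (h.WQ hw))]; nth_rewrite 1 3 [cc (h.ZC hz) (h.QP (h.WQ hw))]
    rw [cc (h.ZC hz) (h.QP (h.WQ hw))]
    nth_rewrite 4 [← cc (h.ZC hz) (h.QP (h.WQ hw))]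
    group
  rw [zeta, h.tzw hz hw, e]
  calc _ = z * z ^ 3 := by simp only [pow_succ, pow_zero]; group
    _ = z := by rw [h.v3 z (h.ZQ hz) (h.ZC hz), mul_one]

theorem zeta_mem {v : G} (hv : v ∈ Q ⊓ 𝐂 P) : zeta t v ∈ Z := by
  obtain ⟨z, hz, w, hw, rfl⟩ := h.dec0 v hv.1 hv.2
  rw [h.zeta_eq hz hw]; exact hz

theorem zeta_mul {v v' : G} (hv : v ∈ Q ⊓ 𝐂 P) (hv' : v' ∈ Q ⊓ 𝐂 P) :
    zeta t (v * v') = zeta t v * zeta t v' := by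
  obtain ⟨z, hz, w, hw, rfl⟩ := h.dec0 v hv.1 hv.2
  obtain ⟨z', hz', w', hw', rfl⟩ := h.dec0 v' hv'.1 hv'.2
  rw [h.zeta_eq hz hw, h.zeta_eq hz' hw', ← h.zeta_eq (mul_mem hz hz') (mul_mem hw hw')]
  congr 1
  nth_rewrite 2 [← cc (h.ZC hz') (h.QP (h.WQ hw))]
  group

theorem zeta_W {w : G} (hw : w ∈ W) : zeta t w = 1 := by
  rw [← h.zeta_eq (one_mem _) hw, one_mul]

theorem zeta_Z {z : G} (hz : z ∈ Z) : zeta t z = z := by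
  nth_rewrite 2 [← h.zeta_eq hz (one_mem _)]; rw [mul_one]

theorem W_le : W ≤ Q ⊓ 𝐂 P := le_inf h.WQ h.WC

theorem Z_le : Z ≤ Q ⊓ 𝐂 P := le_inf h.ZQ h.ZC

theorem pr {ψ : G → A} (s : Sec Q (Q ⊓ 𝐂 P) ψ) {x d : G} (hx : x ∈ Q) (e : t * d * t⁻¹ = d) :
    ψ ⁅x * d, t⁆ + ψ ⁅x * d, t⁆ = ψ x := by
  have a := h.Pt x (h.QP hx)
  rw [h.cmd e, ← s.mul a a]
  exact ((s.eq_iff hx (mul_mem a a)).2 (mem_inf.2 ⟨mul_mem hx (inv_mem (mul_mem a a)), h.sq hx⟩)).symm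

theorem fin {ρ b : G} (ρQ : ρ ∈ 𝐍 Q) (ρ0 : ∀ v ∈ Q ⊓ 𝐂 P, ρ * v * ρ⁻¹ = v)
    (ρP : ∀ y ∈ P, ⁅ρ, y⁆ ∈ Q) (fp : ∀ y ∈ Q, ⁅ρ, y⁆ ∈ 𝐂 P → y ∈ 𝐂 P) (bP : b ∈ 𝐍 P) (bQ : b ∈ 𝐍 Q)
    (bZ : b ∈ 𝐍 Z) (bW : b ∈ 𝐍 W) (hc : ⁅ρ, b * ρ * b⁻¹⁆ ∈ P) (qW : ∀ w ∈ W, ⁅b, ⁅b, w⁆⁆ = 1)
    (qQ : ∀ x ∈ Q, ⁅b, ⁅b, x⁆⁆ ∈ 𝐂 P) {x : G} (hx : x ∈ Q) : ⁅b, ⁅b, x⁆⁆ ∈ Z := by
  have mq : ∀ {g x}, g ∈ 𝐍 Q → x ∈ Q → ⁅g, x⁆ ∈ Q := fun hg hx =>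
    mul_mem (conj_mem_of_mem_normalizer hg hx) (inv_mem hx)
  have cN : ∀ {K : Subgroup G} {g}, (∀ v ∈ K, g * v * g⁻¹ = v) → g ∈ 𝐍 K := fun H =>
    mem_normalizer_of_cj_le (cj_le_iff'.2 fun v hv => by rw [H v hv]; exact hv)
  have b0 : b ∈ 𝐍 (Q ⊓ 𝐂 P) := norm_inf (L := zpowers b) (zpowers_le_of_mem bQ)
    (norm_centralizer (zpowers_le_of_mem bP)) (mem_zpowers b)
  have sj : ∀ x ∈ Q, ∃ y ∈ Q, x * ⁅ρ, y⁆⁻¹ ∈ Q ⊓ 𝐂 P := by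
    obtain ⟨ψ, s⟩ := h.sec
    obtain ⟨α, hα⟩ := s.act ρQ (cN ρ0)
    have hθ : ∀ x ∈ Q, (α - AddMonoidHom.id A) (ψ x) = ψ ⁅ρ, x⁆ := fun x hx => by
      rw [AddMonoidHom.sub_apply, hα x hx, AddMonoidHom.id_apply,
        ← s.div (conj_mem_of_mem_normalizer ρQ hx) hx]; rfl
    have inj : Function.Injective (α - AddMonoidHom.id A) := (injective_iff_map_eq_zero _).2 fun a ha => by
      obtain ⟨y, hy, rfl⟩ := s.surj a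
      rw [hθ y hy, s.zero (mq ρQ hy)] at ha
      exact (s.zero hy).2 ⟨hy, fp y hy ha.2⟩
    intro x hx
    obtain ⟨a, ha⟩ := Finite.injective_iff_surjective.1 inj (ψ x)
    obtain ⟨y, hy, rfl⟩ := s.surj a
    exact ⟨y, hy, (s.eq_iff hx (mq ρQ hy)).1 (by rw [← ha, hθ y hy])⟩
  have PZ : ∀ x ∈ Q, ∀ j ∈ P, ⁅x, j⁆ ∈ Z := fun x hx j hj => by
    obtain ⟨y, hy, e⟩ := sj x hx
    rw [cm_eq_l (h.QP (mq ρQ hy)) hj e.2]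
    have y' := conj_mem_of_mem_normalizer ρQ hy
    have e1 := ρ0 _ (h.QPc y hy j hj)
    rw [cm_conj, show ρ * j * ρ⁻¹ = ⁅ρ, j⁆ * j by simp only [commutatorElement_def]; group,
      cm_r (h.QP (ρP j hj)) (h.QPc _ y' j hj).2] at e1
    have e2 := cm_l (x := ⁅ρ, y⁆) (h.QP (mq ρQ hy)) (h.QPc y hy j hj).2
    rw [show ⁅ρ, y⁆ * y = ρ * y * ρ⁻¹ by simp only [commutatorElement_def]; group] at e2
    have z1 := h.QQ _ y' _ (ρP j hj)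
    rw [e2, ← mul_assoc, ← mem_centralizer_sub.1 (h.ZC z1) _ (h.QP (h.QPc y hy j hj).1), mul_assoc,
      mul_eq_left] at e1
    rw [eq_inv_of_mul_eq_one_right e1]; exact inv_mem z1
  obtain ⟨B, _, ψ, s⟩ := exists_sec (U := Q) (N := Z)
    (norm_of_centralizer (h.QP.trans (cent_symm h.ZC))) h.QQ
  have ρ'0 : ∀ v ∈ Q ⊓ 𝐂 P, b * ρ * b⁻¹ * v * (b * ρ * b⁻¹)⁻¹ = v := fun v hv => by
    calc _ = b * (ρ * (b⁻¹ * v * b) * ρ⁻¹) * b⁻¹ := by group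
      _ = v := by rw [ρ0 _ (inv_conj_mem_of_mem_normalizer b0 hv)]; group
  have ρ'Q : b * ρ * b⁻¹ ∈ 𝐍 Q := mul_mem (mul_mem bQ ρQ) (inv_mem bQ)
  obtain ⟨α, hα⟩ := s.act ρQ (cN fun v hv => ρ0 v (h.Z_le hv))
  obtain ⟨α', hα'⟩ := s.act ρ'Q (cN fun v hv => ρ'0 v (h.Z_le hv))
  obtain ⟨β, hβ⟩ := s.act bQ bZ
  have cmv : ∀ {g} {γ : B →+ B}, g ∈ 𝐍 Q → (∀ x ∈ Q, γ (ψ x) = ψ (g * x * g⁻¹)) →
      ∀ x ∈ Q, ψ ⁅g, x⁆ = γ (ψ x) - ψ x := fun hg H x hx => by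
    rw [H x hx, ← s.div (conj_mem_of_mem_normalizer hg hx) hx]; rfl
  have com : ∀ a, α (α' a) = α' (α a) := fun a => by
    obtain ⟨y, hy, rfl⟩ := s.surj a
    have a1 := conj_mem_of_mem_normalizer ρQ hy
    have a2 := conj_mem_of_mem_normalizer ρ'Q hy
    rw [hα' y hy, hα y hy, hα _ a2, hα' _ a1,
      s.eq_iff (conj_mem_of_mem_normalizer ρQ a2) (conj_mem_of_mem_normalizer ρ'Q a1)]
    have := cm_swap (PZ _ (conj_mem_of_mem_normalizer ρ'Q a1) _ hc)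
    convert this using 1; simp only [commutatorElement_def]; group
  have dc : ∀ x ∈ Q, ∃ v ∈ Q ⊓ 𝐂 P, ∃ a, ψ x = ψ v + (α a - a) := fun x hx => by
    obtain ⟨y, hy, e⟩ := sj x hx
    refine ⟨_, e, ψ y, ?_⟩
    rw [← cmv ρQ hα y hy, s.div hx (mq ρQ hy), sub_add_cancel]
  have inv : ∀ a, ∃ a', β (α a - a) = α a' - a' := fun a => by
    obtain ⟨y, hy, rfl⟩ := s.surj a
    have y' := conj_mem_of_mem_normalizer bQ hy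
    obtain ⟨v, hv, a, e⟩ := dc _ y'
    refine ⟨α' a - a, ?_⟩
    rw [← cmv ρQ hα y hy, hβ _ (mq ρQ hy), cm_conj, cmv ρ'Q hα' _ y', e, map_add, hα' v hv.1, ρ'0 v hv,
      map_sub, map_sub, com]
    abel
  obtain ⟨v, hv, a, e⟩ := dc x hx
  obtain ⟨z, hz, w, hw, rfl⟩ := h.dec0 v hv.1 hv.2
  obtain ⟨a1, e1⟩ := inv a
  obtain ⟨a2, e2⟩ := inv (a1 - a)
  obtain ⟨y, hy, e3⟩ := s.surj (a2 - (a1 - a))
  have w0 := cmv bQ hβ _ (mq bQ (h.WQ hw))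
  rw [qW w hw, s.one, cmv bQ hβ _ (h.WQ hw)] at w0
  have e4 : ψ ⁅b, ⁅b, x⁆⁆ = ψ ⁅ρ, y⁆ := by
    rw [cmv bQ hβ _ (mq bQ hx), cmv bQ hβ _ hx, cmv ρQ hα y hy, e3, e, s.mul (h.ZQ hz) (h.WQ hw),
      (s.zero (h.ZQ hz)).2 hz, zero_add, map_add, e1]
    simp only [map_sub, map_add] at w0 e2 ⊢
    linear_combination (norm := abel) e2 - w0
  have e5 := h.ZC ((s.eq_iff (mq bQ (mq bQ hx)) (mq ρQ hy)).1 e4)
  have e6 := fp y hy (inv_mem_iff.1 (((𝐂 P).mul_mem_cancel_left (qQ x hx)).1 e5))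
  rw [← s.zero (mq bQ (mq bQ hx)), e4, commutatorElement_def, ρ0 y ⟨hy, e6⟩, mul_inv_cancel, s.one]

end Dat

namespace Ctx

variable {H : Subgroup G} (c : Ctx A n H P W Q Z t)
include c

theorem lam {g₁ g₂ x₁ d₁ y : G} (h1 : g₁ ∈ H) (h2 : g₂ ∈ H) (hx : x₁ ∈ Q) (hd : d₁ ∈ P)
    (e : t * d₁ * t⁻¹ = d₁) (hy₁ : x₁ * d₁ ∈ cj g₁ Q) (hy : y ∈ cj g₂ Q) : ⁅d₁, y⁆ ∈ W := by
  have h := c.d
  have h₂ := c.D h2
  by_cases hc : x₁ ∈ 𝐂 P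
  · have := c.TR1 h1 hy₁ (by rw [h.cmd e]; exact h.WC (h.vt ⟨hx, hc⟩))
    rw [cm_c (((𝐂 P).mul_mem_cancel_left hc).1 this) (h₂.QP hy)]; exact one_mem _
  obtain ⟨ψ, s⟩ := h.sec
  obtain ⟨F, hF⟩ := h.form s
  obtain ⟨ψ₂, s₂⟩ := h₂.sec
  have z0 : ∀ x ∈ Q, ψ x = 0 ↔ x ∈ 𝐂 P := fun x hx => (s.zero hx).trans ⟨fun h => h.2, fun h => ⟨hx, h⟩⟩
  obtain ⟨π, hπ⟩ := s₂.lift (fun y => ψ ⁅y, t⁆ + ψ ⁅y, t⁆) (fun u hu v hv => by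
      obtain ⟨x, hx, d, hd, e, rfl⟩ := h.dec c.hP (h₂.QP hu)
      obtain ⟨x', hx', d', hd', e', rfl⟩ := h.dec c.hP (h₂.QP hv)
      have a := conj_mem_of_mem_normalizer (h.PQ hd) hx'
      rw [h.pr s hx e, h.pr s hx' e', show x * d * (x' * d') = x * (d * x' * d⁻¹) * (d * d') by group,
        h.pr s (mul_mem hx a) (by nth_rewrite 2 [← e, ← e']; group), s.mul hx a,
        (s.eq_iff a hx').2 (h.W_le (cm_swap (h.cD hx' hd e)))])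
    fun u hu hv => by
      rw [(s.zero (h.Pt u (h₂.QP hu))).2 (h.W_le (h.vt (c.W0 h2 ▸ hv))), add_zero]
  have πs : Function.Surjective π := Finite.injective_iff_surjective.1
    ((injective_iff_map_eq_zero _).2 fun a ha => by
      obtain ⟨y, hy, rfl⟩ := s₂.surj a
      rw [hπ y hy] at ha
      obtain ⟨x, hx, d, hd, e, rfl⟩ := h.dec c.hP (h₂.QP hy)
      rw [h.pr s hx e, z0 x hx] at ha
      exact (s₂.zero hy).2 ⟨hy, c.TR1 h2 hy (by rw [h.cmd e]; exact h.WC (h.vt ⟨hx, ha⟩))⟩)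
  have m0 : ∀ {u y}, u ∈ P → y ∈ cj g₂ Q → ⁅u, y⁆ ∈ Q ⊓ 𝐂 P := fun hu hy =>
    c.W0 h2 ▸ cm_swap (h₂.QPc _ hy _ hu)
  obtain ⟨σ, hσ, hσ'⟩ : ∃ σ : A → G, (∀ a, σ a ∈ cj g₂ Q) ∧ ∀ a, ψ₂ (σ a) = a := by
    choose σ hσ hσ' using s₂.surj
    exact ⟨σ, hσ, hσ'⟩
  have hγ : ∀ y ∈ cj g₂ Q, ⁅d₁, σ (ψ₂ y)⁆ = ⁅d₁, y⁆ := fun y hy =>
    cm_eq_r hd (h₂.QP hy) ((s₂.eq_iff (hσ _) hy).1 (hσ' _)).2
  have := lam_abs (Z := Z) (fun a ha b hb => mem_centralizer_sub.1 (h.ZC hb) a (h.QP (h.ZQ ha)))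
    (fun u v => F u (π v)) ?_ ?_ ?_ ?_ (fun v => zeta t ⁅d₁, σ v⁆) ?_ (fun v => h.zeta_mem (m0 hd (hσ v)))
    ?_ (ψ₂ y)
  · simp only [hγ y hy] at this
    obtain ⟨z, hz, w, hw, e⟩ := h.dec0 _ (m0 hd hy).1 (m0 hd hy).2
    rw [e, h.zeta_eq hz hw] at this
    rw [e, this, one_mul]; exact hw
  · intro a b c
    obtain ⟨a, ha, rfl⟩ := s.surj a
    obtain ⟨b, hb, e1⟩ := s.surj (π b)
    obtain ⟨c, hc, e2⟩ := s.surj (π c)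
    simp only [map_add]
    rw [← e1, ← e2, ← s.mul hb hc, hF a ha _ (mul_mem hb hc), hF a ha b hb, hF a ha c hc,
      cm_r (h.QP hb) (h.ZC (h.QQ a ha c hc))]
  · intro a b c
    obtain ⟨a, ha, rfl⟩ := s.surj a
    obtain ⟨b, hb, rfl⟩ := s.surj b
    obtain ⟨c, hc, e2⟩ := s.surj (π c)
    rw [← e2, add_comm, ← s.mul hb ha, hF _ (mul_mem hb ha) c hc, hF a ha c hc, hF b hb c hc,
      cm_l (h.QP hb) (h.ZC (h.QQ a ha c hc))]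
  · intro a b
    obtain ⟨a, ha, rfl⟩ := s.surj a
    obtain ⟨b, hb, e1⟩ := s.surj (π b)
    rw [← e1, hF a ha b hb]; exact h.QQ a ha b hb
  · intro a ha0 z hz
    obtain ⟨a, ha, rfl⟩ := s.surj a
    obtain ⟨y, hy, e⟩ := h.onto a ha (fun e => ha0 ((z0 a ha).2 e)) z hz
    obtain ⟨v, hv⟩ := πs (ψ y)
    exact ⟨v, by rw [hv, hF a ha y hy, e]⟩
  · intro a b
    obtain ⟨a, ha, rfl⟩ := s₂.surj a
    obtain ⟨b, hb, rfl⟩ := s₂.surj b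
    rw [← s₂.mul ha hb, hγ _ (mul_mem ha hb), hγ a ha, hγ b hb, cm_r (h₂.QP ha) (m0 hd hb).2,
      h.zeta_mul (m0 hd ha) (m0 hd hb)]
  · intro a ha0 z hz
    obtain ⟨x', hx', rfl⟩ := s.surj a
    have hc' : x' ∉ 𝐂 P := fun e => ha0 ((z0 x' hx').2 e)
    obtain ⟨ε, hε, e1⟩ := c.tr x₁ hx hc x' hx' hc' d₁ hd e
    have y1 : ε * (x₁ * d₁) * ε⁻¹ ∈ cj (ε * g₁) Q := by rw [← cj_cj]; exact conj_mem_cj.2 hy₁
    have hεg := mul_mem hε h1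
    have y1P := (c.D hεg).QP y1
    have xdP := mul_mem (h.QP hx') hd
    obtain ⟨x'', hx'', d'', hd'', e'', e2⟩ := h₂.dec c.hP y1P
    have n2 : x'' ∉ 𝐂 P := fun k => by
      have k1 := c.TR hεg h2 y1 (by rw [e2, h₂.cmd e'']; exact h.WC (h₂.vt ⟨hx'', k⟩))
      have k2 := inv_mem_iff.1 (((𝐂 P).mul_mem_cancel_left k1).1 e1)
      refine hc' (h.rad hx' fun u hu => ?_)
      have k3 := cm_c k2 (h.QP hu)
      rw [cm_l (h.QP hx') (h.WC (cm_swap (h.cD hu hd e)))] at k3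
      rw [eq_inv_of_mul_eq_one_right k3]; exact inv_mem (cm_swap (h.cD hu hd e))
    have z2 : z ∈ cj g₂ Q ⊓ 𝐂 P := c.W0 h2 ▸ h.Z_le hz
    obtain ⟨z₂, hz₂, w, hw, e3⟩ := h₂.dec0 z z2.1 z2.2
    obtain ⟨y, hy, e4⟩ := h₂.onto x'' hx'' n2 z₂ hz₂
    refine ⟨ψ₂ y, ?_⟩
    have k1 : zeta t ⁅ε * (x₁ * d₁) * ε⁻¹, y⁆ = z := by
      have w2 := cm_swap (h₂.cD hy hd'' e'')
      rw [e2, cm_l (h₂.QP hx'') (h.WC w2), h.zeta_mul (h.W_le w2) (m0 (h₂.QP hx'') hy), h.zeta_W w2,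
        one_mul, e4, eq_mul_inv_of_mul_eq e3.symm, h.zeta_eq hz (inv_mem hw)]
    rw [cm_eq_l xdP (h₂.QP hy) e1, cm_l (h.QP hx') (m0 hd hy).2,
      h.zeta_mul (m0 hd hy) (m0 (h.QP hx') hy)] at k1
    rw [hγ y hy, hπ y hy, ← k1]
    obtain ⟨x, hx, d, hd', e5, rfl⟩ := h.dec c.hP (h₂.QP hy)
    rw [h.pr s hx e5, hF x' hx' x hx, cm_r (h.QP hx) (h.WC (h.cD hx' hd' e5)),
      h.zeta_eq (h.QQ x' hx' x hx) (h.cD hx' hd' e5)]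
    exact (mem_centralizer_sub.1 (h.ZC (h.QQ x' hx' x hx)) _
      (h.QP (h.ZQ (h.zeta_mem (m0 hd hy))))).symm

theorem normal : H ≤ 𝐍 Q := by
  have h := c.d
  set R : Subgroup G := P ⊓ ⨅ g : H, Kn (cj g Q) W with hR
  have mR : ∀ {d}, d ∈ R ↔ d ∈ P ∧ ∀ g ∈ H, ∀ y ∈ cj g Q, ⁅d, y⁆ ∈ W := by
    intro d
    rw [hR, mem_inf, mem_iInf]
    exact and_congr_right fun hd => ⟨fun k g hg => (mem_Kn'.1 (k ⟨g, hg⟩)).2,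
      fun k g => mem_Kn'.2 ⟨c.HW (c.PH hd), k g g.2⟩⟩
  have HR : H ≤ 𝐍 R := le_normalizer_iff_cj.2 fun a ha => cj_le_iff'.2 fun d hd => by
    refine mR.2 ⟨conj_mem_of_mem_normalizer (c.HP ha) (mR.1 hd).1, fun g hg y hy => ?_⟩
    have := conj_mem_of_mem_normalizer (c.HW ha) ((mR.1 hd).2 (a⁻¹ * g) (mul_mem (inv_mem ha) hg)
      (a⁻¹ * y * a) (by rw [mem_cj] at hy ⊢; convert hy using 1; group))
    convert this using 1; simp only [commutatorElement_def]; group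
  have QN : ∀ g ∈ H, cj g Q ≤ Q ⊔ R := fun g hg y hy => by
    obtain ⟨x, hx, d, hd, e, rfl⟩ := h.dec c.hP ((c.D hg).QP hy)
    exact mul_mem_sup hx (mR.2 ⟨hd, fun g' hg' y' hy' => c.lam hg hg' hx hd e hy hy'⟩)
  have HN : H ≤ 𝐍 (Q ⊔ R) := le_normalizer_iff_cj.2 fun a ha => by
    rw [cj_sup, cj_eq_self (HR ha)]; exact sup_le (QN a ha) le_sup_right
  have NH : Q ⊔ R ≤ H := (sup_le h.QP inf_le_left).trans c.PH
  have key : ∀ g ∈ H, (∀ y ∈ P, ⁅g * t * g⁻¹, y⁆ ∈ Q ⊔ R) ∧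
      (∀ y ∈ Q ⊔ R, y * (g * t * g⁻¹ * y * (g * t * g⁻¹)⁻¹) ∈ R) ∧ ∀ y ∈ R, ⁅g * t * g⁻¹, y⁆ ∈ W := by
    intro g hg
    have h' := c.D hg
    have sH : g * t * g⁻¹ ∈ H := mul_mem (mul_mem hg c.tH) (inv_mem hg)
    refine ⟨fun y hy => QN g hg (cm_swap (h'.Pt y hy)), fun y hy => ?_, fun y hy => ?_⟩
    · rw [← cj_eq_self (HN hg), cj_sup, cj_eq_self (HR hg)] at hy
      obtain ⟨x, hx, r, hr, rfl⟩ := (mem_sup_of_norm ((h'.QP.trans c.PH).trans HR)).1 hy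
      have k1 : x * (g * t * g⁻¹ * x * (g * t * g⁻¹)⁻¹) ∈ R := mR.2 ⟨h'.QP (mul_mem hx (h'.tx hx)),
        fun g' hg' y hy => by rw [cm_c (h'.tQ x hx) ((c.D hg').QP hy)]; exact one_mem _⟩
      have := mul_mem (mul_mem k1 (inv_conj_mem_of_mem_normalizer (HR (c.PH (h'.QP (h'.tx hx)))) hr))
        (conj_mem_of_mem_normalizer (HR sH) hr)
      convert this using 1; group
    · obtain ⟨x, hx, d, hd, e, rfl⟩ := h'.dec c.hP (mR.1 hy).1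
      refine cm_swap ?_
      rw [h'.cmd e]
      refine h'.vt ⟨hx, h'.rad hx fun u hu => ?_⟩
      have k := (mR.1 hy).2 g hg u hu
      rw [cm_l (h'.QP hx) (h.WC (cm_swap (h'.cD hu hd e)))] at k
      exact (W.mul_mem_cancel_left (cm_swap (h'.cD hu hd e))).1 k
  intro g hg
  have h' := c.D hg
  have sH : g * t * g⁻¹ ∈ H := mul_mem (mul_mem hg c.tH) (inv_mem hg)
  have aH := mul_mem c.tH sH
  have k1 := key 1 (one_mem _)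
  simp only [one_mul, inv_one, mul_one] at k1
  have k2 := key g hg
  have hm : t * (g * t * g⁻¹) ∈ St P (Q ⊔ R) R W :=
    mem_St (c.HP aH) (HN aH) (HR aH) (inv_inv_cent h.tW h'.tW)
      (fun y hy => (mem_Kn'.1 (mul_mem (mem_Kn'.2 ⟨HN c.tH, k1.1⟩) (mem_Kn'.2 ⟨HN sH, k2.1⟩))).2 y hy)
      (fun y hy => inv_inv_sec (NH.trans HR) (HR c.tH) k1.2.1 k2.2.1 hy)
      fun y hy => (mem_Kn'.1 (mul_mem (mem_Kn'.2 ⟨c.HW c.tH, k1.2.2⟩)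
        (mem_Kn'.2 ⟨c.HW sH, k2.2.2⟩))).2 y hy
  have hp := c.mx (H ⊓ St P (Q ⊔ R) R W) inf_le_left ((st_pg c.hP c.hC).to_le inf_le_right)
    (norm_inf le_normalizer (norm_St c.HP HN HR c.HW)) ⟨aH, hm⟩
  obtain ⟨k, hk⟩ := c.hP ⟨_, hp⟩
  obtain ⟨j, hj⟩ := odd_root (u := t * (g * t * g⁻¹)) (k := k) (congrArg Subtype.val hk)
  have e0 : t * (t * (g * t * g⁻¹)) * t⁻¹ = (t * (g * t * g⁻¹))⁻¹ := by
    rw [mul_inv_rev t, h.ti, h'.ti, ← mul_assoc t t, h.tt, one_mul]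
  have e1 : g * t * g⁻¹ = t * (t * (g * t * g⁻¹)) := by rw [← mul_assoc t t, h.tt, one_mul]
  have pj := pow_mem hp (j + 1)
  have := h.normQ (g := (t * (g * t * g⁻¹)) ^ (j + 1) * g) (mul_mem (le_normalizer pj) (c.HP hg)) (by
    calc _ = (t * (g * t * g⁻¹)) ^ (j + 1) * (g * t * g⁻¹) * ((t * (g * t * g⁻¹)) ^ (j + 1))⁻¹ := by
          rw [mul_inv_rev]; simp only [mul_assoc]
      _ = t := by
          nth_rewrite 2 [e1]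
          generalize t * (g * t * g⁻¹) = p at *
          have e2 : p ^ (j + 1) * t = t * (p ^ (j + 1))⁻¹ := by
            have : t⁻¹ * p * t = p⁻¹ := by rw [h.ti]; nth_rewrite 2 [← h.ti]; exact e0
            rw [← inv_pow, ← this]
            calc _ = t * (t⁻¹ * p * t⁻¹⁻¹) ^ (j + 1) := by rw [conj_pow]; group
              _ = _ := by rw [inv_inv]
          rw [← mul_assoc, e2]
          calc _ = t * (p ^ (2 * j + 1))⁻¹ := by group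
            _ = t := by rw [hj, inv_one, mul_one])
  exact ((𝐍 Q).mul_mem_cancel_left (h.PQ pj)).1 this

end Ctx

end CA.H8Exc
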