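import Cfsg.Agent.Lib.Loc.H8Exc4
import Cfsg.Agent.S0205

/-! Blocks: `C(W_E)` normalizes `E`, reductions. -/

set_option autoImplicit false
set_option linter.unusedSectionVars false

namespace CA.H8Exc

open Subgroup Cfsg CA.Amb CA.AmbSyl CA.AmbCore CA.AmbRes CA.AmbSpe CA.H6Nat CA.H6Nat2 CA.H6J CA.H6Bau
open CA.H6Am1 CA.H6Am2 CA.H6Blk
open scoped commutatorElement MatrixGroups Matrix

universe u

variable {G : Type u} [Group G] [Finite G]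

abbrev Wb (p : ℕ) (E : Subgroup G) : Subgroup G := ⁅Zo p E, E⁆
abbrev Hb (p : ℕ) (T E : Subgroup G) : Subgroup G := 𝐂 (Wb p E) ⊔ (E ⊔ Bm p T)
abbrev Pb (p : ℕ) (T E : Subgroup G) : Subgroup G := pCoreOf p (Hb p T E)

section gen

variable {p : ℕ} [Fact p.Prime] {T E : Subgroup G} (h : Blk p T E) (hT : SylIn p T ⊤)
  (hc : AmbChar.CharP p (⊤ : Subgroup G))
include h

theorem nE : E ⊔ Bm p T ≤ 𝐍 E := sup_le le_normalizer h.B_norm

omit h in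
theorem nW_of : 𝐍 E ≤ 𝐍 (Wb p E) := norm_commutator (norm_OZ (normalizer_le_pCoreOf p E)) le_rfl

theorem HW : Hb p T E ≤ 𝐍 (Wb p E) := sup_le (norm_of_centralizer le_rfl) ((nE h).trans nW_of)

omit h in
theorem EH : E ≤ Hb p T E := le_sup_left.trans le_sup_right

omit h in
theorem BH : Bm p T ≤ Hb p T E := le_sup_right.trans le_sup_right

omit h in
theorem HP : Hb p T E ≤ 𝐍 (Pb p T E) := norm_pCoreOf _ _

include hT

theorem PE : Pb p T E ≤ 𝐍 E := h.norm_of hT (isPGroup_pCoreOf _ _) (BH.trans HP) (EH.trans HP)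

theorem PEQ : ⁅Pb p T E, E⁆ ≤ pCoreOf p E :=
  le_pCoreOf (commutator_le_right_of_norm (PE h hT)) ((isPGroup_pCoreOf p _).to_le
    (commutator_le_left_of_norm (EH.trans HP))) (norm_comm_right _ _)

theorem WC : Wb p E ≤ 𝐂 (Pb p T E) := by
  have n := PE h hT
  have n1 : Pb p T E ≤ 𝐍 (Zo p E) := norm_OZ (norm_pCoreOf_of_norm n)
  have h1 := h.irr.comm_le (isPGroup_OZ _ _) (isPGroup_pCoreOf p _) n1
    (norm_inf n1 (norm_centralizer n)) (EH.trans HP)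
  exact three_bot ((comm_swap (PEQ h hT)).trans (Q_cent p E)) (comm_swap (h1.trans inf_le_right))

theorem suff (k : ⁅𝐂 (Wb p E), E⁆ ≤ Pb p T E) : 𝐂 (Wb p E) ≤ 𝐍 E := by
  have h1 : 𝐂 (Wb p E) ≤ 𝐍 (Pb p T E ⊔ E) := norm_of_commutator_le (comm_sup_le
    (le_sup_left.trans le_normalizer) (le_sup_right.trans le_normalizer)
    ((commutator_le_left_of_norm (le_sup_left.trans HP)).trans le_sup_left)
    ((comm_swap k).trans le_sup_left))
  have := norm_res_of_norm (p := p) h1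
  rwa [res_sup_eq (isPGroup_pCoreOf _ _) (PE h hT), h.res] at this

include hc

theorem OP : pCoreOf p ⊤ ≤ Pb p T E :=
  le_pCoreOf ((cent_symm ((h.W_le hT hc).trans (OZ_le_cent _ _))).trans le_sup_left)
    (isPGroup_pCoreOf _ _) (le_top.trans (norm_pCoreOf _ _))

theorem CP : 𝐂 (Pb p T E) ≤ Pb p T E :=
  (hc.le_of_cent le_top (centralizer_anti (OP h hT hc))).trans (OP h hT hc)

theorem st_le {N1 N2 N3 : Subgroup G} (h1 : Hb p T E ≤ 𝐍 N1) (h2 : Hb p T E ≤ 𝐍 N2)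
    (h3 : Hb p T E ≤ 𝐍 N3) : Hb p T E ⊓ St (Pb p T E) N1 N2 N3 ≤ Pb p T E :=
  le_pCoreOf inf_le_left ((st_pg (isPGroup_pCoreOf _ _) (CP h hT hc)).to_le inf_le_right)
    (norm_inf le_normalizer (norm_St HP h1 h2 h3))

theorem kn_le : 𝐂 (Wb p E) ⊓ Kn (Pb p T E) (Wb p E) ≤ Pb p T E := fun g hg => by
  have gH : g ∈ Hb p T E := le_sup_left (α := Subgroup G) hg.1
  have k : ∀ y ∈ Wb p E, ⁅g, y⁆ ∈ Wb p E := fun y hy =>
    mul_mem (conj_mem_of_mem_normalizer (HW h gH) hy) (inv_mem hy)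
  exact st_le h hT hc (HW h) (HW h) (HW h) ⟨gH, mem_St (HP gH) (HW h gH) (HW h gH) hg.1
    (mem_Kn'.1 hg.2).2 k k⟩

theorem caseA (k : ⁅Pb p T E, E⁆ ≤ Zo p E) : 𝐂 (Wb p E) ≤ 𝐍 E := by
  have k1 := AmbChar.comm_res_le_of_le (isPGroup_pCoreOf p (Hb p T E)) (EH.trans HP) (W := Zo p E)
    (by rwa [h.res])
  rw [h.res] at k1
  refine suff h hT (le_trans (le_inf (commutator_le_left_of_norm
    (EH.trans (norm_centralizer (HW h)))) ?_) (kn_le h hT hc))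
  exact (commutator_mono le_rfl (le_Kn_iff.2 ⟨EH.trans (HW h), k1⟩)).trans
    (commutator_le_right_of_norm (le_sup_left.trans (norm_Kn HP (HW h))))

end gen

section sl

variable {F : Type} [Field F] [Finite F] [CharP F 3]

theorem four_mem {m : SL(2, F)} (h : m ^ 4 = 1) : m ∈ _root_.commutator SL(2, F) := by
  haveI : Fact (Nat.Prime 3) := ⟨Nat.prime_three⟩
  obtain ⟨d, hd, u, hu, rfl⟩ := (mem_sup_of_norm' norm_of_normal).1 (der_sup_U.ge (mem_top m))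
  obtain ⟨k, hk⟩ := (sylIn_U (F := F) 3).pg ⟨u, hu⟩
  have hk' : u ^ 3 ^ k = 1 := congrArg Subtype.val hk
  rw [← Abelianization.ker_of, MonoidHom.mem_ker] at hd ⊢
  have h1 : Abelianization.of (d * u) ^ 4 = 1 := by rw [← map_pow, h, map_one]
  have h2 : Abelianization.of (d * u) ^ 3 ^ k = 1 := by rw [map_mul, hd, one_mul, ← map_pow, hk', map_one]
  rw [← orderOf_dvd_iff_pow_eq_one] at h1 h2
  exact orderOf_eq_one_iff.1 (Nat.eq_one_of_dvd_coprimes ((by decide : Nat.Coprime 4 3).pow_right k) h1 h2)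

theorem three_zero : (3 : F) = 0 := by simpa using CharP.cast_eq_zero F 3

theorem two_ne : (2 : F) ≠ 0 := fun e => one_ne_zero (α := F) (by linear_combination three_zero (F := F) - e)

theorem q8 : ∃ a ∈ _root_.commutator SL(2, F), ∃ b ∈ _root_.commutator SL(2, F), ⁅a, b⁆ = -1 := by
  have h3 := three_zero (F := F)
  let a : SL(2, F) := ⟨!![0, 1; -1, 0], by simp⟩
  let b : SL(2, F) := ⟨!![1, 1; 1, -1], by rw [Matrix.det_fin_two_of]; linear_combination -h3⟩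
  have ha : a * a = -1 := Subtype.ext (show a.1 * a.1 = -1 by
    ext i j; fin_cases i <;> fin_cases j <;> simp [a, Matrix.mul_apply])
  have hb : b * b = -1 := Subtype.ext (show b.1 * b.1 = -1 by
    ext i j; fin_cases i <;> fin_cases j <;> simp [b, Matrix.mul_apply] <;> linear_combination h3)
  have hab : a * b = -(b * a) := Subtype.ext (show a.1 * b.1 = -(b.1 * a.1) by
    ext i j; fin_cases i <;> fin_cases j <;> simp [a, b, Matrix.mul_apply])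
  have f : ∀ m : SL(2, F), m * m = -1 → m ^ 4 = 1 := fun m e => by
    rw [show 4 = 2 * 2 from rfl, pow_mul, pow_two m, e]; simp
  refine ⟨a, four_mem (f a ha), b, four_mem (f b hb), ?_⟩
  rw [commutatorElement_def, hab]; simp

omit [Finite F] [CharP F 3] in
theorem lin_of_sq (h : ∀ c : F, c = 0 ∨ c ^ 2 = 1) (α : (Fin 2 → F) →+ (Fin 2 → F)) (c : F)
    (x : Fin 2 → F) : α (c • x) = c • α x := by
  rcases h c with rfl | h2
  · simp
  rcases mul_self_eq_one_iff.1 ((pow_two c).symm.trans h2) with rfl | rfl <;> simp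

omit [Finite F] [CharP F 3] [Finite G] in
theorem nd_sec {E U U₀ : Subgroup G} (d : ND F E U U₀) : Sec U U₀ d.ψ := ⟨d.ψ_mul, d.ψ_surj, d.ψ_zero⟩

/-- quadratic on one natural section gives quadratic on the other -/
theorem quad_transfer {E Q W0 Z : Subgroup G} (d₁ : ND F E W0 Z) (d₂ : ND F E Q W0)
    (r₁ : d₁.rim E = _root_.commutator SL(2, F)) (r₂ : d₂.rim E = _root_.commutator SL(2, F))
    (kn : E ⊓ Kn W0 Z ≤ Q) {a : G} (aE : a ∈ 𝐍 E) (aQ : a ∈ 𝐍 Q) (a0 : a ∈ 𝐍 W0) (aZ : a ∈ 𝐍 Z)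
    {k : ℕ} (ak : a ^ 3 ^ k = 1) (q : ∀ v ∈ W0, ⁅a, ⁅a, v⁆⁆ ∈ Z) {x : G} (hx : x ∈ Q) :
    ⁅a, ⁅a, x⁆⁆ ∈ W0 := by
  have s₁ := nd_sec d₁
  have s₂ := nd_sec d₂
  obtain ⟨α, hα⟩ := s₂.act aQ a0
  have cm : ∀ {U U₀ : Subgroup G} {ψ : G → Fin 2 → F} {γ : (Fin 2 → F) →+ (Fin 2 → F)}, Sec U U₀ ψ →
      a ∈ 𝐍 U → (∀ x ∈ U, γ (ψ x) = ψ (a * x * a⁻¹)) → ∀ x ∈ U,
        (⁅a, ⁅a, x⁆⁆ ∈ U₀ ↔ γ (γ (ψ x)) = 2 • γ (ψ x) - ψ x) := by
    intro U U₀ ψ γ s n H x hx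
    have c1 : ∀ x ∈ U, ⁅a, x⁆ ∈ U ∧ ψ ⁅a, x⁆ = γ (ψ x) - ψ x := fun x hx =>
      ⟨mul_mem (conj_mem_of_mem_normalizer n hx) (inv_mem hx), by
        rw [H x hx, ← s.div (conj_mem_of_mem_normalizer n hx) hx]; rfl⟩
    rw [← s.zero (c1 _ (c1 x hx).1).1, (c1 _ (c1 x hx).1).2, (c1 x hx).2, map_sub, two_nsmul]
    constructor <;> intro e <;> linear_combination (norm := abel) e
  have hl : ∀ (c : F) x, α (c • x) = c • α x := by
    by_cases hs : ∀ c : F, c = 0 ∨ c ^ 2 = 1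
    · exact lin_of_sq hs α
    push Not at hs
    obtain ⟨c, c0, c1⟩ := hs
    rw [Matrix.SL2.commutator_eq_top c0 c1] at r₁ r₂
    obtain ⟨α₁, hα₁⟩ := s₁.act a0 aZ
    obtain ⟨m, hm⟩ := sl_of_quad two_ne α₁ (fun x => by
      obtain ⟨v, hv, rfl⟩ := s₁.surj x
      exact (cm s₁ a0 hα₁ v hv).1 (q v hv)) fun m => by
        obtain ⟨e, he, rfl⟩ := (d₁.mem_rim le_rfl).1 (r₁.ge (mem_top m))
        have he' := inv_conj_mem_of_mem_normalizer aE he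
        refine ⟨d₁.r (a⁻¹ * e * a), fun x => ?_⟩
        obtain ⟨v, hv, rfl⟩ := s₁.surj x
        rw [← d₁.act he' hv, hα₁ v hv, hα₁ _ (d₁.conj_mem he' hv),
          ← d₁.act he (conj_mem_of_mem_normalizer a0 hv)]
        congr 1; group
    obtain ⟨e, he, rfl⟩ := (d₁.mem_rim le_rfl).1 (r₁.ge (mem_top m))
    have cE : e⁻¹ * a ∈ 𝐍 E := mul_mem (inv_mem (le_normalizer he)) aE
    have cK : e⁻¹ * a ∈ Kn W0 Z := mem_Kn'.2 ⟨mul_mem (inv_mem (d₁.norm₀ he)) aZ, fun v hv => by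
      have v' := conj_mem_of_mem_normalizer a0 hv
      have := (d₁.ψ_eq_iff (d₁.conj_mem (inv_mem he) v') hv).1 (by
        rw [d₁.act (inv_mem he) v', ← hα₁ v hv, hm, d₁.r_inv he, sl_inv_mulVec])
      convert this using 1; simp only [commutatorElement_def]; group⟩
    have cQ : e⁻¹ * a ∈ 𝐍 Q := mul_mem (inv_mem (d₂.norm he)) aQ
    obtain ⟨γ, hγ⟩ := s₂.act cQ (mul_mem (inv_mem (d₂.norm₀ he)) a0)
    obtain ⟨μ, hμ⟩ := scalar_of_comm γ γ.map_add fun m x => by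
      obtain ⟨e', he', rfl⟩ := (d₂.mem_rim le_rfl).1 (r₂.ge (mem_top m))
      obtain ⟨y, hy, rfl⟩ := s₂.surj x
      have e2 := conj_mem_of_mem_normalizer cE he'
      have e3 := mul_mem e2 (inv_mem he')
      have e4 : d₂.r (e⁻¹ * a * e' * (e⁻¹ * a)⁻¹ * e'⁻¹) = 1 := (d₂.mem_Kn e3).1 (d₂.le_Kn (kn (mem_inf.2 ⟨e3, by
        have := mul_mem cK (conj_mem_of_mem_normalizer (norm_Kn d₁.norm d₁.norm₀ he') (inv_mem cK))
        convert this using 1; group⟩)))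
      rw [d₂.r_mul e2 (inv_mem he'), d₂.r_inv he', mul_inv_eq_one] at e4
      rw [← d₂.act he' hy, hγ _ (d₂.conj_mem he' hy), hγ y hy, ← e4,
        ← d₂.act e2 (conj_mem_of_mem_normalizer cQ hy)]
      congr 1; group
    have : ∀ x, α x = (d₂.r e).1 *ᵥ (μ • x) := fun x => by
      obtain ⟨y, hy, rfl⟩ := s₂.surj x
      rw [← hμ, hγ y hy, ← d₂.act he (conj_mem_of_mem_normalizer cQ hy), hα y hy]
      congr 1; group
    intro c x
    rw [this, this, smul_comm, Matrix.mulVec_smul]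
  refine (cm s₂ aQ hα x hx).2 (quad_of_lin α hl (k := k) (fun y => ?_) _)
  obtain ⟨y, hy, rfl⟩ := s₂.surj y
  have : ∀ j : ℕ, a ^ j * y * (a ^ j)⁻¹ ∈ Q ∧ α^[j] (d₂.ψ y) = d₂.ψ (a ^ j * y * (a ^ j)⁻¹) := by
    intro j
    induction j with
    | zero => simpa using hy
    | succ j ih =>
      rw [show a ^ (j + 1) * y * (a ^ (j + 1))⁻¹ = a * (a ^ j * y * (a ^ j)⁻¹) * a⁻¹ by group,
        Function.iterate_succ_apply', ih.2, hα _ ih.1]
      exact ⟨conj_mem_of_mem_normalizer aQ ih.1, rfl⟩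
  rw [(this _).2, ak, one_mul, inv_one, mul_one]

end sl

theorem comm_zp_le {Q Z : Subgroup G} {a : G} (ZQ : Z ≤ Q) (ZC : Z ≤ 𝐂 Q) (aQ : a ∈ 𝐍 Q) (aZ : a ∈ 𝐍 Z)
    (h : ∀ x ∈ Q, ⁅a, ⁅a, x⁆⁆ ∈ Z) : ⁅⁅Q, zpowers a⁆, zpowers a⁆ ≤ Z := by
  let L : Subgroup G :=
    { carrier := {y | y ∈ Q ∧ ⁅a, y⁆ ∈ Z}
      mul_mem' := fun hy hy' => ⟨mul_mem hy.1 hy'.1, by
        rw [cm_r hy.1 (ZC hy'.2)]; exact mul_mem hy.2 hy'.2⟩
      one_mem' := ⟨one_mem _, by rw [commutatorElement_one_right]; exact one_mem _⟩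
      inv_mem' := fun {y} hy => ⟨inv_mem hy.1, by
        have := cc (inv_mem (ZC hy.2)) (inv_mem hy.1)
        rw [show ⁅a, y⁻¹⁆ = y⁻¹ * ⁅a, y⁆⁻¹ * y⁻¹⁻¹ by simp only [commutatorElement_def]; group, this]
        exact inv_mem hy.2⟩ }
  have mq : ∀ {x}, x ∈ Q → ⁅a, x⁆ ∈ Q := fun hx =>
    mul_mem (conj_mem_of_mem_normalizer aQ hx) (inv_mem hx)
  have aL : a ∈ 𝐍 L := mem_normalizer_of_cj_le (cj_le_iff'.2 fun y hy => by
    rw [show a * y * a⁻¹ = ⁅a, y⁆ * y by simp only [commutatorElement_def]; group]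
    exact L.mul_mem ⟨mq hy.1, h y hy.1⟩ hy)
  rw [zpowers_eq_closure]
  have h1 : ⁅Q, closure {a}⁆ ≤ L := comm_closure_le' (by rintro _ rfl; exact aL)
    (by rintro _ rfl y hy; exact cm_swap (K := L) ⟨mq hy, h y hy⟩)
  exact (commutator_mono h1 le_rfl).trans (comm_closure_le' (by rintro _ rfl; exact aZ)
    (by rintro _ rfl y hy; exact cm_swap hy.2))

/-- a nontrivial `3'`-element commuting modulo `P` with a conjugate -/
theorem exists_comm {H P Γ : Subgroup G} (ho : Odd (Nat.card Γ)) (hΓ : Γ ≤ H) (hn : H ≤ 𝐍 Γ)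
    (mx : ∀ X ≤ H, IsPGroup 3 X → H ≤ 𝐍 X → X ≤ P) (hne : ¬ Γ ≤ P) {b : G} (hb : b ∈ H) :
    ∃ ρ ∈ Γ, (orderOf ρ).Coprime 3 ∧ ρ ≠ 1 ∧ ⁅ρ, b * ρ * b⁻¹⁆ ∈ P := by
  classical
  haveI : Fact (Nat.Prime 3) := ⟨Nat.prime_three⟩
  obtain ⟨N, hN⟩ := Cfsg.Agent.S0205.result ho
  let D : ℕ → Subgroup G := fun n => (derivedSeries Γ n).map Γ.subtype
  have D0 : D 0 = Γ := map_subtype_top Γ
  have Ds : ∀ n, D (n + 1) = ⁅D n, D n⁆ := fun n => map_commutator _ _ _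
  have Dn : ∀ n, H ≤ 𝐍 (D n) := fun n => by
    induction n with
    | zero => rwa [D0]
    | succ n ih => rw [Ds]; exact norm_commutator ih ih
  have ex : ∃ n, D n ≤ P := ⟨N, by simp only [D, hN, Subgroup.map_bot]; exact bot_le⟩
  obtain ⟨m, hm⟩ : ∃ m, Nat.find ex = m + 1 :=
    Nat.exists_eq_succ_of_ne_zero fun e => hne (by rw [← D0, ← e]; exact Nat.find_spec ex)
  have h1 : D (m + 1) ≤ P := hm ▸ Nat.find_spec ex
  have h2 : ¬ D m ≤ P := Nat.find_min ex (by omega)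
  have h3 : D m ≤ Γ := map_subtype_le _
  have h4 : ¬ pResidualOf 3 (D m) ≤ ⊥ := fun e =>
    h2 (mx _ (h3.trans hΓ) (res_eq_bot_iff.1 (le_bot_iff.1 e)) (Dn m))
  rw [res_le_iff] at h4
  push Not at h4
  obtain ⟨ρ, hρ, c, n1⟩ := h4
  exact ⟨ρ, h3 hρ, c, fun e => n1 (mem_bot.2 e), h1 (Ds m ▸ commutator_mem_commutator hρ
    (conj_mem_of_mem_normalizer (Dn m hb) hρ))⟩

end CA.H8Exc
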