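import Cfsg.Agent.Lib.Loc.H8Exc5

/-! Blocks: `C(W_E)` normalizes `E`. -/

set_option autoImplicit false
set_option linter.unusedSectionVars false

namespace CA.H8Exc

open Subgroup Cfsg CA.Amb CA.AmbSyl CA.AmbCore CA.AmbRes CA.AmbSpe CA.H6Nat CA.H6Nat2 CA.H6J CA.H6Bau
open CA.H6Am1 CA.H6Am2 CA.H6Blk CA.H6TV2
open scoped commutatorElement MatrixGroups Matrix

universe u

variable {G : Type u} [Group G] [Finite G] {F : Type} [Field F] [Finite F] [CharP F 3]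

instance fact3 : Fact (Nat.Prime 3) := ⟨Nat.prime_three⟩

/-- the exceptional situation -/
structure Exc (F : Type) [Field F] (T E : Subgroup G) where
  h : Blk 3 T E
  hT : SylIn 3 T ⊤
  hc : AmbChar.CharP 3 (⊤ : Subgroup G)
  d₁ : ND F E (Zo 3 E) (Zo 3 E ⊓ 𝐂 E)
  d₂ : ND F E (pCoreOf 3 E) (Zo 3 E)
  r₁ : d₁.rim E = _root_.commutator SL(2, F)
  r₂ : d₂.rim E = _root_.commutator SL(2, F)
  k₂ : E ⊓ Kn (pCoreOf 3 E) (Zo 3 E) ≤ pCoreOf 3 E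
  QQ : ⁅pCoreOf 3 E, pCoreOf 3 E⁆ = Zo 3 E ⊓ 𝐂 E
  cZ : Nat.card ↥(Zo 3 E ⊓ 𝐂 E) = Nat.card F
  nq : ∀ b ∈ Bm 3 T, b ∉ 𝐂 (Zo 3 E) →
    ¬ ⁅⁅pCoreOf 3 E, zpowers b⁆, zpowers b⁆ ≤ Zo 3 E ⊓ 𝐂 E
  nA : ¬ ⁅Pb 3 T E, E⁆ ≤ Zo 3 E

namespace Exc

variable {T E : Subgroup G} (x : Exc F T E)
include x

local notation "Q" => pCoreOf 3 E
local notation "W₀" => Zo 3 E
local notation "Z" => Zo 3 E ⊓ 𝐂 E
local notation "W" => Wb 3 E
local notation "P" => Pb 3 T E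
local notation "H" => Hb 3 T E

theorem irr2 : Irr E Q W₀ := irr_nd x.d₂ x.r₂.ge

omit x in
theorem W0C : W₀ ≤ 𝐂 Q := OZ_le_cent _ _

omit x in
theorem WW0 : W ≤ W₀ := commutator_le_left_of_norm (norm_Zo 3 E)

theorem qq {a b : G} (ha : a ∈ Q) (hb : b ∈ Q) : ⁅a, b⁆ ∈ Z := x.QQ ▸ commutator_mem_commutator ha hb

theorem dec0 {v : G} (hv : v ∈ W₀) : ∃ z ∈ Z, ∃ w ∈ W, v = z * w := by
  have := x.h.Zo_le hv
  rw [sup_comm, mem_sup_of_norm (norm_of_centralizer ((inf_le_left.trans W0C).trans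
    (centralizer_anti (WW0.trans (Zo_le 3 E)))))] at this
  obtain ⟨z, hz, w, hw, e⟩ := this
  exact ⟨z, hz, w, hw, e.symm⟩

theorem QP : Q ≤ P := by
  have h1 := x.irr2.irr _ (PEQ x.h x.hT) (norm_comm_right _ _) x.nA
  have h2 : ⁅P, E⁆ ≤ P := commutator_le_left_of_norm (EH.trans HP)
  have h3 : ∀ a ∈ Q, ∃ b ∈ ⁅P, E⁆, a * b⁻¹ ∈ W₀ := fun a ha => by
    have := h1 ha
    rw [sup_comm, mem_sup_of_norm' ((PEQ x.h x.hT).trans x.irr2.normU)] at this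
    obtain ⟨z, hz, b, hb, rfl⟩ := this
    exact ⟨b, hb, by rwa [mul_inv_cancel_right]⟩
  have h4 : Z ≤ P := x.QQ.ge.trans (commutator_le.2 fun a ha b hb => by
    obtain ⟨a', ha', e⟩ := h3 a ha
    obtain ⟨b', hb', e'⟩ := h3 b hb
    rw [cm_eq_l (PEQ x.h x.hT ha') hb (W0C e), cm_eq_r (PEQ x.h x.hT ha') (PEQ x.h x.hT hb') (W0C e')]
    exact comm_le_of_le h2 h2 (commutator_mem_commutator ha' hb'))
  exact h1.trans (sup_le h2 (x.h.Zo_le.trans (sup_le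
    (((x.h.W_le x.hT x.hc).trans (OZ_le _ _)).trans (OP x.h x.hT x.hc)) h4)))

theorem QPc : ⁅Q, P⁆ ≤ W₀ :=
  have n := norm_pCoreOf_of_norm (p := 3) (PE x.h x.hT)
  x.irr2.comm_le (isPGroup_pCoreOf _ _) (isPGroup_pCoreOf _ _) n (norm_OZ n) (EH.trans HP)

theorem W0P : W₀ ≤ 𝐂 P := by
  refine x.h.Zo_le.trans (sup_le (WC x.h x.hT) (x.QQ.ge.trans (commutator_le.2 fun a ha b hb => ?_)))
  refine mem_centralizer_sub.2 fun j hj => ?_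
  have n := norm_pCoreOf_of_norm (p := 3) (PE x.h x.hT) hj
  have k : ∀ a ∈ Q, j * a * j⁻¹ * a⁻¹ ∈ 𝐂 Q := fun a ha =>
    W0C (cm_swap (x.QPc (commutator_mem_commutator ha hj)))
  have := cm_conj j a b
  rw [cm_eq_l ha (conj_mem_of_mem_normalizer n hb) (k a ha), cm_eq_r ha hb (k b hb)] at this
  exact eq_mul_of_mul_inv_eq this

theorem trans0 {a b : G} (ha : a ∈ Q) (ha0 : a ∉ W₀) (hb : b ∈ Q) (hb0 : b ∉ W₀) :
    ∃ e ∈ E, e * a * e⁻¹ * b⁻¹ ∈ W₀ := by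
  obtain ⟨m, hm, e1⟩ := der_trans (fun e => ha0 ((x.d₂.ψ_zero ha).1 e)) fun e => hb0 ((x.d₂.ψ_zero hb).1 e)
  obtain ⟨e, he, rfl⟩ := (x.d₂.mem_rim le_rfl).1 (x.r₂.ge hm)
  exact ⟨e, he, (x.d₂.ψ_eq_iff (x.d₂.conj_mem he ha) hb).1 (by rw [x.d₂.act he ha, e1])⟩

theorem onto0 {a : G} (ha : a ∈ Q) (ha0 : a ∉ W₀) {z : G} (hz : z ∈ Z) : ∃ y ∈ Q, ⁅a, y⁆ = z := by
  let S : Subgroup G :=
    { carrier := {z | ∃ y ∈ Q, ⁅a, y⁆ = z}
      mul_mem' := by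
        rintro _ _ ⟨y, hy, rfl⟩ ⟨y', hy', rfl⟩
        exact ⟨y * y', mul_mem hy hy', cm_r hy (W0C (x.qq ha hy').1)⟩
      one_mem' := ⟨1, one_mem _, commutatorElement_one_right a⟩
      inv_mem' := by
        rintro _ ⟨y, hy, rfl⟩
        refine ⟨y⁻¹, inv_mem hy, ?_⟩
        have := cm_r (x := a) hy (W0C (x.qq ha (inv_mem hy)).1)
        rw [mul_inv_cancel, commutatorElement_one_right] at this
        exact eq_inv_of_mul_eq_one_right this.symm }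
  refine (x.QQ.ge.trans (commutator_le.2 fun b hb c hc => ?_) : Z ≤ S) hz
  by_cases hb0 : b ∈ W₀
  · rw [cm_c (W0C hb0) hc]; exact one_mem _
  obtain ⟨e, he, e1⟩ := x.trans0 ha ha0 hb hb0
  have c' := inv_conj_mem_of_mem_normalizer (x.d₂.norm he) hc
  refine ⟨_, c', ?_⟩
  rw [← cc (x.qq ha c').2 he, cm_conj, ← cm_eq_l hb hc (W0C e1)]
  congr 1; group

theorem Zne : ∃ z ∈ Z, z ≠ 1 := by
  by_contra hn
  push Not at hn
  have := x.cZ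
  rw [(Subgroup.eq_bot_iff_forall _).2 hn, card_bot] at this
  exact absurd this (Finite.one_lt_card (α := F)).ne

theorem W0eq : Q ⊓ 𝐂 P = W₀ := by
  refine le_antisymm (fun a ha => ?_) (le_inf (Zo_le 3 E) x.W0P)
  by_contra ha0
  obtain ⟨z, hz, h1⟩ := x.Zne
  obtain ⟨y, hy, rfl⟩ := x.onto0 ha.1 ha0 hz
  exact h1 (cm_c ha.2 (x.QP hy))

theorem r1Q {e : G} (he : e ∈ E) (h : x.d₁.r e = 1) : e ∈ Q := x.h.kn ⟨he, (x.d₁.mem_Kn he).2 h⟩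

theorem exists_t : ∃ t ∈ E, t * t = 1 ∧ x.d₁.r t = -1 := by
  obtain ⟨τ, hτ, e⟩ := (x.d₁.mem_rim le_rfl).1 (x.r₁.ge (four_mem (m := -1) (Even.neg_one_pow (by decide))))
  obtain ⟨k, hk⟩ := isPGroup_pCoreOf 3 E ⟨τ * τ, x.r1Q (mul_mem hτ hτ) (by rw [x.d₁.r_mul hτ hτ, e]; simp)⟩
  have hk' : (τ * τ) ^ 3 ^ k = 1 := congrArg Subtype.val hk
  refine ⟨τ ^ 3 ^ k, pow_mem hτ _, by rw [← hk', (Commute.refl τ).mul_pow], ?_⟩
  obtain ⟨j, hj⟩ : Odd (3 ^ k) := Odd.pow (by decide)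
  rw [x.d₁.r_pow hτ, e, hj, pow_succ, pow_mul]; simp

theorem dat {t : G} (ht : t ∈ E) (tt : t * t = 1) (rt : x.d₁.r t = -1) :
    Dat (Fin 2 → F) (Nat.card W₀) P W Q Z t := by
  have n2 : x.d₂.r t ≠ 1 := fun e => by
    have := eq_one_of_pg (isPGroup_pCoreOf 3 E) (x.k₂ ⟨ht, (x.d₂.mem_Kn ht).2 e⟩) (k := 2) (by decide)
      (by rw [pow_two, tt])
    rw [this, x.d₁.r_one] at rt
    have := congrFun (congrFun (congrArg Subtype.val rt) 0) 0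
    simp at this
    exact two_ne (F := F) (by linear_combination this)
  have i2 := sl_invol two_ne (by rw [← x.d₂.r_mul ht ht, tt, x.d₂.r_one]) n2
  refine ⟨tt, HP (EH ht), x.QP, WW0.trans (Zo_le 3 E), WC x.h x.hT, inf_le_left.trans (Zo_le 3 E),
    inf_le_left.trans x.W0P, ?_, fun z hz => cc hz.2 ht, fun v hv hc => ?_,
    fun v hv hc => x.dec0 (x.W0eq ▸ ⟨hv, hc⟩), fun y hy => PEQ x.h x.hT (commutator_mem_commutator hy ht),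
    fun a ha => x.W0P ?_, fun a ha b hb => x.qq ha hb,
    fun a ha b hb => x.W0eq ▸ x.QPc (commutator_mem_commutator ha hb),
    fun a ha hc z hz => x.onto0 ha (fun e => hc (x.W0P e)) hz, fun a ha => x.W0P (x.d₂.pow_mem ha), ?_,
    x.Zne, by rw [x.W0eq], by rw [x.cZ, Nat.card_fun]; simp, ⟨x.d₂.ψ, x.W0eq.symm ▸ nd_sec x.d₂⟩⟩
  · let S : Subgroup G :=
      { carrier := {w | w ∈ W₀ ∧ t * w * t⁻¹ = w⁻¹}
        mul_mem' := fun {a b} ha hb => ⟨mul_mem ha.1 hb.1, by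
          rw [← mem_centralizer_sub.1 (W0C ha.1) b (Zo_le 3 E hb.1), mul_inv_rev, ← ha.2, ← hb.2,
            mem_centralizer_sub.1 (W0C ha.1) b (Zo_le 3 E hb.1)]
          group⟩
        one_mem' := ⟨one_mem _, by group⟩
        inv_mem' := fun {a} ha => ⟨inv_mem ha.1, by
          rw [show t * a⁻¹ * t⁻¹ = (t * a * t⁻¹)⁻¹ by group, ha.2]⟩ }
    refine fun w hw => ((commutator_le.2 fun v hv e he => ?_ : W ≤ S) hw).2
    refine ⟨WW0 (commutator_mem_commutator hv he), ?_⟩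
    have v' := x.d₁.conj_mem ht hv
    have z0 : v * (t * v * t⁻¹) ∈ Z := (x.d₁.ψ_zero (mul_mem hv v')).1 (by
      rw [x.d₁.ψ_mul hv v', x.d₁.act ht hv, rt]
      simp [Matrix.neg_mulVec])
    have a0 : t * e * t⁻¹ * e⁻¹ ∈ Q := x.r1Q (mul_mem (mul_mem (mul_mem ht he) (inv_mem ht)) (inv_mem he)) (by
      rw [x.d₁.r_mul (mul_mem (mul_mem ht he) (inv_mem ht)) (inv_mem he), x.d₁.r_conj ht he, rt,
        x.d₁.r_inv he]; simp)
    have e1 := cc (W0C (x.d₁.conj_mem he (inv_mem v'))) a0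
    have e2 := cc z0.2 he
    have e3 := mem_centralizer_sub.1 (W0C (x.d₁.conj_mem he hv)) _ (Zo_le 3 E (inv_mem hv))
    calc t * ⁅v, e⁆ * t⁻¹ = t * v * t⁻¹ * (t * e * t⁻¹ * e⁻¹ * (e * (t * v * t⁻¹)⁻¹ * e⁻¹) *
          (t * e * t⁻¹ * e⁻¹)⁻¹) := by simp only [commutatorElement_def]; group
      _ = v⁻¹ * (v * (t * v * t⁻¹)) * (e * (v * (t * v * t⁻¹)) * e⁻¹)⁻¹ * (e * v * e⁻¹) := by
          rw [e1]; group
      _ = v⁻¹ * (e * v * e⁻¹) := by rw [e2]; group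
      _ = _ := by rw [e3]; simp only [commutatorElement_def]; group
  · exact (mem_OZ.1 (x.W0eq ▸ ⟨hv, hc⟩ : v ∈ W₀)).2.2
  · have a' := x.d₂.conj_mem ht ha
    exact (x.d₂.ψ_zero (mul_mem ha a')).1 (by rw [x.d₂.ψ_mul ha a', x.d₂.act ht ha, i2, add_neg_cancel])
  · by_contra hn
    push Not at hn
    exact x.irr2.nle fun a ha => x.W0eq ▸ ⟨ha, hn a ha⟩

theorem exists_b : ∃ b ∈ Bm 3 T, (∀ w ∈ W, ⁅b, ⁅b, w⁆⁆ = 1) ∧ (∀ a ∈ Q, ⁅b, ⁅b, a⁆⁆ ∈ 𝐂 P) ∧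
    ¬ ∀ a ∈ Q, ⁅b, ⁅b, a⁆⁆ ∈ Z := by
  have WT : W ≤ T := ((x.h.W_le x.hT x.hc).trans (OZ_le _ _)).trans (pCoreOf_le_syl x.hT)
  have eJ : J 3 (W ⊔ J 3 T) = J 3 T := J_eq_of_J_le le_sup_right (sup_le WT (J_le _ _))
  obtain ⟨A, hA, q, hn⟩ := H6Off.exists_quad_mx (p := 3) (V := W) (X := W ⊔ J 3 T)
    (isAb_iff_isElementaryAbelian.2 (ea_of_le (ea_OZ _ _) WW0)) le_sup_left
    (sup_le le_normalizer (((J_le_Bm 3 T).trans BH).trans (HW x.h)))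
    (by rw [eJ]; exact fun e => x.h.J_not_cent x.hT (cent_symm e))
  obtain ⟨b, hb, hb'⟩ := SetLike.not_le_iff_exists.1 hn
  have bB : b ∈ Bm 3 T := J_le_Bm 3 T (eJ ▸ le_J hA hb)
  have bE := x.h.B_norm bB
  have bQ := normalizer_le_pCoreOf 3 E bE
  have b0 : b ∈ 𝐍 W₀ := norm_OZ (normalizer_le_pCoreOf 3 E) bE
  have bZ : b ∈ 𝐍 Z := norm_inf (norm_OZ (normalizer_le_pCoreOf 3 E)) (norm_centralizer le_rfl) bE
  have qW : ∀ w ∈ W, ⁅b, ⁅b, w⁆⁆ = 1 := fun w hw => mem_bot.1 (q ▸ cm_swap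
    (commutator_mem_commutator (cm_swap (commutator_mem_commutator hw hb)) hb))
  refine ⟨b, bB, qW, fun a ha => x.W0P (quad_transfer x.d₁ x.d₂ x.r₁ x.r₂ x.h.kn bE bQ b0 bZ (k := 1)
    (hA.2.1.2 b hb) (fun v hv => ?_) ha), fun e => x.nq b bB (fun e' => hb' (centralizer_anti WW0 e'))
      (comm_zp_le (inf_le_left.trans (Zo_le 3 E)) (inf_le_left.trans W0C) bQ bZ e)⟩
  obtain ⟨z, hz, w, hw, rfl⟩ := x.dec0 hv
  have mz : ∀ {z}, z ∈ Z → ⁅b, z⁆ ∈ Z := fun hz => mul_mem (conj_mem_of_mem_normalizer bZ hz) (inv_mem hz)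
  have mw : ⁅b, w⁆ ∈ W₀ := mul_mem (conj_mem_of_mem_normalizer b0 (WW0 hw)) (inv_mem (WW0 hw))
  rw [cm_r (Zo_le 3 E hz.1) (W0C mw), cm_r (Zo_le 3 E (mz hz).1) (by rw [qW w hw]; exact one_mem _),
    qW w hw, mul_one]
  exact mz (mz hz)

theorem main : 𝐂 W ≤ 𝐍 E := by
  obtain ⟨t, ht, tt, rt⟩ := x.exists_t
  obtain ⟨b, bB, qW, qQ, nq⟩ := x.exists_b
  have d := x.dat ht tt rt
  have hP : IsPGroup 3 P := isPGroup_pCoreOf _ _
  have PH : P ≤ H := pCoreOf_le _ _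
  have hW := HW x.h
  have HC : H ≤ 𝐍 (𝐂 W) := norm_centralizer hW
  have tH : t ∈ H := EH ht
  have bH : b ∈ H := BH bB
  have bE := x.h.B_norm bB
  have bQ := normalizer_le_pCoreOf 3 E bE
  have bZ : b ∈ 𝐍 Z := norm_inf (norm_OZ (normalizer_le_pCoreOf 3 E)) (norm_centralizer le_rfl) bE
  have no : ∀ ρ, ρ ∈ 𝐍 Q → (∀ v ∈ Q ⊓ 𝐂 P, ρ * v * ρ⁻¹ = v) → (∀ y ∈ P, ⁅ρ, y⁆ ∈ Q) →
      (∀ y ∈ Q, ⁅ρ, y⁆ ∈ 𝐂 P → y ∈ 𝐂 P) → ⁅ρ, b * ρ * b⁻¹⁆ ∈ P → False := fun ρ h1 h2 h3 h4 h5 =>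
    nq fun a ha => d.fin h1 h2 h3 h4 (HP bH) bQ bZ (hW bH) h5 qW qQ ha
  have c0 : ∀ {ρ}, ρ ∈ 𝐂 W → (∀ z ∈ Z, ρ * z * ρ⁻¹ = z) → ∀ v ∈ Q ⊓ 𝐂 P, ρ * v * ρ⁻¹ = v := by
    intro ρ h1 h2 v hv
    obtain ⟨z, hz, w, hw, rfl⟩ := d.dec0 v hv.1 hv.2
    calc _ = ρ * z * ρ⁻¹ * (ρ * w * ρ⁻¹) := by group
      _ = _ := by rw [h2 z hz, ← mem_centralizer_sub.1 h1 w hw, mul_inv_cancel_right]
  have tQ : t ∈ 𝐍 Q := x.d₂.norm ht
  have G1 : ⁅P ⊓ Kn Q W, E⁆ ≤ W := by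
    have n : E ≤ 𝐍 (P ⊓ Kn Q W) := norm_inf (EH.trans HP) (norm_Kn x.d₂.norm (EH.trans hW))
    have := AmbChar.comm_res_le_of_le (hP.to_le (inf_le_left (b := Kn Q W))) n (show _ ≤ W₀ by
      rw [x.h.res, ← x.W0eq]
      intro u hu
      have u1 := (commutator_mono inf_le_left le_rfl).trans (PEQ x.h x.hT) hu
      exact ⟨u1, d.rad u1 (mem_Kn'.1 (commutator_le_left_of_norm n hu).2).2⟩)
    rwa [x.h.res] at this
  have mD : ∀ y ∈ P, ⁅t, y⁆ ∈ 𝐂 P → y ∈ P ⊓ Kn Q W := fun y hy e => by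
    refine ⟨hy, mem_Kn'.2 ⟨hW (PH hy), fun u hu => ?_⟩⟩
    obtain ⟨a, ha, c, hc, e', rfl⟩ := d.dec hP hy
    have := cm_swap e
    rw [d.cmd e'] at this
    rw [cm_eq_l hc (d.QP hu) (by rw [mul_inv_cancel_right]; exact d.xt ha this)]
    exact cm_swap (d.cD hu hc e')
  have kill : ∀ k ∈ H, (∀ y ∈ P, ⁅k, y⁆ ∈ W) → t * k ∈ 𝐂 W → False := fun k kH hk tk => by
    have kq : ∀ a ∈ Q, k * a * k⁻¹ * a⁻¹ ∈ W := fun a ha => hk a (d.QP ha)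
    have kQ : k ∈ 𝐍 Q := mem_normalizer_of_cj_le (cj_le_iff'.2 fun a ha =>
      (Subgroup.mul_mem_cancel_right _ (inv_mem ha)).1 (d.WQ (kq a ha)))
    have cmk : ∀ y, ⁅t * k, y⁆ = t * ⁅k, y⁆ * t⁻¹ * ⁅t, y⁆ := fun y => by
      simp only [commutatorElement_def]; group
    refine no (t * k) (mul_mem tQ kQ) (c0 tk fun z hz => ?_) (fun y hy => ?_) (fun y hy e => ?_) ?_
    · obtain ⟨a, ha, hc⟩ := d.ex
      have e1 := d.tZ z hz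
      obtain ⟨y, hy, rfl⟩ := d.onto a ha hc z hz
      have := cm_conj k a y
      rw [cm_eq_l (d.QP ha) (conj_mem_of_mem_normalizer (HP kH) (d.QP hy)) (d.WC (kq a ha)),
        cm_eq_r (d.QP ha) (d.QP hy) (d.WC (kq y hy))] at this
      calc _ = t * (k * ⁅a, y⁆ * k⁻¹) * t⁻¹ := by group
        _ = _ := by rw [this, e1]
    · rw [cmk]; exact mul_mem (d.tx (d.WQ (hk y hy))) (cm_swap (d.Pt y hy))
    · rw [cmk] at e
      exact d.xt hy (cm_swap ((Subgroup.mul_mem_cancel_left _ (cjC d.tP (d.WC (hk y (d.QP hy))))).1 e))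
    · have j1 : b * t * b⁻¹ * t ∈ Q := x.h.inf_cent ⟨mul_mem (conj_mem_of_mem_normalizer bE ht) ht,
        inv_inv_cent (d.conj (HP bH) (hW bH)).tW d.tW⟩
      have kK : k ∈ Kn P W := mem_Kn'.2 ⟨hW kH, hk⟩
      have nK : H ≤ 𝐍 (Kn P W) := norm_Kn HP hW
      have j3 : t * (b * k * b⁻¹ * k⁻¹) * t⁻¹ ∈ P := kn_le x.h x.hT x.hc (mem_inf.2 ⟨by
        have := mul_mem (inv_mem (cent_symm d.WC (d.QP j1))) (mul_mem (conj_mem_of_mem_normalizer (HC bH) tk)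
          (inv_mem tk))
        convert this using 1
        nth_rewrite 1 [← d.ti]; group, conj_mem_of_mem_normalizer (nK tH)
          (mul_mem (conj_mem_of_mem_normalizer (nK bH) kK) (inv_mem kK))⟩)
      have j := mul_mem (d.QP j1) j3
      have := mul_mem (conj_mem_of_mem_normalizer (HP (mul_mem tH kH)) j) (inv_mem j)
      convert this using 1
      have e : b * t * b⁻¹ * t * (t * (b * k * b⁻¹ * k⁻¹) * t⁻¹) = b * (t * k) * b⁻¹ * (t * k)⁻¹ := by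
        calc _ = b * t * b⁻¹ * (t * t) * (b * k * b⁻¹ * k⁻¹) * t⁻¹ := by group
          _ = _ := by rw [tt]; group
      rw [e]; simp only [commutatorElement_def]; group
  have mx : ∀ X ≤ H, IsPGroup 3 X → H ≤ 𝐍 X → X ≤ P := fun X h1 h2 h3 => le_pCoreOf h1 h2 h3
  have c : Ctx (Fin 2 → F) (Nat.card W₀) H P W Q Z t := by
    refine ⟨d, hP, CP x.h x.hT x.hc, tH, PH, HP, hW, mx, fun g hg h1 h2 => ?_,
      fun a ha hc a' ha' hc' y hy e => ?_⟩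
    · obtain ⟨a, ha, a', ha', e⟩ := q8 (F := F)
      obtain ⟨e₁, he₁, rfl⟩ := (x.d₁.mem_rim le_rfl).1 (x.r₁.ge ha)
      obtain ⟨e₂, he₂, rfl⟩ := (x.d₁.mem_rim le_rfl).1 (x.r₁.ge ha')
      obtain ⟨c, hc, n, hn, rfl⟩ := (mem_sup_of_norm' (le_sup_right.trans HC)).1 hg
      have cH : c ∈ H := le_sup_left (α := Subgroup G) hc
      have m2 : c * e₂ * c⁻¹ ∈ cj (c * n) E := by
        rw [← cj_cj, cj_eq_self (nE x.h hn)]; exact conj_mem_cj.2 he₂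
      have E2H : cj (c * n) E ≤ H := cj_le_of_mem EH hg
      have A1 : ⁅⁅cj (c * n) E, P⁆, E⁆ ≤ W := by
        refine le_trans (commutator_mono ?_ le_rfl) G1
        rw [← cj_eq_self (HP hg), ← cj_commutator, cj_eq_self (HP hg)]
        refine (cj_mono _ (comm_swap (PEQ x.h x.hT))).trans fun y hy => ?_
        exact mD y ((d.conj (HP hg) (hW hg)).QP hy) (h2 y hy)
      have A2 : ⁅⁅P, E⁆, cj (c * n) E⁆ ≤ W := by
        rw [← cj_eq_self (hW hg)]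
        refine le_trans (commutator_mono ((PEQ x.h x.hT).trans fun y hy => ?_) le_rfl)
          ((cj_commutator _ _ _).ge.trans (cj_mono _ G1))
        refine mem_cj.2 (mD _ (inv_conj_mem_of_mem_normalizer (HP hg) (d.QP hy)) ?_)
        have := cjC (HP (inv_mem hg)) (h1 y hy)
        convert this using 1; simp only [commutatorElement_def]; group
      have A3 := three_subgroups (EH.trans hW) (E2H.trans hW) (PH.trans hW) A1 A2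
      have km := commutator_mem_commutator he₁ m2
      refine kill _ (comm_le_of_le EH E2H km) (fun y hy => A3 (commutator_mem_commutator km hy)) ?_
      have m12 : ⁅e₁, e₂⁆ ∈ E := comm_le_of_le le_rfl le_rfl (commutator_mem_commutator he₁ he₂)
      have u1 : t * ⁅e₁, e₂⁆ ∈ 𝐂 W := cent_symm d.WC (d.QP (x.r1Q (mul_mem ht m12) (by
        rw [x.d₁.r_mul ht m12, rt, commutatorElement_def, x.d₁.r_mul (mul_mem (mul_mem he₁ he₂)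
          (inv_mem he₁)) (inv_mem he₂), x.d₁.r_conj he₁ he₂, x.d₁.r_inv he₂, ← commutatorElement_def, e]
        simp)))
      have c' : e₂⁻¹ * c * e₂ * c⁻¹ ∈ 𝐂 W :=
        mul_mem (inv_conj_mem_of_mem_normalizer (HC (EH he₂)) hc) (inv_mem hc)
      have := mul_mem u1 (conj_mem_of_mem_normalizer (HC (EH he₂))
        (mul_mem (conj_mem_of_mem_normalizer (HC (EH he₁)) c') (inv_mem c')))
      convert this using 1; simp only [commutatorElement_def]; group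
    · obtain ⟨e', he', e1⟩ := x.trans0 ha (fun k => hc (x.W0P k)) ha' fun k => hc' (x.W0P k)
      refine ⟨e', EH he', ?_⟩
      have y1 := mD y hy (by rw [commutatorElement_def, e, mul_inv_cancel]; exact one_mem _)
      have := mul_mem (x.W0P e1) (cjC (le_normalizer (d.QP ha'))
        (d.WC (cm_swap (G1 (commutator_mem_commutator y1 he')))))
      convert this using 1; simp only [commutatorElement_def]; group
  have HQ := c.normal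
  have HZ : H ≤ 𝐍 Z := x.QQ ▸ norm_commutator HQ HQ
  have H0 : H ≤ 𝐍 (Q ⊓ 𝐂 P) := norm_inf HQ (norm_centralizer HP)
  set Γ : Subgroup G := H ⊓ 𝐂 W ⊓ (𝐂 Z ⊓ Kn P Q) with hΓ
  have nK : H ≤ 𝐍 (𝐂 Z ⊓ Kn P Q) := norm_inf (norm_centralizer HZ) (norm_Kn HP HQ)
  have nΓ : H ≤ 𝐍 Γ := norm_inf (norm_inf le_normalizer HC) nK
  refine suff x.h x.hT (le_trans (b := Γ) (le_inf (le_inf (comm_le_of_le le_sup_left EH)
    (commutator_le_left_of_norm (EH.trans HC))) ((commutator_mono le_rfl (le_inf (cent_symm inf_le_right)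
      (le_Kn_iff.2 ⟨x.d₂.norm, PEQ x.h x.hT⟩))).trans
        (commutator_le_right_of_norm (le_sup_left.trans nK)))) ?_)
  by_contra hne
  have zz : ∀ ρ ∈ Γ, ∀ z ∈ Z, ρ * z * ρ⁻¹ = z := fun ρ hρ z hz => by
    rw [← mem_centralizer_sub.1 hρ.2.1 z hz, mul_inv_cancel_right]
  have stP : ∀ ρ ∈ Γ, (∀ y ∈ Q, ⁅ρ, y⁆ ∈ Q ⊓ 𝐂 P) → ρ ∈ P := fun ρ hρ k => by
    have r0 := c0 hρ.1.2 (zz ρ hρ)
    exact st_le x.h x.hT x.hc HQ H0 H0 ⟨hρ.1.1, mem_St (HP hρ.1.1) (HQ hρ.1.1) (H0 hρ.1.1)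
      (mem_centralizer_sub.2 fun v hv => (eq_mul_of_mul_inv_eq (r0 v hv)).symm) (mem_Kn'.1 hρ.2.2).2 k
      fun v hv => mul_mem (conj_mem_of_mem_normalizer (H0 hρ.1.1) hv) (inv_mem hv)⟩
  have fp : ∀ ρ ∈ Γ, ∀ k : ℕ, k.Coprime 3 → ρ ^ k = 1 → ρ ≠ 1 → ∀ y ∈ Q, ⁅ρ, y⁆ ∈ 𝐂 P → y ∈ 𝐂 P :=
    fun ρ hρ k hk e n1 => (d.fpf (HP hρ.1.1) (HQ hρ.1.1) (zz ρ hρ) hk e).resolve_left fun k' =>
      n1 (eq_one_of_pg hP (stP ρ hρ fun y hy => mem_inf.2 ⟨mul_mem (conj_mem_of_mem_normalizer (HQ hρ.1.1) hy)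
        (inv_mem hy), k' y hy⟩) hk e)
  have fin : ∀ ρ ∈ Γ, ∀ k : ℕ, k.Coprime 3 → ρ ^ k = 1 → ρ ≠ 1 → ⁅ρ, b * ρ * b⁻¹⁆ ∈ P → False :=
    fun ρ hρ k hk e n1 h5 => no ρ (HQ hρ.1.1) (c0 hρ.1.2 (zz ρ hρ)) (mem_Kn'.1 hρ.2.2).2
      (fp ρ hρ k hk e n1) h5
  rcases Nat.even_or_odd (Nat.card Γ) with ho | ho
  · haveI : Fact (Nat.Prime 2) := ⟨Nat.prime_two⟩
    obtain ⟨⟨r, hr⟩, ho⟩ := exists_prime_orderOf_dvd_card' 2 (even_iff_two_dvd.1 ho)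
    rw [← orderOf_coe] at ho
    have r2 : r ^ 2 = 1 := ho ▸ pow_orderOf_eq_one r
    have r1 : r ≠ 1 := fun e => by simp [e] at ho
    have hr' := conj_mem_of_mem_normalizer (nΓ bH) hr
    have r2' : (b * r * b⁻¹) ^ 2 = 1 := by rw [conj_pow, r2]; group
    have r1' : b * r * b⁻¹ ≠ 1 := fun e => r1 (by simpa using e)
    have iv : ∀ s ∈ Γ, s ^ 2 = 1 → s ≠ 1 → ∀ y ∈ Q, y * (s * y * s⁻¹) ∈ Q ⊓ 𝐂 P := fun s hs e n1 y hy =>
      ⟨mul_mem hy (conj_mem_of_mem_normalizer (HQ hs.1.1) hy), d.inv_of_fpf (HQ hs.1.1)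
        (by rw [← pow_two, e]) (fp s hs 2 (by decide) e n1) hy⟩
    have := stP _ (mul_mem hr hr') fun y hy => inv_inv_sec ((d.QP.trans PH).trans H0) (H0 hr.1.1)
      (iv r hr r2 r1) (iv _ hr' r2' r1') hy
    refine fin r hr 2 (by decide) r2 r1 ?_
    rw [commutatorElement_def, inv_eq_of_mul_eq_one_right ((pow_two r).symm.trans r2),
      inv_eq_of_mul_eq_one_right ((pow_two _).symm.trans r2'), mul_assoc (r * _)]
    exact mul_mem this this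
  · obtain ⟨ρ, hρ, h1, h2, h3⟩ := exists_comm ho (inf_le_left.trans inf_le_left) nΓ mx hne bH
    exact fin ρ hρ _ h1 (pow_orderOf_eq_one ρ) h2 h3

end Exc

theorem cent_norm {p : ℕ} [hp : Fact p.Prime] {T E : Subgroup G} (hT : SylIn p T ⊤)
    (hc : AmbChar.CharP p (⊤ : Subgroup G)) (hE : IsBaumannBlock p T E) : 𝐂 (Wb p E) ≤ 𝐍 E := by
  have h := blk_of hE
  by_cases nA : ⁅Pb p T E, E⁆ ≤ Zo p E
  · exact caseA h hT hc nA
  obtain ⟨-, -, -, -, h5⟩ := hE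
  rw [bau_eq] at h5
  rcases h5 with ⟨F, _, _, n, hF, ⟨e⟩, a, h5 | ⟨rfl, a', b1, -, b2, b3, b4⟩⟩ | ⟨rfl, m, -, -, h5⟩
  · exact absurd ((PEQ h hT).trans h5.le) nA
  · obtain ⟨d₁, r₁⟩ := H6Nat.acts_iff.1 a
    obtain ⟨d₂, r₂⟩ := H6Nat.acts_iff.1 a'
    haveI : CharP F 3 := charP_of_card (n := n) (by rw [Nat.card_eq_fintype_card, hF])
    refine Exc.main (F := F) ⟨h, hT, hc, d₁, d₂, r₁, r₂, eq_of_idx (inf_le_right.trans d₂.le_Kn) ?_, b1,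
      ?_, fun b hb hb' e => b4 b hb hb' (b2 ▸ e), nA⟩
    · rw [← card_quot, Nat.card_congr e.toEquiv, ← r₂, d₂.card_rim le_rfl]; rfl
    · rw [Nat.card_eq_fintype_card (α := F), hF, ← b3, b2]; rfl
  · exact absurd ((PEQ h hT).trans h5.le) nA

end CA.H8Exc
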