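import Cfsg.Agent.Lib.Loc.H8Exc6

/-! Blocks: two blocks that centralize each other's module, or share it. -/

set_option autoImplicit false
set_option linter.unusedSectionVars false

namespace CA.H8Exc

open Subgroup Cfsg CA.Amb CA.AmbSyl CA.AmbCore CA.AmbRes CA.AmbSpe CA.H6Nat CA.H6Nat2 CA.H6J CA.H6Bau
open CA.H6Am1 CA.H6Am2 CA.H6Blk CA.H6TV2
open scoped commutatorElement MatrixGroups Matrix

universe u

variable {G : Type u} [Group G] [Finite G]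

namespace Exc

variable {F : Type} [Field F] [Finite F] [CharP F 3] {T E : Subgroup G} (x : Exc F T E)
include x

local notation "Q" => pCoreOf 3 E
local notation "W₀" => Zo 3 E
local notation "Z" => Zo 3 E ⊓ 𝐂 E
local notation "W" => Wb 3 E
local notation "P" => Pb 3 T E
local notation "H" => Hb 3 T E

theorem gam : H ⊓ 𝐂 W ⊓ (𝐂 Z ⊓ Kn P Q) ≤ P := by
  obtain ⟨t, ht, tt, rt⟩ := x.exists_t
  obtain ⟨b, bB, qW, qQ, nq⟩ := x.exists_b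
  have d := x.dat ht tt rt
  have hP : IsPGroup 3 P := isPGroup_pCoreOf _ _
  have PH : P ≤ H := pCoreOf_le _ _
  have hW := HW x.h
  have HC : H ≤ 𝐍 (𝐂 W) := norm_centralizer hW
  have bH : b ∈ H := BH bB
  have HE : H ≤ 𝐍 E := sup_le x.main (nE x.h)
  have HQ : H ≤ 𝐍 Q := norm_pCoreOf_of_norm HE
  have HZ : H ≤ 𝐍 Z := x.QQ ▸ norm_commutator HQ HQ
  have c0 : ∀ {ρ}, ρ ∈ 𝐂 W → (∀ z ∈ Z, ρ * z * ρ⁻¹ = z) → ∀ v ∈ Q ⊓ 𝐂 P, ρ * v * ρ⁻¹ = v := by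
    intro ρ h1 h2 v hv
    obtain ⟨z, hz, w, hw, rfl⟩ := d.dec0 v hv.1 hv.2
    calc _ = ρ * z * ρ⁻¹ * (ρ * w * ρ⁻¹) := by group
      _ = _ := by rw [h2 z hz, ← mem_centralizer_sub.1 h1 w hw, mul_inv_cancel_right]
  have mx : ∀ X ≤ H, IsPGroup 3 X → H ≤ 𝐍 X → X ≤ P := fun X h1 h2 h3 => le_pCoreOf h1 h2 h3
  have H0 : H ≤ 𝐍 (Q ⊓ 𝐂 P) := norm_inf HQ (norm_centralizer HP)
  set Γ : Subgroup G := H ⊓ 𝐂 W ⊓ (𝐂 Z ⊓ Kn P Q) with hΓ
  have nK : H ≤ 𝐍 (𝐂 Z ⊓ Kn P Q) := norm_inf (norm_centralizer HZ) (norm_Kn HP HQ)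
  have nΓ : H ≤ 𝐍 Γ := norm_inf (norm_inf le_normalizer HC) nK
  by_contra hne
  have zz : ∀ ρ ∈ Γ, ∀ z ∈ Z, ρ * z * ρ⁻¹ = z := fun ρ hρ z hz => by
    rw [← mem_centralizer_sub.1 hρ.2.1 z hz, mul_inv_cancel_right]
  have stP : ∀ ρ ∈ Γ, (∀ y ∈ Q, ⁅ρ, y⁆ ∈ Q ⊓ 𝐂 P) → ρ ∈ P := fun ρ hρ k => by
    have r0 := c0 hρ.1.2 (zz ρ hρ)
    exact st_le x.h x.hT x.hc HQ H0 H0 ⟨hρ.1.1, mem_St (HP hρ.1.1) (HQ hρ.1.1) (H0 hρ.1.1)
      (mem_centralizer_sub.2 fun v hv => (eq_mul_of_mul_inv_eq (r0 v hv)).symm) (mem_Kn'.1 hρ.2.2).2 k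
      fun v hv => mul_mem (conj_mem_of_mem_normalizer (H0 hρ.1.1) hv) (inv_mem hv)⟩
  have fp : ∀ ρ ∈ Γ, ∀ k : ℕ, k.Coprime 3 → ρ ^ k = 1 → ρ ≠ 1 → ∀ y ∈ Q, ⁅ρ, y⁆ ∈ 𝐂 P → y ∈ 𝐂 P :=
    fun ρ hρ k hk e n1 => (d.fpf (HP hρ.1.1) (HQ hρ.1.1) (zz ρ hρ) hk e).resolve_left fun k' =>
      n1 (eq_one_of_pg hP (stP ρ hρ fun y hy => mem_inf.2 ⟨mul_mem
        (conj_mem_of_mem_normalizer (HQ hρ.1.1) hy) (inv_mem hy), k' y hy⟩) hk e)
  have fin : ∀ ρ ∈ Γ, ∀ k : ℕ, k.Coprime 3 → ρ ^ k = 1 → ρ ≠ 1 → ⁅ρ, b * ρ * b⁻¹⁆ ∈ P → False :=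
    fun ρ hρ k hk e n1 h5 => nq fun a ha => d.fin (HQ hρ.1.1) (c0 hρ.1.2 (zz ρ hρ))
      (mem_Kn'.1 hρ.2.2).2 (fp ρ hρ k hk e n1) (HP bH) (HQ bH) (HZ bH) (hW bH) h5 qW qQ ha
  rcases Nat.even_or_odd (Nat.card Γ) with ho | ho
  · haveI : Fact (Nat.Prime 2) := ⟨Nat.prime_two⟩
    obtain ⟨⟨r, hr⟩, ho⟩ := exists_prime_orderOf_dvd_card' 2 (even_iff_two_dvd.1 ho)
    rw [← orderOf_coe] at ho
    have r2 : r ^ 2 = 1 := ho ▸ pow_orderOf_eq_one r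
    have r1 : r ≠ 1 := fun e => by simp [e] at ho
    have hr' := conj_mem_of_mem_normalizer (nΓ bH) hr
    have r2' : (b * r * b⁻¹) ^ 2 = 1 := by rw [conj_pow, r2]; group
    have r1' : b * r * b⁻¹ ≠ 1 := fun e => r1 (by simpa using e)
    have iv : ∀ s ∈ Γ, s ^ 2 = 1 → s ≠ 1 → ∀ y ∈ Q, y * (s * y * s⁻¹) ∈ Q ⊓ 𝐂 P := fun s hs e n1 y hy =>
      ⟨mul_mem hy (conj_mem_of_mem_normalizer (HQ hs.1.1) hy), d.inv_of_fpf (HQ hs.1.1)
        (by rw [← pow_two, e]) (fp s hs 2 (by decide) e n1) hy⟩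
    have := stP _ (mul_mem hr hr') fun y hy => inv_inv_sec ((d.QP.trans PH).trans H0) (H0 hr.1.1)
      (iv r hr r2 r1) (iv _ hr' r2' r1') hy
    refine fin r hr 2 (by decide) r2 r1 ?_
    rw [commutatorElement_def, inv_eq_of_mul_eq_one_right ((pow_two r).symm.trans r2),
      inv_eq_of_mul_eq_one_right ((pow_two _).symm.trans r2'), mul_assoc (r * _)]
    exact mul_mem this this
  · obtain ⟨ρ, hρ, h1, h2, h3⟩ := exists_comm ho (inf_le_left.trans inf_le_left) nΓ mx hne bH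
    exact fin ρ hρ _ h1 (pow_orderOf_eq_one ρ) h2 h3

theorem ZW {z : G} (hz : z ∈ Z) (hw : z ∈ W) : z = 1 := by
  obtain ⟨t, ht, tt, rt⟩ := x.exists_t
  exact (x.dat ht tt rt).ZW hz hw

/-- an element commuting with `E` on `Q/W₀` moves vectors inside their perp -/
theorem para {φ : G} (hφ : φ ∈ 𝐍 E) (hc : ∀ e ∈ E, ⁅φ, e⁆ ∈ Q) {a : G} (ha : a ∈ Q) (ha0 : a ∉ W₀) :
    ⁅φ * a * φ⁻¹, a⁆ = 1 := by
  have φQ := normalizer_le_pCoreOf 3 E hφ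
  have φ0 : φ ∈ 𝐍 W₀ := norm_OZ (normalizer_le_pCoreOf 3 E) hφ
  have cq : ∀ {u}, u ∈ Q → φ * u * φ⁻¹ ∈ Q := fun hu => conj_mem_of_mem_normalizer φQ hu
  have cs : ∀ u ∈ Q, u ∉ W₀ → ⁅φ * u * φ⁻¹, u⁆ = ⁅φ * a * φ⁻¹, a⁆ := fun u hu hu0 => by
    obtain ⟨e, he, e1⟩ := x.trans0 ha ha0 hu hu0
    have ea := x.d₂.conj_mem he ha
    have e2 : e * (φ * a * φ⁻¹) * e⁻¹ * (φ * u * φ⁻¹)⁻¹ ∈ W₀ := by
      have k1 := x.d₂.der_le (commutator_mem_commutator (inv_mem (hc e he)) (cq ea))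
      have := mul_mem k1 (conj_mem_of_mem_normalizer φ0 e1)
      convert this using 1; simp only [commutatorElement_def]; group
    rw [← cc (x.qq (cq ha) ha).2 he, cm_conj, cm_eq_l (cq hu) ea (W0C e2), cm_eq_r (cq hu) hu (W0C e1)]
  obtain ⟨z, hz, z1⟩ := x.Zne
  obtain ⟨y, hy, rfl⟩ := x.onto0 ha ha0 hz
  have c := fun {u v : G} (hu : u ∈ Q) (hv : v ∈ Q) => W0C (x.qq hu hv).1
  have iv : ∀ {u v : G}, u ∈ Q → v ∈ Q → ⁅u, v⁻¹⁆ = ⁅u, v⁆⁻¹ := fun {u v} hu hv => by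
    have := cm_r (x := u) hv (c hu (inv_mem hv))
    rw [mul_inv_cancel, commutatorElement_one_right] at this
    exact eq_inv_of_mul_eq_one_right this.symm
  have iv' : ∀ {u v : G}, u ∈ Q → v ∈ Q → ⁅u⁻¹, v⁆ = ⁅u, v⁆⁻¹ := fun {u v} hu hv => by
    rw [← commutatorElement_inv, iv hv hu, commutatorElement_inv]
  have n0 : ∀ {v}, v ∈ Q → ⁅a, v⁆ ≠ 1 → a * v ∉ W₀ := fun {v} hv h1 e => h1 (by
    have := cm_c' (W0C e) ha
    rwa [cm_r ha (c ha hv), commutatorElement_self, one_mul] at this)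
  have h1 := cs y hy fun e => z1 (cm_c' (W0C e) ha)
  have h2 := cs _ (mul_mem ha hy) (n0 hy z1)
  have h3 := cs _ (mul_mem ha (inv_mem hy)) (n0 (inv_mem hy) (by rw [iv ha hy]; exact inv_ne_one.2 z1))
  rw [show φ * (a * y) * φ⁻¹ = φ * a * φ⁻¹ * (φ * y * φ⁻¹) by group,
    cm_l (cq ha) (c (cq hy) (mul_mem ha hy)), cm_r ha (c (cq hy) hy), cm_r ha (c (cq ha) hy), h1] at h2
  rw [show φ * (a * y⁻¹) * φ⁻¹ = φ * a * φ⁻¹ * (φ * y * φ⁻¹)⁻¹ by group,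
    cm_l (cq ha) (c (inv_mem (cq hy)) (mul_mem ha (inv_mem hy))), iv' (cq hy) (mul_mem ha (inv_mem hy)),
    cm_r ha (c (cq hy) (inv_mem hy)), cm_r ha (c (cq ha) (inv_mem hy)), iv (cq hy) hy, iv (cq ha) hy,
    h1] at h3
  have m1 := (x.qq (cq ha) ha).1
  have m2 := (x.qq (cq hy) ha).1
  have m3 := (x.qq (cq ha) hy).1
  have c3 := (mem_OZ.1 m1).2.2
  have s1 := mem_centralizer_sub.1 (W0C m1) _ (Zo_le 3 E m2)
  have s2 := mem_centralizer_sub.1 (W0C m1) _ (Zo_le 3 E m3)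
  have s3 := mem_centralizer_sub.1 (W0C m2) _ (Zo_le 3 E m3)
  generalize ⁅φ * a * φ⁻¹, a⁆ = c at *
  generalize ⁅φ * y * φ⁻¹, a⁆ = u at *
  generalize ⁅φ * a * φ⁻¹, y⁆ = v at *
  have k2 : u * c * v = 1 := by
    apply mul_left_cancel (a := c)
    rw [mul_one, ← mul_assoc, ← mul_assoc, ← s1, mul_assoc (u * c)]; exact h2
  have k3 : c = u * v := by
    have : u⁻¹ * (c * v⁻¹) = 1 := by
      apply mul_left_cancel (a := c)
      rw [mul_one]; nth_rewrite 3 [← h3]; group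
    calc c = u * (u⁻¹ * (c * v⁻¹)) * v := by group
      _ = u * v := by rw [this]; group
  refine eq_one_of_23 ?_ c3
  nth_rewrite 2 [k3]
  rw [← k2, s1, mul_assoc]

end Exc

section gen

variable {p : ℕ} [hp : Fact p.Prime] {T E : Subgroup G}

abbrev Vv (p : ℕ) (G : Type u) [Group G] : Subgroup G := OZ p (pCoreOf p ⊤)

omit hp in
theorem nV {L : Subgroup G} : L ≤ 𝐍 (Vv p G) := norm_OZ (le_top.trans (norm_pCoreOf _ _))

theorem WW (h : Blk p T E) : ⁅Wb p E, E⁆ = Wb p E :=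
  AmbChar.comm_comm_of_res_eq (isPGroup_OZ _ _) (norm_Zo p E) h.res

theorem WV (h : Blk p T E) (hT : SylIn p T ⊤) (hc : AmbChar.CharP p (⊤ : Subgroup G)) :
    ⁅Vv p G, E⁆ = Wb p E := by
  refine le_antisymm ?_ ((WW h).ge.trans (commutator_mono (h.W_le hT hc) le_rfl))
  have h1 : ⁅Vv p G, E⁆ ≤ pCoreOf p E := (commutator_mono (OZ_le _ _) le_rfl).trans (h.comm_O hT)
  have h2 : ⁅Vv p G, E⁆ ≤ Zo p E := by
    rcases h.ty with e | ⟨i, e⟩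
    · exact h1.trans e.le
    by_contra hn
    have h3 := i.irr _ h1 (norm_comm_right _ _) hn
    have h4 : ⁅Vv p G, E⁆ ≤ Vv p G := commutator_le_left_of_norm nV
    refine e (comm_eq_bot_of_le (h3.trans (sup_le ?_ (OZ_le_cent _ _))))
    refine le_trans ?_ (centralizer_anti h3)
    rw [centralizer_sup]
    exact le_inf (h4.trans ((ea_le_cent (ea_OZ _ _)).trans (centralizer_anti h4))) (h1.trans (Q_cent p E))
  have := AmbChar.comm_res_le_of_le (isPGroup_OZ p (pCoreOf p (⊤ : Subgroup G))) (L := E) nV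
    (show _ ≤ Zo p E by rwa [h.res])
  rwa [h.res] at this

theorem irrW (h : Blk p T E) {Y : Subgroup G} (hY : Y ≤ Wb p E) (hn : E ≤ 𝐍 Y) (h1 : ¬ Y ≤ 𝐂 E) :
    Wb p E ≤ Y := by
  have h0 : Y ≤ Zo p E := hY.trans (commutator_le_left_of_norm (norm_Zo p E))
  refine (commutator_mono (h.irr.irr Y h0 hn fun e => h1 (e.trans inf_le_right)) le_rfl).trans
    (comm_sup_le le_normalizer (norm_of_centralizer ((inf_le_left.trans (OZ_le_cent _ _)).trans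
      (centralizer_anti (h0.trans (Zo_le p E))))) (commutator_le_left_of_norm hn) ?_)
  rw [comm_eq_bot_of_le inf_le_right]; exact bot_le

theorem W_eq_Q (h : Blk p T E) (e : pCoreOf p E = Zo p E) : Wb p E = pCoreOf p E := by
  rw [Wb, ← e, h.cQ]

theorem three_of (hE : IsBaumannBlock p T E) (h : pCoreOf p E ≠ Zo p E) : p = 3 := by
  obtain ⟨-, -, -, -, h5⟩ := hE
  rcases h5 with ⟨F, _, _, n, -, -, -, h5 | ⟨e, -⟩⟩ | ⟨-, m, -, -, h5⟩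
  exacts [absurd h5 h, e, absurd h5 h]

omit hp in
theorem exc_of (hT : SylIn 3 T ⊤) (hc : AmbChar.CharP 3 (⊤ : Subgroup G)) (hE : IsBaumannBlock 3 T E)
    (nA : ¬ ⁅Pb 3 T E, E⁆ ≤ Zo 3 E) :
    ∃ (F : Type) (_ : Field F) (_ : Finite F) (_ : CharP F 3), Nonempty (Exc F T E) := by
  have h := blk_of hE
  obtain ⟨-, -, -, -, h5⟩ := hE
  rw [bau_eq] at h5
  rcases h5 with ⟨F, _, _, n, hF, ⟨e⟩, a, h5 | ⟨-, a', b1, -, b2, b3, b4⟩⟩ | ⟨-, m, -, -, h5⟩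
  · exact absurd ((PEQ h hT).trans h5.le) nA
  · obtain ⟨d₁, r₁⟩ := H6Nat.acts_iff.1 a
    obtain ⟨d₂, r₂⟩ := H6Nat.acts_iff.1 a'
    haveI : CharP F 3 := charP_of_card (n := n) (by rw [Nat.card_eq_fintype_card, hF])
    refine ⟨F, inferInstance, inferInstance, inferInstance, ⟨⟨h, hT, hc, d₁, d₂, r₁, r₂,
      eq_of_idx (inf_le_right.trans d₂.le_Kn) ?_, b1, ?_, fun b hb hb' e => b4 b hb hb' (b2 ▸ e), nA⟩⟩⟩
    · rw [← card_quot, Nat.card_congr e.toEquiv, ← r₂, d₂.card_rim le_rfl]; rfl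
    · rw [Nat.card_eq_fintype_card (α := F), hF, ← b3, b2]; rfl
  · exact absurd ((PEQ h hT).trans h5.le) nA

theorem nA_of (h : Blk p T E) (hT : SylIn p T ⊤) {D : Subgroup G} (hD : D ≤ Pb p T E)
    (h1 : pCoreOf p E ≤ D ⊔ Zo p E) (h2 : pCoreOf p E ≠ Zo p E) : ¬ ⁅Pb p T E, E⁆ ≤ Zo p E := fun e =>
  h2 (le_antisymm (h.cQ.ge.trans ((commutator_mono h1 le_rfl).trans (comm_sup_le
    (hD.trans (norm_OZ (norm_pCoreOf_of_norm (PE h hT)))) le_normalizer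
    ((commutator_mono hD le_rfl).trans e) (commutator_le_left_of_norm (norm_Zo p E))))) (Zo_le p E))

theorem comm_of_cent {F : Subgroup G} (hF : pResidualOf p F = F) (h1 : ⁅E, F⁆ ≤ pCoreOf p E)
    (h2 : F ≤ 𝐂 (pCoreOf p E)) : ⁅E, F⁆ = ⊥ := by
  refine comm_eq_bot_of_le' (hF.ge.trans (res_le_iff.2 fun f hf ho => mem_centralizer_sub.2 fun e he => ?_))
  have k : ∀ n : ℕ, ⁅e, f ^ n⁆ = ⁅e, f⁆ ^ n := fun n => by
    induction n with
    | zero => simp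
    | succ n ih => rw [pow_succ, cm_r (pow_mem hf n) (cent_symm h2 (h1 (commutator_mem_commutator he hf))),
        ih, pow_succ]
  have k1 := k (orderOf f)
  rw [pow_orderOf_eq_one, commutatorElement_one_right] at k1
  obtain ⟨j, hj⟩ := isPGroup_pCoreOf p E ⟨_, h1 (commutator_mem_commutator he hf)⟩
  have hj' : ⁅e, f⁆ ^ p ^ j = 1 := congrArg Subtype.val hj
  exact commutatorElement_eq_one_iff_mul_comm.1 (orderOf_eq_one_iff.1 (Nat.eq_one_of_dvd_coprimes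
    (ho.pow_right j) (orderOf_dvd_of_pow_eq_one k1.symm) (orderOf_dvd_of_pow_eq_one hj')))

theorem centQ (hE : IsBaumannBlock p T E) {F : Subgroup G} (hF : pResidualOf p F = F) (n : F ≤ 𝐍 E)
    (h1 : F ≤ 𝐂 (Wb p E)) (h2 : ⁅pCoreOf p E, F⁆ ≤ Zo p E) : F ≤ 𝐂 (pCoreOf p E) := by
  have h := blk_of hE
  by_cases e : pCoreOf p E = Zo p E
  · rwa [W_eq_Q h e] at h1
  have QQ : ⁅pCoreOf p E, pCoreOf p E⁆ = Zo p E ⊓ 𝐂 E := by
    obtain ⟨-, -, -, -, h5⟩ := hE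
    rcases h5 with ⟨F, _, _, n, -, -, -, h5 | ⟨-, -, b, -⟩⟩ | ⟨-, m, -, -, h5⟩
    exacts [absurd h5 e, b, absurd h5 e]
  have nQ := norm_pCoreOf_of_norm (p := p) n
  have h3 : Zo p E ≤ 𝐂 F := by
    refine h.Zo_le.trans (sup_le (cent_symm h1) (QQ.ge.trans (commutator_le.2 fun a ha b hb => ?_)))
    refine mem_centralizer_sub.2 fun j hj => ?_
    have k : ∀ a ∈ pCoreOf p E, j * a * j⁻¹ * a⁻¹ ∈ 𝐂 (pCoreOf p E) := fun a ha =>
      OZ_le_cent _ _ (cm_swap (h2 (commutator_mem_commutator ha hj)))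
    have := cm_conj j a b
    rw [cm_eq_l ha (conj_mem_of_mem_normalizer (nQ hj) hb) (k a ha), cm_eq_r ha hb (k b hb)] at this
    exact eq_mul_of_mul_inv_eq this
  exact hF.ge.trans (AmbChar.res_le_cent_of_comm_le (isPGroup_pCoreOf p E) nQ (by rw [hF]; exact h2.trans h3))

variable {T' F : Subgroup G} (hT : SylIn p T ⊤) (hT' : SylIn p T' ⊤) (hc : AmbChar.CharP p (⊤ : Subgroup G))
  (hE : IsBaumannBlock p T E) (hF : IsBaumannBlock p T' F) (hO : pCoreOf p E ≤ pCoreOf p ⊤)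
include hT hT' hc hE hF hO

theorem comm_blk (h1 : F ≤ 𝐂 (Wb p E)) (h2 : E ≤ 𝐂 (Wb p F)) : ⁅E, F⁆ = ⊥ := by
  have h := blk_of hE
  have h' := blk_of hF
  have n1 := h1.trans (cent_norm hT hc hE)
  have n2 := h2.trans (cent_norm hT' hc hF)
  have k1 : ⁅E, F⁆ ≤ pCoreOf p E := le_trans (le_inf (commutator_le_left_of_norm n1)
    ((commutator_mono le_rfl h1).trans (commutator_le_right_of_norm
      (norm_centralizer (le_normalizer.trans nW_of))))) h.inf_cent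
  have k2 : ⁅F, E⁆ ≤ pCoreOf p F := le_trans (le_inf (commutator_le_left_of_norm n2)
    ((commutator_mono le_rfl h2).trans (commutator_le_right_of_norm
      (norm_centralizer (le_normalizer.trans nW_of))))) h'.inf_cent
  by_cases a1 : ⁅pCoreOf p E, F⁆ ≤ Zo p E
  · exact comm_of_cent h'.res k1 (centQ hE h'.res n1 h1 a1)
  by_cases a2 : ⁅pCoreOf p F, E⁆ ≤ Zo p F
  · rw [Subgroup.commutator_comm]; exact comm_of_cent h.res k2 (centQ hF h.res n2 h2 a2)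
  exfalso
  have b1 : ⁅pCoreOf p E, F⁆ ≤ pCoreOf p E ⊓ pCoreOf p F :=
    (commutator_mono (pCoreOf_le _ _) le_rfl).trans (le_inf k1 (comm_swap k2))
  have b2 : ⁅pCoreOf p F, E⁆ ≤ pCoreOf p E ⊓ pCoreOf p F :=
    (commutator_mono (pCoreOf_le _ _) le_rfl).trans (le_inf (comm_swap k1) k2)
  have e1 : pCoreOf p E ≠ Zo p E := fun e => a1 ((b1.trans inf_le_left).trans e.le)
  have e2 : pCoreOf p F ≠ Zo p F := fun e => a2 ((b2.trans inf_le_right).trans e.le)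
  obtain rfl := three_of hE e1
  have i1 := (h.ty.resolve_left e1).1
  have i2 := (h'.ty.resolve_left e2).1
  have c1 := (i1.irr _ (b1.trans inf_le_left) (norm_commutator (norm_pCoreOf _ _) n2) a1).trans
    (sup_le_sup_right b1 _)
  have c2 := (i2.irr _ (b2.trans inf_le_right) (norm_commutator (norm_pCoreOf _ _) n1) a2).trans
    (sup_le_sup_right b2 _)
  obtain ⟨K, _, _, _, ⟨x⟩⟩ := exc_of hT hc hE (nA_of h hT ((inf_le_left.trans hO).trans (OP h hT hc)) c1 e1)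
  obtain ⟨K', _, _, _, ⟨x'⟩⟩ := exc_of hT' hc hF
    (nA_of h' hT' ((inf_le_left.trans hO).trans (OP h' hT' hc)) c2 e2)
  have dc : ∀ a ∈ pCoreOf 3 E, ∃ d ∈ pCoreOf 3 E ⊓ pCoreOf 3 F, a * d⁻¹ ∈ Zo 3 E := fun a ha => by
    have := c1 ha
    rw [sup_comm, mem_sup_of_norm' (inf_le_left.trans i1.normU)] at this
    obtain ⟨z, hz, b, hb, rfl⟩ := this
    exact ⟨b, hb, by rwa [mul_inv_cancel_right]⟩
  obtain ⟨a₀, ha₀, ha₀'⟩ := SetLike.not_le_iff_exists.1 i1.nle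
  obtain ⟨a, ha, e⟩ := dc a₀ ha₀
  have ha' : a ∉ Zo 3 E := fun k => ha₀' ((Subgroup.mul_mem_cancel_right _ (inv_mem k)).1 e)
  obtain ⟨z, hz, z1⟩ := x.Zne
  obtain ⟨y₀, hy₀, rfl⟩ := x.onto0 ha.1 ha' hz
  obtain ⟨y, hy, e'⟩ := dc y₀ hy₀
  rw [cm_eq_r ha.1 hy.1 (Exc.W0C e')] at z1
  obtain ⟨φ, hφ, e3⟩ := x'.trans0 ha.2 (fun k => z1 (cm_c (Exc.W0C k) hy.2)) hy.2
    fun k => z1 (cm_c' (Exc.W0C k) ha.2)
  have := x.para (n1 hφ) (fun e he => comm_swap k1 (commutator_mem_commutator hφ he)) ha.1 ha'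
  rw [cm_eq_l hy.2 ha.2 (Exc.W0C e3)] at this
  exact z1 (by rw [← commutatorElement_inv, this, inv_one])

omit hT' hF in
theorem same0 (hF : pResidualOf p F = F) (h1 : F ≤ E ⊔ 𝐂 (Wb p E)) (h2 : ⁅Pb p T E, F⁆ ≤ pCoreOf p E)
    (h3 : ⁅Vv p G, F⁆ ≤ Wb p E) : F ≤ E := by
  have h := blk_of hE
  have FH : E ⊔ F ≤ Hb p T E := sup_le EH (h1.trans (sup_le EH le_sup_left))
  have n : E ⊔ F ≤ 𝐍 E := FH.trans (sup_le (cent_norm hT hc hE) (nE h))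
  have k : E ⊔ F ≤ Kn (Pb p T E) (pCoreOf p E) :=
    sup_le (le_Kn_iff.2 ⟨norm_pCoreOf _ _, PEQ h hT⟩)
      (le_Kn_iff.2 ⟨norm_pCoreOf_of_norm (le_sup_right.trans n), h2⟩)
  have R : 𝐂 (Wb p E) ⊓ (E ⊔ F) ≤ Pb p T E := by
    by_cases e : pCoreOf p E = Zo p E
    · rw [← W_eq_Q h e] at k
      exact (inf_le_inf_left _ k).trans (kn_le h hT hc)
    obtain rfl := three_of hE e
    obtain ⟨K, _, _, _, ⟨x⟩⟩ := exc_of hT hc hE (nA_of h hT (hO.trans (OP h hT hc)) le_sup_left e)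
    refine le_trans (le_inf (le_inf (inf_le_right.trans FH) inf_le_left)
      (inf_le_right.trans (le_inf (sup_le (cent_symm inf_le_right) ?_) k))) x.gam
    have ZV : Zo 3 E ⊓ 𝐂 E ≤ Vv 3 G := le_OZ ((inf_le_left.trans (Zo_le 3 E)).trans hO)
      ((inf_le_left.trans x.W0P).trans (centralizer_anti (OP h hT hc))) fun a ha => (mem_OZ.1 ha.1).2.2
    refine commutator_eq_bot_iff'.1 (eq_bot_iff.2 fun z hz => mem_bot.2 (x.ZW ?_ ?_))
    · exact commutator_le_left_of_norm (norm_inf (norm_OZ (norm_pCoreOf_of_norm (le_sup_right.trans n)))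
        (norm_centralizer (le_sup_right.trans n))) hz
    · exact h3 (commutator_mono ZV le_rfl hz)
  have l : F ≤ Pb p T E ⊔ E := by
    have := sup_inf_of_norm (H := E) (N := 𝐂 (Wb p E)) (L := E ⊔ F)
      (norm_centralizer (le_normalizer.trans nW_of)) le_sup_left
    refine (le_inf h1 le_sup_right).trans (this.le.trans (sup_le le_sup_right (R.trans le_sup_left)))
  have := res_mono (p := p) l
  rwa [hF, res_sup_eq (isPGroup_pCoreOf _ _) (PE h hT), h.res] at this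

theorem same_blk (h0 : Wb p F ≤ Wb p E) (h1 : F ≤ E ⊔ 𝐂 (Wb p E))
    (h2 : pCoreOf p F ≠ Zo p F → ¬ ⁅Pb p T E, F⁆ ≤ Zo p F → E ≤ 𝐍 F ∧ ¬ ⁅Pb p T' F, F⁆ ≤ Zo p F) :
    F ≤ E := by
  have h := blk_of hE
  have h' := blk_of hF
  refine same0 hT hc hE hO h'.res h1 ?_ ((WV h' hT' hc).le.trans h0)
  have FH : F ≤ Hb p T E := h1.trans (sup_le EH le_sup_left)
  have n : F ≤ 𝐍 E := FH.trans (sup_le (cent_norm hT hc hE) (nE h))
  have k : ⁅Pb p T E, F⁆ ≤ pCoreOf p F := le_pCoreOf (commutator_le_right_of_norm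
    (((cent_symm (WC h hT)).trans (centralizer_anti h0)).trans (cent_norm hT' hc hF)))
    ((isPGroup_pCoreOf p _).to_le (commutator_le_left_of_norm (FH.trans HP))) (norm_comm_right _ _)
  by_cases a : ⁅Pb p T E, F⁆ ≤ Zo p F
  · have := AmbChar.comm_res_le_of_le (isPGroup_pCoreOf p (Hb p T E)) (FH.trans HP)
      (show _ ≤ Zo p F by rwa [h'.res])
    rw [h'.res] at this
    exact (this.trans h0).trans ((commutator_le_left_of_norm (norm_Zo p E)).trans (Zo_le p E))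
  have e : pCoreOf p F ≠ Zo p F := fun e => a (k.trans e.le)
  obtain ⟨n', nA⟩ := h2 e a
  obtain rfl := three_of hF e
  obtain ⟨K, _, _, _, ⟨x⟩⟩ := exc_of hT' hc hF nA
  obtain ⟨m, hm, m', hm', q⟩ := q8 (F := K)
  obtain ⟨f₁, hf₁, rfl⟩ := (x.d₁.mem_rim le_rfl).1 (x.r₁.ge hm)
  obtain ⟨f₂, hf₂, rfl⟩ := (x.d₁.mem_rim le_rfl).1 (x.r₁.ge hm')
  obtain ⟨e, he, c, hc', rfl⟩ := (mem_sup_of_norm (norm_centralizer (le_normalizer.trans nW_of))).1 (h1 hf₁)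
  have τE : ⁅e, f₂⁆ ∈ E := commutator_le_left_of_norm n (commutator_mem_commutator he hf₂)
  have τF : ⁅e, f₂⁆ ∈ F := commutator_le_right_of_norm n' (commutator_mem_commutator he hf₂)
  have m12 : ⁅e * c, f₂⁆ ∈ F := comm_le_of_le le_rfl le_rfl (commutator_mem_commutator hf₁ hf₂)
  have cF := centralizer_anti h0 hc'
  have nC : 𝐍 F ≤ 𝐍 (𝐂 (Wb 3 F)) := norm_centralizer nW_of
  have u : ⁅e * c, f₂⁆ * ⁅e, f₂⁆⁻¹ ∈ pCoreOf 3 F := h'.inf_cent (mem_inf.2 ⟨mul_mem m12 (inv_mem τF), by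
    have := conj_mem_of_mem_normalizer (nC (n' he)) (mul_mem cF
      (conj_mem_of_mem_normalizer (nC (le_normalizer hf₂)) (inv_mem cF)))
    convert this using 1; simp only [commutatorElement_def]; group⟩)
  have r1 := (x.d₁.mem_Kn (mul_mem m12 (inv_mem τF))).1 (le_Kn_iff.2 ⟨(pCoreOf_le _ _).trans x.d₁.norm₀,
    comm_bot_le' (Q_cent 3 F)⟩ u)
  rw [x.d₁.r_mul m12 (inv_mem τF), x.d₁.r_inv τF, mul_inv_eq_one, commutatorElement_def (e * c),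
    x.d₁.r_mul (mul_mem (mul_mem hf₁ hf₂) (inv_mem hf₁)) (inv_mem hf₂), x.d₁.r_conj hf₁ hf₂,
    x.d₁.r_inv hf₂, ← commutatorElement_def, q] at r1
  generalize ⁅e, f₂⁆ = τ at *
  obtain ⟨j, hj⟩ := isPGroup_pCoreOf 3 F ⟨τ * τ, x.r1Q (mul_mem τF τF) (by rw [x.d₁.r_mul τF τF, ← r1]; simp)⟩
  have hj' : (τ * τ) ^ 3 ^ j = 1 := congrArg Subtype.val hj
  obtain ⟨i, hi⟩ : Odd (3 ^ j) := Odd.pow (by decide)
  have d := x.dat (pow_mem τF (3 ^ j)) (by rw [← hj', (Commute.refl τ).mul_pow])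
    (by rw [x.d₁.r_pow τF, ← r1, hi, pow_succ, pow_mul]; simp)
  have l : pCoreOf 3 F ≤ E := d.le_of fun y hy => commutator_le_right_of_norm n
    (commutator_mem_commutator (pCoreOf_le _ _ hy) (pow_mem τE _))
  exact k.trans (le_pCoreOf l (isPGroup_pCoreOf _ _) (norm_pCoreOf_of_norm n'))

end gen

end CA.H8Exc
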