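import Cfsg.Agent.Lib.Loc.H8Exc7
import Cfsg.Agent.Lib.Lin.SLnCard
import Cfsg.Agent.Lib.Grp.Comp
import Cfsg.Agent.S0144

/-! Blocks: the transfer map, small blocks. -/

set_option autoImplicit false
set_option linter.unusedSectionVars false

namespace CA.H8Exc

open Subgroup Cfsg CA.Amb CA.AmbSyl CA.AmbCore CA.AmbRes CA.AmbSpe CA.H6Nat CA.H6Nat2 CA.H6J CA.H6Bau
open CA.H6Am1 CA.H6Am2 CA.H6Blk CA.H6TV2 CA.H6PD
open scoped commutatorElement MatrixGroups Matrix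

universe u

variable {G : Type u} [Group G] [Finite G]

theorem exists_tr {V L S : Subgroup G} (hV : V ≤ 𝐂 V) (hL : L ≤ 𝐍 V) : ∃ τ : G → G,
    (∀ v ∈ V, τ v ∈ V) ∧ (∀ v ∈ V, ∀ v' ∈ V, τ (v * v') = τ v * τ v') ∧
    (∀ g ∈ 𝐍 V, ∀ h ∈ 𝐍 V, h ∈ 𝐍 S → (∀ l ∈ L, g * l * h⁻¹ ∈ L) → ∀ v ∈ V ⊓ 𝐂 S,
      τ (h * v * h⁻¹) = g * τ v * g⁻¹) ∧
    (∀ v ∈ V ⊓ 𝐂 L, τ v = v ^ S.relIndex L) ∧ ∀ v ∈ V, v ^ S.relIndex L * (τ v)⁻¹ ∈ ⁅V, L⁆ := by
  classical
  letI : CommGroup V := { (inferInstance : Group V) with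
    mul_comm := fun a b => Subtype.ext (mem_centralizer_sub.1 (hV b.2) a a.2) }
  haveI := Fintype.ofFinite (L ⧸ S.subgroupOf L)
  let c : 𝐍 V → V →* V := fun l => (V.normalizerMonoidHom l).toMonoidHom
  have hc : ∀ l v, ((c l v : V) : G) = l * v * (l : G)⁻¹ := fun l v => rfl
  let o : L ⧸ S.subgroupOf L → 𝐍 V := fun q => ⟨q.out, hL q.out.2⟩
  let t : V → V := fun v => ∏ q, c (o q) v
  have hn : Fintype.card (L ⧸ S.subgroupOf L) = S.relIndex L := by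
    rw [← Nat.card_eq_fintype_card]; rfl
  refine ⟨fun x => if hx : x ∈ V then (t ⟨x, hx⟩ : G) else 1, fun v hv => ?_, fun v hv v' hv' => ?_,
    fun g hg h hh hS hl v hv => ?_, fun v hv => ?_, fun v hv => ?_⟩
  · simp only [dif_pos hv]; exact (t _).2
  · simp only [dif_pos hv, dif_pos hv', dif_pos (mul_mem hv hv')]
    rw [← coe_mul, ← Finset.prod_mul_distrib]
    exact congrArg _ (Finset.prod_congr rfl fun q _ => (c (o q)).map_mul ⟨v, hv⟩ ⟨v', hv'⟩)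
  · have hv1 : v ∈ V := hv.1
    have hv' : h * v * h⁻¹ ∈ V := conj_mem_of_mem_normalizer hh hv1
    simp only [dif_pos hv1, dif_pos hv']
    let σ : L ⧸ S.subgroupOf L → L ⧸ S.subgroupOf L := fun q =>
      QuotientGroup.mk ⟨g * q.out * h⁻¹, hl _ q.out.2⟩
    have inj : Function.Injective σ := fun q q' e => by
      rw [← q.out_eq', ← q'.out_eq', QuotientGroup.eq, mem_subgroupOf]
      have := inv_conj_mem_of_mem_normalizer hS (mem_subgroupOf.1 (QuotientGroup.eq.1 e))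
      convert this using 1
      simp only [coe_mul, coe_inv]; group
    rw [← hc ⟨g, hg⟩ (t ⟨v, hv1⟩), map_prod]
    refine congrArg _ (Fintype.prod_bijective σ (Finite.injective_iff_bijective.1 inj) _ _
      fun q => Subtype.ext ?_).symm
    obtain ⟨s, hs⟩ := QuotientGroup.mk_out_eq_mul (S.subgroupOf L) ⟨g * q.out * h⁻¹, hl _ q.out.2⟩
    have e1 : ((σ q).out : G) = g * q.out * h⁻¹ * (s : L) := congrArg Subtype.val hs
    have e2 := cc hv.2 (inv_conj_mem_of_mem_normalizer hS (mem_subgroupOf.1 s.2))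
    rw [hc, hc, hc]
    show g * ((q.out : G) * v * (q.out : G)⁻¹) * g⁻¹ = (σ q).out * (h * v * h⁻¹) * ((σ q).out : G)⁻¹
    rw [e1]; nth_rewrite 1 [← e2]; group
  · have hv1 : v ∈ V := hv.1
    simp only [dif_pos hv1]
    rw [show t ⟨v, hv1⟩ = ∏ _q : L ⧸ S.subgroupOf L, (⟨v, hv1⟩ : V) from
      Finset.prod_congr rfl fun q _ => Subtype.ext (cc hv.2 q.out.2), Finset.prod_const, Finset.card_univ, hn]
    rfl
  · simp only [dif_pos hv]
    have : (⟨v, hv⟩ : V) ^ S.relIndex L * (t ⟨v, hv⟩)⁻¹ ∈ ⁅V, L⁆.subgroupOf V := by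
      rw [← hn, ← Finset.card_univ, ← Finset.prod_const, ← Finset.prod_inv_distrib, ← Finset.prod_mul_distrib]
      refine prod_mem fun q _ => mem_subgroupOf.2 ?_
      have := commutator_mem_commutator hv q.out.2
      convert this using 1
      rw [coe_mul, coe_inv, hc]; simp only [commutatorElement_def, o]; group
    exact mem_subgroupOf.1 this

section tr

variable {p : ℕ} [hp : Fact p.Prime]

theorem mem_of_pow_pg {V K : Subgroup G} (hV : IsPGroup p V) {v : G} (hv : v ∈ V) {n : ℕ} (hn : ¬ p ∣ n)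
    (h : v ^ n ∈ K) : v ∈ K := by
  obtain ⟨k, hk⟩ := hV ⟨v, hv⟩
  have hk' : v ^ p ^ k = 1 := congrArg Subtype.val hk
  exact mem_of_pow_mem_of_coprime (Nat.Coprime.coprime_dvd_left (orderOf_dvd_of_pow_eq_one hk')
    (((Nat.Prime.coprime_iff_not_dvd hp.out).2 hn).pow_left k)) h

theorem comm_inf_cent {V L S : Subgroup G} (hV : V ≤ 𝐂 V) (hp' : IsPGroup p V) (hL : L ≤ 𝐍 V)
    (hS : L ≤ 𝐍 S) (hVS : V ≤ 𝐂 S) (hn : ¬ p ∣ S.relIndex L) : ⁅V, L⁆ ⊓ 𝐂 L = ⊥ := by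
  obtain ⟨τ, t1, t2, t3, t4, -⟩ := exists_tr (S := S) hV hL
  have one : τ 1 = 1 := by
    have := t2 1 (one_mem _) 1 (one_mem _)
    rw [mul_one] at this; exact left_eq_mul.1 this
  let K : Subgroup G :=
    { carrier := {v | v ∈ V ∧ τ v = 1}
      mul_mem' := fun ha hb => ⟨mul_mem ha.1 hb.1, by rw [t2 _ ha.1 _ hb.1, ha.2, hb.2, one_mul]⟩
      one_mem' := ⟨one_mem _, one⟩
      inv_mem' := fun {a} ha => ⟨inv_mem ha.1, by
        have := t2 _ ha.1 _ (inv_mem ha.1)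
        rwa [mul_inv_cancel, one, ha.2, one_mul, eq_comm] at this⟩ }
  have hK : ⁅V, L⁆ ≤ K := commutator_le.2 fun v hv l hl => by
    have v' := conj_mem_of_mem_normalizer (hL hl) (inv_mem hv)
    have e := t3 1 (one_mem _) l (hL hl) (hS hl) (fun a ha => by
      rw [one_mul]; exact mul_mem ha (inv_mem hl)) v⁻¹ (mem_inf.2 ⟨inv_mem hv, inv_mem (hVS hv)⟩)
    rw [show ⁅v, l⁆ = v * (l * v⁻¹ * l⁻¹) by simp only [commutatorElement_def]; group]
    refine ⟨mul_mem hv v', ?_⟩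
    rw [t2 _ hv _ v', e, one_mul, inv_one, mul_one, ← t2 _ hv _ (inv_mem hv), mul_inv_cancel, one]
  refine eq_bot_iff.2 fun v hv => mem_of_pow_pg hp' (hK hv.1).1 hn (mem_bot.2 ?_)
  rw [← t4 v ⟨(hK hv.1).1, hv.2⟩, (hK hv.1).2]

theorem tr_fix {V L S R : Subgroup G} (hV : V ≤ 𝐂 V) (hp' : IsPGroup p V) (hL : L ≤ 𝐍 V) (hSL : S ≤ L)
    (hn : ¬ p ∣ S.relIndex L) (hR : IsPGroup p R) (r1 : R ≤ 𝐍 V) (r2 : R ≤ 𝐍 L) (r3 : R ≤ 𝐍 S)
    (h : ¬ V ⊓ 𝐂 S ≤ 𝐂 L) : ∃ w ∈ ⁅V, L⁆, w ∈ 𝐂 R ∧ w ∉ 𝐂 L := by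
  obtain ⟨τ, t1, t2, t3, t4, t5⟩ := exists_tr (S := S) hV hL
  have one : τ 1 = 1 := by
    have := t2 1 (one_mem _) 1 (one_mem _)
    rw [mul_one] at this; exact left_eq_mul.1 this
  have iv : ∀ a ∈ V, τ a⁻¹ = (τ a)⁻¹ := fun a ha => by
    have := t2 _ ha _ (inv_mem ha)
    rw [mul_inv_cancel, one] at this
    exact eq_inv_of_mul_eq_one_right this.symm
  have pw : ∀ a ∈ V, ∀ n : ℕ, τ (a ^ n) = τ a ^ n := fun a ha n => by
    induction n with
    | zero => rw [pow_zero, pow_zero, one]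
    | succ n ih => rw [pow_succ, t2 _ (pow_mem ha n) _ ha, ih, pow_succ]
  let K : Subgroup G :=
    { carrier := {v | v ∈ V ⊓ 𝐂 S ∧ τ v = 1}
      mul_mem' := fun ha hb => ⟨mul_mem ha.1 hb.1, by rw [t2 _ ha.1.1 _ hb.1.1, ha.2, hb.2, one_mul]⟩
      one_mem' := ⟨one_mem _, one⟩
      inv_mem' := fun {a} ha => ⟨inv_mem ha.1, by rw [iv a ha.1.1, ha.2, inv_one]⟩ }
  have KV : K ≤ V := fun a ha => ha.1.1
  have nK : R ≤ 𝐍 K := le_normalizer_iff_cj.2 fun r hr => cj_le_iff'.2 fun v hv =>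
    ⟨conj_mem_of_mem_normalizer (norm_inf r1 (norm_centralizer r3) hr) hv.1, by
      rw [t3 r (r1 hr) r (r1 hr) (r3 hr) (fun l hl => conj_mem_of_mem_normalizer (r2 hr) hl) v hv.1, hv.2]
      group⟩
  obtain ⟨v, hv, hv'⟩ := SetLike.not_le_iff_exists.1 h
  have tc : τ v ∈ 𝐂 L := mem_centralizer_sub.2 fun l hl => by
    have := t3 l (hL hl) 1 (one_mem _) (one_mem _) (fun a ha => by
      rw [inv_one, mul_one]; exact mul_mem hl ha) v hv
    rw [one_mul, inv_one, mul_one] at this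
    nth_rewrite 2 [this]; group
  have K1 : K ≠ ⊥ := fun e => by
    have : v ^ S.relIndex L * (τ v)⁻¹ ∈ K := ⟨mul_mem (pow_mem hv _) (inv_mem ⟨t1 v hv.1,
      centralizer_anti hSL tc⟩), by
        rw [t2 _ (pow_mem hv.1 _) _ (inv_mem (t1 v hv.1)), pw v hv.1, iv _ (t1 v hv.1),
          t4 _ ⟨t1 v hv.1, tc⟩, mul_inv_cancel]⟩
    rw [e, mem_bot, mul_inv_eq_one] at this
    exact hv' (mem_of_pow_pg hp' hv.1 hn (this ▸ tc))
  obtain ⟨⟨w, hw⟩, w1⟩ := (Subgroup.ne_bot_iff_exists_ne_one).1 (inf_centralizer_ne_bot hR (hp'.to_le KV) nK K1)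
  refine ⟨w, mem_of_pow_pg hp' (KV hw.1) hn ?_, hw.2, fun e => w1 (Subtype.ext (mem_bot.1
    (mem_of_pow_pg hp' (KV hw.1) hn (mem_bot.2 ?_))))⟩
  · have := t5 w (KV hw.1)
    rwa [hw.1.2, inv_one, mul_one] at this
  · rw [← t4 w ⟨KV hw.1, e⟩, hw.1.2]

end tr

structure Sm (V : Subgroup G) (n : ℕ) (E : Subgroup G) : Prop where
  irr : ∀ Y ≤ ⁅V, E⁆, E ≤ 𝐍 Y → Y = ⊥ ∨ Y = ⁅V, E⁆
  card : Nat.card ↥⁅V, E⁆ = n
  zb : ⁅V, E⁆ ⊓ 𝐂 E = ⊥
  three : ∃ e ∈ E, ∃ e' ∈ E, e ∉ 𝐂 ⁅V, E⁆ ∧ e' ∉ 𝐂 ⁅V, E⁆ ∧ e⁻¹ * e' ∉ 𝐂 ⁅V, E⁆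

section sm

variable {V : Subgroup G} [V.Normal] {n : ℕ}

theorem cjW (g : G) (E : Subgroup G) : cj g ⁅V, E⁆ = ⁅V, cj g E⁆ := by
  rw [cj_commutator, cj_eq_self_of_normal]

theorem Sm.conj {E : Subgroup G} (h : Sm V n E) (g : G) : Sm V n (cj g E) := by
  refine ⟨fun Y h1 h2 => ?_, by rw [← cjW, card_cj, h.card], by
    rw [← cjW, ← cj_centralizer, ← cj_inf, h.zb, cj_bot], ?_⟩
  · rw [← cjW] at h1 ⊢
    rcases h.irr (cj g⁻¹ Y) (le_cj_iff.1 h1) (by rw [← cj_normalizer]; exact cj_le_iff.1 h2) with e | e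
    · exact Or.inl (cj_eq_bot.1 e)
    · exact Or.inr (by rw [← e, cj_cj_inv])
  · obtain ⟨e, he, e', he', h1, h2, h3⟩ := h.three
    rw [← cjW, ← cj_centralizer]
    refine ⟨_, conj_mem_cj.2 he, _, conj_mem_cj.2 he', fun k => h1 (conj_mem_cj.1 k),
      fun k => h2 (conj_mem_cj.1 k), fun k => h3 ?_⟩
    have := mem_cj.1 k
    convert this using 1; group

def Rel (V E F : Subgroup G) : Prop := ⁅V, E⁆ = ⁅V, F⁆ ∨ (F ≤ 𝐂 ⁅V, E⁆ ∧ E ≤ 𝐂 ⁅V, F⁆)

theorem norm_step {E F : Subgroup G} (hE : Sm V n E) (hF : Sm V n F)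
    (h1 : ∀ f ∈ F, Rel V E (cj f E)) (h2 : ∀ e ∈ E, Rel V F (cj e F)) : F ≤ 𝐍 ⁅V, E⁆ := by
  intro f hf
  rw [← cj_eq_self_iff, cjW]
  refine ((h1 f hf).resolve_right fun k => ?_).symm
  have WV : ⁅V, E⁆ ≤ V := commutator_le_left_of_norm norm_of_normal
  have ce : ∀ e ∈ E, ∀ w ∈ ⁅V, E⁆, e * (f * w * f⁻¹) * e⁻¹ = f * w * f⁻¹ := fun e he w hw =>
    cc (cent_symm k.2 (by rw [← cjW]; exact conj_mem_cj.2 hw)) he
  have z : ∀ u ∈ ⁅V, E⁆, ∀ w ∈ ⁅V, E⁆, u = f * w * f⁻¹ → u = 1 := fun u hu w hw e =>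
    mem_bot.1 (hE.zb ▸ ⟨hu, cent_symm k.2 (by rw [← cjW, e]; exact conj_mem_cj.2 hw)⟩)
  have mem : ∀ w ∈ ⁅V, E⁆, w⁻¹ * (f * w * f⁻¹) ∈ ⁅V, F⁆ := fun w hw => by
    have := commutator_mem_commutator (inv_mem (WV hw)) hf
    convert this using 1; simp only [commutatorElement_def]; group
  have uq : ∀ a ∈ ⁅V, E⁆, ∀ w ∈ ⁅V, E⁆, ∀ u ∈ ⁅V, E⁆,
      a⁻¹ * (f * w * f⁻¹) = u⁻¹ * (f * u * f⁻¹) → a = u ∧ w = u := fun a ha w hw u hu e => by
    have e1 : u * a⁻¹ = f * (u * w⁻¹) * f⁻¹ := by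
      calc u * a⁻¹ = u * (a⁻¹ * (f * w * f⁻¹)) * (f * w * f⁻¹)⁻¹ := by group
        _ = _ := by rw [e]; group
    have e2 := z _ (mul_mem hu (inv_mem ha)) _ (mul_mem hu (inv_mem hw)) e1
    rw [e2] at e1
    refine ⟨(eq_of_mul_inv_eq_one e2).symm, (eq_of_mul_inv_eq_one ?_).symm⟩
    calc u * w⁻¹ = f⁻¹ * (f * (u * w⁻¹) * f⁻¹) * f := by group
      _ = 1 := by rw [← e1]; group
  let θ : ↥⁅V, E⁆ → ↥⁅V, F⁆ := fun w => ⟨_, mem w w.2⟩
  have inj : Function.Injective θ := fun a b e =>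
    Subtype.ext (uq _ a.2 _ a.2 _ b.2 (congrArg Subtype.val e)).1
  have sj := (inj.bijective_of_nat_card_le (by rw [hE.card, hF.card])).2
  have ne : ∀ {e}, e ∈ E → ∀ {w}, w ∈ ⁅V, E⁆ → e * w * e⁻¹ ∈ ⁅V, E⁆ := fun he _ hw =>
    conj_mem_of_mem_normalizer (norm_comm_right _ _ he) hw
  have key : ∀ e ∈ E, e ∉ 𝐂 ⁅V, E⁆ → ∀ w ∈ ⁅V, E⁆, (e * w * e⁻¹)⁻¹ * (f * w * f⁻¹) ∈ 𝐂 F := by
    intro e he hn w hw
    have m : ∀ w ∈ ⁅V, E⁆, (e * w * e⁻¹)⁻¹ * (f * w * f⁻¹) ∈ ⁅V, cj e F⁆ := fun w hw => by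
      rw [← cjW, ← ce e he w hw]
      have := conj_mem_cj (g := e) |>.2 (mem w hw)
      convert this using 1; group
    refine cent_symm ((h2 e he).resolve_left fun k' => hn (mem_centralizer_sub.2 fun w hw => ?_)).2 (m w hw)
    obtain ⟨u, hu⟩ := sj ⟨_, k' ▸ m w hw⟩
    obtain ⟨a, b⟩ := uq _ (ne he hw) w hw u u.2 (congrArg Subtype.val hu).symm
    rw [← b] at a
    exact (eq_mul_of_mul_inv_eq a).symm
  obtain ⟨e, he, e', he', a1, a2, a3⟩ := hE.three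
  refine a3 (mem_centralizer_sub.2 fun w hw => ?_)
  have k1 := mul_mem (key e he a1 w hw) (inv_mem (key e' he' a2 w hw))
  have m1 := mul_mem (inv_mem (ne he hw)) (ne he' hw)
  have k2 : (e * w * e⁻¹)⁻¹ * (e' * w * e'⁻¹) ∈ 𝐂 F := by convert k1 using 1; group
  have k3 := z _ m1 _ m1 (cc k2 hf).symm
  calc w * (e⁻¹ * e') = e⁻¹ * (e * w * e⁻¹) * e' := by group
    _ = e⁻¹ * (e' * w * e'⁻¹) * e' := by rw [inv_mul_eq_one.1 k3]
    _ = _ := by group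

theorem small_rel (X : Subgroup G) : ∀ E F : Subgroup G, Sm V n E → Sm V n F → SN X E → SN X F →
    Rel V E F := by
  induction X using WellFoundedLT.induction with
  | _ X ih =>
  intro E F hE hF sE sF
  rcases sE.eq_or_exists with rfl | ⟨N, a1, a2, a3, a4⟩
  · exact Or.inl (eq_of_le_of_card_ge (commutator_mono le_rfl sF.le) (by rw [hE.card, hF.card])).symm
  rcases sF.eq_or_exists with rfl | ⟨M, b1, b2, b3, b4⟩
  · exact Or.inl (eq_of_le_of_card_ge (commutator_mono le_rfl sE.le) (by rw [hE.card, hF.card]))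
  have h1 : ∀ f ∈ F, Rel V E (cj f E) := fun f hf =>
    ih N a2 _ _ hE (hE.conj f) a4 (a4.conj_norm (a3 (sF.le hf)))
  have h2 : ∀ e ∈ E, Rel V F (cj e F) := fun e he =>
    ih M b2 _ _ hF (hF.conj e) b4 (b4.conj_norm (b3 (sE.le he)))
  have n1 := norm_step hE hF h1 h2
  have n2 := norm_step hF hE h2 h1
  have WV : ∀ E : Subgroup G, ⁅V, E⁆ ≤ V := fun E => commutator_le_left_of_norm norm_of_normal
  rcases hE.irr (⁅V, E⁆ ⊓ ⁅V, F⁆) inf_le_left (norm_inf (norm_comm_right _ _) n2) with e | e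
  · refine Or.inr ⟨commutator_eq_bot_iff'.1 (eq_bot_iff.2 (e ▸ le_inf (commutator_le_left_of_norm n1)
      (commutator_mono (WV E) le_rfl))), commutator_eq_bot_iff'.1 (eq_bot_iff.2 (e ▸ le_inf
        (commutator_mono (WV F) le_rfl) (commutator_le_left_of_norm n2)))⟩
  · exact Or.inl (eq_of_le_of_card_ge (e ▸ inf_le_right) (by rw [hE.card, hF.card]))

end sm

theorem klein {A : Type*} [AddCommGroup A] [Finite A] (hc : Nat.card A = 4) (h2 : ∀ x : A, x + x = 0)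
    {α β : A →+ A} (ha : ∀ x, α (α (α x)) = x) (hb : ∀ x, β (β (β x)) = x) {w : A} (hw : α w ≠ w) :
    (∀ x, β x = x) ∨ (∀ x, β x = α x) ∨ ∀ x, β x = α (α x) := by
  classical
  haveI := Fintype.ofFinite A
  have inj : ∀ {γ : A →+ A}, (∀ x, γ (γ (γ x)) = x) → ∀ {x y}, γ x = γ y → x = y := fun H x y e => by
    rw [← H x, e, H]
  have w0 : w ≠ 0 := fun e => hw (by rw [e, map_zero])
  set a := α w with hα
  have a0 : a ≠ 0 := fun e => w0 (inj ha (e.trans α.map_zero.symm))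
  have s0 : w + a ≠ 0 := fun e => hw (by linear_combination (norm := abel) e - h2 w)
  have s1 : w + a ≠ w := fun e => a0 (add_eq_left.1 e)
  have s2 : w + a ≠ a := fun e => w0 (add_eq_right.1 e)
  have all : ∀ x : A, x = 0 ∨ x = w ∨ x = a ∨ x = w + a := fun x => by
    have : ({0, w, a, w + a} : Finset A) = Finset.univ := Finset.eq_univ_of_card _ (by
      rw [← Nat.card_eq_fintype_card, hc, Finset.card_insert_of_notMem (by simp [w0.symm, a0.symm, s0.symm]),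
        Finset.card_insert_of_notMem (by simp [hw.symm, a0]), Finset.card_pair s2.symm])
    have h := Finset.mem_univ x
    rw [← this] at h; simpa using h
  have ext : ∀ {γ δ : A →+ A}, γ w = δ w → γ a = δ a → ∀ x, γ x = δ x := fun e1 e2 x => by
    rcases all x with rfl | rfl | rfl | rfl <;> simp [e1, e2]
  have nx : ∀ {γ : A →+ A}, (∀ x, γ (γ (γ x)) = x) → ∀ {x y : A}, x ≠ y → γ x = y → γ y ≠ x ∧ γ y ≠ y :=
    fun H x y n e => ⟨fun e' => n (by rw [← H x, e, e', e]), fun e' => n (inj H (e.trans e'.symm))⟩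
  have nz : ∀ {γ : A →+ A}, (∀ x, γ (γ (γ x)) = x) → ∀ {x : A}, x ≠ 0 → γ x ≠ 0 :=
    fun H x n e => n (inj H (e.trans (map_zero _).symm))
  have st : ∀ {γ : A →+ A}, (∀ x, γ (γ (γ x)) = x) → γ w = a → γ a = w + a := fun H e => by
    rcases all (_ : A) with k | k | k | k
    exacts [absurd k (nz H a0), absurd k (nx H hw.symm e).1, absurd k (nx H hw.symm e).2, k]
  have αa := st ha rfl
  rcases all (β w) with k | k | k | k
  · exact absurd k (nz hb w0)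
  · refine Or.inl (ext (δ := AddMonoidHom.id A) k ?_)
    rcases all (β a) with k' | k' | k' | k'
    · exact absurd k' (nz hb a0)
    · exact absurd (inj hb (k'.trans k.symm)) hw
    · exact k'
    · exact absurd (by rw [map_add, k, k', ← add_assoc, h2, zero_add]) (nx hb s2.symm k').1
  · exact Or.inr (Or.inl (ext k ((st hb k).trans αa.symm)))
  · refine Or.inr (Or.inr (ext (δ := α.comp α) (k.trans αa.symm) ?_))
    show β a = α (α a)
    rw [αa, map_add, ← hα, αa, add_comm w, ← add_assoc, h2, zero_add]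
    have : β (w + a) = a := by
      rcases all (β (w + a)) with k' | k' | k' | k'
      exacts [absurd k' (nz hb s0), absurd k' (nx hb s1.symm k).1, k', absurd k' (nx hb s1.symm k).2]
    rw [map_add, k] at this
    linear_combination (norm := abel) this - h2 w

section sl3

variable {F : Type} [Field F] [Finite F] [CharP F 3] (h3 : ∀ c : F, c = 0 ∨ c ^ 2 = 1)
include h3

theorem four_of_eight {m : SL(2, F)} (h : m ^ 8 = 1) : m ^ 4 = 1 := by
  have hd := m.det_coe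
  rw [Matrix.det_fin_two] at hd
  have ch : m.1 * m.1 = (m.1 0 0 + m.1 1 1) • m.1 - 1 := by
    ext i j; fin_cases i <;> fin_cases j <;> simp [Matrix.mul_apply] <;> first | linear_combination -hd | ring
  rcases h3 (m.1 0 0 + m.1 1 1) with e | e
  · have : m * m = -1 := Subtype.ext (show m.1 * m.1 = -1 by rw [ch, e]; simp)
    rw [show 4 = 2 * 2 from rfl, pow_mul, pow_two m, this]; simp
  · have e3 : m.1 * m.1 * m.1 = (-(m.1 0 0 + m.1 1 1)) • (1 : Matrix (Fin 2) (Fin 2) F) := by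
      rw [ch, sub_mul, smul_mul_assoc, ch, smul_sub, smul_smul, ← pow_two, e, one_smul, one_mul, neg_smul]; abel
    have e6 : m ^ 6 = 1 := Subtype.ext (show (m ^ 6).1 = 1 by
      rw [Matrix.SpecialLinearGroup.coe_pow, show 6 = 3 * 2 from rfl, pow_mul, pow_succ m.1, pow_two m.1, e3,
        smul_pow, one_pow, neg_sq, e, one_smul])
    have : m ^ 2 = 1 := by rw [← h, show 8 = 6 + 2 from rfl, pow_add, e6, one_mul]
    rw [show 4 = 2 * 2 from rfl, pow_mul, this, one_pow]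

theorem sl_of_sq (α : (Fin 2 → F) →+ (Fin 2 → F)) (hq : ∀ x, α (α x) = -x) :
    ∃ m : SL(2, F), ∀ x, α x = m.1 *ᵥ x := by
  have lin : ∀ x, α x = x 0 • α ![1, 0] + x 1 • α ![0, 1] := fun x => by
    rw [← lin_of_sq h3, ← lin_of_sq h3, ← map_add]
    congr 1; ext i; fin_cases i <;> simp
  set a := α ![1, 0] with ha
  set b := α ![0, 1] with hb
  have q1 := hq ![1, 0]
  have q2 := hq ![0, 1]
  rw [← ha, lin] at q1
  rw [← hb, lin] at q2
  have r1 := congrFun q1 0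
  have r2 := congrFun q1 1
  simp only [Pi.add_apply, Pi.smul_apply, smul_eq_mul, Pi.neg_apply, Matrix.cons_val_zero,
    Matrix.cons_val_one, neg_zero] at r1 r2
  have tr : a 0 + b 1 = 0 := by
    by_contra ht
    have z1 : a 1 = 0 := (mul_eq_zero.1 (show a 1 * (a 0 + b 1) = 0 by
      linear_combination r2)).resolve_right ht
    rw [z1] at r1
    rcases h3 (a 0) with e | e
    · exact one_ne_zero (α := F) (by rw [e] at r1; linear_combination r1)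
    · exact two_ne (F := F) (by linear_combination r1 - e)
  refine ⟨⟨!![a 0, b 0; a 1, b 1], ?_⟩, fun x => ?_⟩
  · rw [Matrix.det_fin_two_of]
    linear_combination (a 0) * tr - r1
  · rw [lin]; ext i; fin_cases i <;> simp [Matrix.mulVec, dotProduct, mul_comm]

end sl3

end CA.H8Exc
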