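import Cfsg.Agent.Lib.Loc.H8Exc8
import Mathlib.LinearAlgebra.Projectivization.PSL.PSL2
import Mathlib.GroupTheory.SpecificGroups.Alternating.Simple

/-! Blocks: the shape of `E / O_p(E)`. -/

set_option autoImplicit false
set_option linter.unusedSectionVars false

namespace CA.H8Exc

open Subgroup Cfsg CA.Amb CA.AmbSyl CA.AmbCore CA.AmbRes CA.AmbSpe CA.H6Nat CA.H6Nat2 CA.H6J CA.H6Bau
open CA.H6Am1 CA.H6Am2 CA.H6Blk CA.H6TV2 CA.H6PD
open scoped commutatorElement MatrixGroups Matrix

universe u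

variable {G : Type u} [Group G] [Finite G]

theorem card_der {F : Type} [Field F] [Finite F] (h : Nat.card F = 2 ∨ Nat.card F = 3) :
    Nat.card (_root_.commutator SL(2, F)) = Nat.card F ^ 2 - 1 := by
  have hc := CA.SLnCard.card_SL2 (F := F)
  have hs : Group.IsSolvable SL(2, F) := by
    rcases h with h | h
    · exact Cfsg.Agent.S0144.result 2 3 1 1 Nat.prime_two Nat.prime_three (by rw [hc, h]; norm_num)
    · exact Cfsg.Agent.S0144.result 2 3 3 1 Nat.prime_two Nat.prime_three (by rw [hc, h]; norm_num)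
  have hp : (Nat.card F).Prime := by
    rcases h with h | h <;> rw [h]
    exacts [Nat.prime_two, Nat.prime_three]
  haveI : Nontrivial SL(2, F) := Finite.one_lt_card_iff_nontrivial.1 (by
    rcases h with h | h <;> rw [hc, h] <;> norm_num)
  have h1 : (_root_.commutator SL(2, F)).index ∣ Nat.card F := by
    rw [← relIndex_top_right, ← der_sup_U, relIndex_sup_left, ← SL2Unip.card_U (F := F)]
    exact relIndex_dvd_card _ _
  have h2 := (_root_.commutator SL(2, F)).index_mul_card
  rcases (Nat.dvd_prime hp).1 h1 with e | e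
  · exact absurd (index_eq_one.1 e) (Group.IsSolvable.commutator_lt_top_of_nontrivial _).ne
  · rw [e, hc] at h2
    exact Nat.eq_of_mul_eq_mul_left hp.pos h2

variable {p : ℕ} [hp : Fact p.Prime] {T E : Subgroup G}

def Big (p : ℕ) (E : Subgroup G) : Prop :=
  IsQuasisimple (E ⧸ pCore p E) ∧ p ∣ (pCoreOf p E).relIndex E

def S2 (p : ℕ) (E : Subgroup G) : Prop :=
  p = 2 ∧ (pCoreOf p E).relIndex E = 3 ∧ ∃ (A : Type) (_ : AddCommGroup A) (ψ : G → A),
    Nat.card A = 4 ∧ Sec (Zo p E) (Zo p E ⊓ 𝐂 E) ψ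

def S3 (p : ℕ) (E : Subgroup G) : Prop :=
  p = 3 ∧ (pCoreOf p E).relIndex E = 8 ∧ ∃ (F : Type) (_ : Field F) (_ : Finite F), Nat.card F = 3 ∧
    ∃ d : ND F E (Zo p E) (Zo p E ⊓ 𝐂 E), d.rim E = _root_.commutator SL(2, F)

theorem kind (hE : IsBaumannBlock p T E) : Big p E ∨ S2 p E ∨ S3 p E := by
  have h := blk_of hE
  obtain ⟨-, -, -, -, h5⟩ := hE
  rcases h5 with ⟨F, _, _, n, hF, ⟨e⟩, a, -⟩ | ⟨rfl, m, ⟨e⟩, a, -⟩
  · obtain ⟨d, hd⟩ := H6Nat.acts_iff.1 a
    rw [← Nat.card_eq_fintype_card] at hF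
    have h2 : 1 < Nat.card F := Finite.one_lt_card
    have hn : p ∣ Nat.card F := by
      rw [hF] at h2 ⊢
      exact dvd_pow_self p fun e => by simp [e] at h2
    have hc := Nat.card_congr e.toEquiv
    rw [card_quot] at hc
    by_cases h4 : 4 ≤ Nat.card F
    · obtain ⟨a, a0, a1⟩ : ∃ a : F, a ≠ 0 ∧ a ^ 2 ≠ 1 := by
        obtain ⟨x, hx⟩ : IsCyclic Fˣ := by infer_instance
        refine ⟨x, Units.ne_zero x, fun h ↦ ?_⟩
        have k := orderOf_le_of_pow_eq_one (x := x) zero_lt_two (Units.ext <| by simpa using h)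
        rw [Nat.card_eq_card_units_add_one F, ← orderOf_eq_card_of_forall_mem_zpowers hx] at h4
        omega
      have ht := Matrix.SL2.commutator_eq_top a0 a1
      have q : IsQuasisimple SL(2, F) := ⟨⟨ht⟩, Matrix.ProjectiveSpecialLinearGroup.rank_two_simple h4⟩
      refine Or.inl ⟨CA.Quasi.qs_of_equiv q (e.trans ((MulEquiv.subgroupCongr ht).trans topEquiv)).symm, ?_⟩
      rw [hc, ht, card_top, CA.SLnCard.card_SL2]
      exact hn.mul_right _
    have h23 : Nat.card F = 2 ∨ Nat.card F = 3 := by omega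
    rw [card_der h23] at hc
    rcases h23 with k | k
    · rw [k] at hn hc
      exact Or.inr (Or.inl ⟨(Nat.prime_dvd_prime_iff_eq hp.out Nat.prime_two).1 hn, hc, Fin 2 → F,
        inferInstance, d.ψ, by rw [Nat.card_fun, k]; simp, nd_sec d⟩)
    · rw [k] at hn hc
      exact Or.inr (Or.inr ⟨(Nat.prime_dvd_prime_iff_eq hp.out Nat.prime_three).1 hn, hc, F,
        inferInstance, inferInstance, k, d, hd⟩)
  · obtain ⟨d, hd⟩ := H6PD.acts_iff.1 a
    have hc := Nat.card_congr e.toEquiv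
    rw [card_quot] at hc
    rcases (show m = 0 ∨ m = 1 ∨ 2 ≤ m by omega) with rfl | rfl | hm
    · exfalso
      haveI : Subsingleton (alternatingGroup (Fin (2 * 0 + 1))) :=
        ⟨fun a b => Subtype.ext (Equiv.ext fun i => Subsingleton.elim (α := Fin 1) _ _)⟩
      rw [Nat.card_unique, relIndex_eq_one] at hc
      have h4' := h.nz
      rw [← h.res, res_eq_bot_of_isPGroup ((isPGroup_pCoreOf 2 E).to_le hc)] at h4'
      exact h4' bot_le
    · have h3 := two_mul_nat_card_alternatingGroup (α := Fin (2 * 1 + 1))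
      rw [← hc, Nat.card_perm, Nat.card_fin] at h3
      refine Or.inr (Or.inl ⟨rfl, by simp [Nat.factorial] at h3; omega, Fin 2 → ZMod 2, inferInstance,
        fun x => ![d.ψ x 0, d.ψ x 1], by simp, fun hu hv => ?_, fun x => ?_, fun {u} hu => ?_⟩)
      · rw [d.ψ_mul hu hv]; ext i; fin_cases i <;> rfl
      · obtain ⟨u, hu, k⟩ := d.ψ_surj ![x 0, x 1, x 0 + x 1] (by
          rw [Fin.sum_univ_three]; exact z2 _)
        refine ⟨u, hu, ?_⟩
        rw [k]; ext i; fin_cases i <;> rfl
      · refine Iff.trans ?_ (d.ψ_zero hu)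
        have s := d.ψ_sum hu
        rw [Fin.sum_univ_three] at s
        refine ⟨fun k => ?_, fun k => by rw [k]; ext i; fin_cases i <;> rfl⟩
        have k0 : d.ψ u 0 = 0 := congrFun k 0
        have k1 : d.ψ u 1 = 0 := congrFun k 1
        rw [k0, k1, zero_add, zero_add] at s
        ext i; fin_cases i
        exacts [k0, k1, s]
    · have h5 : 5 ≤ Nat.card (Fin (2 * m + 1)) := by rw [Nat.card_fin]; omega
      haveI := alternatingGroup.isSimpleGroup h5
      haveI : Nontrivial (Fin (2 * m + 1)) := Fin.nontrivial_iff_two_le.2 (by omega)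
      have h3 := two_mul_nat_card_alternatingGroup (α := Fin (2 * m + 1))
      rw [Nat.card_perm, Nat.card_fin] at h3
      have h4 : 2 * 12 ∣ 2 * Nat.card (alternatingGroup (Fin (2 * m + 1))) :=
        h3 ▸ Nat.factorial_dvd_factorial (show 4 ≤ 2 * m + 1 by omega)
      have h6 := Nat.dvd_of_mul_dvd_mul_left two_pos h4
      refine Or.inl ⟨CA.Quasi.qs_of_equiv (CA.Quasi.qs_of_simple fun k => ?_) e.symm,
        hc ▸ Dvd.dvd.trans (by norm_num) h6⟩
      have := (Group.is_simple_iff_prime_card (α := alternatingGroup (Fin (2 * m + 1)))).1 inferInstance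
      have k2 := (Nat.prime_dvd_prime_iff_eq Nat.prime_two this).1 (Dvd.dvd.trans (by norm_num) h6)
      rw [← k2] at h6
      exact absurd h6 (by norm_num)

end CA.H8Exc
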