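import Cfsg.Agent.Lib.Loc.H8TW

/-!
Wielandt's bound for point stabilizers of primitive groups.
-/

set_option autoImplicit false

namespace CA.H8Wie

open Subgroup Cfsg CA.Amb CA.AmbSyl CA.AmbCore CA.AmbRes CA.AmbChar CA.AmbWC CA.AmbFs CA.H8TW MulAction

variable {G : Type*} [Group G] [Finite G]

theorem core_rel (D : Subgroup G) : D.normalCore.relIndex D ∣ (D.index - 1).factorial := by
  classical
  have := Fintype.ofFinite (G ⧸ D)
  have a := (stabilizer (Equiv.Perm (G ⧸ D)) ((1 : G) : G ⧸ D)).card_mul_index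
  rw [index_stabilizer_of_transitive, Nat.card_perm, ← index_eq_card,
    ← Nat.mul_factorial_pred D.index_ne_zero_of_finite, mul_comm] at a
  rw [← Nat.eq_of_mul_eq_mul_left (Nat.pos_of_ne_zero D.index_ne_zero_of_finite) a, normalCore_eq_ker, relIndex_ker]
  refine card_dvd_of_le (map_le_iff_le_comap.2 fun x hx => ?_)
  exact (stabilizer_quotient D).ge hx

theorem core_rel2 {D A K : Subgroup G} [hA : A.Normal] (h1 : A ≤ D) (h2 : D ≤ 𝐍 K) :
    K.normalCore.relIndex A ∣ K.relIndex A ^ D.index := by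
  have := (normal_subgroupOf_of_le_normalizer (h1.trans h2) : (K.subgroupOf A).Normal)
  let f : A →* (G ⧸ D → A ⧸ K.subgroupOf A) := MonoidHom.pi fun q =>
    (QuotientGroup.mk' _).comp (MulAut.conjNormal q.out⁻¹).toMonoidHom
  have k : f.ker ≤ K.normalCore.subgroupOf A := fun x hx g => by
    obtain ⟨d, hd⟩ := QuotientGroup.mk_out_eq_mul D g⁻¹
    have : (MulAut.conjNormal ((g⁻¹ : G) : G ⧸ D).out⁻¹ x : A) ∈ K.subgroupOf A :=
      (QuotientGroup.eq_one_iff _).1 (congrFun hx (g⁻¹ : G))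
    rw [mem_subgroupOf, MulAut.conjNormal_apply, hd] at this
    have := (mem_normalizer_iff.1 (h2 d.2) _).1 this
    simpa [mul_assoc] using this
  refine (index_dvd_of_le k).trans ?_
  rw [index_ker, relIndex, index_eq_card, index_eq_card, ← Nat.card_fun]
  exact card_subgroup_dvd_card _

/-- the core of `H` in `M` -/
def cor (M H : Subgroup G) : Subgroup G := (H.subgroupOf M).normalCore.map M.subtype

section
omit [Finite G]
variable {M H : Subgroup G}

theorem cor_le (M H : Subgroup G) : cor M H ≤ H := map_le_iff_le_comap.2 (normalCore_le _)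
theorem cor_le' (M H : Subgroup G) : cor M H ≤ M := map_subtype_le _
theorem norm_cor (M H : Subgroup G) : M ≤ 𝐍 (cor M H) := norm_map_subtype _
theorem cor_sub (M H : Subgroup G) : (cor M H).subgroupOf M = (H.subgroupOf M).normalCore :=
  comap_map_eq_self_of_injective M.subtype_injective _
theorem sn_cor (M H : Subgroup G) : SN M (cor M H) := SN.of_norm (cor_le' M H) (norm_cor M H)

theorem mem_cor {x : G} : x ∈ cor M H ↔ x ∈ M ∧ ∀ m ∈ M, m * x * m⁻¹ ∈ H :=
  ⟨by rintro ⟨y, hy, rfl⟩; exact ⟨y.2, fun m a => hy ⟨m, a⟩⟩, fun h => ⟨⟨x, h.1⟩, fun m => h.2 m m.2, rfl⟩⟩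

theorem le_cor {X : Subgroup G} (h1 : X ≤ M) (h2 : M ≤ 𝐍 X) (h3 : X ≤ H) : X ≤ cor M H := fun x a =>
  mem_cor.2 ⟨h1 a, fun m b => h3 ((mem_normalizer_iff.1 (h2 b) x).1 a)⟩

end

theorem cor_rel {M D : Subgroup G} (h : D ≤ M) : (cor M D).relIndex D ∣ (D.relIndex M - 1).factorial := by
  rw [← relIndex_subgroupOf h, cor_sub]; exact core_rel _

theorem bound {M M' D : Subgroup G} (h : D ≤ M) (h' : D ≤ M') {d : ℕ} (e : D.relIndex M = d) (e' : D.relIndex M' = d) :
    (cor M (cor M D ⊓ cor M' D)).relIndex M ∣ d.factorial * (d - 1).factorial ^ d := by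
  have d0 : d ≠ 0 := e ▸ index_ne_zero_of_finite
  have l : cor M (cor M D ⊓ cor M' D) ≤ cor M D := (cor_le _ _).trans inf_le_left
  rw [← relIndex_mul_relIndex _ _ _ l (cor_le' M D), ← relIndex_mul_relIndex _ _ _ (cor_le M D) h, mul_comm, e,
    ← Nat.mul_factorial_pred d0, mul_comm d]
  refine mul_dvd_mul (mul_dvd_mul_right (e ▸ cor_rel h) d) ?_
  have nB := h'.trans (norm_cor M' D)
  have := core_rel2 (A := (D.subgroupOf M).normalCore) (D := D.subgroupOf M) (K := (cor M D ⊓ cor M' D).subgroupOf M)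
    (normalCore_le _) (norm_comap M.subtype (norm_inf (h.trans (norm_cor M D)) nB))
  rw [← cor_sub, ← cor_sub, relIndex_subgroupOf (cor_le' M D), relIndex_subgroupOf (cor_le' M D), inf_relIndex_left]
    at this
  refine this.trans (e ▸ pow_dvd_pow_of_dvd (dvd_trans ?_ (e ▸ e' ▸ cor_rel h')) _)
  have := (normal_subgroupOf_of_le_normalizer nB : ((cor M' D).subgroupOf D).Normal)
  rw [← relIndex_subgroupOf (cor_le M D)]
  exact relIndex_dvd_index_of_normal _ _

theorem core_bot' {M M' : Subgroup G} (hM : Prim M) (hM' : Prim M') (hne : ¬ M ≤ M') {r : ℕ} (hr : r.Prime)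
    (hc : Nat.card (pCoreOf r M) = Nat.card (pCoreOf r M')) (h : M ≤ 𝐍 (pCoreOf r (M ⊓ M'))) :
    pCoreOf r (M ⊓ M') = ⊥ := by
  have := Fact.mk hr
  by_contra k
  have l := pCoreOf_le r (M ⊓ M')
  have n := hM _ k (l.trans inf_le_left) h
  have q := (isPGroup_pCoreOf r (M ⊓ M')).to_sup_of_normal_right' (isPGroup_pCoreOf r M')
    ((l.trans inf_le_right).trans (norm_pCoreOf r M'))
  have e : pCoreOf r (M ⊓ M') = pCoreOf r (M ⊓ M') ⊔ pCoreOf r M' := by_contra fun c =>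
    ((sn_of_isPGroup q le_sup_left).lt_normalizer c).not_ge (le_pCoreOf (le_inf (inf_le_right.trans n)
      (inf_le_left.trans (sup_le (l.trans inf_le_right) (pCoreOf_le r M')))) (q.to_le inf_le_left)
      (norm_inf (norm_sup (norm_pCoreOf r _) (inf_le_right.trans (norm_pCoreOf r M')))
        (((norm_pCoreOf r _).trans le_normalizer))))
  have l2 : pCoreOf r (M ⊓ M') ≤ pCoreOf r M := le_pCoreOf (l.trans inf_le_left) (isPGroup_pCoreOf r _) h
  have e2 := eq_of_le_of_card_ge ((le_sup_right.trans e.ge).trans l2) hc.le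
  exact hne ((norm_pCoreOf r M).trans (e2 ▸ hM' _ (fun c => k (le_bot_iff.1 (l2.trans (e2.ge.trans c.le))))
    (pCoreOf_le r M') (norm_pCoreOf r M')))

/-- the data attached to a suborbit -/
structure WD (M M' : Subgroup G) (d : ℕ) : Prop where
  p1 : Prim M
  p2 : Prim M'
  n1 : ¬ M ≤ M'
  n2 : ¬ M' ≤ M
  cg : ∃ g, M' = cj g M
  e1 : (M ⊓ M').relIndex M = d
  e2 : (M ⊓ M').relIndex M' = d

theorem wd {Ω : Type*} [MulAction G Ω] [FaithfulSMul G Ω] (hprim : IsPreprimitive G Ω) (a b : Ω) {d : ℕ}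
    (hd : Nat.card (orbit (stabilizer G a) b) = d) (h2 : 2 ≤ d) : WD (stabilizer G a) (stabilizer G b) d := by
  obtain ⟨g, rfl⟩ := exists_smul_eq G a b
  have hg : cj g (stabilizer G a) = stabilizer G (g • a) := (stabilizer_smul_eq_stabilizer_map_conj g a).symm
  have h1 : (stabilizer G a ⊓ stabilizer G (g • a)).relIndex (stabilizer G a) = d := by
    rw [inf_relIndex_left, ← hd, Nat.card_coe_set_eq, ← index_stabilizer]; rfl
  have c : Nat.card (stabilizer G (g • a)) = Nat.card (stabilizer G a) := by rw [← hg, card_cj]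
  have hn : ¬ stabilizer G a ≤ stabilizer G (g • a) := fun k => by
    rw [inf_of_le_left k, relIndex_self] at h1; omega
  have : Nontrivial Ω := ⟨a, g • a, fun e => hn (by rw [← e])⟩
  have pr : ∀ x : Ω, Prim (stabilizer G x) := fun x =>
    prim_of (IsPreprimitive.isCoatom_stabilizer_of_isPreprimitive G x) (eq_bot_iff.2 fun y hy => mem_bot.2
      (FaithfulSMul.eq_of_smul_eq_smul (α := Ω) fun c => by
        obtain ⟨u, rfl⟩ := exists_smul_eq G x c
        have := mem_stabilizer_iff.1 (hy u⁻¹)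
        rw [one_smul]
        conv_rhs => rw [← this]
        simp [smul_smul, mul_assoc]))
  refine ⟨pr _, pr _, hn, fun k => hn (eq_of_le_of_card_ge k c.ge).ge, ⟨g, hg.symm⟩, h1, ?_⟩
  have e1 := CA.PGBasic.card_mul_relIndex (inf_le_left : stabilizer G a ⊓ stabilizer G (g • a) ≤ _)
  have e2 := CA.PGBasic.card_mul_relIndex (inf_le_right : stabilizer G a ⊓ stabilizer G (g • a) ≤ _)
  rw [c, ← e1, h1] at e2
  exact Nat.eq_of_mul_eq_mul_left Nat.card_pos e2

namespace WD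
variable {M M' : Subgroup G} {d : ℕ} (W : WD M M' d)
include W

theorem card : Nat.card M' = Nat.card M := by obtain ⟨g, rfl⟩ := W.cg; exact card_cj _ _

theorem cc (r : ℕ) : Nat.card (pCoreOf r M) = Nat.card (pCoreOf r M') := by
  obtain ⟨g, rfl⟩ := W.cg; rw [← cj_pCoreOf, card_cj]

theorem symm : WD M' M d := ⟨W.p2, W.p1, W.n2, W.n1, W.cg.elim fun g e => ⟨g⁻¹, by rw [e, cj_inv_cj]⟩,
  inf_comm M M' ▸ W.e2, inf_comm M M' ▸ W.e1⟩

theorem dich : Nat.card M ∣ d.factorial * (d - 1).factorial ^ d ∨ ∃ p : ℕ, p.Prime ∧ ∃ X, X ≤ M ⊓ M' ∧ M ≤ 𝐍 X ∧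
    X ≠ ⊥ ∧ IsPGroup p X ∧ X.relIndex M ∣ d.factorial * (d - 1).factorial ^ d ∧ FS M = pCoreOf p M := by
  have b1 := bound inf_le_left inf_le_right W.e1 W.e2
  have b2 := bound inf_le_right inf_le_left W.e2 W.e1
  by_cases x0 : cor M (cor M (M ⊓ M') ⊓ cor M' (M ⊓ M')) = ⊥
  · rw [x0, relIndex_bot_left] at b1; exact .inl b1
  by_cases y0 : cor M' (cor M' (M ⊓ M') ⊓ cor M (M ⊓ M')) = ⊥
  · rw [y0, relIndex_bot_left, W.card] at b2; exact .inl b2
  obtain ⟨p, hp, h1, h2, -⟩ := main W.p1 W.p2 W.n1 W.n2 W.cc (cor_le' _ _) (norm_cor _ _)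
    ((sn_cor M' _).trans (SN.of_norm ((cor_le _ _).trans inf_le_right)
      (((cor_le _ _).trans inf_le_left).trans (norm_cor _ _)))) x0 (cor_le' _ _) (norm_cor _ _)
    ((sn_cor M _).trans (SN.of_norm ((cor_le _ _).trans inf_le_right)
      (((cor_le _ _).trans inf_le_right).trans (norm_cor _ _)))) y0
  exact .inr ⟨p, hp, _, (cor_le _ _).trans (inf_le_left.trans (cor_le _ _)), norm_cor _ _, x0,
    h1.to_le le_sup_left, b1, h2⟩

theorem core_eq_bot {r : ℕ} (hr : r.Prime) (h : pCoreOf r (M ⊓ M') ≤ cor M (M ⊓ M')) : pCoreOf r (M ⊓ M') = ⊥ := by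
  refine core_bot' W.p1 W.p2 W.n1 hr (W.cc r) ?_
  rw [le_antisymm (pCoreOf_le_pCoreOf_of_le (cor_le _ _) h)
    (pCoreOf_le_of_norm (cor_le _ _) (inf_le_left.trans (norm_cor _ _)))]
  exact norm_pCoreOf_of_norm (norm_cor _ _)

theorem dvd (h : ∀ r : ℕ, r.Prime → pCoreOf r (M ⊓ M') = ⊥) : Nat.card M ∣ d.factorial * (d - 1).factorial ^ d :=
  W.dich.resolve_right fun ⟨p, hp, _, x1, x2, x0, x3, _⟩ =>
    x0 (le_bot_iff.1 (h p hp ▸ le_pCoreOf x1 x3 (inf_le_left.trans x2)))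

end WD

end CA.H8Wie
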