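import Cfsg.Agent.Lib.Perm.Half2
import Cfsg.Agent.Lib.Grp.H4Cls
import Cfsg.Agent.Lib.Grp.Two
import Cfsg.Agent.Lib.Lin.AutFld

/-! A perfect linear group in odd characteristic all of whose orbits have length a power of one prime is trivial. -/

set_option autoImplicit false
set_option linter.unusedSectionVars false

namespace CA.QBaer

open Subgroup MulAction CA.MC2 CA.TrLin CA.RegLin CA.Half2 CA.BG
open scoped Pointwise

theorem unip {F V : Type*} [Field F] [AddCommGroup V] [Module F V] [Module.Finite F V]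
    (hd : Module.finrank F V ≤ 2) (f : V →ₗ[F] V) (h1 : LinearMap.det f = 1) {v : V} (v0 : v ≠ 0) (hv : f v = v)
    (w : V) : ∃ c : F, f w = w + c • v := by
  by_cases h : 1 < Module.finrank F V
  · obtain ⟨u, hu⟩ := exists_linearIndependent_pair_of_one_lt_finrank h v0
    let b := basisOfLinearIndependentOfCardEqFinrank hu (by simp; omega)
    have b0 : b 0 = v := by simp [b]
    rw [← LinearMap.det_toMatrix b, Matrix.det_fin_two] at h1
    simp only [LinearMap.toMatrix_apply, b0, hv] at h1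
    rw [← b0, b.repr_self] at h1
    simp at h1
    have h2 := b.sum_repr (f (b 1))
    have h3 := b.sum_repr w
    rw [Fin.sum_univ_two, b0] at h2 h3
    rw [h1, one_smul] at h2
    generalize b.repr (f (b 1)) 0 = c at h2
    generalize b.repr w 0 = x, b.repr w 1 = y at h3
    refine ⟨y * c, ?_⟩
    rw [← h3, map_add, map_smul, map_smul, hv, ← h2]
    module
  · obtain ⟨c, rfl⟩ := exists_smul_eq_of_finrank_eq_one (le_antisymm (not_lt.1 h)
      (Module.finrank_pos_iff_exists_ne_zero.2 ⟨v, v0⟩)) v0 w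
    exact ⟨0, by rw [map_smul, hv, zero_smul, add_zero]⟩

theorem index_ne_two {H : Type*} [Group H] (hP : commutator H = ⊤) (S : Subgroup H) : S.index ≠ 2 := fun e => by
  have := normal_of_index_eq_two e
  have : Fact (Nat.Prime 2) := ⟨Nat.prime_two⟩
  have h1 : IsCyclic (H ⧸ S) := isCyclic_of_prime_card (p := 2) e
  have h2 := (Normal.quotient_commutative_iff_commutator_le (N := S)).1 ⟨⟨h1.commGroup.mul_comm⟩⟩
  rw [hP, top_le_iff] at h2
  rw [h2, index_top] at e
  exact absurd e (by decide)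

theorem sq_frob {K : Type*} [Field K] [Fintype K] {q m : ℕ} [Fact q.Prime] [CharP K q] (hq : q ≠ 2) (hm : 1 ≤ m)
    {ε : ℤ} (h4 : (4 : ℤ) ∣ 2 ^ m * ε) (σ : K ≃+* K) {α : Kˣ} (ho : orderOf α = 2 ^ (m + 1))
    (h : σ α = (α ^ (2 ^ m * ε - 1 : ℤ) : Kˣ)) : α ^ q ^ 2 = α := by
  let _ : Algebra (ZMod q) K := ZMod.algebra K q
  obtain ⟨j, hj⟩ := FiniteField.exists_forall_apply_eq_pow (ZMod q) q K (CA.AutFld.ringAutEquiv q σ)
  have h1 : α ^ (q ^ j : ℤ) = α ^ (2 ^ m * ε - 1 : ℤ) := Units.ext (by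
    rw [← h, ← Nat.cast_pow, zpow_natCast, Units.val_pow_eq_pow_val, ← Nat.card_zmod q, ← hj]; rfl)
  rw [zpow_eq_zpow_iff_modEq, ho] at h1
  have qo : Odd q := (Fact.out : q.Prime).odd_of_ne_two hq
  obtain ⟨n, rfl⟩ : ∃ n, m = n + 1 := ⟨m - 1, by omega⟩
  have jo : Odd j := by
    rw [← Nat.not_even_iff_odd]
    rintro ⟨i, rfl⟩
    obtain ⟨t, ht⟩ := qo.pow (n := i)
    obtain ⟨u, hu⟩ := h1.dvd
    obtain ⟨s, hs⟩ := h4
    rw [pow_add (q : ℤ), ← Nat.cast_pow, ht, hs] at hu
    push_cast at hu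
    have : (4 : ℤ) * (s - t * t - t - 2 ^ n * u) = 2 := by linear_combination hu
    omega
  have h2 : ((q : ZMod (2 ^ (n + 1 + 1))) ^ 2) ^ j = 1 := by
    have := (ZMod.intCast_eq_intCast_iff _ _ _).2 (h1.pow 2)
    obtain ⟨s, hs⟩ := h4
    push_cast at this
    rw [← pow_mul, mul_comm, pow_mul, this]
    have h0 : (2 : ZMod (2 ^ (n + 1 + 1))) ^ (n + 1 + 1) = 0 := by exact_mod_cast ZMod.natCast_self (2 ^ (n + 1 + 1))
    linear_combination (2 ^ n * (ε : ZMod (2 ^ (n + 1 + 1))) ^ 2 - ε) * h0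
  have h3 : ((q : ZMod (2 ^ (n + 1 + 1))) ^ 2) ^ 2 ^ n = 1 := by
    have := (ZMod.natCast_eq_natCast_iff _ _ _).2 (Nat.ModEq.pow_totient (n := 2 ^ (n + 1 + 1))
      ((Nat.coprime_two_right.2 qo).pow_right _))
    rw [Nat.totient_prime_pow_succ Nat.prime_two] at this
    rw [← pow_mul, ← pow_succ']
    simpa using this
  have h5 := (pow_gcd_eq_one.2 ⟨h2, h3⟩ :)
  rw [((Nat.coprime_two_right.2 jo).pow_right n).gcd_eq_one, pow_one] at h5
  conv_rhs => rw [← pow_one α]
  rw [pow_eq_pow_iff_modEq, ho, ← ZMod.natCast_eq_natCast_iff]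
  exact_mod_cast h5

variable {H V : Type*} [Group H] [Finite H] [AddCommGroup V] [Finite V] [DistribMulAction H V]

theorem pair (hI : Irr V (⊤ : Subgroup H)) (hP : commutator H = ⊤) {P : Subgroup H}
    (h : ∀ (g : H) (v : V), ∃ u ∈ P, g • v = u • v) {W W' : AddSubgroup V} (hc : Nat.card W' = Nat.card W)
    (hW : ∀ g ∈ P, ∀ w ∈ W, g • w ∈ W ∨ g • w ∈ W') : W = ⊥ ∨ W = ⊤ := by
  have h0 : ∀ g : H, Nat.card (g • W : AddSubgroup V) = Nat.card W := fun g =>
    (Nat.card_congr (W.equivMapOfInjective _ (MulAction.injective g)).toEquiv).symm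
  have h1 : orbit H W ⊆ {W, W'} := by
    rintro _ ⟨g, rfl⟩
    refine (AddSubgroupClass.subset_union.1 (?_ : ((g • W : AddSubgroup V) : Set V) ⊆ W ∪ W')).imp
      (fun e => AddSubgroup.eq_of_le_of_card_ge e (h0 g).ge) fun e =>
        AddSubgroup.eq_of_le_of_card_ge e (hc.trans (h0 g).symm).le
    rintro _ ⟨w, hw, rfl⟩
    obtain ⟨u, hu, e⟩ := h g w
    exact (e ▸ hW u hu w hw :)
  have h2 := (Set.ncard_le_ncard h1).trans ((Set.ncard_insert_le W {W'}).trans_eq (by rw [Set.ncard_singleton]))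
  rw [← index_stabilizer] at h2
  have h3 := index_ne_two hP (stabilizer H W)
  have h4 := (stabilizer H W).index_ne_zero_of_finite
  have h5 : stabilizer H W = ⊤ := index_eq_one.1 (by omega)
  refine hI W fun g _ w hw => ?_
  rw [← mem_stabilizer_iff.1 (h5.ge (mem_top g))]
  exact AddSubgroup.smul_mem_pointwise_smul w g W hw

theorem lin [FaithfulSMul H V] {q p : ℕ} [Fact q.Prime] (hq : q ≠ 2) [Module (ZMod q) V]
    (hI : Irr V (⊤ : Subgroup H)) (hp : p.Prime) (hP : commutator H = ⊤)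
    (h : ∀ v : V, ∃ k, (stabilizer H v).index = p ^ k) : Subsingleton H := by
  by_contra hH
  have := not_subsingleton_iff_nontrivial.1 hH
  have hs : ¬ Group.IsSolvable H := fun hs => (IsSolvable.commutator_lt_top_of_nontrivial H).ne hP
  have hq' : q.Prime := Fact.out
  have : Fact (Nat.Prime 2) := ⟨Nat.prime_two⟩
  have hqv : ∀ v : V, q • v = 0 := fun v => by rw [← Nat.cast_smul_eq_nsmul (ZMod q), ZMod.natCast_self, zero_smul]
  have h2 : ∀ v : V, v + v = 0 → v = 0 := fun v e => by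
    obtain ⟨k, hk⟩ := hq'.odd_of_ne_two hq
    have := hqv v
    rwa [hk, add_nsmul, mul_nsmul, two_nsmul, e, nsmul_zero, zero_add, one_nsmul] at this
  have hf : ∀ g : H, (∀ v : V, g • v = v) → g = 1 := fun g e =>
    eq_of_smul_eq_smul (α := V) fun v => (e v).trans (one_smul H v).symm
  obtain rfl : p = 2 := by
    obtain ⟨t, ht⟩ := exists_prime_orderOf_dvd_card' (G := H) 2 (even_iff_two_dvd.1
      (Nat.not_odd_iff_even.1 fun e => hs (Cfsg.Agent.S0205.result e)))
    obtain ⟨v, hv⟩ := not_forall.1 fun e => absurd (hf t e ▸ ht) (by simp)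
    have t2 : t * t = 1 := by rw [← pow_two, ← ht, pow_orderOf_eq_one]
    have h3 : t • (v - t • v) = -(v - t • v) := by rw [smul_sub, ← mul_smul, t2, one_smul, neg_sub]
    have h4 : v - t • v ≠ 0 := fun e => hv (sub_eq_zero.1 e).symm
    generalize v - t • v = x at h3 h4
    obtain ⟨k, hk⟩ := h x
    by_contra p2
    obtain ⟨S, hS, h5⟩ := CA.H4Cls.exists_syl_le (K := stabilizer H x) Nat.prime_two fun e =>
      p2 ((Nat.prime_dvd_prime_iff_eq Nat.prime_two hp).1 (Nat.prime_two.dvd_of_dvd_pow (hk ▸ e))).symm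
    have h6 : zpowers t ≤ 𝓝(stabilizer H x) := zpowers_le.2 (mem_norm_of_cj_le fun g hg => by
      obtain ⟨c, hc, rfl⟩ := mem_cj'.1 hg
      rw [mem_stabilizer_iff] at hc ⊢
      rw [inv_eq_of_mul_eq_one_right t2, mul_smul, mul_smul, h3, smul_neg, hc, smul_neg, h3, neg_neg])
    have h7 : t • x = x := IsPi.le_of_relIndex (M := zpowers t ⊔ stabilizer H x)
      (isPi_of_card_eq Nat.prime_two (by rw [Nat.card_zpowers, ht])) le_sup_left (sup_le h6 le_normalizer)
      ((hS.of_le (h5.trans le_sup_right) le_top).le_of_idx h5) (mem_zpowers t)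
    exact h4 (h2 x (by rw [add_eq_zero_iff_eq_neg, ← h3, h7]))
  obtain ⟨P, hS⟩ := syl_exists Nat.prime_two (⊤ : Subgroup H)
  have h3 : ∀ (g : H) (v : V), ∃ u ∈ P, g • v = u • v := fun g v => by
    obtain ⟨k, hk⟩ := h v
    obtain ⟨u, hu, c, hc, rfl⟩ := hS.exists_mul_of_idx (K := stabilizer H v) le_top
      (by rw [relIndex_top_right, hk]; exact piNat_pow hp k) (mem_top g)
    exact ⟨u, hu, by rw [mul_smul, mem_stabilizer_iff.1 hc]⟩
  have hV : Nontrivial V := by
    by_contra e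
    obtain ⟨g, hg⟩ := exists_ne (1 : H)
    have := not_nontrivial_iff_subsingleton.1 e
    exact hg (hf g fun v => Subsingleton.elim _ _)
  have hf' : ∀ g : P, fix V g = ⊤ → g = 1 := fun g e => Subtype.ext (hf g fun v => (e.ge trivial : v ∈ fix V g))
  have h4 : ∀ g x : P, ∀ w ∈ fix V x, g • w ∈ fix V (g * x * g⁻¹) := fun g x w hw => by
    rw [mem_fix, mul_smul, inv_smul_smul, mul_smul, mem_fix.1 hw]
  have hV2 : Nat.card V ≤ q ^ 2 := by
    rcases tri (hS.pi.isPGroup hp) with h5 | ⟨R, _, hRe, hRc⟩ | ⟨-, m, a, y, hg, h5⟩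
    · have := CA.H4Cls.solv_of_hasNPC (CA.Two.hasNPC_of_isCyclic_in ((syl_iff hp).1 hS) h5)
      exact (hs (solvable_of_surjective (f := (⊤ : Subgroup H).subtype) fun g => ⟨⟨g, trivial⟩, rfl⟩)).elim
    · obtain ⟨x, z, hz, zo, -, hx, ⟨v, v0, hv⟩, h5⟩ := exists_xz (V := V) (hS.pi.isPGroup hp) (fun x hx x1 v hv => by
        refine AddSubgroup.mem_bot.1 ((pair hI hP h3 (W := fix V x) rfl fun g hg w hw => .inl ?_).resolve_right
          (mt (hf' x) x1) ▸ hv)
        have := h4 ⟨g, hg⟩ x w hw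
        rwa [mem_center_iff.1 hx, mul_inv_cancel_right] at this) hRe hRc
      have h6 : ∀ g : P, g * x * g⁻¹ = x ∨ g * x * g⁻¹ = x * z := fun g => by
        obtain ⟨i, hi⟩ := h5 g
        rw [hi, ← zpow_mod_orderOf, zo]
        rcases Int.emod_two_eq_zero_or_one i with e | e <;> simp [e]
      obtain ⟨u, hu⟩ := not_forall.1 fun e : ∀ g : P, g * x * g⁻¹ = x =>
        hx (mem_center_iff.2 fun g => mul_inv_eq_iff_eq_mul.1 (e g))
      rcases pair hI hP h3 (W := fix V x) (W' := fix V (x * z))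
        (by rw [← (h6 u).resolve_left hu, card_fix_conj]) (fun g hg w hw => by
          have := h4 ⟨g, hg⟩ x w hw
          exact (h6 ⟨g, hg⟩).imp (fun e => by rwa [e] at this) fun e => by rwa [e] at this) with e | e
      · exact (v0 (AddSubgroup.mem_bot.1 (e ▸ hv))).elim
      · exact (hx (hf' x e ▸ one_mem _)).elim
    obtain ⟨hm, ε, δ, h5⟩ : 1 ≤ m ∧ ∃ ε δ, MC m ε δ a y :=
      h5.elim (fun e => ⟨e.1, _, _, e.2⟩) fun ⟨e, k, _, e'⟩ => ⟨by omega, _, _, e'⟩
    have h6 : ∀ W : AddSubgroup V, (∀ b ∈ zpowers a, ∀ w ∈ W, b • w ∈ W) → W = ⊥ ∨ W = ⊤ := fun W hW => by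
      refine pair hI hP h3 (W' := y • W)
        (Nat.card_congr (W.equivMapOfInjective _ (MulAction.injective y)).toEquiv).symm fun g hg' w hw => ?_
      by_cases e : (⟨g, hg'⟩ : P) ∈ zpowers a
      · exact .inl (hW _ e w hw)
      obtain ⟨i, hi⟩ := h5.eq_of_notMem (hg.ge (mem_top _)) e
      refine .inr ⟨(y⁻¹ * a ^ i * y) • w, hW _ (conj_mem_of_mem_norm' h5.mem_normalizer (zpow_mem_zpowers a i)) w hw, ?_⟩
      change y • _ = (⟨g, hg'⟩ : P) • w
      rw [hi, ← mul_smul, ← mul_assoc, mul_inv_cancel_left]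
    obtain ⟨s, s0⟩ := exists_ne (0 : V)
    obtain ⟨K, _, _, e, e1, ea, ey⟩ := CA.Semilin.exists_field (zpowers a) (fun b hb c hc x => by
      rw [← mul_smul, ← mul_smul, mem_cent.1 (comm_iff_le_cent.1 (comm_of_cyclic (cyc_zpowers a)) hc) b hb]) h6 s0
    have : CharP K q := (CharP.charP_iff_prime_eq_zero hq').2 (by
      rw [← nsmul_one, ← e1, ← map_nsmul, hqv, map_zero])
    have h0 : ∀ g : P, e (g • s) ≠ 0 := fun g => by
      rwa [Ne, map_eq_zero_iff _ e.injective, smul_eq_zero_iff_eq]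
    let φ : zpowers a →* Kˣ := MonoidHom.mk' (fun b => Units.mk0 _ (h0 b)) fun b c => Units.ext (by
      simp only [Units.val_mul, Units.val_mk0, coe_mul, mul_smul]
      exact ea _ b.2 _)
    have hφ : Function.Injective φ := (injective_iff_map_eq_one φ).2 fun b hb => Subtype.ext (hf' b
      (eq_top_iff.2 fun v _ => e.injective (by
        rw [ea _ b.2, show e ((b : P) • s) = 1 from congrArg Units.val hb, one_mul])))
    obtain ⟨σ, hσ⟩ := ey y fun b hb => ⟨y * b * y⁻¹, conj_mem_of_mem_norm h5.mem_normalizer hb, fun x => by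
      rw [mul_smul, mul_smul, inv_smul_smul]⟩
    let a' : zpowers a := ⟨a, mem_zpowers a⟩
    have h7 := sq_frob hq hm h5.four σ (α := φ a') (by
      rw [orderOf_injective φ hφ, ← h5.ord, orderOf_mk]) (by
      have := hσ (a • s)
      rw [← mul_smul, mul_inv_eq_iff_eq_mul.1 h5.conj, mul_smul, ea _ (zpow_mem_zpowers _ _), mul_comm] at this
      rw [← map_zpow]
      exact (mul_left_cancel₀ (h0 y) this).symm)
    let W : AddSubgroup V :=
      { carrier := {v | e v ^ q ^ 2 = e v}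
        zero_mem' := by simp [hq'.ne_zero]
        add_mem' := fun {v w} (hv : _ = _) (hw : _ = _) => show _ = _ by rw [map_add, add_pow_char_pow, hv, hw]
        neg_mem' := fun {v} (hv : _ = _) => show _ = _ by
          rw [map_neg, Odd.neg_pow (hq'.odd_of_ne_two hq).pow, hv] }
    have h8 : W = ⊤ := (h6 W fun b hb w (hw : _ = _) => show _ = _ by
      obtain ⟨i, rfl⟩ := mem_powers_iff_mem_zpowers.2 hb
      have : e (a ^ i • s) = (φ a' ^ i : Kˣ) := by rw [← map_pow]; rfl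
      rw [ea _ hb, mul_pow, hw, this, ← Units.val_pow_eq_pow_val, ← pow_mul, mul_comm i, pow_mul, h7]).resolve_left
        fun e' => s0 (AddSubgroup.mem_bot.1 (e' ▸ show e s ^ q ^ 2 = e s by rw [e1, one_pow]))
    have h9 : 1 < q ^ 2 := Nat.one_lt_pow two_ne_zero hq'.one_lt
    by_contra h10
    refine FiniteField.X_pow_card_sub_X_ne_zero K h9
      (Polynomial.eq_zero_of_natDegree_lt_card_of_eval_eq_zero' _ Finset.univ (fun k _ => ?_) ?_)
    · obtain ⟨v, rfl⟩ := e.surjective k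
      have : e v ^ q ^ 2 = e v := (h8.ge trivial : v ∈ W)
      simp [this]
    · rw [FiniteField.X_pow_card_sub_X_natDegree_eq K h9, Finset.card_univ, ← Nat.card_eq_fintype_card,
        ← Nat.card_congr e.toEquiv]
      exact not_le.1 h10
  have : Module.Finite (ZMod q) V := Module.Finite.of_finite
  rw [Module.natCard_eq_pow_finrank (K := ZMod q), Nat.card_zmod, Nat.pow_le_pow_iff_right hq'.one_lt] at hV2
  have : SMulCommClass H (ZMod q) V := ⟨smul_comm_zmod⟩
  refine hs (CChar.CharBurn.isSolvable_of_primes (p := 2) (q := q) fun r hr hd => ?_)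
  by_contra h5
  push Not at h5
  obtain ⟨v, v0⟩ := exists_ne (0 : V)
  obtain ⟨k, hk⟩ := h v
  obtain ⟨g, hg, go⟩ := exists_orderOf_eq (H := stabilizer H v) hr (by
    rw [← (stabilizer H v).card_mul_index, hk] at hd
    exact ((Nat.coprime_primes hr hp).2 h5.1).pow_right k |>.dvd_of_dvd_mul_right hd)
  let ρ := DistribMulAction.toModuleAut (ZMod q) V (S := H)
  have h6 : LinearEquiv.det (ρ g) = 1 :=
    Abelianization.commutator_subset_ker (LinearEquiv.det.comp ρ) (hP.ge (mem_top g))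
  have h7 : g ^ q = 1 := hf _ fun w => by
    obtain ⟨c, hc⟩ := unip hV2 (ρ g : V →ₗ[ZMod q] V) (by rw [← LinearEquiv.coe_det, h6]; rfl) v0 hg w
    have : ∀ n : ℕ, g ^ n • w = w + n • c • v := fun n => by
      induction n with
      | zero => simp
      | succ n ih =>
        rw [pow_succ', mul_smul, ih, smul_add, show g • w = _ from hc, smul_comm g n, smul_comm g c,
          mem_stabilizer_iff.1 hg, add_nsmul, one_nsmul, add_assoc, add_comm (c • v)]
    rw [this, hqv, add_zero]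
  exact h5.2 ((Nat.prime_dvd_prime_iff_eq hr hq').1 (go ▸ orderOf_dvd_of_pow_eq_one h7))

end CA.QBaer
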