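import Cfsg.Agent.Lib.Loc.QBaer1
import Cfsg.Agent.Lib.Loc.EqO1

/-! Groups in which every `q`-element has prime power index. -/

set_option autoImplicit false
set_option linter.unusedSectionVars false

namespace CA.QBaer

open Subgroup Cfsg MulAction CA.TrLin CA.BG CA.EqO CA.Kaz

universe u
variable {G : Type u} [Group G] [Finite G] {p q r s a b c : ℕ} {x y : G} {N Q : Subgroup G}

theorem cent_min (hP : commutator G = ⊤) (hq : q.Prime) (h2 : q ≠ 2) (hp : p.Prime) (hN : MinNormal N ⊤)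
    (he : IsElementaryAbelian q N) (h : ∀ x ∈ N, ∃ k, 𝓒₁(x).index = p ^ k) : ⊤ ≤ 𝓒(N) := by
  have := normal_of hN.2.1
  have := he.1
  have := Fact.mk hq
  let _ : CommGroup N := { (inferInstance : Group N) with mul_comm := mul_comm' }
  have hext : ∀ {x y : Additive N}, (x.toMul : G) = y.toMul → x = y := fun h =>
    Additive.toMul.injective (Subtype.ext h)
  obtain ⟨_⟩ : Nonempty (Module (ZMod q) (Additive N)) :=
    ⟨AddCommGroup.zmodModule fun x => hext (he.2 _ x.toMul.2)⟩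
  let f := (MulAut.conjNormal : G →* MulAut N).rangeRestrict
  have hf : Function.Surjective f := MonoidHom.rangeRestrict_surjective _
  let _ := CA.RankOne3.addAct (MulAut.conjNormal : G →* MulAut N).range N
  have hsm : ∀ (g : G) (x : Additive N), ((f g • x).toMul : G) = g * (x.toMul : G) * g⁻¹ := fun _ _ => rfl
  have : FaithfulSMul (MulAut.conjNormal : G →* MulAut N).range (Additive N) :=
    ⟨fun e => Subtype.ext (MulEquiv.ext fun v => congrArg Additive.toMul (e (Additive.ofMul v)))⟩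
  have := lin (H := (MulAut.conjNormal : G →* MulAut N).range) (V := Additive N) h2 (fun W hW => by
    by_cases e : (AddSubgroup.toSubgroup' W).map N.subtype = ⊥
    · exact .inl (eq_bot_iff.2 fun w hw => hext (e.le ⟨w.toMul, hw, rfl⟩ :))
    refine .inr (eq_top_iff.2 fun w _ => ?_)
    obtain ⟨u, hu, e'⟩ := (hN.2.2 _ (map_subtype_le _) e fun g _ => mem_norm_of_cj_le fun v hv => by
      obtain ⟨_, ⟨w, hw, rfl⟩, rfl⟩ := mem_cj'.1 hv
      exact ⟨_, hW (f g) trivial (Additive.ofMul w) hw, rfl⟩).ge w.toMul.2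
    exact (show Additive.ofMul u = w from hext e') ▸ hu) hp
    (by rw [commutator_def, ← map_top_of_surjective f hf, ← map_commutator, ← commutator_def, hP]) fun v => by
      obtain ⟨k, hk⟩ := h _ v.toMul.2
      refine ⟨k, ?_⟩
      rw [← index_comap_of_surjective _ hf, ← hk]
      congr 1
      ext g
      rw [mem_comap, mem_stabilizer_iff, mem_cent1, ← mul_inv_eq_iff_eq_mul, ← hsm]
      exact ⟨fun e => by rw [e], hext⟩
  intro g _ n hn
  have h1 := hsm g (Additive.ofMul ⟨n, hn⟩)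
  rw [Subsingleton.elim (f g) 1, one_smul] at h1
  exact eq_mul_inv_iff_mul_eq.1 h1

theorem cent_perf (hq : q.Prime) (h2 : q ≠ 2) (hp : p.Prime) (n : ℕ) : ∀ (G : Type u) [Group G] [Finite G]
    (Q : Subgroup G) [Q.Normal], Nat.card G < n → commutator G = ⊤ → IsPi {q} Q → IsMulCommutative Q →
    (∀ x ∈ Q, ∃ k, 𝓒₁(x).index = p ^ k) → ⊤ ≤ 𝓒(Q) := by
  induction n with
  | zero => exact fun _ _ _ _ _ h => absurd h (Nat.not_lt_zero _)
  | succ n ih =>
    intro G _ _ Q _ hn hP hQ hc h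
    by_cases e : Q = ⊥
    · rw [e, cent_bot]
    obtain ⟨N, h1, hN⟩ := exists_minNormal (top_norm Q ⊤) e
    have := normal_of hN.2.1
    obtain ⟨r, hr, he⟩ := hN.elem (solv_of_comm (comm_of_le hc h1))
    obtain rfl : r = q := (isPi_of_elem hr he).mem_of_ne_bot hN.1 (hQ.of_le h1)
    have h3 := cent_min hP hq h2 hp hN he fun x hx => h x (h1 hx)
    have hf := QuotientGroup.mk'_surjective N
    have := Normal.map ‹Q.Normal› _ hf
    have h4 := ih _ (Q.map (QuotientGroup.mk' N)) ((card_quot_lt hN.1).trans_le (by omega))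
      (by rw [commutator_def, ← map_top_of_surjective _ hf, ← map_commutator, ← commutator_def, hP])
      (pi_map hQ _) (comm_map hc _) (by
        rintro _ ⟨x, hx, rfl⟩
        obtain ⟨k, hk⟩ := h x hx
        exact pow_of_dvd hp (hk ▸ index_map_dvd' _ hf x))
    have h5 : ⁅(⊤ : Subgroup G), Q⁆ ≤ N := by
      rw [← QuotientGroup.ker_mk' N, ← Subgroup.map_eq_bot_iff, map_commutator, comm_eq_bot_iff]
      exact le_top.trans h4
    rw [← hP]
    exact three_subgroups (h5.trans (cent_symm h3)) ((comm_symm _ _).le.trans (h5.trans (cent_symm h3)))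

theorem solv_aux (hq : q.Prime) (h2 : q ≠ 2) (hp : p.Prime) (n : ℕ) : ∀ (G : Type u) [Group G] [Finite G]
    (Q : Subgroup G) [Q.Normal], Nat.card G < n → Syl q Q ⊤ → IsMulCommutative Q → pPrimeCore q G = ⊥ →
    (∀ x ∈ Q, ∃ k, 𝓒₁(x).index = p ^ k) → Group.IsSolvable G := by
  induction n with
  | zero => exact fun _ _ _ _ _ h => absurd h (Nat.not_lt_zero _)
  | succ n ih =>
    intro G _ _ Q _ hn hQ hc hO h
    have := Fact.mk hq
    by_cases hP : commutator G = ⊤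
    · have h1 := (burnside_hasPC hq hQ
        (inf_le_left.trans (cent_perf hq h2 hp _ G Q (Nat.lt_succ_self _) hP hQ.pi hc h))).sup_syl hQ
      rw [core_p'_eq hq, Core.map_pPrimeCore_top, hO, sup_bot_eq] at h1
      have := solv_of_comm hc
      exact solvable_of_surjective (f := Q.subtype) fun g => ⟨⟨g, h1.ge (mem_top g)⟩, rfl⟩
    have h1 := card_lt_of_lt (H := commutator G) (K := ⊤) (lt_top_iff_ne_top.2 hP)
    rw [card_top] at h1
    have := ih (commutator G) (Q.subgroupOf _) (by omega) (Hall.mk' le_top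
      (hQ.pi.nat.of_dvd (card_comap_dvd_of_injective _ _ (subtype_injective _))) (by
        rw [relIndex_top_right]
        exact (relIndex_top_right Q ▸ hQ.idx).of_dvd (relIndex_dvd_index_of_normal Q _))) inferInstance
      (Core.pPrimeCore_eq_bot_of_subnormal (Normal.isSubnormal inferInstance) hO) fun x hx =>
        let ⟨k, hk⟩ := h x hx
        pow_of_dvd hp (hk ▸ index_sub_dvd x.2)
    exact CA.H4Cls.solv_ext (commutator G) this (isSolvable_of_comm
      ((Normal.quotient_commutative_iff_commutator_le (N := commutator G)).2 le_rfl).is_comm.comm)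

theorem asym (hp : p.Prime) (hr : r.Prime) (hs : s.Prime) (hpr : p ≠ r) (hpq : p ≠ q) (hx : 𝓒₁(x).index = p ^ a)
    (hy : 𝓒₁(y).index = r ^ b) (hq : IsPi {q} (zpowers y)) (hlt : r ^ b < p ^ a) (hxy : 𝓒₁(x * y).index = s ^ c) :
    b = 0 := by
  have hc : 𝓒₁(x).index.Coprime 𝓒₁(y).index := by
    rw [hx, hy]; exact Nat.Coprime.pow _ _ ((Nat.coprime_primes hp hr).2 hpr)
  have k1 : ∀ u, IsConj x u → ∀ g, IsConj (x * y) (u * (g * y * g⁻¹)) := fun u hu g => by
    obtain ⟨h, rfl⟩ := isConj_iff.1 hu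
    obtain ⟨c, hc, d, hd, e⟩ := H1Prod.fac_of_coprime_index hc (h⁻¹ * g)
    refine isConj_iff.2 ⟨h * c, ?_⟩
    rw [inv_mul_eq_iff_eq_mul.1 e]
    calc _ = h * (c * x) * y * c⁻¹ * h⁻¹ := by group
      _ = h * x * c * (d * y * d⁻¹) * c⁻¹ * h⁻¹ := by rw [mem_cent1.1 hc, mem_cent1.1 hd]; group
      _ = _ := by group
  let F : {u // IsConj x u} → {u // IsConj (x * y) u} := fun u => ⟨u * y, by simpa using k1 u u.2 1⟩
  have hF : Function.Injective F := fun u v e => Subtype.ext (mul_right_cancel (congrArg Subtype.val e))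
  have c1 := CChar.CharOrth.natCard_class_eq_index x
  have c2 := CChar.CharOrth.natCard_class_eq_index (x * y)
  have h1 : s ^ c ∣ p ^ a * r ^ b := by
    rw [← hxy, ← hx, ← hy, ← H1Prod.index_inf_of_coprime hc]
    exact index_dvd_of_le fun g hg => mem_cent1.2 (by
      rw [← mul_assoc, mem_cent1.1 hg.1, mul_assoc, mem_cent1.1 hg.2, mul_assoc])
  have h2 := Nat.card_le_card_of_injective F hF
  rw [c1, c2, hx, hxy] at h2
  have h3 : s ^ c ≤ p ^ a := by
    by_cases e : s = r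
    · subst e
      exact (Nat.le_of_dvd (pow_pos hr.pos _) ((Nat.Coprime.pow _ _
        ((Nat.coprime_primes hr hp).2 hpr.symm)).dvd_of_dvd_mul_left h1)).trans hlt.le
    · exact Nat.le_of_dvd (pow_pos hp.pos _) ((Nat.Coprime.pow _ _
        ((Nat.coprime_primes hs hr).2 e)).dvd_of_dvd_mul_right h1)
  have h4 := ((Nat.bijective_iff_injective_and_card F).2 ⟨hF, by rw [c1, c2, hx, hxy]; omega⟩).2
  let M0 : Submonoid G :=
    { carrier := {k | ∀ u, IsConj x u → IsConj x (u * k)}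
      one_mem' := fun u hu => by rwa [mul_one]
      mul_mem' := fun hk hl u hu => by rw [← mul_assoc]; exact hl _ (hk u hu) }
  let M : Subgroup G := { M0 with
    inv_mem' := fun {k} hk => by
      obtain ⟨n, hn⟩ := mem_powers_iff_mem_zpowers.2 (inv_mem (mem_zpowers k))
      exact hn ▸ pow_mem (show k ∈ M0 from hk) n }
  have : M.Normal := ⟨fun k hk g u hu => by
    refine (hk (g⁻¹ * u * g) (hu.trans (isConj_iff.2 ⟨g⁻¹, by rw [inv_inv]⟩))).trans (isConj_iff.2 ⟨g, by group⟩)⟩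
  have h5 : ∀ g, g * y * g⁻¹ * y⁻¹ ∈ M := fun g u hu => by
    obtain ⟨v, hv⟩ := h4 ⟨_, k1 u hu g⟩
    rw [← mul_assoc, ← show (v : G) * y = u * (g * y * g⁻¹) from congrArg Subtype.val hv, mul_inv_cancel_right]
    exact v.2
  have h6 : IsPi {p} M := (piNat_pow hp a).of_dvd (by
    have e := Nat.card_congr (QuotientGroup.preimageMkEquivSubgroupProdSet M (QuotientGroup.mk '' {u | IsConj x u}))
    rw [Nat.card_prod, show QuotientGroup.mk ⁻¹' (QuotientGroup.mk '' {u | IsConj x u}) = {u | IsConj x u} from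
      Set.Subset.antisymm (fun v ⟨u, hu, e⟩ => by simpa using QuotientGroup.eq.1 e u hu)
        (Set.subset_preimage_image _ _)] at e
    exact ⟨_, (hx.symm.trans c1.symm).trans e⟩)
  have h7 : 𝓒₁(y) ⊔ M = ⊤ := eq_top_iff.2 fun g _ => by
    obtain ⟨k, hk, e⟩ := coprime_conj_le (A := zpowers y) (B := cj g (zpowers y)) (top_norm M _)
      (h6.coprime_ne hq hpq) (by
        rw [cj_zpowers, zpowers_le, sup_comm, ← inv_mul_cancel_right (g * y * g⁻¹) y]
        exact mul_mem_sup (h5 g) (mem_zpowers y)) (h6.coprime_ne (hq.cj g) hpq) (.inr (.inr (h6.isSolvable hp)))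
    rw [← cj_mul] at e
    have h8 : k * g * y * (k * g)⁻¹ * y⁻¹ = 1 := mem_bot.1 ((h6.inf_eq_bot (hq.ne hpq.symm)).le
      (mem_inf.2 ⟨h5 _, mul_mem (e (conj_mem_cj.2 (mem_zpowers y))) (inv_mem (mem_zpowers y))⟩))
    rw [← inv_mul_cancel_left k g]
    exact mul_mem (mem_sup_right (inv_mem hk)) (mem_sup_left (mem_cent1.2
      (mul_inv_eq_iff_eq_mul.1 (mul_inv_eq_one.1 h8))))
  have h8 := card_sup_dvd (top_norm M 𝓒₁(y))
  rw [h7, card_top, ← 𝓒₁(y).card_mul_index, Nat.mul_dvd_mul_iff_left (card_pos' _), hy] at h8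
  by_contra b0
  exact hpr (h6.nat r hr ((dvd_pow_self r b0).trans h8)).symm

theorem split (hq : q.Prime) (hQ : Syl q Q ⊤) [Q.Normal] (h : ⁅Q, ⊤⁆ ≤ ⁅Q, Q⁆) :
    (∀ x : G, IsPi {q} (zpowers x) → ∃ a, 𝓒₁(x).index = q ^ a) ∧ ∃ N : Subgroup G, N.Normal ∧ N.IsComplement' Q := by
  obtain ⟨N, -, h1, h2, h3⟩ := CA.Fus2.exists_complement_in le_top (top_norm Q ⊤) hQ.coprime
  have h4 : N ≤ 𝓒(Q) := coprime_cent_Phi (top_norm Q N) (h1 ▸ hQ.coprime)
    ((comm_mono le_rfl le_top).trans (h.trans (der_le_Phi hq hQ.pi)))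
  have : N.Normal := normal_of (h2 ▸ sup_le le_normalizer (norm_of_cent (cent_symm h4)))
  refine ⟨fun x hx => ?_, N, this, CA.Fus2.isComplement'_of_normal h3 h2⟩
  obtain ⟨k, hk⟩ := hQ.pi.exists_card hq
  refine pow_of_dvd hq (k := k) ((index_dvd_of_le (h4.trans (cent_le_cent1
    (hQ.le_of_normal (top_norm Q ⊤) hx le_top (mem_zpowers x))))).trans ?_)
  rw [← hk, (CA.Fus2.isComplement'_of_normal h3 h2).symm.index_eq_card]

theorem caseA (hq : q.Prime) (hQ : Syl q Q ⊤) (h : ∀ x ∈ Q, ∃ r a, r.Prime ∧ 𝓒₁(x).index = r ^ a)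
    (hx : IsPi {q} (zpowers x)) (h1 : 𝓒₁(x).index = q ^ (a + 1)) : Q.Normal ∧ ⁅Q, ⊤⁆ ≤ ⁅Q, Q⁆ := by
  have : (𝓞({q}, (⊤ : Subgroup G))).Normal := normal_of (le_norm_core _ _)
  have k0 : ∀ w ∈ Q, (∃ a, 𝓒₁(w).index = q ^ a) ∨ w ∈ 𝓒(𝓞({q}, (⊤ : Subgroup G))) := fun w hw => by
    obtain ⟨r, a, hr, e⟩ := h w hw
    by_cases e' : q = r
    · exact .inl ⟨a, e' ▸ e⟩
    · exact .inr (le_cent1_iff.1 (le_cent_of_not_dvd hq (fun e'' =>
        e' ((Nat.prime_dvd_prime_iff_eq hq hr).1 (hq.dvd_of_dvd_pow (e ▸ e'')))) (core_pi _ _)))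
  have k1 : ¬ Q ≤ 𝓒(𝓞({q}, (⊤ : Subgroup G))) := fun e => CA.H4Cls.not_dvd_index hq hQ
    (e.trans (cent_le_cent1 (mem_core hq h1 hx))) (h1 ▸ dvd_pow_self q a.succ_ne_zero)
  have k2 : Q = 𝓞({q}, (⊤ : Subgroup G)) := le_antisymm ((SubgroupClass.subset_union.1 fun w hw =>
    (k0 w hw).imp (fun ⟨_, e⟩ => mem_core hq e (hQ.pi.of_le (zpowers_le.2 hw))) id).resolve_right k1) hQ.core_le
  rw [← k2] at this k0 k1
  refine ⟨this, ?_⟩
  have hf := QuotientGroup.mk'_surjective ⁅Q, Q⁆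
  have k3 : Q ≤ (center _).comap (QuotientGroup.mk' ⁅Q, Q⁆) := (SubgroupClass.subset_union.1 fun w hw =>
    (k0 w hw).imp_left fun ⟨b, e⟩ => mem_center_iff.2 fun g => by
      obtain ⟨g, rfl⟩ := hf g
      obtain ⟨u, hu, c, hc, rfl⟩ := hQ.exists_mul_of_idx (K := 𝓒₁(w)) le_top
        (by rw [relIndex_top_right, e]; exact piNat_pow hq b) (mem_top g)
      rw [← map_mul, ← map_mul, mul_assoc, mem_cent1.1 hc, ← mul_assoc, ← mul_assoc, map_mul, map_mul _ _ c]
      congr 1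
      rw [← mul_inv_eq_one, ← map_inv, ← map_mul, QuotientGroup.mk'_apply, QuotientGroup.eq_one_iff, mul_inv_rev,
        ← mul_assoc]
      exact commutator_mem_commutator hu hw).resolve_right k1
  rw [← QuotientGroup.ker_mk' ⁅Q, Q⁆, ← Subgroup.map_eq_bot_iff, map_commutator, comm_eq_bot_iff]
  rintro _ ⟨w, hw, rfl⟩ g -
  exact mem_center_iff.1 (k3 hw) g

theorem caseB (hp : p.Prime) (hq : q.Prime) (hpq : p ≠ q) (hQ : Syl q Q ⊤) (h : ∀ x ∈ Q, ∃ a, 𝓒₁(x).index = p ^ a) :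
    IsMulCommutative Q ∧ (pCore p G ⊔ Q).Normal := by
  have := Fact.mk hp
  have hf := QuotientGroup.mk'_surjective (pCore p G)
  have hS := syl_map' hq hf hQ
  have k0 : ∀ x ∈ Q.map (QuotientGroup.mk' (pCore p G)), ∃ a, 𝓒₁(x).index = p ^ a := by
    rintro _ ⟨x, hx, rfl⟩
    obtain ⟨k, hk⟩ := h x hx
    exact pow_of_dvd hp (hk ▸ index_map_dvd' _ hf x)
  have k1 : Q.map (QuotientGroup.mk' (pCore p G)) = 𝓞({q}, ⊤) := le_antisymm (fun x hx => by
    obtain ⟨k, hk⟩ := k0 x hx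
    have h1 := comm_closure hp hk (by rw [core_p_eq hp, Core.map_pCore_top, Core.pCore_quotient_pCore])
    exact core_le_core le_top (top_norm _ _) ((hS.pi.of_le (zpowers_le.2 hx)).le_core_of_nil
      (zpowers_le.2 (subset_normalClosure (Set.mem_singleton x))) (nil_of_comm h1) (mem_zpowers x))) hS.core_le
  have : (Q.map (QuotientGroup.mk' (pCore p G))).Normal := normal_of (k1 ▸ le_norm_core _ _)
  refine ⟨comm_of_map (f := QuotientGroup.mk' (pCore p G)) ?_ (comm_iff_le_cent.2 fun x hx => ?_), ?_⟩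
  · rw [QuotientGroup.ker_mk']
    exact hQ.pi.inf_eq_bot ((isPi_of_isPGroup hp Core.isPGroup_pCore).ne hpq)
  · obtain ⟨k, hk⟩ := k0 x hx
    exact le_cent1_iff.1 (le_cent_of_not_dvd hq (fun e =>
      hpq ((Nat.prime_dvd_prime_iff_eq hq hp).1 (hq.dvd_of_dvd_pow (hk ▸ e))).symm) hS.pi)
  · have := this.comap (QuotientGroup.mk' (pCore p G))
    rwa [comap_map_eq, QuotientGroup.ker_mk', sup_comm] at this

theorem solv_quot [Fact q.Prime] (hp : p.Prime) (hpq : p ≠ q) (Q : Sylow q G)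
    (h : ∀ x ∈ (Q : Subgroup G), ∃ a, 𝓒₁(x).index = p ^ a) : Group.IsSolvable (G ⧸ pPrimeCore q G) := by
  have hq : q.Prime := Fact.out
  have := Fact.mk hp
  obtain ⟨h1, h2⟩ := caseB hp hq hpq (syl_top hq Q) h
  have hf := QuotientGroup.mk'_surjective (pPrimeCore q G)
  have hS := syl_map' hq hf (syl_top hq Q)
  have := h2.map _ hf
  rw [Subgroup.map_sup, (Subgroup.map_eq_bot_iff _).2 (by
    rw [QuotientGroup.ker_mk']
    exact Core.le_pPrimeCore ((isPi_compl_iff_coprime hq).1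
      ((isPi_of_isPGroup hp Core.isPGroup_pCore).ne hpq))), bot_sup_eq] at this
  by_cases e : q = 2
  · subst e
    obtain ⟨S, hS⟩ := hS.exists_sylow_top hq
    exact CA.H4Cls.solv_of_normal_syl S (hS ▸ this)
  refine solv_aux hq e hp _ _ _ (Nat.lt_succ_self _) hS (comm_map h1 _) Core.pPrimeCore_quotient_pPrimeCore ?_
  rintro _ ⟨x, hx, rfl⟩
  obtain ⟨k, hk⟩ := h x hx
  exact pow_of_dvd hp (hk ▸ index_map_dvd' _ hf x)

theorem uniq (hq : q.Prime) (hQ : Syl q Q ⊤) (h : ∀ x ∈ Q, ∃ r a, r.Prime ∧ r ≠ q ∧ 𝓒₁(x).index = r ^ a) :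
    ∃ p, p.Prime ∧ p ≠ q ∧ ∀ x ∈ Q, ∃ a, 𝓒₁(x).index = p ^ a := by
  by_cases e : ∀ x ∈ Q, 𝓒₁(x).index = 1
  · obtain ⟨r, -, hr, h1, -⟩ := h 1 (one_mem Q)
    exact ⟨r, hr, h1, fun x hx => ⟨0, e x hx⟩⟩
  push Not at e
  obtain ⟨x, hx, h0⟩ := e
  obtain ⟨p, a, hp, h1, h2⟩ := h x hx
  refine ⟨p, hp, h1, fun y hy => ?_⟩
  obtain ⟨r, b, hr, h3, h4⟩ := h y hy
  by_cases e : p = r
  · exact ⟨b, e ▸ h4⟩
  rcases lt_trichotomy (r ^ b) (p ^ a) with e' | e' | e'
  · obtain ⟨s, c, hs, -, h5⟩ := h _ (mul_mem hx hy)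
    exact ⟨0, by rw [h4, asym hp hr hs e h1 h2 h4 (hQ.pi.of_le (zpowers_le.2 hy)) e' h5, pow_zero, pow_zero]⟩
  · exact ⟨a, h4.trans e'⟩
  · obtain ⟨s, c, hs, -, h5⟩ := h _ (mul_mem hy hx)
    exact (h0 (by rw [h2, asym hr hp hs (Ne.symm e) h3 h4 h2 (hQ.pi.of_le (zpowers_le.2 hx)) e' h5, pow_zero])).elim

end CA.QBaer
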