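import Mathlib
import Cfsg.Agent.Lib.Grp.Core
import Cfsg.Agent.Lib.Grp.Subn
import Cfsg.Agent.Lib.Odd.BGBase1

/-! Casolo's theorem on the subnormalizer of a `p`-subgroup. -/

set_option autoImplicit false
set_option linter.unusedSectionVars false

namespace CA.SubN

open Subgroup CA.BG Finset
open scoped Classical

section poset
variable {α : Type*} [Fintype α] [PartialOrder α]

theorem sum_split (S : α → Prop) (ν : α → ℤ) {Q : α} (hQ : S Q) :
    ∑ R with S R ∧ Q ≤ R, ν R = ν Q + ∑ R with S R ∧ Q < R, ν R := by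
  rw [← add_sum_erase _ _ (a := Q) (by simp [hQ])]
  congr 2
  ext R
  simp only [mem_erase, mem_filter, mem_univ, true_and, lt_iff_le_and_ne]
  tauto

/-- the (negative) Möbius function `μ(Q, ∞)` of the subposet `S` -/
noncomputable def nu (S : α → Prop) : α → ℤ :=
  (wellFounded_gt (α := α)).fix fun Q f => 1 - ∑ R : {R // S R ∧ Q < R}, f R R.2.2

theorem sum_nu (S : α → Prop) {Q : α} (hQ : S Q) : ∑ R with S R ∧ Q ≤ R, nu S R = 1 := by
  have h : nu S Q = 1 - ∑ R : {R // S R ∧ Q < R}, nu S R := WellFounded.fix_eq _ _ _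
  rw [sum_split S _ hQ, h, sum_subtype (p := fun R => S R ∧ Q < R) _ (by simp)]
  ring

theorem nu_unique (S : α → Prop) {ν : α → ℤ} {Q : α} (h : ∀ T, S T → Q ≤ T → ∑ R with S R ∧ T ≤ R, ν R = 1)
    (T : α) : S T → Q ≤ T → ν T = nu S T := by
  induction T using (wellFounded_gt (α := α)).induction with | h T ih => ?_
  intro hT hQ
  have h1 := h T hT hQ
  have h2 := sum_nu S hT
  rw [sum_split S _ hT] at h1 h2
  rw [sum_congr rfl fun R hR => ih R (mem_filter.1 hR).2.2 (mem_filter.1 hR).2.1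
    (hQ.trans (mem_filter.1 hR).2.2.le)] at h1
  exact add_right_cancel (h1.trans h2.symm)

end poset

variable {G : Type*} [Group G] [Finite G] {p : ℕ} [Fact p.Prime]

noncomputable instance : Fintype (Subgroup G) := Fintype.ofFinite _

/-- `g`-invariant `p`-subgroups of `M` -/
def PP (p : ℕ) (M : Subgroup G) (g : G) (R : Subgroup G) : Prop := IsPGroup p R ∧ R ≤ M ∧ g ∈ 𝓝(R)

theorem eq_of_inf_norm {Q R : Subgroup G} (hR : IsPGroup p R) (h : Q ≤ R) (e : R ⊓ 𝓝(Q) = Q) : R = Q := by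
  by_contra hne
  haveI := hR.isNilpotent
  have h1 : Q.subgroupOf R < ⊤ := lt_top_iff_ne_top.2 fun e => hne (le_antisymm (subgroupOf_eq_top.1 e) h)
  obtain ⟨x, hx, hx'⟩ := SetLike.exists_of_lt (normalizerCondition_of_isNilpotent _ h1)
  rw [← subgroupOf_normalizer_eq h] at hx
  exact hx' (e.le (mem_inf.2 ⟨x.2, hx⟩))

theorem nu_local {M Q : Subgroup G} {g : G} (hQ : PP p M g Q) :
    nu (PP p M g) Q = nu (PP p (M ⊓ 𝓝(Q)) g) Q := by
  have h0 : g ∈ 𝓝(𝓝(Q)) := le_normalizer hQ.2.2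
  rw [← nu_unique (PP p (M ⊓ 𝓝(Q)) g) (Q := Q)
    (ν := fun R' => ∑ R with (PP p M g R ∧ Q ≤ R) ∧ R ⊓ 𝓝(Q) = R', nu (PP p M g) R) ?_ Q
    ⟨hQ.1, le_inf hQ.2.1 le_normalizer, hQ.2.2⟩ le_rfl]
  · rw [sum_eq_single_of_mem Q (by simp [hQ, le_normalizer])]
    intro R hR hne
    obtain ⟨⟨h1, h2⟩, h3⟩ := (mem_filter.1 hR).2
    exact (hne (eq_of_inf_norm h1.1 h2 h3)).elim
  · intro T hT hQT
    rw [← sum_nu (PP p M g) (Q := T) ⟨hT.1, hT.2.1.trans inf_le_left, hT.2.2⟩,
      ← sum_fiberwise_of_maps_to (s := univ.filter fun R => PP p M g R ∧ T ≤ R) (g := fun R => R ⊓ 𝓝(Q))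
        (t := univ.filter fun R => PP p (M ⊓ 𝓝(Q)) g R ∧ T ≤ R)]
    · refine sum_congr rfl fun R' hR' => sum_congr ?_ fun _ _ => rfl
      ext R
      simp only [mem_filter, mem_univ, true_and]
      refine and_congr_left fun e => and_congr_right fun _ => ⟨fun _ => ?_, hQT.trans⟩
      exact ((mem_filter.1 hR').2.2.trans e.ge).trans inf_le_left
    · intro R hR
      obtain ⟨⟨h1, h2, h3⟩, h4⟩ := (mem_filter.1 hR).2
      exact mem_filter.2 ⟨mem_univ _, ⟨h1.to_le inf_le_left, inf_le_inf_right _ h2,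
        norm_inf (zpowers_le.2 h3) (zpowers_le.2 h0) (mem_zpowers g)⟩, le_inf h4 (hT.2.1.trans inf_le_right)⟩

theorem sum_nu_ex (M H : Subgroup G) (g : G) :
    ∑ R with PP p M g R ∧ H ≤ R, nu (PP p M g) R = if ∃ R, PP p M g R ∧ H ≤ R then 1 else 0 := by
  split_ifs with h
  · obtain ⟨R, hR⟩ := h
    obtain ⟨T, -, hT, hm⟩ := exists_minimal_le (P := fun R => PP p M g R ∧ H ≤ R) hR
    rw [← sum_nu (PP p M g) hT.1]
    refine sum_congr ?_ fun _ _ => rfl
    ext R
    simp only [mem_filter, mem_univ, true_and]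
    refine and_congr_right fun h1 => ⟨fun h2 => ?_, hT.2.trans⟩
    exact inf_eq_left.1 (hm (T ⊓ R) ⟨⟨hT.1.1.to_le inf_le_left, inf_le_left.trans hT.1.2.1,
      norm_inf (zpowers_le.2 hT.1.2.2) (zpowers_le.2 h1.2.2) (mem_zpowers g)⟩, le_inf hT.2 h2⟩ inf_le_left)
  · exact sum_eq_zero fun R hR => (h ⟨R, (mem_filter.1 hR).2⟩).elim

noncomputable instance : Fintype G := Fintype.ofFinite _

/-- the sum of `ν_g(Q)` over the elements of `M` normalizing `Q` -/
noncomputable def FF (p : ℕ) (M Q : Subgroup G) : ℤ := ∑ g with g ∈ M ⊓ 𝓝(Q), nu (PP p M g) Q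

theorem card_eq_sum (M H : Subgroup G) :
    (#{g | g ∈ M ∧ ∃ R, PP p M g R ∧ H ≤ R} : ℤ) = ∑ R with H ≤ R ∧ R ≤ M ∧ IsPGroup p R, FF p M R := by
  have h1 : (#{g | g ∈ M ∧ ∃ R, PP p M g R ∧ H ≤ R} : ℤ) =
      ∑ g with g ∈ M, ∑ R with PP p M g R ∧ H ≤ R, nu (PP p M g) R := by
    simp only [sum_nu_ex, sum_boole, filter_filter]
  rw [h1]
  refine sum_comm' fun g R => ?_
  rw [mem_filter, mem_filter, mem_filter, mem_filter, Subgroup.mem_inf, PP]
  simp only [mem_univ, true_and]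
  tauto

/-- maximal `p`-subgroups of `M` -/
def MaxP (p : ℕ) (M R : Subgroup G) : Prop := IsPGroup p R ∧ R ≤ M ∧ ∀ T : Subgroup G, IsPGroup p T → T ≤ M → R ≤ T → T = R

theorem FF_max {M Q : Subgroup G} (h : MaxP p M Q) : FF p M Q = Nat.card (M ⊓ 𝓝(Q) : Subgroup G) := by
  rw [FF, sum_congr rfl (g := fun _ => 1) fun g hg => ?_]
  · simp [Nat.card_eq_fintype_card, Fintype.card_subtype]
  have h1 : PP p M g Q := ⟨h.1, h.2.1, (mem_inf.1 (mem_filter.1 hg).2).2⟩
  rw [← sum_nu (PP p M g) h1, sum_eq_single_of_mem Q (by simp [h1])]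
  intro R hR hne
  exact (hne (h.2.2 R (mem_filter.1 hR).2.1.1 (mem_filter.1 hR).2.1.2.1 (mem_filter.1 hR).2.2)).elim

/-- Sylow subgroups of `M` as subgroups of `G` -/
noncomputable def sylEquiv (p : ℕ) (M : Subgroup G) : Sylow p M ≃ {R // MaxP p M R} where
  toFun P := ⟨(P : Subgroup M).map M.subtype, P.isPGroup'.map _, map_subtype_le _, fun T hT hM h => by
    rw [← P.is_maximal' (hT.comap_subtype (K := M)) (map_le_iff_le_comap.1 h), map_comap_eq_self (by simpa using hM)]⟩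
  invFun R := ⟨R.1.subgroupOf M, R.2.1.comap_subtype, fun {T} hT h => by
    have := R.2.2.2 (T.map M.subtype) (hT.map _) (map_subtype_le _) (by
      exact (map_subgroupOf_eq_of_le R.2.2.1).ge.trans (map_mono h))
    rw [← this]
    exact (comap_map_eq_self_of_injective M.subtype_injective T).symm⟩
  left_inv P := Sylow.ext (comap_map_eq_self_of_injective M.subtype_injective _)
  right_inv R := Subtype.ext (map_subgroupOf_eq_of_le R.2.2.1)

theorem card_syl_mul (P : Sylow p G) : Nat.card (Sylow p G) * Nat.card 𝓝((P : Subgroup G)) = Nat.card G :=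
  P.card_eq_index_normalizer ▸ index_mul_card _

theorem card_norm (P Q : Sylow p G) : Nat.card 𝓝((Q : Subgroup G)) = Nat.card 𝓝((P : Subgroup G)) :=
  mul_left_cancel₀ Nat.card_pos.ne' ((card_syl_mul Q).trans (card_syl_mul P).symm)

theorem sum_max (M : Subgroup G) :
    ∑ R with MaxP p M R, (Nat.card (M ⊓ 𝓝(R) : Subgroup G) : ℤ) = Nat.card M := by
  haveI := Fintype.ofFinite (Sylow p M)
  rw [sum_subtype (p := MaxP p M) _ (by simp), ← (sylEquiv p M).sum_comp,
    sum_congr rfl (g := fun P : Sylow p M => (Nat.card 𝓝((P : Subgroup M)) : ℤ)) fun P _ => ?_]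
  · obtain ⟨P⟩ : Nonempty (Sylow p M) := inferInstance
    rw [sum_congr rfl fun Q _ => congrArg _ (card_norm P Q), sum_const, card_univ,
      ← Nat.card_eq_fintype_card, ← card_syl_mul P]
    simp
  · have h1 : ((P : Subgroup M).map M.subtype).subgroupOf M = P :=
      comap_map_eq_self_of_injective M.subtype_injective _
    have h2 := subgroupOf_normalizer_eq (map_subtype_le (P : Subgroup M))
    rw [h1] at h2
    rw [← h2, ← inf_subgroupOf_left, Nat.card_congr (subgroupOfEquivOfLe inf_le_left).toEquiv]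
    rfl

theorem FF_zero (M : Subgroup G) : ∀ Q : Subgroup G, IsPGroup p Q → Q ≤ M → ¬ MaxP p M Q → FF p M Q = 0 := by
  induction M using (wellFounded_lt (α := Subgroup G)).induction with | h M ihM => ?_
  intro Q
  induction Q using (wellFounded_gt (α := Subgroup G)).induction with | h Q ihQ => ?_
  intro hQ hM hn
  by_cases hN : M ≤ 𝓝(Q)
  · have h1 := card_eq_sum (p := p) M Q
    rw [filter_congr (q := fun g => g ∈ M) fun g _ => and_iff_left_of_imp fun hg => ⟨Q, ⟨hQ, hM, hN hg⟩, le_rfl⟩,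
      ← add_sum_erase _ _ (a := Q) (by simp [hQ, hM]),
      ← sum_subset (s₁ := univ.filter fun R => MaxP p M R), sum_congr rfl fun R hR => FF_max (mem_filter.1 hR).2,
      sum_max] at h1
    · simpa [Nat.card_eq_fintype_card, Fintype.card_subtype] using h1.symm
    · intro R hR
      have h2 := (mem_filter.1 hR).2
      refine mem_erase.2 ⟨fun e => hn (e ▸ h2), mem_filter.2 ⟨mem_univ _, ?_, h2.2.1, h2.1⟩⟩
      exact le_sup_right.trans (h2.2.2 _ (h2.1.to_sup_of_normal_right' hQ (h2.2.1.trans hN)) (sup_le h2.2.1 hM)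
        le_sup_left).le
    · intro R hR h2
      obtain ⟨h3, h4⟩ := mem_erase.1 hR
      obtain ⟨h7, h6, h5⟩ := (mem_filter.1 h4).2
      exact ihQ R (lt_of_le_of_ne h7 h3.symm) h5 h6 fun h => h2 (mem_filter.2 ⟨mem_univ _, h⟩)
  · rw [← ihM (M ⊓ 𝓝(Q)) (inf_lt_left.2 hN) Q hQ (le_inf hM le_normalizer) fun h => hn ⟨hQ, hM, fun T hT h1 h2 =>
      eq_of_inf_norm hT h2 (h.2.2 _ (hT.to_le inf_le_left) (inf_le_inf_right _ h1) (le_inf h2 le_normalizer))⟩]
    rw [FF, FF, inf_assoc, inf_idem]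
    exact sum_congr rfl fun g hg => nu_local ⟨hQ, hM, (mem_inf.1 (mem_filter.1 hg).2).2⟩

theorem sn_iff {H : Subgroup G} (hH : IsPGroup p H) (g : G) :
    (H.subgroupOf (H ⊔ zpowers g)).IsSubnormal ↔ ∃ R, PP p ⊤ g R ∧ H ≤ R := by
  constructor
  · intro h
    refine ⟨_, ⟨CA.Core.isPGroup_pCore.map _, le_top, ?_⟩, CA.Core.le_map_pCore_of_subnormal le_sup_left h hH⟩
    refine mem_norm_of_cj_le ?_
    rintro _ ⟨_, ⟨x, hx, rfl⟩, rfl⟩
    exact ⟨_, (inferInstance : (Cfsg.pCore p (H ⊔ zpowers g : Subgroup G)).Normal).conj_mem x hx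
      ⟨g, (le_sup_right : zpowers g ≤ _) (mem_zpowers g)⟩, rfl⟩
  · rintro ⟨R, ⟨h1, -, h2⟩, h3⟩
    exact (((Subn.SN.of_isNilpotent h1.isNilpotent h3).trans (Subn.SN.of_le_normalizer le_normalizer le_rfl)).mono
      le_sup_left (sup_le (h3.trans le_normalizer) (zpowers_le.2 h2))).sub

/-- **Casolo** -/
theorem casolo {H : Subgroup G} (hH : IsPGroup p H) (P : Sylow p G) :
    Nat.card {g : G // (H.subgroupOf (H ⊔ zpowers g)).IsSubnormal} =
      Nat.card {Q : Sylow p G // H ≤ (Q : Subgroup G)} * Nat.card 𝓝((P : Subgroup G)) := by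
  haveI := Fintype.ofFinite (Sylow p G)
  have h1 := card_eq_sum (p := p) ⊤ H
  rw [← sum_subset (s₁ := (univ.filter fun Q : Sylow p G => H ≤ Q).map ⟨Sylow.toSubgroup, fun _ _ => Sylow.ext⟩),
    sum_map, sum_congr rfl (g := fun _ => (Nat.card 𝓝((P : Subgroup G)) : ℤ))] at h1
  · simp only [sn_iff hH, Nat.card_eq_fintype_card, Fintype.card_subtype]
    simp only [mem_top, true_and, sum_const, nsmul_eq_mul, Nat.card_eq_fintype_card, Fintype.card_subtype] at h1
    exact_mod_cast h1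
  · intro Q _
    rw [← card_norm P Q, ← top_inf_eq 𝓝((Q : Subgroup G))]
    exact FF_max ⟨Q.isPGroup', le_top, fun T hT _ h => Q.is_maximal' hT h⟩
  · intro R hR
    obtain ⟨Q, hQ, rfl⟩ := mem_map.1 hR
    exact mem_filter.2 ⟨mem_univ _, (mem_filter.1 hQ).2, le_top, Q.isPGroup'⟩
  · intro R hR h2
    obtain ⟨h7, h6, h5⟩ := (mem_filter.1 hR).2
    exact FF_zero ⊤ R h5 h6 fun h => h2 (mem_map.2
      ⟨⟨R, h5, fun hT e => h.2.2 _ hT le_top e⟩, mem_filter.2 ⟨mem_univ _, h7⟩, rfl⟩)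

/-- counting the elements `g` by the value of `g • x` -/
theorem card_smul {X : Type*} [MulAction G X] (x : X) (q : X → Prop) :
    Nat.card {g : G // q (g • x)} =
      Nat.card {y : X // q y ∧ y ∈ MulAction.orbit G x} * Nat.card (MulAction.stabilizer G x) := by
  rw [← Nat.card_prod]
  refine Nat.card_congr (Equiv.symm (Equiv.ofBijective
    (fun z => ⟨z.1.2.2.choose * z.2, by
      rw [mul_smul, z.2.2]
      exact (congrArg q z.1.2.2.choose_spec).mpr z.1.2.1⟩) ⟨?_, ?_⟩))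
  · rintro ⟨y, a⟩ ⟨y', a'⟩ e
    have e1 : y.2.2.choose * a = y'.2.2.choose * a' := congrArg Subtype.val e
    obtain rfl : y = y' := Subtype.ext (by
      have := congrArg (· • x) e1
      simp only [mul_smul] at this
      rw [a.2, a'.2] at this
      exact y.2.2.choose_spec.symm.trans (this.trans y'.2.2.choose_spec))
    rw [Subtype.ext (mul_left_cancel e1)]
  · rintro ⟨g, hg⟩
    have h1 : g • x ∈ MulAction.orbit G x := ⟨g, rfl⟩
    refine ⟨⟨⟨_, hg, h1⟩, ⟨h1.choose⁻¹ * g, ?_⟩⟩, Subtype.ext (mul_inv_cancel_left _ _)⟩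
    rw [MulAction.mem_stabilizer_iff, mul_smul, inv_smul_eq_iff]
    exact h1.choose_spec.symm

theorem card_syl (H : Subgroup G) (P : Sylow p G) :
    Nat.card {Q : Sylow p G // H ≤ (Q : Subgroup G)} * Nat.card 𝓝((P : Subgroup G)) =
      Nat.card {g : G // cj g H ≤ P} := by
  have h1 := card_smul (G := G) P fun Q => H ≤ Q
  rw [Sylow.stabilizer_eq_normalizer, MulAction.orbit_eq_univ] at h1
  simp only [Set.mem_univ, and_true] at h1
  refine h1.symm.trans <| Nat.card_congr ((Equiv.inv G).subtypeEquiv fun g => ?_)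
  rw [Equiv.inv_apply, cj_le_iff, inv_inv, cj_eq_smul]
  rfl

end CA.SubN
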